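import Mathlib

/-!
Chains `P ∩ σP ∩ … ∩ σ^j P` for an automorphism `σ` where `P ∩ σP` is normal of prime index in `σP`.
They yield "root groups" `X_i` of prime order whose commutator relations give the bound
`t ≤ 3 n`, `t ≠ 3 n - 1` on `log_p #P`.
-/

set_option autoImplicit false
open Pointwise
open scoped commutatorElement

namespace Cfsg.Agent.Lib.Misc19.ChainW

variable {G : Type*} [Group G]

/-- `P_s = σ^s • P`. -/
def PP (σ : MulAut G) (P : Subgroup G) (s : ℤ) : Subgroup G := (σ ^ s) • P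

lemma mem_PP {σ : MulAut G} {P : Subgroup G} {s : ℤ} {x : G} :
    x ∈ PP σ P s ↔ (σ ^ (-s)) x ∈ P := by
  rw [PP, Subgroup.mem_pointwise_smul_iff_inv_smul_mem, zpow_neg, MulAut.smul_def]

/-- The intersection of the `P_s`, `a ≤ s ≤ b`. -/
def TT (σ : MulAut G) (P : Subgroup G) (a b : ℤ) : Subgroup G :=
  ⨅ s : ℤ, ⨅ _ : a ≤ s ∧ s ≤ b, PP σ P s

lemma mem_TT {σ : MulAut G} {P : Subgroup G} {a b : ℤ} {x : G} :
    x ∈ TT σ P a b ↔ ∀ s, a ≤ s → s ≤ b → x ∈ PP σ P s := by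
  simp only [TT, Subgroup.mem_iInf, and_imp]

lemma zz (σ : MulAut G) (m n : ℤ) (x : G) : (σ ^ m) ((σ ^ n) x) = (σ ^ (m + n)) x := by
  rw [zpow_add]; rfl

lemma mem_PP_shift {σ : MulAut G} {P : Subgroup G} {s e : ℤ} {x : G} :
    (σ ^ e) x ∈ PP σ P (s + e) ↔ x ∈ PP σ P s := by
  rw [mem_PP, mem_PP, zz]
  have : -(s + e) + e = -s := by ring
  rw [this]

lemma mem_TT_shift {σ : MulAut G} {P : Subgroup G} {a b e : ℤ} {x : G} :
    (σ ^ e) x ∈ TT σ P (a + e) (b + e) ↔ x ∈ TT σ P a b := by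
  simp only [mem_TT]
  constructor
  · intro h s h1 h2
    have := h (s + e) (by omega) (by omega)
    exact mem_PP_shift.mp this
  · intro h s h1 h2
    have := h (s - e) (by omega) (by omega)
    have h3 := (mem_PP_shift (e := e)).mpr this
    simpa using h3

lemma zpow_cancel (σ : MulAut G) (e : ℤ) (x : G) : (σ ^ e) ((σ ^ (-e)) x) = x := by
  rw [zz]; simp

lemma card_TT_shift (σ : MulAut G) (P : Subgroup G) (a b e : ℤ) :
    Nat.card (TT σ P (a + e) (b + e)) = Nat.card (TT σ P a b) := by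
  refine (Nat.card_congr ?_).symm
  refine
    { toFun := fun x => ⟨(σ ^ e) x.1, mem_TT_shift.mpr x.2⟩
      invFun := fun y => ⟨(σ ^ (-e)) y.1, ?_⟩
      left_inv := ?_
      right_inv := ?_ }
  · have h := y.2
    rw [← mem_TT_shift (e := e), zpow_cancel]
    exact h
  · intro x
    ext
    simp only
    rw [zz]; simp
  · intro y
    ext
    simp only
    exact zpow_cancel σ e y.1

lemma TT_mono {σ : MulAut G} {P : Subgroup G} {a b a' b' : ℤ} (h1 : a' ≤ a) (h2 : b ≤ b') :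
    TT σ P a' b' ≤ TT σ P a b := by
  intro x hx
  rw [mem_TT] at hx ⊢
  intro s hs1 hs2
  exact hx s (by omega) (by omega)

lemma TT_inf {σ : MulAut G} {P : Subgroup G} {a b a' b' c d : ℤ} (h1 : c = min a a') (h2 : d = max b b')
    (h3 : a' ≤ b + 1) (h4 : a ≤ b' + 1) :
    TT σ P a b ⊓ TT σ P a' b' = TT σ P c d := by
  ext x
  simp only [Subgroup.mem_inf, mem_TT]
  constructor
  · rintro ⟨hx1, hx2⟩ s hs1 hs2
    by_cases h : a ≤ s ∧ s ≤ b
    · exact hx1 s h.1 h.2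
    · refine hx2 s ?_ ?_ <;> omega
  · intro h
    exact ⟨fun s h5 h6 => h s (by omega) (by omega), fun s h5 h6 => h s (by omega) (by omega)⟩

/-- relative index divides for a normal subgroup -/
lemma rel_dvd {N M M' : Subgroup G} (hnorm : ∀ x ∈ M, ∀ y ∈ N, x * y * x⁻¹ ∈ N)
    (hM' : M' ≤ M) : N.relIndex M' ∣ N.relIndex M := by
  have hn : (N.subgroupOf M).Normal := by
    refine ⟨fun y hy x => ?_⟩
    rw [Subgroup.mem_subgroupOf] at hy ⊢
    simpa using hnorm x.1 x.2 y.1 hy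
  have := Subgroup.relIndex_dvd_index_of_normal (N.subgroupOf M) (M'.subgroupOf M)
  rwa [Subgroup.relIndex_subgroupOf hM'] at this

lemma card_rel [Finite G] {N M : Subgroup G} (h : N ≤ M) :
    Nat.card M = N.relIndex M * Nat.card N := by
  have h1 := Subgroup.card_mul_index (N.subgroupOf M)
  have h2 : Nat.card (N.subgroupOf M) = Nat.card N := by
    rw [← Nat.card_congr (Subgroup.subgroupOfEquivOfLe h).toEquiv]
  rw [h2] at h1
  rw [← h1, mul_comm]
  rfl

lemma max_le {B A D : Subgroup G} {p : ℕ} (hp : p.Prime) [Finite G] (hBA : B ≤ A)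
    (hrel : B.relIndex A = p) (hBD : B ≤ D) {w : G} (hwA : w ∈ A) (hwD : w ∈ D) (hwB : w ∉ B) :
    A ≤ D := by
  have hE : B ≤ A ⊓ D := le_inf hBA hBD
  have h1 := Subgroup.relIndex_mul_relIndex B (A ⊓ D) A hE inf_le_left
  rw [hrel] at h1
  have h2 : B.relIndex (A ⊓ D) ∣ p := ⟨_, h1.symm⟩
  have h3 : B.relIndex (A ⊓ D) ≠ 1 := by
    intro h
    rw [Subgroup.relIndex_eq_one] at h
    exact hwB (h ⟨hwA, hwD⟩)
  have h4 : B.relIndex (A ⊓ D) = p := ((Nat.dvd_prime hp).mp h2).resolve_left h3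
  rw [h4] at h1
  have h5 : (A ⊓ D).relIndex A = 1 := by
    have := hp.pos
    exact Nat.eq_of_mul_eq_mul_left this (by omega)
  rw [Subgroup.relIndex_eq_one] at h5
  exact fun x hx => (h5 hx).2


section chain

variable [Finite G] {σ : MulAut G} {P : Subgroup G} {p : ℕ}

lemma PP_zero : PP σ P 0 = P := by simp [PP]

lemma PP_one : PP σ P 1 = σ • P := by simp [PP]

lemma TT_zero_zero : TT σ P 0 0 = P := by
  ext x
  rw [mem_TT]
  constructor
  · intro h
    have := h 0 le_rfl le_rfl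
    rwa [PP_zero] at this
  · intro h s h1 h2
    have : s = 0 := by omega
    subst this
    rwa [PP_zero]

lemma TT_one_one : TT σ P 1 1 = σ • P := by
  ext x
  rw [mem_TT]
  constructor
  · intro h
    have := h 1 le_rfl le_rfl
    rwa [PP_one] at this
  · intro h s h1 h2
    have : s = 1 := by omega
    subst this
    rwa [PP_one]

lemma TT_zero_one : TT σ P 0 1 = P ⊓ σ • P := by
  ext x
  rw [mem_TT, Subgroup.mem_inf]
  constructor
  · intro h
    have h0 := h 0 le_rfl (by norm_num)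
    have h1 := h 1 (by norm_num) le_rfl
    rw [PP_zero] at h0
    rw [PP_one] at h1
    exact ⟨h0, h1⟩
  · rintro ⟨h0, h1⟩ s h2 h3
    have : s = 0 ∨ s = 1 := by omega
    rcases this with rfl | rfl
    · rwa [PP_zero]
    · rwa [PP_one]

lemma N_inf (j : ℤ) (hj : 0 ≤ j) : TT σ P 0 (j + 1 + 1) = TT σ P 0 (j + 1) ⊓ TT σ P 1 (j + 1 + 1) := by
  rw [TT_inf (c := 0) (d := j + 1 + 1)] <;> omega

lemma nrm (hN : ((P ⊓ σ • P).subgroupOf (σ • P)).Normal) (j : ℕ) :
    ∀ x ∈ TT σ P 1 ((j : ℤ) + 1), ∀ y ∈ TT σ P 0 ((j : ℤ) + 1), x * y * x⁻¹ ∈ TT σ P 0 ((j : ℤ) + 1) := by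
  induction j with
  | zero =>
    simp only [Nat.cast_zero, zero_add, TT_one_one, TT_zero_one]
    intro x hx y hy
    have := hN.conj_mem ⟨y, hy.2⟩ (by rw [Subgroup.mem_subgroupOf]; exact hy) ⟨x, hx⟩
    rw [Subgroup.mem_subgroupOf] at this
    simpa using this
  | succ j ih =>
    intro x hx y hy
    push_cast at hx hy ⊢
    rw [N_inf _ (by omega)] at hy ⊢
    refine ⟨ih x (TT_mono (by omega) (by omega) hx) y hy.1, ?_⟩
    exact (TT σ P 1 (j + 1 + 1)).mul_mem ((TT σ P 1 (j + 1 + 1)).mul_mem hx hy.2)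
      ((TT σ P 1 (j + 1 + 1)).inv_mem hx)

lemma rel_p (hN : ((P ⊓ σ • P).subgroupOf (σ • P)).Normal)
    (hidx : (P ⊓ σ • P).relIndex (σ • P) = p) (j : ℕ) :
    (TT σ P 0 ((j : ℤ) + 1)).relIndex (TT σ P 1 ((j : ℤ) + 1)) ∣ p := by
  induction j with
  | zero =>
    simp only [Nat.cast_zero, zero_add, TT_one_one, TT_zero_one]
    rw [hidx]
  | succ j ih =>
    push_cast
    rw [N_inf _ (by omega), Subgroup.inf_relIndex_right]
    refine dvd_trans (rel_dvd (nrm hN j) (TT_mono (by omega) (by omega))) ?_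
    exact ih

lemma card_M (j : ℤ) : Nat.card (TT σ P 1 (j + 1)) = Nat.card (TT σ P 0 j) := by
  have := card_TT_shift σ P 0 j 1
  simpa using this

lemma card_step (j : ℤ) : Nat.card (TT σ P 0 j) =
    (TT σ P 0 (j + 1)).relIndex (TT σ P 1 (j + 1)) * Nat.card (TT σ P 0 (j + 1)) := by
  rw [← card_M]
  exact card_rel (TT_mono (by omega) (by omega))

lemma sig_mem {a b : ℤ} {x : G} : σ x ∈ TT σ P (a + 1) (b + 1) ↔ x ∈ TT σ P a b := by
  have := mem_TT_shift (σ := σ) (P := P) (a := a) (b := b) (e := 1) (x := x)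
  simpa using this

lemma le_norm {H T : Subgroup G} (h : ∀ x ∈ H, ∀ y ∈ T, x * y * x⁻¹ ∈ T) :
    H ≤ Subgroup.normalizer (T : Set G) := by
  intro n hn
  rw [Subgroup.mem_normalizer_iff]
  intro y
  refine ⟨h n hn y, fun hy => ?_⟩
  have := h n⁻¹ (H.inv_mem hn) _ hy
  simpa [mul_assoc] using this

/-- The chain theorem. -/
theorem chain_exists (hp : p.Prime) (hN : ((P ⊓ σ • P).subgroupOf (σ • P)).Normal)
    (hidx : (P ⊓ σ • P).relIndex (σ • P) = p)
    (h1 : ∀ Q : Subgroup G, Q ≤ P → (Q.subgroupOf P).Normal → σ • Q = Q → Q = ⊥) :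
    ∃ t : ℕ, 1 ≤ t ∧ TT σ P 0 (t : ℤ) = ⊥ ∧
      ∀ d : ℕ, d ≤ t → Nat.card (TT σ P 0 ((t : ℤ) - d)) = p ^ d := by
  classical
  set r : ℕ → ℕ := fun j => (TT σ P 0 ((j : ℤ) + 1)).relIndex (TT σ P 1 ((j : ℤ) + 1)) with hr
  have hr_dvd : ∀ j, r j ∣ p := rel_p hN hidx
  have hr_p : ∀ j, r j ≠ 1 → r j = p := fun j hj =>
    ((Nat.dvd_prime hp).mp (hr_dvd j)).resolve_left hj
  have hc : ∀ j : ℕ, Nat.card (TT σ P 0 (j : ℤ)) = r j * Nat.card (TT σ P 0 ((j : ℤ) + 1)) :=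
    fun j => card_step (j : ℤ)
  have hex : ∃ j, r j = 1 := by
    by_contra hcon
    push Not at hcon
    have hpow : ∀ j : ℕ, p ^ j ∣ Nat.card (TT σ P 0 (0 : ℤ)) := by
      intro j
      have : ∀ j : ℕ, Nat.card (TT σ P 0 (0 : ℤ)) = p ^ j * Nat.card (TT σ P 0 (j : ℤ)) := by
        intro j
        induction j with
        | zero => simp
        | succ j ih =>
          rw [ih, hc j, hr_p j (hcon j), pow_succ]
          push_cast
          ring
      exact ⟨_, this j⟩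
    have h2 := Nat.le_of_dvd Nat.card_pos (hpow (Nat.card (TT σ P 0 (0 : ℤ))))
    exact absurd h2 (not_le.mpr (Nat.lt_pow_self hp.one_lt))
  set t := Nat.find hex with ht
  have htr : r t = 1 := Nat.find_spec hex
  have hmin : ∀ j, j < t → r j = p := fun j hj => hr_p j (Nat.find_min hex hj)
  have hr0 : r 0 = p := by
    simp only [hr, Nat.cast_zero, zero_add, TT_one_one, TT_zero_one]
    exact hidx
  have ht0 : 1 ≤ t := by
    rcases Nat.eq_zero_or_pos t with h | h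
    · rw [h, hr0] at htr
      exact absurd htr hp.one_lt.ne'
    · exact h
  -- the invariant subgroup
  set T := TT σ P 0 (t : ℤ) with hT
  have hM_le : TT σ P 1 ((t : ℤ) + 1) ≤ TT σ P 0 ((t : ℤ) + 1) := Subgroup.relIndex_eq_one.mp htr
  have hcard_eq : Nat.card (TT σ P 0 (t : ℤ)) = Nat.card (TT σ P 0 ((t : ℤ) + 1)) := by
    rw [hc t, htr, one_mul]
  have hNt : TT σ P 0 ((t : ℤ) + 1) = T := by
    apply Subgroup.eq_of_le_of_card_ge (TT_mono (by omega) (by omega))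
    exact hcard_eq.le
  have hMt : TT σ P 1 ((t : ℤ) + 1) = T := by
    apply le_antisymm (hM_le.trans hNt.le)
    rw [← hNt]
    exact TT_mono (by omega) (by omega)
  have hinv : ∀ x, σ x ∈ T ↔ x ∈ T := by
    intro x
    have h := sig_mem (σ := σ) (P := P) (a := 0) (b := (t : ℤ)) (x := x)
    simp only [zero_add] at h
    rw [hMt] at h
    exact h
  -- normal chain
  have hchain : ∀ d : ℕ, d ≤ t → ∀ x ∈ TT σ P 0 ((t : ℤ) - d), ∀ y ∈ T, x * y * x⁻¹ ∈ T := by
    intro d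
    induction d with
    | zero =>
      intro _ x hx y hy
      simp only [Nat.cast_zero, sub_zero] at hx
      exact T.mul_mem (T.mul_mem hx hy) (T.inv_mem hx)
    | succ d ih =>
      intro hd x hx y hy
      have ih' := ih (by omega)
      obtain ⟨i, hi⟩ : ∃ i : ℕ, (i : ℤ) = (t : ℤ) - (d : ℤ) - 1 := ⟨t - d - 1, by omega⟩
      have hit : i < t := by omega
      have hNi : TT σ P 0 ((i : ℤ) + 1) = TT σ P 0 ((t : ℤ) - d) := by
        congr 1; omega
      have hMi : TT σ P 1 ((i : ℤ) + 1) ≤ Subgroup.normalizer (T : Set G) := by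
        by_cases hit' : i + 1 = t
        · refine le_norm ?_
          have := nrm hN i
          have h3 : TT σ P 0 ((i : ℤ) + 1) = T := by
            have h3' : (i : ℤ) + 1 = t := by omega
            rw [h3']
          rw [h3] at this
          exact this
        · have hit2 : i + 1 < t := by omega
          have hri : r (i + 1) ≠ 1 := by
            rw [hmin _ hit2]; exact hp.one_lt.ne'
          have hnle : ¬ TT σ P 1 (((i + 1 : ℕ) : ℤ) + 1) ≤ TT σ P 0 (((i + 1 : ℕ) : ℤ) + 1) := by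
            intro h
            exact hri (Subgroup.relIndex_eq_one.mpr h)
          obtain ⟨z, hz1, hz2⟩ := SetLike.not_le_iff_exists.mp hnle
          push_cast at hz1 hz2
          have hzN : z ∉ TT σ P 0 ((i : ℤ) + 1) := by
            intro h
            rw [N_inf _ (by omega)] at hz2
            exact hz2 ⟨h, hz1⟩
          have hN_le : TT σ P 0 ((i : ℤ) + 1) ≤ Subgroup.normalizer (T : Set G) := by
            refine le_norm ?_
            rw [hNi]
            exact ih'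
          have hM'_le : TT σ P 1 ((i : ℤ) + 1 + 1) ≤ Subgroup.normalizer (T : Set G) := by
            refine le_norm ?_
            intro u hu v hv
            have hu0 : σ⁻¹ u ∈ TT σ P 0 ((i : ℤ) + 1) := by
              rw [← sig_mem (σ := σ)]
              simpa using hu
            have hv0 : σ⁻¹ v ∈ T := by
              rw [← hinv]
              simpa using hv
            have := ih' _ (hNi ▸ hu0) _ hv0
            rw [← hinv] at this
            simpa using this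
          refine max_le hp (TT_mono (by omega) (by omega)) ?_ hN_le
            (TT_mono (by omega) (by omega) hz1) (hM'_le hz1) hzN
          have := hmin i hit
          exact this
      -- conclude
      have hx' : σ x ∈ TT σ P 1 ((i : ℤ) + 1) := by
        have h4 := sig_mem (σ := σ) (P := P) (a := 0) (b := (i : ℤ)) (x := x)
        have h5 : x ∈ TT σ P 0 (i : ℤ) := by
          have h6 : ((t : ℤ) - ((d + 1 : ℕ) : ℤ)) = (i : ℤ) := by push_cast; omega
          rwa [h6] at hx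
        simpa using h4.mpr h5
      have hn := hMi hx'
      rw [Subgroup.mem_normalizer_iff] at hn
      have h7 := (hn (σ y)).mp ((hinv y).mpr hy)
      rw [← hinv]
      simpa using h7
  -- `T` is trivial
  have hTP : T ≤ P := by
    rw [← TT_zero_zero (σ := σ) (P := P)]
    exact TT_mono (by omega) (by omega)
  have hTnorm : (T.subgroupOf P).Normal := by
    refine ⟨fun y hy x => ?_⟩
    rw [Subgroup.mem_subgroupOf] at hy ⊢
    have h8 := hchain t le_rfl x.1 (by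
      have : (t : ℤ) - (t : ℤ) = 0 := by omega
      rw [this, TT_zero_zero]
      exact x.2) y.1 hy
    simpa using h8
  have hTsmul : σ • T = T := by
    ext y
    rw [Subgroup.mem_pointwise_smul_iff_inv_smul_mem, MulAut.smul_def]
    constructor
    · intro h
      have := (hinv _).mpr h
      simpa using this
    · intro h
      rw [← hinv]
      simpa using h
  have hTbot : T = ⊥ := h1 T hTP hTnorm hTsmul
  refine ⟨t, ht0, hTbot, ?_⟩
  intro d
  induction d with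
  | zero =>
    intro _
    simp only [Nat.cast_zero, sub_zero, pow_zero]
    rw [← hT, hTbot]
    simp
  | succ d ih =>
    intro hd
    have ih' := ih (by omega)
    obtain ⟨i, hi⟩ : ∃ i : ℕ, (i : ℤ) = (t : ℤ) - (d : ℤ) - 1 := ⟨t - d - 1, by omega⟩
    have hit : i < t := by omega
    have h9 : ((t : ℤ) - ((d + 1 : ℕ) : ℤ)) = (i : ℤ) := by push_cast; omega
    have h10 : (i : ℤ) + 1 = (t : ℤ) - d := by omega
    rw [h9, hc i, hmin i hit, h10, ih', pow_succ]
    ring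

end chain

section roots

/-- The interval subgroup `Y[c, c+ℓ-1]`. -/
def ZZ (σ : MulAut G) (P : Subgroup G) (t : ℕ) (c : ℤ) (ℓ : ℕ) : Subgroup G :=
  TT σ P (c + ℓ - t) c

structure Data [Finite G] (σ : MulAut G) (P : Subgroup G) (p t : ℕ) : Prop where
  hp : p.Prime
  ht : 1 ≤ t
  hbot : TT σ P 0 (t : ℤ) = ⊥
  hcard : ∀ d : ℕ, d ≤ t → Nat.card (TT σ P 0 ((t : ℤ) - d)) = p ^ d
  hN : ((P ⊓ σ • P).subgroupOf (σ • P)).Normal

variable [Finite G] {σ : MulAut G} {P : Subgroup G} {p t : ℕ}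

lemma Z_mono {c c' : ℤ} {ℓ ℓ' : ℕ} (h1 : c' ≤ c) (h2 : c + ℓ ≤ c' + ℓ') :
    ZZ σ P t c ℓ ≤ ZZ σ P t c' ℓ' :=
  TT_mono (by omega) h1

lemma mem_Z_shift {c e : ℤ} {ℓ : ℕ} {x : G} :
    (σ ^ e) x ∈ ZZ σ P t (c + e) ℓ ↔ x ∈ ZZ σ P t c ℓ := by
  have h : c + e + ℓ - t = c + ℓ - t + e := by ring
  rw [ZZ, h, mem_TT_shift]
  rfl

lemma Data.card_Z (D : Data σ P p t) (c : ℤ) {ℓ : ℕ} (h : ℓ ≤ t) :
    Nat.card (ZZ σ P t c ℓ) = p ^ ℓ := by
  have h1 := card_TT_shift σ P 0 ((t : ℤ) - ℓ) (c + ℓ - t)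
  have h2 : (0 : ℤ) + (c + ℓ - t) = c + ℓ - t := by ring
  have h3 : (t : ℤ) - ℓ + (c + ℓ - t) = c := by ring
  rw [h2, h3, D.hcard ℓ h] at h1
  exact h1

lemma Data.TT_bot (D : Data σ P p t) {a b : ℤ} (h : a + t ≤ b) : TT σ P a b = ⊥ := by
  rw [eq_bot_iff]
  intro x hx
  have h1 : x ∈ TT σ P (0 + a) ((t : ℤ) + a) := by
    have h2 : (0 : ℤ) + a = a := by ring
    rw [h2]
    exact TT_mono le_rfl (by omega) hx
  have h2 : (σ ^ (-a)) x ∈ TT σ P 0 (t : ℤ) := by
    rw [← mem_TT_shift (e := a), zpow_cancel]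
    exact h1
  rw [D.hbot, Subgroup.mem_bot] at h2
  have h3 := zpow_cancel σ a x
  rw [h2, map_one] at h3
  rw [Subgroup.mem_bot, ← h3]

lemma Data.Z_zero (D : Data σ P p t) (c : ℤ) : ZZ σ P t c 0 = ⊥ :=
  D.TT_bot (by simp)

lemma Data.exists_ne (D : Data σ P p t) (c : ℤ) : ∃ u ∈ ZZ σ P t c 1, u ≠ 1 := by
  have h := D.card_Z c (ℓ := 1) D.ht
  rw [pow_one] at h
  rcases Subgroup.bot_or_exists_ne_one (ZZ σ P t c 1) with h2 | h2
  · rw [h2] at h
    simp at h
    exact absurd h.symm D.hp.one_lt.ne'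
  · obtain ⟨x, hx, hx1⟩ := h2
    exact ⟨x, hx, hx1⟩

lemma Data.rel_top (D : Data σ P p t) (c : ℤ) {ℓ : ℕ} (h : ℓ + 1 ≤ t) :
    (ZZ σ P t c ℓ).relIndex (ZZ σ P t c (ℓ + 1)) = p := by
  have h1 := card_rel (Z_mono (t := t) (σ := σ) (P := P) (c := c) (c' := c) (ℓ := ℓ) (ℓ' := ℓ + 1)
    le_rfl (by push_cast; omega))
  rw [D.card_Z c h, D.card_Z c (by omega), pow_succ] at h1
  have h2 : 0 < p ^ ℓ := pow_pos D.hp.pos _
  nlinarith [mul_comm p (p ^ ℓ), Nat.eq_of_mul_eq_mul_left h2 (by linarith : p ^ ℓ * p = p ^ ℓ * (ZZ σ P t c ℓ).relIndex (ZZ σ P t c (ℓ + 1)))]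

lemma Data.rel_bot (D : Data σ P p t) (c : ℤ) {ℓ : ℕ} (h : ℓ + 1 ≤ t) :
    (ZZ σ P t (c + 1) ℓ).relIndex (ZZ σ P t c (ℓ + 1)) = p := by
  have h1 := card_rel (Z_mono (t := t) (σ := σ) (P := P) (c := c + 1) (c' := c) (ℓ := ℓ) (ℓ' := ℓ + 1)
    (by omega) (by push_cast; omega))
  rw [D.card_Z (c + 1) (by omega), D.card_Z c h, pow_succ] at h1
  have h2 : 0 < p ^ ℓ := pow_pos D.hp.pos _
  nlinarith [mul_comm p (p ^ ℓ), Nat.eq_of_mul_eq_mul_left h2 (by linarith : p ^ ℓ * p = p ^ ℓ * (ZZ σ P t (c + 1) ℓ).relIndex (ZZ σ P t c (ℓ + 1)))]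

lemma Data.nrm_top (D : Data σ P p t) (c : ℤ) {ℓ : ℕ} (h : ℓ + 1 ≤ t) :
    ∀ x ∈ ZZ σ P t c (ℓ + 1), ∀ y ∈ ZZ σ P t c ℓ, x * y * x⁻¹ ∈ ZZ σ P t c ℓ := by
  intro x hx y hy
  obtain ⟨j, hj⟩ : ∃ j : ℕ, (j : ℤ) = (t : ℤ) - ℓ - 1 := ⟨t - ℓ - 1, by omega⟩
  set a : ℤ := c + ℓ - t with ha
  have hc : c = (j : ℤ) + 1 + a := by omega
  have hx' : x ∈ TT σ P (1 + a) ((j : ℤ) + 1 + a) := by
    have : c + ((ℓ + 1 : ℕ) : ℤ) - t = 1 + a := by push_cast; omega
    rw [ZZ, this] at hx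
    rwa [← hc]
  have hy' : y ∈ TT σ P (0 + a) ((j : ℤ) + 1 + a) := by
    rw [ZZ, ← ha, hc] at hy
    simpa using hy
  have hx0 : (σ ^ (-a)) x ∈ TT σ P 1 ((j : ℤ) + 1) := by
    rw [← mem_TT_shift (e := a), zpow_cancel]; exact hx'
  have hy0 : (σ ^ (-a)) y ∈ TT σ P 0 ((j : ℤ) + 1) := by
    rw [← mem_TT_shift (e := a), zpow_cancel]; exact hy'
  have h3 := nrm D.hN j _ hx0 _ hy0
  have h4 : (σ ^ (-a)) x * (σ ^ (-a)) y * ((σ ^ (-a)) x)⁻¹ = (σ ^ (-a)) (x * y * x⁻¹) := by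
    simp [map_mul, map_inv]
  rw [h4, ← mem_TT_shift (e := a), zpow_cancel] at h3
  rw [ZZ, ← ha, hc]
  simpa using h3

lemma Data.nrm_bot (D : Data σ P p t) (c : ℤ) {ℓ : ℕ} (h : ℓ + 1 ≤ t) :
    ∀ x ∈ ZZ σ P t c (ℓ + 1), ∀ y ∈ ZZ σ P t (c + 1) ℓ, x * y * x⁻¹ ∈ ZZ σ P t (c + 1) ℓ := by
  intro x hx y hy
  have hle : ZZ σ P t (c + 1) ℓ ≤ ZZ σ P t c (ℓ + 1) := Z_mono (by omega) (by push_cast; omega)
  have hidx : ((ZZ σ P t (c + 1) ℓ).subgroupOf (ZZ σ P t c (ℓ + 1))).index = p := D.rel_bot c h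
  have hc : Nat.card (ZZ σ P t c (ℓ + 1)) = p ^ (ℓ + 1) := D.card_Z c h
  have hmf : (Nat.card (ZZ σ P t c (ℓ + 1))).minFac = p := by
    rw [hc]
    exact D.hp.pow_minFac (by omega)
  have hn := Subgroup.normal_of_index_eq_minFac_card (H := (ZZ σ P t (c + 1) ℓ).subgroupOf (ZZ σ P t c (ℓ + 1)))
    (by rw [hidx, hmf])
  have := hn.conj_mem ⟨y, hle hy⟩ (by rw [Subgroup.mem_subgroupOf]; exact hy) ⟨x, hx⟩
  rw [Subgroup.mem_subgroupOf] at this
  simpa using this

/-- The commutator relation. -/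
lemma Data.comm_mem (D : Data σ P p t) (c : ℤ) {m : ℕ} (h : m + 1 < t) {x y : G}
    (hx : x ∈ ZZ σ P t c 1) (hy : y ∈ ZZ σ P t (c + (m + 1 : ℕ)) 1) :
    ⁅x, y⁆ ∈ ZZ σ P t (c + 1) m := by
  have hxB : x ∈ ZZ σ P t c (m + 1) := Z_mono le_rfl (by push_cast; omega) hx
  have hyA : y ∈ ZZ σ P t c (m + 1 + 1) := Z_mono (by push_cast; omega) (by push_cast; omega) hy
  have hxA : x ∈ ZZ σ P t c (m + 1 + 1) := Z_mono le_rfl (by push_cast; omega) hx
  have hyB : y ∈ ZZ σ P t (c + 1) (m + 1) := Z_mono (by push_cast; omega) (by push_cast; omega) hy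
  have h1 : ⁅x, y⁆ ∈ ZZ σ P t c (m + 1) := by
    have h2 := D.nrm_top c (ℓ := m + 1) (by omega) y hyA x⁻¹ ((ZZ σ P t c (m + 1)).inv_mem hxB)
    have h3 := (ZZ σ P t c (m + 1)).mul_mem hxB h2
    rw [commutatorElement_def]
    simpa [mul_assoc] using h3
  have h2 : ⁅x, y⁆ ∈ ZZ σ P t (c + 1) (m + 1) := by
    have h3 := D.nrm_bot c (ℓ := m + 1) (by omega) x hxA y hyB
    have h4 := (ZZ σ P t (c + 1) (m + 1)).mul_mem h3 ((ZZ σ P t (c + 1) (m + 1)).inv_mem hyB)
    rw [commutatorElement_def]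
    exact h4
  rw [ZZ, mem_TT] at h1 h2 ⊢
  intro s hs1 hs2
  by_cases hs : s ≤ c
  · exact h1 s (by push_cast; push_cast at hs1; omega) hs
  · exact h2 s (by push_cast; push_cast at hs1; omega) hs2

lemma Data.gen (D : Data σ P p t) (c : ℤ) {H : Subgroup G} {ℓ : ℕ} (h : ℓ ≤ t)
    (hi : ∀ i : ℤ, c ≤ i → i < c + ℓ → ZZ σ P t i 1 ≤ H) : ZZ σ P t c ℓ ≤ H := by
  induction ℓ with
  | zero => rw [D.Z_zero]; exact bot_le
  | succ ℓ ih =>
    have h1 := ih (by omega) (fun i h1 h2 => hi i h1 (by push_cast; omega))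
    obtain ⟨u, hu, hu1⟩ := D.exists_ne (c + ℓ)
    have huA : u ∈ ZZ σ P t c (ℓ + 1) := Z_mono (by omega) (by push_cast; omega) hu
    have huH : u ∈ H := hi (c + ℓ) (by omega) (by push_cast; omega) hu
    have huB : u ∉ ZZ σ P t c ℓ := by
      intro hB
      apply hu1
      have h2 : u ∈ TT σ P (c + ℓ - t) (c + ℓ) := by
        rw [ZZ, mem_TT] at hB hu
        rw [mem_TT]
        intro s hs1 hs2
        by_cases hs : s ≤ c
        · exact hB s hs1 hs
        · exact hu s (by push_cast at hs1 ⊢; omega) hs2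
      rw [D.TT_bot (by omega), Subgroup.mem_bot] at h2
      exact h2
    exact max_le D.hp (Z_mono le_rfl (by push_cast; omega)) (D.rel_top c h) h1 huA huH huB

/-- `X_0` commutes with `X_m`. -/
def CM (σ : MulAut G) (P : Subgroup G) (t m : ℕ) : Prop :=
  ∀ x ∈ ZZ σ P t 0 1, ∀ y ∈ ZZ σ P t (m : ℤ) 1, x * y = y * x

lemma CM_of_shift {m : ℕ} (a : ℤ)
    (h : ∀ x ∈ ZZ σ P t a 1, ∀ y ∈ ZZ σ P t (a + m) 1, x * y = y * x) : CM σ P t m := by
  intro x hx y hy
  have h1 : (σ ^ a) x ∈ ZZ σ P t a 1 := by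
    have := (mem_Z_shift (σ := σ) (P := P) (t := t) (c := 0) (e := a) (ℓ := 1) (x := x)).mpr hx
    simpa using this
  have h2 : (σ ^ a) y ∈ ZZ σ P t (a + m) 1 := by
    have := (mem_Z_shift (σ := σ) (P := P) (t := t) (c := m) (e := a) (ℓ := 1) (x := y)).mpr hy
    rwa [add_comm] at this
  have h3 := h _ h1 _ h2
  rw [← map_mul, ← map_mul] at h3
  exact (σ ^ a).injective h3

lemma CM.shift {m : ℕ} (h : CM σ P t m) (a : ℤ) :
    ∀ x ∈ ZZ σ P t a 1, ∀ y ∈ ZZ σ P t (a + m) 1, x * y = y * x := by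
  intro x hx y hy
  have h1 : (σ ^ (-a)) x ∈ ZZ σ P t 0 1 := by
    have := (mem_Z_shift (σ := σ) (P := P) (t := t) (c := a) (e := -a) (ℓ := 1) (x := x)).mpr hx
    simpa using this
  have h2 : (σ ^ (-a)) y ∈ ZZ σ P t (m : ℤ) 1 := by
    have := (mem_Z_shift (σ := σ) (P := P) (t := t) (c := a + m) (e := -a) (ℓ := 1) (x := y)).mpr hy
    have h3 : a + m + -a = (m : ℤ) := by ring
    rwa [h3] at this
  have h3 := h _ h1 _ h2
  rw [← map_mul, ← map_mul] at h3
  exact (σ ^ (-a)).injective h3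

lemma comm_lt {k : ℕ} (hk : ∀ m, m < k → CM σ P t m) {i j : ℤ} (h1 : i - j < k) (h2 : j - i < k) :
    ZZ σ P t i 1 ≤ Subgroup.centralizer (ZZ σ P t j 1 : Set G) := by
  intro x hx
  rw [Subgroup.mem_centralizer_iff]
  intro y hy
  by_cases h : i ≤ j
  · obtain ⟨m, hm⟩ : ∃ m : ℕ, (m : ℤ) = j - i := ⟨(j - i).toNat, by omega⟩
    have h3 : j = i + m := by omega
    rw [h3] at hy
    exact ((hk m (by omega)).shift i x hx y hy).symm
  · obtain ⟨m, hm⟩ : ∃ m : ℕ, (m : ℤ) = i - j := ⟨(i - j).toNat, by omega⟩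
    have h3 : i = j + m := by omega
    rw [h3] at hx
    exact (hk m (by omega)).shift j y hy x hx

lemma Data.CM_zero (D : Data σ P p t) : CM σ P t 0 := by
  intro x hx y hy
  have hc := D.card_Z 0 (ℓ := 1) D.ht
  rw [pow_one] at hc
  haveI : Fact p.Prime := ⟨D.hp⟩
  haveI : IsCyclic (ZZ σ P t 0 1) := isCyclic_of_prime_card hc
  have hy' : y ∈ ZZ σ P t 0 1 := by simpa using hy
  have := congrArg Subtype.val ((IsCyclic.commGroup (α := ZZ σ P t 0 1)).mul_comm ⟨x, hx⟩ ⟨y, hy'⟩)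
  exact this

end roots

section final

variable [Finite G] {σ : MulAut G} {P : Subgroup G} {p t : ℕ}

lemma Z_full (c : ℤ) : ZZ σ P t c t = PP σ P c := by
  ext x
  rw [ZZ, mem_TT]
  constructor
  · intro h
    exact h c (by omega) le_rfl
  · intro h s h1 h2
    have : s = c := by omega
    rwa [this]

theorem Data.central (D : Data σ P p t) {k n : ℕ} (hk : ∀ m, m < k → CM σ P t m) (hkt : k ≤ t)
    (hnt : n + t < 2 * k) (K : Subgroup G) (hK : K = ⨆ i ∈ Finset.range (n + 1), (σ ^ i) • P)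
    (h2 : P ⊓ (Subgroup.center K).map K.subtype = ⊥) : False := by
  obtain ⟨u, hu, hu1⟩ := D.exists_ne ((n : ℤ) + t - k)
  set c : ℤ := (n : ℤ) + t - k with hc
  have huP : u ∈ P := by
    have h3 : ZZ σ P t c 1 ≤ ZZ σ P t 0 t := Z_mono (by omega) (by push_cast; omega)
    have h4 := h3 hu
    rw [Z_full, PP_zero] at h4
    exact h4
  have hKle : K ≤ Subgroup.centralizer ({u} : Set G) := by
    rw [hK]
    refine iSup₂_le ?_
    intro i hi
    rw [Finset.mem_range] at hi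
    have h5 : (σ ^ i) • P = ZZ σ P t (i : ℤ) t := by
      rw [Z_full, PP, zpow_natCast]
    rw [h5]
    refine D.gen _ le_rfl ?_
    intro j hj1 hj2
    refine le_trans (comm_lt hk (i := j) (j := c) (by omega) (by omega)) ?_
    apply Subgroup.centralizer_le
    intro v hv
    rw [Set.mem_singleton_iff] at hv
    rw [hv]
    exact hu
  have huK : u ∈ K := by
    rw [hK]
    have h6 : P ≤ ⨆ i ∈ Finset.range (n + 1), (σ ^ i) • P :=
      le_iSup₂_of_le 0 (by simp) (by simp)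
    exact h6 huP
  have hcen : u ∈ (Subgroup.center K).map K.subtype := by
    refine ⟨⟨u, huK⟩, ?_, rfl⟩
    rw [SetLike.mem_coe, Subgroup.mem_center_iff]
    intro g
    apply Subtype.ext
    have := hKle g.2
    rw [Subgroup.mem_centralizer_iff] at this
    exact (this u (by simp)).symm
  have h7 : u ∈ P ⊓ (Subgroup.center K).map K.subtype := ⟨huP, hcen⟩
  rw [h2, Subgroup.mem_bot] at h7
  exact hu1 h7

theorem Data.two_t (D : Data σ P p t) {k : ℕ} (hk : ∀ m, m < k → CM σ P t m) (hkt : k < t)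
    (hnk : ¬ CM σ P t k) : 2 * t ≤ 3 * k := by
  classical
  have hnk' := hnk
  unfold CM at hnk'
  push Not at hnk'
  obtain ⟨x, hx, y, hy, hxy⟩ := hnk'
  have hk0 : k ≠ 0 := by
    rintro rfl
    exact hnk D.CM_zero
  obtain ⟨k', rfl⟩ := Nat.exists_eq_succ_of_ne_zero hk0
  rw [Nat.succ_eq_add_one] at *
  set k := k' + 1 with hkdef
  have hw1 : ⁅x, y⁆ ≠ 1 := fun h => hxy (commutatorElement_eq_one_iff_mul_comm.mp h)
  have hwZ : ⁅x, y⁆ ∈ ZZ σ P t (0 + 1) k' := by
    refine D.comm_mem 0 (m := k') (by omega) hx ?_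
    rw [zero_add]
    exact hy
  set w := ⁅x, y⁆ with hw
  have hwZ' : w ∈ ZZ σ P t 1 k' := by simpa using hwZ
  -- top length
  have hexb : ∃ ℓ : ℕ, w ∈ ZZ σ P t 1 ℓ := ⟨k', hwZ'⟩
  set b := Nat.find hexb with hb
  have hbm : w ∈ ZZ σ P t 1 b := Nat.find_spec hexb
  have hbmin : ∀ ℓ, ℓ < b → w ∉ ZZ σ P t 1 ℓ := fun ℓ h => Nat.find_min hexb h
  have hbk : b ≤ k' := Nat.find_min' hexb hwZ'
  have hb0 : b ≠ 0 := by
    intro h
    rw [h, D.Z_zero, Subgroup.mem_bot] at hbm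
    exact hw1 hbm
  -- bottom length
  have hexe : ∃ ℓ : ℕ, w ∈ ZZ σ P t ((k : ℤ) - ℓ) ℓ := by
    refine ⟨k', ?_⟩
    have h1 : (k : ℤ) - k' = 1 := by omega
    rwa [h1]
  set e := Nat.find hexe with he
  have hem : w ∈ ZZ σ P t ((k : ℤ) - e) e := Nat.find_spec hexe
  have hemin : ∀ ℓ, ℓ < e → w ∉ ZZ σ P t ((k : ℤ) - ℓ) ℓ := fun ℓ h => Nat.find_min hexe h
  have hek : e ≤ k' := by
    refine Nat.find_min' hexe ?_
    have h1 : (k : ℤ) - k' = 1 := by omega
    rwa [h1]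
  have he0 : e ≠ 0 := by
    intro h
    rw [h, D.Z_zero, Subgroup.mem_bot] at hem
    exact hw1 hem
  -- supports overlap
  have hover : k ≤ b + e := by
    by_contra hcon
    push Not at hcon
    apply hw1
    have h1 : w ∈ TT σ P (1 + b - t) ((k : ℤ) - e) := by
      have hb' := hbm
      have he' := hem
      rw [ZZ, mem_TT] at hb' he'
      rw [mem_TT]
      intro s hs1 hs2
      by_cases hs : s ≤ 1
      · exact hb' s hs1 hs
      · exact he' s (by omega) hs2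
    rw [D.TT_bot (by omega), Subgroup.mem_bot] at h1
    exact h1
  -- inequality A
  have hA : t + b ≤ 2 * k := by
    by_contra hcon
    push Not at hcon
    obtain ⟨c, hc⟩ : ∃ c : ℕ, k = c + b := ⟨k - b, by omega⟩
    obtain ⟨b', hb'⟩ : ∃ b' : ℕ, b = b' + 1 := Nat.exists_eq_succ_of_ne_zero hb0
    have h3 : ⁅⁅ZZ σ P t (c : ℤ) 1, ZZ σ P t ((c : ℤ) + k) 1⁆, ZZ σ P t 0 1⁆ = ⊥ := by
      apply Subgroup.commutator_commutator_eq_bot_of_rotate
      · rw [Subgroup.commutator_eq_bot_iff_le_centralizer]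
        refine le_trans (Subgroup.commutator_le.mpr ?_)
          (D.gen 1 (ℓ := c + k - 1) (by omega) ?_)
        · intro g₂ hg₂ g₃ hg₃
          rw [← commutatorElement_inv]
          refine Subgroup.inv_mem _ ?_
          have h4 := D.comm_mem 0 (m := c + k - 1) (by omega) hg₃ (y := g₂) (by
            have h5 : (0 : ℤ) + ((c + k - 1 + 1 : ℕ) : ℤ) = (c : ℤ) + k := by
              push_cast
              omega
            rwa [h5])
          simpa using h4
        · intro i hi1 hi2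
          exact comm_lt hk (by omega) (by omega)
      · have h4 : ⁅ZZ σ P t 0 1, ZZ σ P t (c : ℤ) 1⁆ = ⊥ := by
          rw [Subgroup.commutator_eq_bot_iff_le_centralizer]
          exact comm_lt hk (by omega) (by omega)
        rw [h4, Subgroup.commutator_bot_left]
    set wc := (σ ^ (c : ℤ)) w with hwc
    have hxc : (σ ^ (c : ℤ)) x ∈ ZZ σ P t (c : ℤ) 1 := by
      have := (mem_Z_shift (σ := σ) (P := P) (t := t) (c := 0) (e := (c : ℤ)) (ℓ := 1) (x := x)).mpr hx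
      simpa using this
    have hyc : (σ ^ (c : ℤ)) y ∈ ZZ σ P t ((c : ℤ) + k) 1 := by
      have := (mem_Z_shift (σ := σ) (P := P) (t := t) (c := (k : ℤ)) (e := (c : ℤ)) (ℓ := 1) (x := y)).mpr hy
      rwa [add_comm] at this
    have hwc1 : wc ∈ ⁅ZZ σ P t (c : ℤ) 1, ZZ σ P t ((c : ℤ) + k) 1⁆ := by
      have : wc = ⁅(σ ^ (c : ℤ)) x, (σ ^ (c : ℤ)) y⁆ := by
        rw [hwc, hw, map_commutatorElement]
      rw [this]
      exact Subgroup.commutator_mem_commutator hxc hyc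
    have hwc2 := Subgroup.commutator_eq_bot_iff_le_centralizer.mp h3 hwc1
    have hBle : ZZ σ P t ((c : ℤ) + 1) b' ≤ Subgroup.centralizer (ZZ σ P t 0 1 : Set G) := by
      refine D.gen _ (by omega) ?_
      intro i hi1 hi2
      exact comm_lt hk (by omega) (by omega)
    have hwcA : wc ∈ ZZ σ P t ((c : ℤ) + 1) (b' + 1) := by
      have h4 := (mem_Z_shift (σ := σ) (P := P) (t := t) (c := 1) (e := (c : ℤ)) (ℓ := b' + 1) (x := w)).mpr
        (by rw [← hb']; exact hbm)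
      rwa [add_comm] at h4
    have hwcB : wc ∉ ZZ σ P t ((c : ℤ) + 1) b' := by
      intro h4
      have h5 : (σ ^ (c : ℤ)) w ∈ ZZ σ P t (1 + (c : ℤ)) b' := by
        rw [add_comm]; exact h4
      exact hbmin b' (by omega) (mem_Z_shift.mp h5)
    have hAle := max_le D.hp (Z_mono le_rfl (by push_cast; omega)) (D.rel_top _ (ℓ := b') (by omega))
      hBle hwcA hwc2 hwcB
    have hyA : y ∈ ZZ σ P t ((c : ℤ) + 1) (b' + 1) := Z_mono (by omega) (by push_cast; omega) hy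
    have hyD := hAle hyA
    rw [Subgroup.mem_centralizer_iff] at hyD
    exact hxy (hyD x hx)
  -- inequality B
  have hB : t + e ≤ 2 * k := by
    by_contra hcon
    push Not at hcon
    obtain ⟨a, ha⟩ : ∃ a : ℕ, k = a + e := ⟨k - e, by omega⟩
    obtain ⟨e', he'⟩ : ∃ e' : ℕ, e = e' + 1 := Nat.exists_eq_succ_of_ne_zero he0
    have h3 : ⁅⁅ZZ σ P t 0 1, ZZ σ P t (k : ℤ) 1⁆, ZZ σ P t ((a : ℤ) + k) 1⁆ = ⊥ := by
      apply Subgroup.commutator_commutator_eq_bot_of_rotate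
      · have h4 : ⁅ZZ σ P t (k : ℤ) 1, ZZ σ P t ((a : ℤ) + k) 1⁆ = ⊥ := by
          rw [Subgroup.commutator_eq_bot_iff_le_centralizer]
          exact comm_lt hk (by omega) (by omega)
        rw [h4, Subgroup.commutator_bot_left]
      · rw [Subgroup.commutator_eq_bot_iff_le_centralizer]
        refine le_trans (Subgroup.commutator_le.mpr ?_)
          (D.gen 1 (ℓ := a + k - 1) (by omega) ?_)
        · intro g₃ hg₃ g₁ hg₁
          rw [← commutatorElement_inv]
          refine Subgroup.inv_mem _ ?_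
          have h4 := D.comm_mem 0 (m := a + k - 1) (by omega) hg₁ (y := g₃) (by
            have h5 : (0 : ℤ) + ((a + k - 1 + 1 : ℕ) : ℤ) = (a : ℤ) + k := by
              push_cast
              omega
            rwa [h5])
          simpa using h4
        · intro i hi1 hi2
          exact comm_lt hk (by omega) (by omega)
    have hw1' : w ∈ ⁅ZZ σ P t 0 1, ZZ σ P t (k : ℤ) 1⁆ := Subgroup.commutator_mem_commutator hx hy
    have hw2 := Subgroup.commutator_eq_bot_iff_le_centralizer.mp h3 hw1'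
    have hak : (k : ℤ) - e = a := by omega
    have hak' : (k : ℤ) - e' = (a : ℤ) + 1 := by omega
    have hBle : ZZ σ P t ((a : ℤ) + 1) e' ≤ Subgroup.centralizer (ZZ σ P t ((a : ℤ) + k) 1 : Set G) := by
      refine D.gen _ (by omega) ?_
      intro i hi1 hi2
      exact comm_lt hk (by omega) (by omega)
    have hwA : w ∈ ZZ σ P t (a : ℤ) (e' + 1) := by
      have := hem
      rw [hak, he'] at this
      exact this
    have hwB : w ∉ ZZ σ P t ((a : ℤ) + 1) e' := by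
      have := hemin e' (by omega)
      rwa [hak'] at this
    have hAle := max_le D.hp (Z_mono (by omega) (by push_cast; omega)) (D.rel_bot _ (ℓ := e') (by omega))
      hBle hwA hw2 hwB
    apply hnk
    refine CM_of_shift (a : ℤ) ?_
    intro u hu v hv
    have huA : u ∈ ZZ σ P t (a : ℤ) (e' + 1) := Z_mono le_rfl (by push_cast; omega) hu
    have huD := hAle huA
    rw [Subgroup.mem_centralizer_iff] at huD
    exact (huD v hv).symm
  omega

/-- The abstract form of the theorem. -/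
theorem main (hp : p.Prime) (hN : ((P ⊓ σ • P).subgroupOf (σ • P)).Normal)
    (hidx : (P ⊓ σ • P).relIndex (σ • P) = p)
    (h1 : ∀ Q : Subgroup G, Q ≤ P → (Q.subgroupOf P).Normal → σ • Q = Q → Q = ⊥)
    (n : ℕ) (hn : 1 ≤ n) (K : Subgroup G) (hK : K = ⨆ i ∈ Finset.range (n + 1), (σ ^ i) • P)
    (h2 : P ⊓ (Subgroup.center K).map K.subtype = ⊥) :
    ∃ t : ℕ, Nat.card P = p ^ t ∧ 1 ≤ t ∧ t ≤ 3 * n ∧ t ≠ 3 * n - 1 := by
  classical
  obtain ⟨t, ht1, hbot, hcard⟩ := chain_exists hp hN hidx h1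
  have D : Data σ P p t := ⟨hp, ht1, hbot, hcard, hN⟩
  refine ⟨t, ?_, ht1, ?_⟩
  · have h3 := hcard t le_rfl
    have h4 : (t : ℤ) - (t : ℤ) = 0 := by omega
    rw [h4, TT_zero_zero] at h3
    exact h3
  have hex : ∃ m : ℕ, ¬ CM σ P t m ∨ t ≤ m := ⟨t, Or.inr le_rfl⟩
  set k := Nat.find hex with hkdef
  have hks : ¬ CM σ P t k ∨ t ≤ k := Nat.find_spec hex
  have hk : ∀ m, m < k → CM σ P t m := by
    intro m hm
    have := Nat.find_min hex hm
    push Not at this
    exact this.1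
  have hkt : k ≤ t := Nat.find_min' hex (Or.inr le_rfl)
  have hc : 2 * k ≤ n + t := by
    by_contra hcon
    push Not at hcon
    exact D.central hk hkt hcon K hK h2
  rcases Nat.lt_or_ge k t with hlt | hge
  · have hnk : ¬ CM σ P t k := hks.resolve_right (by omega)
    have := D.two_t hk hlt hnk
    omega
  · omega

end final

end Cfsg.Agent.Lib.Misc19.ChainW
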