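import Mathlib

/-!
# An endomorphism acting irreducibly on a finite `𝔽_p`-space

If `X` acts irreducibly on a finite `𝔽_p`-space `W`, the polynomials in `X` form a domain with the
same number of elements as `W`.  Consequences: `X ^ (p ^ i) = X` forces `dim W ≤ i`, and the conjugates of `X`
that are powers of `X` are of the form `X ^ (p ^ i)`.
-/

set_option autoImplicit false

namespace Cfsg.Agent.Lib.Misc19.IrrPoly

open Polynomial

variable {W : Type*} [AddCommGroup W] {p d : ℕ} [Fact p.Prime] [Module (ZMod p) W] [Finite W]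

theorem pow_eq_expand (g : (ZMod p)[X]) (i : ℕ) : g ^ (p ^ i) = expand (ZMod p) (p ^ i) g := by
  induction i with
  | zero => simp
  | succ i ih =>
    rw [pow_succ, pow_mul, ih, ← ZMod.expand_card, expand_expand, mul_comm]

theorem aeval_pow_pow (X : Module.End (ZMod p) W) (g : (ZMod p)[X]) (i : ℕ) :
    aeval (X ^ (p ^ i)) g = (aeval X g) ^ (p ^ i) := by
  rw [← map_pow, pow_eq_expand, expand_aeval]

section

variable (X : Module.End (ZMod p) W)
  (hirr : ∀ U : Submodule (ZMod p) W, U ≠ ⊥ → (∀ u ∈ U, X u ∈ U) → U = ⊤)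

include hirr

theorem inj_or_zero (g : (ZMod p)[X]) : aeval X g = 0 ∨ Function.Injective (aeval X g) := by
  have hc : ∀ u, aeval X g (X u) = X (aeval X g u) := by
    intro u
    have h1 : aeval X g * X = X * aeval X g := by
      have : (aeval X) (g * Polynomial.X) = (aeval X) (Polynomial.X * g) := by rw [mul_comm]
      simpa using this
    exact LinearMap.congr_fun h1 u
  by_cases hk : LinearMap.ker (aeval X g) = ⊥
  · right
    exact LinearMap.ker_eq_bot.1 hk
  · left
    have h2 := hirr _ hk (by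
      intro u hu
      rw [LinearMap.mem_ker] at hu ⊢
      rw [hc, hu, map_zero])
    exact LinearMap.ker_eq_top.1 h2

variable [Nontrivial W]

theorem ker_prime : (RingHom.ker (aeval X : (ZMod p)[X] →ₐ[ZMod p] Module.End (ZMod p) W)).IsPrime := by
  constructor
  · intro h
    have h1 : (1 : (ZMod p)[X]) ∈ RingHom.ker (aeval X : (ZMod p)[X] →ₐ[ZMod p] Module.End (ZMod p) W) := by
      rw [h]; trivial
    rw [RingHom.mem_ker, map_one] at h1
    obtain ⟨w, hw⟩ := exists_ne (0 : W)
    exact hw (LinearMap.congr_fun h1 w)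
  · intro a b hab
    rw [RingHom.mem_ker, map_mul] at hab
    rcases inj_or_zero X hirr a with h | h
    · left
      exact h
    · right
      rw [RingHom.mem_ker]
      ext w
      apply h
      have := LinearMap.congr_fun hab w
      simpa using this

theorem exists_bij (v : W) (hv : v ≠ 0) :
    Function.Bijective (fun a : (ZMod p)[X] ⧸ RingHom.ker (aeval X : (ZMod p)[X] →ₐ[ZMod p] Module.End (ZMod p) W) =>
      Ideal.kerLiftAlg (aeval X : (ZMod p)[X] →ₐ[ZMod p] Module.End (ZMod p) W) a v) := by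
  constructor
  · intro a b hab
    have hab' : Ideal.kerLiftAlg (aeval X : (ZMod p)[X] →ₐ[ZMod p] Module.End (ZMod p) W) a v =
      Ideal.kerLiftAlg (aeval X : (ZMod p)[X] →ₐ[ZMod p] Module.End (ZMod p) W) b v := hab
    obtain ⟨a', rfl⟩ := Ideal.Quotient.mk_surjective a
    obtain ⟨b', rfl⟩ := Ideal.Quotient.mk_surjective b
    have e : ∀ g : (ZMod p)[X], Ideal.kerLiftAlg (aeval X : (ZMod p)[X] →ₐ[ZMod p] Module.End (ZMod p) W) (Ideal.Quotient.mk _ g) = aeval X g :=
      fun g => rfl
    rw [e, e] at hab'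
    rw [Ideal.Quotient.eq, RingHom.mem_ker, map_sub]
    rcases inj_or_zero X hirr (a' - b') with h | h
    · simpa using h
    · exfalso
      apply hv
      apply h
      simp only [map_sub, LinearMap.sub_apply, map_zero]
      rw [hab', sub_self]
  · intro w
    let L : (ZMod p)[X] →ₗ[ZMod p] W :=
      (LinearMap.applyₗ v).comp (aeval X : (ZMod p)[X] →ₐ[ZMod p] Module.End (ZMod p) W).toLinearMap
    have hL : ∀ g, L g = aeval X g v := fun g => rfl
    have hU : LinearMap.range L = ⊤ := by
      apply hirr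
      · intro h
        have : v ∈ LinearMap.range L := ⟨1, by rw [hL, map_one]; rfl⟩
        rw [h, Submodule.mem_bot] at this
        exact hv this
      · rintro _ ⟨g, rfl⟩
        refine ⟨Polynomial.X * g, ?_⟩
        rw [hL, hL, map_mul, aeval_X]
        rfl
    have hw : w ∈ LinearMap.range L := by rw [hU]; trivial
    obtain ⟨g, rfl⟩ := hw
    exact ⟨Ideal.Quotient.mk _ g, rfl⟩

theorem le_of_pow_eq (hcard : Nat.card W = p ^ d) {i : ℕ} (hi : 0 < i) (hX : X ^ (p ^ i) = X) : d ≤ i := by
  classical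
  haveI := ker_prime X hirr
  obtain ⟨v, hv⟩ := exists_ne (0 : W)
  have hb := exists_bij X hirr v hv
  let R := (ZMod p)[X] ⧸ RingHom.ker (aeval X : (ZMod p)[X] →ₐ[ZMod p] Module.End (ZMod p) W)
  have hcR : Nat.card R = p ^ d := by
    rw [← hcard]
    exact Nat.card_congr (Equiv.ofBijective _ hb)
  haveI : Finite R := Finite.of_injective _ hb.1
  haveI : Fintype R := Fintype.ofFinite R
  have hp2 : 2 ≤ p := (Fact.out : p.Prime).two_le
  have hN : 1 < p ^ i := Nat.one_lt_pow hi.ne' hp2
  let P : R[X] := Polynomial.X ^ (p ^ i) - Polynomial.X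
  have hdeg : P.natDegree = p ^ i := by
    have h1 : (Polynomial.X : R[X]).natDegree < ((Polynomial.X : R[X]) ^ (p ^ i)).natDegree := by
      rw [natDegree_X_pow, natDegree_X]
      exact hN
    show ((Polynomial.X : R[X]) ^ (p ^ i) - Polynomial.X).natDegree = p ^ i
    rw [natDegree_sub_eq_left_of_natDegree_lt h1, natDegree_X_pow]
  have hP0 : P ≠ 0 := by
    intro h
    rw [h, natDegree_zero] at hdeg
    omega
  have hroot : ∀ a : R, a ^ (p ^ i) = a := by
    intro a
    obtain ⟨g, rfl⟩ := Ideal.Quotient.mk_surjective a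
    rw [← map_pow, Ideal.Quotient.eq, RingHom.mem_ker, map_sub, map_pow, ← aeval_pow_pow, hX, sub_self]
  have hsub : (Finset.univ : Finset R).val ⊆ P.roots := by
    intro a _
    rw [mem_roots hP0, IsRoot.def]
    show eval a ((Polynomial.X : R[X]) ^ (p ^ i) - Polynomial.X) = 0
    rw [eval_sub, eval_pow, eval_X, hroot, sub_self]
  have hle := card_le_degree_of_subset_roots hsub
  rw [hdeg, Finset.card_univ, ← Nat.card_eq_fintype_card, hcR] at hle
  exact (Nat.pow_le_pow_iff_right hp2).1 hle

theorem exists_pow_of_intertwine (hcard : Nat.card W = p ^ d)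
    (hdist : ∀ i j : ℕ, i < j → j < d → X ^ (p ^ i) ≠ X ^ (p ^ j))
    (Y : Module.End (ZMod p) W) (hY : Function.Surjective Y) {k : ℕ} (hZ : X ^ k * Y = Y * X) :
    ∃ i, i < d ∧ X ^ k = X ^ (p ^ i) := by
  classical
  haveI := ker_prime X hirr
  obtain ⟨v, hv⟩ := exists_ne (0 : W)
  have hb := exists_bij X hirr v hv
  let f : (ZMod p)[X] →ₐ[ZMod p] Module.End (ZMod p) W := aeval X
  let R := (ZMod p)[X] ⧸ RingHom.ker f
  let F : R →ₐ[ZMod p] Module.End (ZMod p) W := Ideal.kerLiftAlg f
  have hFinj : Function.Injective F := Ideal.kerLiftAlg_injective f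
  have hFτ : F (Ideal.Quotient.mk _ Polynomial.X) = X := by
    show f Polynomial.X = X
    simp [f]
  -- a nonzero polynomial of small degree vanishing at X
  obtain ⟨G, hG0, hGd, hGX⟩ : ∃ G : (ZMod p)[X], G ≠ 0 ∧ G.natDegree ≤ d ∧ aeval X G = 0 := by
    haveI : Module.Finite (ZMod p) W := Module.Finite.of_finite
    have hfr : Module.finrank (ZMod p) W = d := by
      have h1 := Module.natCard_eq_pow_finrank (K := ZMod p) (V := W)
      rw [Nat.card_zmod, hcard] at h1
      exact (Nat.pow_right_injective (Fact.out : p.Prime).two_le h1).symm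
    let L : (ZMod p)[X] →ₗ[ZMod p] W :=
      (LinearMap.applyₗ v).comp (aeval X : (ZMod p)[X] →ₐ[ZMod p] Module.End (ZMod p) W).toLinearMap
    let L' := L.domRestrict (degreeLT (ZMod p) (d + 1))
    have hfr2 : Module.finrank (ZMod p) (degreeLT (ZMod p) (d + 1)) = d + 1 := by
      rw [(degreeLTEquiv (ZMod p) (d + 1)).finrank_eq]
      simp
    have hker : LinearMap.ker L' ≠ ⊥ := by
      apply LinearMap.ker_ne_bot_of_finrank_lt
      rw [hfr2, hfr]
      omega
    obtain ⟨⟨G, hG⟩, hG1, hG2⟩ := Submodule.exists_mem_ne_zero_of_ne_bot hker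
    refine ⟨G, fun h => hG2 (Subtype.ext h), ?_, ?_⟩
    · have h1 := mem_degreeLT.1 hG
      by_cases h0 : G = 0
      · rw [h0]; simp
      · rw [degree_eq_natDegree h0] at h1
        have : (G.natDegree : WithBot ℕ) < ((d + 1 : ℕ) : WithBot ℕ) := by exact_mod_cast h1
        have h3 : G.natDegree < d + 1 := by exact_mod_cast this
        omega
    · have h1 : aeval X G v = 0 := hG1
      rcases inj_or_zero X hirr G with h | h
      · exact h
      · exfalso
        apply hv
        apply h
        rw [h1, map_zero]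
  -- roots
  have hroot : ∀ b : R, aeval (F b) G = 0 → aeval b G = 0 := by
    intro b hb'
    apply hFinj
    rw [map_zero, ← aeval_algHom_apply]
    exact hb'
  let τ : R := Ideal.Quotient.mk _ Polynomial.X
  have hFτpow : ∀ n : ℕ, F (τ ^ n) = X ^ n := by
    intro n
    rw [map_pow, hFτ]
  have hroot1 : ∀ i : ℕ, aeval (τ ^ (p ^ i)) G = 0 := by
    intro i
    apply hroot
    rw [hFτpow, aeval_pow_pow, hGX, zero_pow]
    exact pow_ne_zero _ (Fact.out : p.Prime).ne_zero
  have hconj : ∀ g : (ZMod p)[X], aeval (X ^ k) g * Y = Y * aeval X g := by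
    intro g
    induction g using Polynomial.induction_on' with
    | add a b ha hb =>
      rw [map_add, map_add, add_mul, mul_add, ha, hb]
    | monomial n c =>
      have h1 : ∀ m : ℕ, (X ^ k) ^ m * Y = Y * X ^ m := by
        intro m
        induction m with
        | zero => simp
        | succ m ih =>
          rw [pow_succ, pow_succ, mul_assoc, hZ, ← mul_assoc, ih, mul_assoc]
      rw [aeval_monomial, aeval_monomial, mul_assoc, h1, ← mul_assoc, ← mul_assoc]
      congr 1
      ext w
      simp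
  have hroot2 : aeval (τ ^ k) G = 0 := by
    apply hroot
    rw [hFτpow]
    have h1 := hconj G
    rw [hGX, mul_zero] at h1
    ext w
    obtain ⟨u, rfl⟩ := hY w
    exact LinearMap.congr_fun h1 u
  -- counting
  by_contra hcon
  push Not at hcon
  let G' : R[X] := G.map (algebraMap (ZMod p) R)
  have hG'0 : G' ≠ 0 := (Polynomial.map_ne_zero_iff (algebraMap (ZMod p) R).injective).2 hG0
  have hG'd : G'.natDegree ≤ d := natDegree_map_le.trans hGd
  have hev : ∀ b : R, aeval b G = 0 → b ∈ G'.roots := by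
    intro b hb'
    rw [mem_roots hG'0, IsRoot.def, eval_map_algebraMap]
    exact hb'
  let S : Finset R := insert (τ ^ k) ((Finset.range d).image (fun i => τ ^ (p ^ i)))
  have hinj : Set.InjOn (fun i => τ ^ (p ^ i)) (Finset.range d : Set ℕ) := by
    intro i hi j hj hij
    have hij' : X ^ (p ^ i) = X ^ (p ^ j) := by
      have := congrArg F hij
      simpa [hFτpow] using this
    rcases lt_trichotomy i j with h | h | h
    · exact absurd hij' (hdist i j h (Finset.mem_range.1 hj))
    · exact h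
    · exact absurd hij'.symm (hdist j i h (Finset.mem_range.1 hi))
  have hnot : τ ^ k ∉ (Finset.range d).image (fun i => τ ^ (p ^ i)) := by
    intro h
    obtain ⟨i, hi, hie⟩ := Finset.mem_image.1 h
    have : X ^ (p ^ i) = X ^ k := by
      have := congrArg F hie
      simpa [hFτpow] using this
    exact hcon i (Finset.mem_range.1 hi) this.symm
  have hScard : S.card = d + 1 := by
    rw [Finset.card_insert_of_notMem hnot, Finset.card_image_of_injOn hinj, Finset.card_range]
  have hsub : S.val ⊆ G'.roots := by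
    intro b hb'
    have hb2 : b ∈ S := hb'
    rcases Finset.mem_insert.1 hb2 with rfl | h
    · exact hev _ hroot2
    · obtain ⟨i, -, rfl⟩ := Finset.mem_image.1 h
      exact hev _ (hroot1 i)
  have := card_le_degree_of_subset_roots hsub
  rw [hScard] at this
  omega

end

/-- The abstract form of the analysis of a solvable extremely primitive group. -/
theorem abs_main {W H : Type*} [AddCommGroup W] [Group H] [Finite H] {p q d : ℕ} [Fact p.Prime] [Fact q.Prime]
    [Module (ZMod p) W] [Finite W] (hpq : p ≠ q)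
    (hcard : Nat.card W = p ^ d) (hd : 0 < d)
    (T : H → (W →+ W)) (T1 : ∀ v, T 1 v = v) (Tm : ∀ h k v, T (h * k) v = T h (T k v))
    (N : Subgroup H) (hN : N.Normal) (hNbot : N ≠ ⊥)
    (hcomm : ∀ a ∈ N, ∀ b ∈ N, a * b = b * a) (hexp : ∀ a ∈ N, a ^ q = 1)
    (hfpf : ∀ n ∈ N, n ≠ 1 → ∀ w, T n w = w → w = 0)
    (horb : ∀ h : H, ∀ w, ∃ n ∈ N, T h w = T n w)
    (hirr : ∀ U : Submodule (ZMod p) W, U ≠ ⊥ → (∀ h, ∀ u ∈ U, T h u ∈ U) → U = ⊤)
    (hC : ∀ c : H, (∀ n ∈ N, c * n = n * c) → c ∈ N)
    (hq : q ∣ p ^ d - 1) :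
    Nat.card N = q ∧ (∀ i, 0 < i → i < d → ¬ q ∣ p ^ i - 1) ∧ Nat.card H ∣ q * d ∧
      ∃ h : H, N ⊔ Subgroup.zpowers h = ⊤ := by
  classical
  have hp : p.Prime := Fact.out
  have hqp : q.Prime := Fact.out
  haveI : Nontrivial W := by
    have h1 : 1 < Nat.card W := by
      rw [hcard]
      exact Nat.one_lt_pow hd.ne' hp.two_le
    exact Finite.one_lt_card_iff_nontrivial.1 h1
  let T' : H →* Module.End (ZMod p) W :=
    { toFun := fun h => (T h).toZModLinearMap p
      map_one' := by
        refine LinearMap.ext fun a => ?_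
        rw [AddMonoidHom.coe_toZModLinearMap, T1]
        rfl
      map_mul' := by
        intro h k
        refine LinearMap.ext fun a => ?_
        rw [AddMonoidHom.coe_toZModLinearMap, Tm]
        rfl }
  have hT' : ∀ h w, T' h w = T h w := fun h w => rfl
  have hnz : ∃ w : W, w ≠ 0 := exists_ne 0
  -- norms vanish
  have hsum : ∀ n ∈ N, n ≠ 1 → ∑ i ∈ Finset.range q, (T' n) ^ i = 0 := by
    intro n hn hn1
    have h1 : (T' n) ^ q = 1 := by rw [← map_pow, hexp n hn, map_one]
    have h2 := mul_geom_sum (T' n) q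
    rw [h1, sub_self] at h2
    ext w
    have h3 := LinearMap.congr_fun h2 w
    have h4 : T' n ((∑ i ∈ Finset.range q, (T' n) ^ i) w) = (∑ i ∈ Finset.range q, (T' n) ^ i) w := by
      have h5 : (T' n - 1) ((∑ i ∈ Finset.range q, (T' n) ^ i) w) = 0 := h3
      rw [LinearMap.sub_apply, sub_eq_zero] at h5
      exact h5
    exact hfpf n hn hn1 _ h4
  obtain ⟨x, hxN, hx1⟩ := (Subgroup.bot_or_exists_ne_one N).resolve_left hNbot
  have ho : orderOf x = q := orderOf_eq_prime (hexp x hxN) hx1
  -- N is cyclic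
  have hNz : N = Subgroup.zpowers x := by
    by_contra hne
    have hle : Subgroup.zpowers x ≤ N := by
      rw [Subgroup.zpowers_le]
      exact hxN
    obtain ⟨y, hyN, hyz⟩ : ∃ y ∈ N, y ∉ Subgroup.zpowers x := by
      by_contra hc
      push Not at hc
      exact hne (le_antisymm hc hle)
    have hy1 : y ≠ 1 := fun h => hyz (h ▸ Subgroup.one_mem _)
    have hoy : orderOf y = q := orderOf_eq_prime (hexp y hyN) hy1
    have hxy : x ∉ Subgroup.zpowers y := by
      intro h
      rw [← mem_powers_iff_mem_zpowers] at h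
      obtain ⟨j, hj⟩ := h
      have hj' : y ^ j = x := hj
      have hcop : j.Coprime (orderOf y) := by
        rw [hoy]
        apply Nat.Coprime.symm
        rw [Nat.Prime.coprime_iff_not_dvd hqp]
        intro hd'
        apply hx1
        rw [← hj', ← hoy] at *
        exact orderOf_dvd_iff_pow_eq_one.1 hd'
      obtain ⟨m, hm⟩ := exists_pow_eq_self_of_coprime hcop
      apply hyz
      rw [← hm, hj']
      exact Subgroup.pow_mem _ (Subgroup.mem_zpowers x) m
    have hu : ∀ k : ℕ, x * y ^ k ∈ N ∧ x * y ^ k ≠ 1 := by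
      intro k
      refine ⟨N.mul_mem hxN (N.pow_mem hyN k), ?_⟩
      intro h
      apply hxy
      rw [eq_inv_of_mul_eq_one_left h]
      exact Subgroup.inv_mem _ (Subgroup.pow_mem _ (Subgroup.mem_zpowers y) k)
    have hcxy : Commute x y := hcomm x hxN y hyN
    have hS : ∀ k : ℕ, ∑ i ∈ Finset.range q, (T' x) ^ i * ((T' y) ^ i) ^ k = 0 := by
      intro k
      have := hsum _ (hu k).1 (hu k).2
      rw [← this]
      apply Finset.sum_congr rfl
      intro i _
      rw [← map_pow, ← map_pow, ← map_pow, ← map_pow, ← map_mul]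
      congr 1
      rw [(hcxy.pow_right k).mul_pow, ← pow_mul, ← pow_mul, mul_comm i k]
    have htot : ∑ i ∈ Finset.range q, (T' x) ^ i * ∑ k ∈ Finset.range q, ((T' y) ^ i) ^ k = 0 := by
      have h1 : ∑ k ∈ Finset.range q, ∑ i ∈ Finset.range q, (T' x) ^ i * ((T' y) ^ i) ^ k = 0 :=
        Finset.sum_eq_zero (fun k _ => hS k)
      rw [Finset.sum_comm] at h1
      rw [← h1]
      apply Finset.sum_congr rfl
      intro i _
      rw [Finset.mul_sum]
    have hsingle : ∑ i ∈ Finset.range q, (T' x) ^ i * ∑ k ∈ Finset.range q, ((T' y) ^ i) ^ k =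
        (T' x) ^ 0 * ∑ k ∈ Finset.range q, ((T' y) ^ 0) ^ k := by
      apply Finset.sum_eq_single 0
      · intro i hi hi0
        have hiq := Finset.mem_range.1 hi
        have hyi : y ^ i ≠ 1 := by
          intro h
          have := Nat.le_of_dvd (Nat.pos_of_ne_zero hi0) (orderOf_dvd_of_pow_eq_one h)
          omega
        have := hsum _ (N.pow_mem hyN i) hyi
        rw [map_pow] at this
        rw [this, mul_zero]
      · intro h
        exact absurd (Finset.mem_range.2 hqp.pos) h
    rw [hsingle] at htot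
    simp only [pow_zero, one_pow, one_mul, Finset.sum_const, Finset.card_range] at htot
    obtain ⟨w, hw⟩ := hnz
    apply hw
    have h1 := LinearMap.congr_fun htot w
    have h2 : (q : ZMod p) • w = 0 := by
      rw [Nat.cast_smul_eq_nsmul]
      simpa using h1
    have h3 : (q : ZMod p) ≠ 0 := by
      intro h
      rw [ZMod.natCast_eq_zero_iff] at h
      exact hpq ((Nat.prime_dvd_prime_iff_eq hp hqp).1 h)
    exact (smul_eq_zero.1 h2).resolve_left h3
  have hcN : Nat.card N = q := by
    rw [hNz, Nat.card_zpowers, ho]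
  let X := T' x
  have hpowmem : ∀ n ∈ N, ∃ j : ℕ, n = x ^ j := by
    intro n hn
    rw [hNz, ← mem_powers_iff_mem_zpowers] at hn
    obtain ⟨j, hj⟩ := hn
    exact ⟨j, hj.symm⟩
  have hirrX : ∀ U : Submodule (ZMod p) W, U ≠ ⊥ → (∀ u ∈ U, X u ∈ U) → U = ⊤ := by
    intro U hU hUX
    apply hirr U hU
    intro h u hu
    obtain ⟨n, hn, hnu⟩ := horb h u
    rw [hnu]
    obtain ⟨j, rfl⟩ := hpowmem n hn
    rw [← hT', map_pow]
    clear hnu hn
    induction j with
    | zero => simpa using hu
    | succ j ih =>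
      rw [pow_succ', Module.End.mul_apply]
      exact hUX _ ih
  -- injectivity on N
  have hinjN : ∀ a ∈ N, ∀ b ∈ N, T' a = T' b → a = b := by
    intro a ha b hb hab
    by_contra hne
    have h1 : a⁻¹ * b ≠ 1 := by
      intro h
      exact hne (eq_of_inv_mul_eq_one h)
    obtain ⟨w, hw⟩ := hnz
    apply hw
    apply hfpf _ (N.mul_mem (N.inv_mem ha) hb) h1
    show T' (a⁻¹ * b) w = w
    rw [map_mul, ← hab, ← map_mul, inv_mul_cancel, map_one]
    rfl
  -- the order of p modulo q
  have hxpow : ∀ i : ℕ, q ∣ p ^ i - 1 → x ^ (p ^ i) = x := by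
    intro i hi
    obtain ⟨t, ht⟩ := hi
    have hpos : 1 ≤ p ^ i := Nat.one_le_pow _ _ hp.pos
    have e : p ^ i = q * t + 1 := by omega
    rw [e, pow_succ, pow_mul, hexp x hxN, one_pow, one_mul]
  have hb : ∀ i, 0 < i → i < d → ¬ q ∣ p ^ i - 1 := by
    intro i hi hid hdv
    have h1 : X ^ (p ^ i) = X := by
      show (T' x) ^ (p ^ i) = T' x
      rw [← map_pow, hxpow i hdv]
    have := le_of_pow_eq X hirrX hcard hi h1
    omega
  have hdist : ∀ i j : ℕ, i < j → j < d → X ^ (p ^ i) ≠ X ^ (p ^ j) := by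
    intro i j hij hjd h
    have h1 : x ^ (p ^ i) = x ^ (p ^ j) := by
      apply hinjN _ (N.pow_mem hxN _) _ (N.pow_mem hxN _)
      rw [map_pow, map_pow]
      exact h
    rw [pow_eq_pow_iff_modEq, ho] at h1
    have h2 : q ∣ p ^ j - p ^ i := (Nat.modEq_iff_dvd' (Nat.pow_le_pow_right hp.pos hij.le)).1 h1
    have h3 : p ^ j - p ^ i = p ^ i * (p ^ (j - i) - 1) := by
      rw [Nat.mul_sub, mul_one, ← pow_add]
      congr 2
      omega
    rw [h3] at h2
    have hcop : q.Coprime (p ^ i) := Nat.Coprime.pow_right _ ((Nat.coprime_primes hqp hp).2 (Ne.symm hpq))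
    have h4 := hcop.dvd_of_dvd_mul_left h2
    exact hb (j - i) (by omega) (by omega) h4
  have hconj : ∀ h : H, ∃ i : ℕ, h * x * h⁻¹ = x ^ (p ^ i) := by
    intro h
    obtain ⟨k, hk⟩ := hpowmem _ (hN.conj_mem x hxN h)
    have h1 : X ^ k * T' h = T' h * X := by
      show (T' x) ^ k * T' h = T' h * T' x
      rw [← map_pow, ← map_mul, ← map_mul, ← hk]
      congr 1
      group
    have hsurj : Function.Surjective (T' h) := by
      intro w
      refine ⟨T' h⁻¹ w, ?_⟩
      rw [← Module.End.mul_apply, ← map_mul, mul_inv_cancel, map_one]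
      rfl
    obtain ⟨i, -, hi⟩ := exists_pow_of_intertwine X hirrX hcard hdist (T' h) hsurj h1
    refine ⟨i, ?_⟩
    rw [hk]
    apply hinjN _ (N.pow_mem hxN _) _ (N.pow_mem hxN _)
    rw [map_pow, map_pow]
    exact hi
  -- the action on N
  have hcop : (Nat.card N).Coprime p := by
    rw [hcN]
    exact (Nat.coprime_primes hqp hp).2 (Ne.symm hpq)
  haveI := hN
  let c : H →* Equiv.Perm N := (MulAut.toPerm N).comp (MulAut.conjNormal (H := N))
  have hcapp : ∀ (h : H) (n : N), ((c h n : N) : H) = h * n * h⁻¹ := fun h n => rfl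
  let π : Equiv.Perm N := powCoprime hcop
  have hπ : ∀ (i : ℕ) (n : N), (π ^ i) n = n ^ (p ^ i) := by
    intro i n
    induction i generalizing n with
    | zero => simp
    | succ i ih =>
      rw [pow_succ', Equiv.Perm.mul_apply, ih]
      show (n ^ (p ^ i)) ^ p = _
      rw [← pow_mul, pow_succ]
  have hcπ : ∀ h : H, c h ∈ Subgroup.zpowers π := by
    intro h
    obtain ⟨i, hi⟩ := hconj h
    have : c h = π ^ i := by
      ext n
      rw [hπ]
      obtain ⟨j, hj⟩ := hpowmem n n.2
      rw [hcapp]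
      have e1 : h * (n : H) * h⁻¹ = (h * x * h⁻¹) ^ j := by
        rw [hj, conj_pow]
      rw [e1, hi, Subgroup.coe_pow, hj, ← pow_mul, ← pow_mul, mul_comm]
    rw [this]
    exact Subgroup.pow_mem _ (Subgroup.mem_zpowers π) i
  have hπd : π ^ d = 1 := by
    ext n
    rw [hπ]
    obtain ⟨j, hj⟩ := hpowmem n n.2
    have e1 : ((n : H)) ^ (p ^ d) = n := by
      rw [hj, ← pow_mul, mul_comm, pow_mul, hxpow d hq]
    simpa using e1
  have hker : c.ker = N := by
    ext h
    rw [MonoidHom.mem_ker]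
    constructor
    · intro hh
      apply hC
      intro n hn
      have h1 := congrArg (fun f : Equiv.Perm N => ((f ⟨n, hn⟩ : N) : H)) hh
      have h2 : h * n * h⁻¹ = n := h1
      calc h * n = (h * n * h⁻¹) * h := by group
        _ = n * h := by rw [h2]
    · intro hh
      ext n
      rw [hcapp]
      show h * (n : H) * h⁻¹ = n
      rw [hcomm h hh n n.2, mul_inv_cancel_right]
  have hrange : c.range ≤ Subgroup.zpowers π := by
    rintro _ ⟨h, rfl⟩
    exact hcπ h
  have hcardH : Nat.card H = q * Nat.card c.range := by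
    have h1 := Subgroup.card_mul_index c.ker
    rw [Subgroup.index_ker, hker, hcN] at h1
    exact h1.symm
  have hdvd : Nat.card c.range ∣ d := by
    have h1 : Nat.card c.range ∣ Nat.card (Subgroup.zpowers π) := Subgroup.card_dvd_of_le hrange
    rw [Nat.card_zpowers] at h1
    exact h1.trans (orderOf_dvd_of_pow_eq_one hπd)
  refine ⟨hcN, hb, ?_, ?_⟩
  · rw [hcardH]
    exact mul_dvd_mul_left q hdvd
  · haveI : IsCyclic c.range := isCyclic_of_injective (Subgroup.inclusion hrange) (Subgroup.inclusion_injective hrange)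
    obtain ⟨g, hg⟩ := IsCyclic.exists_generator (α := c.range)
    obtain ⟨h, hh⟩ := g.2
    refine ⟨h, ?_⟩
    rw [eq_top_iff]
    intro s _
    obtain ⟨k, hk⟩ := Subgroup.mem_zpowers_iff.1 (hg ⟨c s, ⟨s, rfl⟩⟩)
    have hk' : (c h) ^ k = c s := by
      have := congrArg Subtype.val hk
      simpa [hh] using this
    have h1 : (h ^ k)⁻¹ * s ∈ N := by
      rw [← hker, MonoidHom.mem_ker, map_mul, map_inv, map_zpow, hk', inv_mul_cancel]
    have e : s = (h ^ k) * ((h ^ k)⁻¹ * s) := by group
    rw [e]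
    exact Subgroup.mul_mem _ (Subgroup.mem_sup_right (Subgroup.zpow_mem _ (Subgroup.mem_zpowers h) k))
      (Subgroup.mem_sup_left h1)

/-- The multiplicative form of `abs_main`. -/
theorem abs_mul {A H : Type*} [CommGroup A] [Group H] [Finite H] {p q d : ℕ} [Fact p.Prime] [Fact q.Prime]
    [Finite A] (hpq : p ≠ q) (hexpA : ∀ a : A, a ^ p = 1)
    (hcard : Nat.card A = p ^ d) (hd : 0 < d)
    (act : H →* MulAut A)
    (N : Subgroup H) (hN : N.Normal) (hNbot : N ≠ ⊥)
    (hcomm : ∀ a ∈ N, ∀ b ∈ N, a * b = b * a) (hexp : ∀ a ∈ N, a ^ q = 1)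
    (hfpf : ∀ n ∈ N, n ≠ 1 → ∀ a, act n a = a → a = 1)
    (horb : ∀ h : H, ∀ a, ∃ n ∈ N, act h a = act n a)
    (hirr : ∀ U : Subgroup A, U ≠ ⊥ → (∀ h, ∀ u ∈ U, act h u ∈ U) → U = ⊤)
    (hC : ∀ c : H, (∀ n ∈ N, c * n = n * c) → c ∈ N)
    (hq : q ∣ p ^ d - 1) :
    Nat.card N = q ∧ (∀ i, 0 < i → i < d → ¬ q ∣ p ^ i - 1) ∧ Nat.card H ∣ q * d ∧
      ∃ h : H, N ⊔ Subgroup.zpowers h = ⊤ := by
  have h0 : ∀ x : Additive A, p • x = 0 := by
    intro x
    apply Additive.toMul.injective
    exact hexpA (Additive.toMul x)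
  letI : Module (ZMod p) (Additive A) := AddCommGroup.zmodModule h0
  haveI : Finite (Additive A) := inferInstanceAs (Finite A)
  refine abs_main (W := Additive A) hpq hcard hd
    (fun h => MonoidHom.toAdditive ((act h : A ≃* A) : A →* A))
    (fun v => by rw [map_one]; rfl) (fun h k v => by rw [map_mul]; rfl)
    N hN hNbot hcomm hexp ?_ ?_ ?_ hC hq
  · intro n hn hn1 w hw
    exact congrArg Additive.ofMul (hfpf n hn hn1 (Additive.toMul w) (congrArg Additive.toMul hw))
  · intro h w
    obtain ⟨n, hn, hnw⟩ := horb h (Additive.toMul w)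
    exact ⟨n, hn, congrArg Additive.ofMul hnw⟩
  · intro U hU hUi
    let U' : Subgroup A := AddSubgroup.toSubgroup' U.toAddSubgroup
    have hU' : U' = ⊤ := by
      apply hirr
      · intro h
        apply hU
        rw [Submodule.eq_bot_iff]
        intro w hw
        have : Additive.toMul w ∈ U' := hw
        rw [h, Subgroup.mem_bot] at this
        exact congrArg Additive.ofMul this
      · intro h u hu
        exact hUi h _ hu
    rw [Submodule.eq_top_iff']
    intro w
    have : Additive.toMul w ∈ U' := by rw [hU']; trivial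
    exact this

/-- `abs_mul` for a group whose commutativity is given as a hypothesis. -/
theorem abs_mul' {A H : Type*} [Group A] [Group H] [Finite H] {p q d : ℕ} [Fact p.Prime] [Fact q.Prime]
    [Finite A] (hAcomm : ∀ a b : A, a * b = b * a) (hpq : p ≠ q) (hexpA : ∀ a : A, a ^ p = 1)
    (hcard : Nat.card A = p ^ d) (hd : 0 < d)
    (act : H →* MulAut A)
    (N : Subgroup H) (hN : N.Normal) (hNbot : N ≠ ⊥)
    (hcomm : ∀ a ∈ N, ∀ b ∈ N, a * b = b * a) (hexp : ∀ a ∈ N, a ^ q = 1)
    (hfpf : ∀ n ∈ N, n ≠ 1 → ∀ a, act n a = a → a = 1)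
    (horb : ∀ h : H, ∀ a, ∃ n ∈ N, act h a = act n a)
    (hirr : ∀ U : Subgroup A, U ≠ ⊥ → (∀ h, ∀ u ∈ U, act h u ∈ U) → U = ⊤)
    (hC : ∀ c : H, (∀ n ∈ N, c * n = n * c) → c ∈ N)
    (hq : q ∣ p ^ d - 1) :
    Nat.card N = q ∧ (∀ i, 0 < i → i < d → ¬ q ∣ p ^ i - 1) ∧ Nat.card H ∣ q * d ∧
      ∃ h : H, N ⊔ Subgroup.zpowers h = ⊤ := by
  letI : CommGroup A := { (inferInstance : Group A) with mul_comm := hAcomm }
  exact abs_mul hpq hexpA hcard hd act N hN hNbot hcomm hexp hfpf horb hirr hC hq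

end Cfsg.Agent.Lib.Misc19.IrrPoly
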