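import Mathlib
import Cfsg.Agent.Lib.Misc19.ExtPrim
import Cfsg.Agent.Lib.Misc19.IrrPoly
import Cfsg.Agent.Lib.Basic.MinNormal

/-!
# Solvable extremely primitive groups
-/

set_option autoImplicit false

namespace Cfsg.Agent.Lib.Misc19.ExtPrimSolv

open MulAction Cfsg.Agent.Lib.Misc19.ExtPrim

theorem main_solv {G : Type*} [Group G] [Finite G] {Ω : Type*} [Fintype Ω] [MulAction G Ω] [FaithfulSMul G Ω]
    [Group.IsSolvable G] (p d : ℕ) (hp : p.Prime) (hcard : Fintype.card Ω = p ^ d)
    (hprim : MulAction.IsPreprimitive G Ω) (hH : ∀ α : Ω, MulAction.stabilizer G α ≠ ⊥)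
    (hep : ∀ (α : Ω) (ω : Ω), MulAction.IsPreprimitive (MulAction.stabilizer G α) (MulAction.orbit (MulAction.stabilizer G α) ω))
    (α : Ω) :
    ∃ q : ℕ, q.Prime ∧ (∀ ω : Ω, ω ≠ α → Nat.card (MulAction.orbit (MulAction.stabilizer G α) ω) = q) ∧
      q ∣ p ^ d - 1 ∧ (∀ i : ℕ, 0 < i → i < d → ¬ q ∣ p ^ i - 1) ∧
      ∃ T : Subgroup G, T ≤ MulAction.stabilizer G α ∧ MulAction.stabilizer G α ≤ Subgroup.normalizer (T : Set G) ∧ Nat.card T = q ∧
        (∃ h : G, MulAction.stabilizer G α = T ⊔ Subgroup.zpowers h) ∧ Nat.card (MulAction.stabilizer G α) ∣ q * d := by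
  classical
  haveI : Fact p.Prime := ⟨hp⟩
  have E : EP G Ω := ⟨hprim, inferInstance, hep, hH⟩
  haveI := hprim
  -- G is nontrivial
  haveI : Nontrivial G := by
    obtain ⟨s, hs, hs1⟩ := (Subgroup.bot_or_exists_ne_one (stabilizer G α)).resolve_left (hH α)
    exact ⟨⟨s, 1, hs1⟩⟩
  obtain ⟨p', V, hp', hVn, hV1, hVc, hVp⟩ := Cfsg.Agent.Lib.Basic.exists_normal_abelian_pSubgroup (G := G)
  have hVcomm : ∀ a ∈ V, ∀ b ∈ V, a * b = b * a := by
    intro a ha b hb
    have := hVc.is_comm.comm ⟨a, ha⟩ ⟨b, hb⟩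
    exact congrArg Subtype.val this
  -- normal subgroups are transitive
  have htrans : ∀ U : Subgroup G, U.Normal → U ≠ ⊥ → IsPretransitive U Ω := by
    intro U hU hU1
    have hfix : fixedPoints U Ω ≠ Set.univ := by
      intro h
      apply hU1
      rw [eq_bot_iff]
      intro u hu
      rw [Subgroup.mem_bot]
      apply E.eq_one
      intro z
      have : z ∈ fixedPoints U Ω := by rw [h]; trivial
      exact this ⟨u, hu⟩
    exact IsQuasiPreprimitive.isPretransitive_of_normal hfix
  haveI hVtr := htrans V hVn hV1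
  have hreg : ∀ v ∈ V, ∀ y : Ω, v • y = y → v = 1 := by
    intro v hv y hy
    apply E.eq_one
    intro z
    obtain ⟨b, hb⟩ := exists_smul_eq V y z
    have e : (b : G) • y = z := hb
    rw [← e, ← mul_smul, hVcomm v hv b b.2, mul_smul, hy]
  have hVbij : Function.Bijective (fun v : V => (v : G) • α) := by
    constructor
    · intro a b hab
      have hab' : (a : G) • α = (b : G) • α := hab
      have h1 : ((b : G)⁻¹ * a) • α = α := by
        rw [mul_smul, hab', inv_smul_smul]
      have h2 := hreg _ (V.mul_mem (V.inv_mem b.2) a.2) α h1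
      apply Subtype.ext
      exact (inv_mul_eq_one.1 h2).symm
    · intro z
      obtain ⟨b, hb⟩ := exists_smul_eq V α z
      exact ⟨b, hb⟩
  have hVcard : Nat.card V = p ^ d := by
    rw [Nat.card_congr (Equiv.ofBijective _ hVbij), Nat.card_eq_fintype_card, hcard]
  have hd : 0 < d := by
    by_contra h0
    have h1 : d = 0 := by omega
    rw [h1, pow_zero] at hVcard
    exact hV1 (Subgroup.eq_bot_of_card_eq _ hVcard)
  -- normal subgroups inside V
  have hVmin : ∀ U : Subgroup G, U ≤ V → U.Normal → U ≠ ⊥ → U = V := by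
    intro U hUV hUn hU1
    haveI := htrans U hUn hU1
    have hsurj : Function.Surjective (fun u : U => (u : G) • α) := by
      intro z
      obtain ⟨b, hb⟩ := exists_smul_eq U α z
      exact ⟨b, hb⟩
    have h1 : Nat.card Ω ≤ Nat.card U := Nat.card_le_card_of_surjective _ hsurj
    have h2 : Nat.card V = Nat.card Ω := Nat.card_congr (Equiv.ofBijective _ hVbij)
    apply Subgroup.eq_of_le_of_card_ge hUV
    rw [h2]
    exact h1
  -- exponent
  have hVexp : ∀ v ∈ V, v ^ p = 1 := by
    let U : Subgroup G :=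
      { carrier := {v | v ∈ V ∧ v ^ p = 1}
        one_mem' := ⟨V.one_mem, one_pow p⟩
        mul_mem' := by
          rintro a b ⟨ha, ha'⟩ ⟨hb, hb'⟩
          refine ⟨V.mul_mem ha hb, ?_⟩
          have : Commute a b := hVcomm a ha b hb
          rw [this.mul_pow, ha', hb', one_mul]
        inv_mem' := by
          rintro a ⟨ha, ha'⟩
          exact ⟨V.inv_mem ha, by rw [inv_pow, ha', inv_one]⟩ }
    have hUn : U.Normal := ⟨by
      rintro n ⟨hn, hn'⟩ g
      exact ⟨hVn.conj_mem n hn g, by rw [conj_pow, hn']; simp⟩⟩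
    have hU1 : U ≠ ⊥ := by
      have hdv : p ∣ Nat.card V := by
        rw [hVcard]
        exact dvd_pow_self p hd.ne'
      obtain ⟨z, hz⟩ := exists_prime_orderOf_dvd_card' p hdv
      intro h
      have hzU : (z : G) ∈ U := by
        refine ⟨z.2, ?_⟩
        have := pow_orderOf_eq_one z
        rw [hz] at this
        exact congrArg Subtype.val this
      rw [h, Subgroup.mem_bot] at hzU
      have hz1 : z = 1 := Subtype.ext hzU
      rw [hz1, orderOf_one] at hz
      exact hp.one_lt.ne hz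
    have hUV := hVmin U (fun v hv => hv.1) hUn hU1
    intro v hv
    rw [← hUV] at hv
    exact hv.2
  -- the prime q
  have hHsolv : Group.IsSolvable (stabilizer G α) := inferInstance
  haveI : Nontrivial (stabilizer G α) := (Subgroup.nontrivial_iff_ne_bot _).2 (hH α)
  obtain ⟨q, N₀, hq, hN₀n, hN₀1, -, hN₀p⟩ := Cfsg.Agent.Lib.Basic.exists_normal_abelian_pSubgroup (G := stabilizer G α)
  haveI : Fact q.Prime := ⟨hq⟩
  have hcore : Cfsg.pCore q (stabilizer G α) ≠ ⊥ := by
    intro h
    apply hN₀1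
    rw [eq_bot_iff, ← h]
    exact Cfsg.Agent.Lib.Basic.le_pCore hN₀n hN₀p
  have F := oFam (G := G) (Ω := Ω) q
  have hbot : ∀ x : Ω, O (G := G) q x ≠ ⊥ := by
    intro x
    obtain ⟨n, hn, hn1⟩ := (Subgroup.bot_or_exists_ne_one _).resolve_left hcore
    obtain ⟨g, rfl⟩ := exists_smul_eq G α x
    have h1 : g * (n : G) * g⁻¹ ∈ O (G := G) q (g • α) := F.conj α g _ ⟨n, hn, rfl⟩
    intro h
    rw [h, Subgroup.mem_bot] at h1
    apply hn1
    apply Subtype.ext
    have : (n : G) = g⁻¹ * (g * (n : G) * g⁻¹) * g := by group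
    rw [this, h1]
    simp
  let N : Subgroup G := O (G := G) q α
  have hNsemi : ∀ y, y ≠ α → N ⊓ stabilizer G y = ⊥ := fun y hy => F.semireg E hbot (Ne.symm hy)
  have hNle : N ≤ stabilizer G α := F.le α
  have hNnorm : ∀ s ∈ stabilizer G α, ∀ n ∈ N, s * n * s⁻¹ ∈ N := F.norm α
  have hdvd : Nat.card N ∣ Fintype.card Ω - 1 := card_dvd N α hNle hNsemi
  have hqN : q ∣ Nat.card N := by
    obtain ⟨k, hk⟩ := IsPGroup.iff_card.1 (F.isP α)
    have hk' : Nat.card N = q ^ k := hk
    rw [hk']
    have hk0 : k ≠ 0 := by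
      rintro rfl
      exact hbot α (Subgroup.eq_bot_of_card_eq _ (by simpa using hk'))
    exact dvd_pow_self q hk0
  have hq' : q ∣ p ^ d - 1 := by
    rw [hcard] at hdvd
    exact hqN.trans hdvd
  have hpq : p ≠ q := by
    rintro rfl
    have h1 : p ∣ p ^ d := dvd_pow_self p hd.ne'
    have h2 : p ∣ p ^ d - (p ^ d - 1) := Nat.dvd_sub h1 hq'
    have h3 : 1 ≤ p ^ d := Nat.one_le_pow _ _ hp.pos
    have h4 : p ^ d - (p ^ d - 1) = 1 := by omega
    rw [h4] at h2
    exact hp.one_lt.ne' (Nat.dvd_one.1 h2)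
  haveI : V.Normal := hVn
  let act : stabilizer G α →* MulAut V := (MulAut.conjNormal (H := V)).comp (stabilizer G α).subtype
  have hact : ∀ (h : stabilizer G α) (a : V), ((act h a : V) : G) = (h : G) * a * (h : G)⁻¹ := fun h a => rfl
  let N' : Subgroup (stabilizer G α) := N.subgroupOf (stabilizer G α)
  have hNne : N ≠ ⊥ := hbot α
  have hmain := IrrPoly.abs_mul' (A := V) (H := stabilizer G α) (p := p) (q := q) (d := d)
    (fun a b => Subtype.ext (hVcomm a a.2 b b.2)) hpq
    (fun a => Subtype.ext (by simpa using hVexp a a.2)) hVcard hd act N'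
    ⟨fun n hn g => by
      rw [Subgroup.mem_subgroupOf] at hn ⊢
      exact hNnorm g g.2 n hn⟩
    ?_ (fun a ha b hb => Subtype.ext ((F.comm_and_exp E hbot α).1 a ha b hb))
    (fun a ha => Subtype.ext (by simpa using (F.comm_and_exp E hbot α).2 a ha))
    ?_ ?_ ?_ ?_ hq'
  · obtain ⟨hNcard', hnot, hHdvd, h', hgen⟩ := hmain
    have hNcard : Nat.card N = q := by
      rw [← hNcard']
      exact (Nat.card_congr (Subgroup.subgroupOfEquivOfLe hNle).toEquiv).symm
    refine ⟨q, hq, ?_, hq', hnot, N, hNle, F.le_normalizer α, hNcard, ⟨(h' : G), ?_⟩, hHdvd⟩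
    · intro ω hω
      have hmoves : ∃ n ∈ N, n • ω ≠ ω := F.moves_all E hbot (Ne.symm hω)
      have htr := trans_of_normal (E.hep α ω) N hNle hNnorm hmoves
      let f : N → orbit (stabilizer G α) ω := fun n =>
        ⟨(n : G) • ω, mem_orbit_iff.2 ⟨⟨n, hNle n.2⟩, rfl⟩⟩
      have hf : Function.Bijective f := by
        constructor
        · intro a b hab
          have hab' : (a : G) • ω = (b : G) • ω := congrArg Subtype.val hab
          have h1 : ((b : G)⁻¹ * a) ∈ N ⊓ stabilizer G ω := by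
            refine ⟨N.mul_mem (N.inv_mem b.2) a.2, ?_⟩
            show ((b : G)⁻¹ * a) • ω = ω
            rw [mul_smul, hab', inv_smul_smul]
          rw [hNsemi ω hω, Subgroup.mem_bot] at h1
          apply Subtype.ext
          exact (inv_mul_eq_one.1 h1).symm
        · rintro ⟨z, hz⟩
          obtain ⟨s, rfl⟩ := mem_orbit_iff.1 hz
          obtain ⟨n, hn, hns⟩ := htr s s.2
          exact ⟨⟨n, hn⟩, Subtype.ext hns⟩
      rw [← Nat.card_congr (Equiv.ofBijective f hf), hNcard]
    · have := congrArg (Subgroup.map (stabilizer G α).subtype) hgen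
      rw [Subgroup.map_sup, Subgroup.map_subgroupOf_eq_of_le hNle, MonoidHom.map_zpowers,
        ← MonoidHom.range_eq_map, Subgroup.range_subtype] at this
      exact this.symm
  · -- N' ≠ ⊥
    intro h
    apply hNne
    rw [eq_bot_iff]
    intro n hn
    have h1 : (⟨n, hNle hn⟩ : stabilizer G α) ∈ N' := hn
    rw [h, Subgroup.mem_bot] at h1
    rw [Subgroup.mem_bot]
    exact congrArg Subtype.val h1
  · -- fixed point freeness
    intro n hn hn1 a ha
    by_contra ha1
    have ha1' : (a : G) ≠ 1 := fun h => ha1 (Subtype.ext h)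
    have hyne : (a : G) • α ≠ α := fun h => ha1' (hreg a a.2 α h)
    have hcomm : (n : G) * a * (n : G)⁻¹ = a := by
      have := congrArg Subtype.val ha
      rwa [hact] at this
    have hnfix : (n : G) • ((a : G) • α) = (a : G) • α := by
      have h1 : (n : G) * a = a * (n : G) := by
        calc (n : G) * a = (n : G) * a * (n : G)⁻¹ * n := by group
          _ = a * (n : G) := by rw [hcomm]
      rw [← mul_smul, h1, mul_smul]
      have h2 : (n : G) • α = α := n.2
      rw [h2]
    have hmem : (n : G) ∈ N ⊓ stabilizer G ((a : G) • α) := ⟨hn, hnfix⟩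
    rw [hNsemi _ hyne, Subgroup.mem_bot] at hmem
    exact hn1 (Subtype.ext hmem)
  · -- orbits
    intro h a
    by_cases ha1 : a = 1
    · refine ⟨1, N'.one_mem, ?_⟩
      rw [ha1, map_one, map_one]
    · have ha1' : (a : G) ≠ 1 := fun h => ha1 (Subtype.ext h)
      have hyne : (a : G) • α ≠ α := fun h => ha1' (hreg a a.2 α h)
      have hmoves : ∃ n ∈ N, n • ((a : G) • α) ≠ (a : G) • α := F.moves_all E hbot (Ne.symm hyne)
      obtain ⟨n, hn, hns⟩ := trans_of_normal (E.hep α _) N hNle hNnorm hmoves h h.2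
      refine ⟨⟨n, hNle hn⟩, hn, ?_⟩
      apply hVbij.1
      show ((act h a : V) : G) • α = ((act ⟨n, hNle hn⟩ a : V) : G) • α
      rw [hact, hact]
      have hhα : (h : G)⁻¹ • α = α := by
        have : (h : G) • α = α := h.2
        rw [inv_smul_eq_iff, this]
      have hnα : n⁻¹ • α = α := by
        have : n • α = α := hNle hn
        rw [inv_smul_eq_iff, this]
      rw [mul_smul, mul_smul, hhα]
      show _ = (n * (a : G) * n⁻¹) • α
      rw [mul_smul, mul_smul, hnα]
      exact hns.symm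
  · -- irreducibility
    intro U hU hUi
    let W : Subgroup G := U.map V.subtype
    have hWV : W ≤ V := Subgroup.map_subtype_le U
    have hWn : W.Normal := by
      constructor
      rintro _ ⟨u, hu, rfl⟩ g
      obtain ⟨v, hv⟩ := hVbij.2 (g • α)
      have hv' : (v : G) • α = g • α := hv
      let h : stabilizer G α := ⟨(v : G)⁻¹ * g, by
        rw [mem_stabilizer_iff, mul_smul, ← hv', inv_smul_smul]⟩
      have hu' := hUi h u hu
      refine ⟨act h u, hu', ?_⟩
      show ((act h u : V) : G) = g * (u : G) * g⁻¹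
      rw [hact]
      show (v : G)⁻¹ * g * (u : G) * ((v : G)⁻¹ * g)⁻¹ = g * (u : G) * g⁻¹
      have hmem : g * (u : G) * g⁻¹ ∈ V := hVn.conj_mem u u.2 g
      have hc := hVcomm _ (V.inv_mem v.2) _ hmem
      calc (v : G)⁻¹ * g * (u : G) * ((v : G)⁻¹ * g)⁻¹
          = (v : G)⁻¹ * (g * (u : G) * g⁻¹) * v := by group
        _ = (g * (u : G) * g⁻¹) * (v : G)⁻¹ * v := by rw [hc]
        _ = g * (u : G) * g⁻¹ := by group
    have hW1 : W ≠ ⊥ := by
      intro h
      apply hU
      rw [eq_bot_iff]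
      intro u hu
      have h1 : (u : G) ∈ W := ⟨u, hu, rfl⟩
      rw [h, Subgroup.mem_bot] at h1
      rw [Subgroup.mem_bot]
      exact Subtype.ext h1
    have hWeq := hVmin W hWV hWn hW1
    rw [eq_top_iff]
    intro v _
    have h1 : (v : G) ∈ W := by rw [hWeq]; exact v.2
    obtain ⟨u, hu, hu'⟩ := h1
    have : u = v := Subtype.ext hu'
    rwa [← this]
  · -- self-centralizing
    intro c hc
    exact F.centralizer_le E hbot c.2 (fun n hn => congrArg Subtype.val (hc ⟨n, hNle hn⟩ hn))

end Cfsg.Agent.Lib.Misc19.ExtPrimSolv
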