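import Mathlib
import Cfsg.Agent.Lib.Small.Sweep
import Cfsg.Agent.Lib.Small.BrauerKill2
import Cfsg.Agent.Lib.SmallSimple.Basic

/-! Groups of order `11 k`, `k ∣ 720`, have at most 12 Sylow 11-subgroups, unless simple of order 7920. -/

set_option autoImplicit false
set_option linter.style.haveILetI false

namespace Cfsg.Agent.Lib.Misc19.M11P

open Subgroup
open Cfsg Cfsg.Agent.Lib.Small.BD Cfsg.Agent.Lib.Char
open scoped Pointwise

variable {G : Type*} [Group G] [Finite G]

/-- An element of prime order `r` normalizing `H` centralizes a Sylow `q`-subgroup of `H` under arithmetic conditions. -/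
theorem fix_sylow {r : ℕ} [hr : Fact r.Prime] {x : G} (hx : x ^ r = 1) (H : Subgroup G) (hxN : x ∈ normalizer (H : Set G))
    (q : ℕ) [hq : Fact q.Prime] (hrH : ¬ r ∣ Nat.card H)
    (hpow : ∀ a b, q ^ a ∣ Nat.card H → b < a → ¬ r ∣ q ^ a - q ^ b) :
    ∃ R : Sylow q H, ∀ u ∈ (R : Subgroup H), Commute x (u : G) := by
  classical
  set σ : MulAut H := H.normalizerMonoidHom ⟨x, hxN⟩ with hσ
  have hσval : ∀ v : H, ((σ v : H) : G) = x * v * x⁻¹ := fun v => rfl
  have hσr : σ ^ r = 1 := by
    rw [hσ, ← map_pow]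
    have : (⟨x, hxN⟩ : normalizer (H : Set G)) ^ r = 1 := by
      apply Subtype.ext
      simpa using hx
    rw [this, map_one]
  have hA : IsPGroup r (zpowers σ) := by
    have h1 : orderOf σ ∣ r ^ 1 := by
      rw [pow_one]
      exact orderOf_dvd_of_pow_eq_one hσr
    obtain ⟨j, -, hj⟩ := (Nat.dvd_prime_pow hr.out).mp h1
    exact IsPGroup.of_card (n := j) (by rw [Nat.card_zpowers, hj])
  have hmod := hA.card_modEq_card_fixedPoints (Sylow q H)
  have hnd : Nat.card (Sylow q H) ∣ Nat.card H := by
    obtain ⟨R⟩ : Nonempty (Sylow q H) := inferInstance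
    exact (Sylow.card_dvd_index R).trans (index_dvd_card _)
  have hne : (MulAction.fixedPoints (zpowers σ) (Sylow q H)).Nonempty := by
    by_contra hemp
    rw [Set.not_nonempty_iff_eq_empty] at hemp
    rw [hemp, Nat.card_eq_zero.mpr (Or.inl (Set.isEmpty_coe_sort.mpr rfl))] at hmod
    have h2 : r ∣ Nat.card (Sylow q H) := (Nat.modEq_zero_iff_dvd).mp hmod
    exact hrH (h2.trans hnd)
  obtain ⟨R, hR⟩ := hne
  refine ⟨R, ?_⟩
  have hRfix : σ • R = R := hR ⟨σ, mem_zpowers σ⟩
  have hRmem : ∀ v : H, σ v ∈ (R : Subgroup H) ↔ v ∈ (R : Subgroup H) := by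
    intro v
    have h1 : ((σ • R : Sylow q H) : Subgroup H) = σ • (R : Subgroup H) := Sylow.pointwise_smul_def
    rw [hRfix] at h1
    constructor
    · intro hv
      rw [h1] at hv
      exact (Subgroup.smul_mem_pointwise_smul_iff (a := σ) (S := (R : Subgroup H)) (x := v)).mp hv
    · intro hv
      rw [h1]
      exact (Subgroup.smul_mem_pointwise_smul_iff (a := σ) (S := (R : Subgroup H)) (x := v)).mpr hv
  let π : Equiv.Perm (R : Subgroup H) := Equiv.Perm.subtypePerm (MulAut.toPerm (↥H) σ) hRmem
  have hπ : ∀ v : (R : Subgroup H), ((π v : (R : Subgroup H)) : H) = σ v := fun v => rfl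
  have hπr : π ^ r = 1 := by
    apply Equiv.ext
    intro w
    rw [show π ^ r = _ from Equiv.Perm.subtypePerm_pow (MulAut.toPerm (↥H) σ) r hRmem]
    apply Subtype.ext
    have h5 : ((MulAut.toPerm (↥H) σ) ^ r) = 1 := by
      rw [← map_pow, hσr, map_one]
    simp [h5]
  have hB : IsPGroup r (zpowers π) := by
    have h1 : orderOf π ∣ r ^ 1 := by
      rw [pow_one]
      exact orderOf_dvd_of_pow_eq_one hπr
    obtain ⟨j, -, hj⟩ := (Nat.dvd_prime_pow hr.out).mp h1
    exact IsPGroup.of_card (n := j) (by rw [Nat.card_zpowers, hj])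
  have hmod2 := hB.card_modEq_card_fixedPoints (R : Subgroup H)
  -- the fixed points form a subgroup
  let F : Subgroup (R : Subgroup H) := ((centralizer ({x} : Set G)).subgroupOf H).subgroupOf (R : Subgroup H)
  have hFmem : ∀ v : (R : Subgroup H), v ∈ F ↔ π v = v := by
    intro v
    rw [mem_subgroupOf, mem_subgroupOf, mem_centralizer_iff]
    constructor
    · intro h
      apply Subtype.ext
      apply Subtype.ext
      rw [hπ, hσval]
      have h1 := h x rfl
      rw [h1]
      group
    · intro h y hy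
      rw [Set.mem_singleton_iff] at hy
      subst hy
      have h1 := congrArg (fun w : (R : Subgroup H) => ((w : H) : G)) h
      simp only [hπ, hσval] at h1
      calc y * ((v : H) : G) = (y * ((v : H) : G) * y⁻¹) * y := by group
        _ = ((v : H) : G) * y := by rw [h1]
  have hfix : MulAction.fixedPoints (zpowers π) (R : Subgroup H) = (F : Set (R : Subgroup H)) := by
    ext v
    rw [MulAction.mem_fixedPoints, SetLike.mem_coe, hFmem]
    constructor
    · intro h
      exact h ⟨π, mem_zpowers π⟩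
    · intro h g
      obtain ⟨k, hk⟩ := mem_zpowers_iff.mp g.2
      change (g : Equiv.Perm _) v = v
      rw [← hk]
      exact Equiv.Perm.zpow_apply_eq_self_of_apply_eq_self h k
  rw [hfix] at hmod2
  change _ ≡ Nat.card F [MOD r] at hmod2
  have hRcard : Nat.card (R : Subgroup H) = q ^ (Nat.card H).factorization q := Sylow.card_eq_multiplicity R
  set a := (Nat.card H).factorization q with ha
  have hFd : Nat.card F ∣ q ^ a := by
    rw [← hRcard]
    exact card_subgroup_dvd_card F
  obtain ⟨b, hba, hb⟩ := (Nat.dvd_prime_pow hq.out).mp hFd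
  have hFtop : b = a := by
    by_contra hne
    have hlt : b < a := lt_of_le_of_ne hba hne
    apply hpow a b (by rw [← hRcard]; exact card_subgroup_dvd_card _) hlt
    rw [hRcard, hb] at hmod2
    have hle : q ^ b ≤ q ^ a := Nat.pow_le_pow_right hq.out.pos hba
    exact (Nat.modEq_iff_dvd' hle).mp hmod2.symm
  have hFt : F = ⊤ := by
    apply Subgroup.eq_top_of_card_eq
    rw [hb, hFtop, hRcard]
  intro u hu
  have h8 : (⟨u, hu⟩ : (R : Subgroup H)) ∈ F := by
    rw [hFt]
    exact mem_top _
  rw [mem_subgroupOf, mem_subgroupOf, mem_centralizer_iff] at h8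
  exact h8 x rfl

/-- An element of prime order normalizing a subgroup, under arithmetic conditions, centralizes it. -/
theorem commute_of_normalizes {r : ℕ} [hr : Fact r.Prime] {x : G} (hx : x ^ r = 1) (H : Subgroup G) (hxN : x ∈ normalizer (H : Set G))
    (hrH : ¬ r ∣ Nat.card H)
    (hpow : ∀ q a b, q.Prime → q ^ a ∣ Nat.card H → b < a → ¬ r ∣ q ^ a - q ^ b) (u : G) (hu : u ∈ H) : Commute x u := by
  classical
  set C : Subgroup H := (centralizer ({x} : Set G)).subgroupOf H with hC
  have hsyl : ∀ q : ℕ, q.Prime → q ^ (Nat.card H).factorization q ∣ Nat.card C := by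
    intro q hq
    haveI hq' : Fact q.Prime := ⟨hq⟩
    obtain ⟨R, hR⟩ := fix_sylow hx H hxN q hrH (fun a b => hpow q a b hq)
    have hRC : (R : Subgroup H) ≤ C := by
      intro v hv
      rw [hC, mem_subgroupOf, mem_centralizer_iff]
      intro y hy
      rw [Set.mem_singleton_iff] at hy
      subst hy
      exact hR v hv
    rw [← Sylow.card_eq_multiplicity R]
    exact card_dvd_of_le hRC
  have hCtop : C = ⊤ := by
    apply Subgroup.eq_top_of_card_eq
    apply Nat.dvd_antisymm (card_subgroup_dvd_card C)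
    rw [← Nat.factorization_prime_le_iff_dvd Nat.card_pos.ne' Nat.card_pos.ne']
    intro q hq
    exact (Nat.Prime.pow_dvd_iff_le_factorization hq Nat.card_pos.ne').mp (hsyl q hq)
  have h8 : (⟨u, hu⟩ : H) ∈ C := by
    rw [hCtop]
    exact mem_top _
  rw [hC, mem_subgroupOf, mem_centralizer_iff] at h8
  exact h8 x rfl

/-- Arithmetic for the prime 11. -/
theorem good11 (m : ℕ) (hm : m ∣ 720) (q a b : ℕ) (hq : q.Prime) (h : q ^ a ∣ m) (hb : b < a) : ¬ 11 ∣ q ^ a - q ^ b := by
  have h720 : q ^ a ∣ 720 := h.trans hm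
  have hqd : q ∣ 720 := (dvd_pow_self q (by omega)).trans h720
  have hq3 : q = 2 ∨ q = 3 ∨ q = 5 := by
    have e : (720 : ℕ) = 2 ^ 4 * 3 ^ 2 * 5 := by norm_num
    rw [e] at hqd
    rcases (Nat.Prime.dvd_mul hq).mp hqd with h1 | h1
    · rcases (Nat.Prime.dvd_mul hq).mp h1 with h2 | h2
      · exact Or.inl ((Nat.prime_dvd_prime_iff_eq hq (by norm_num)).mp (hq.dvd_of_dvd_pow h2))
      · exact Or.inr (Or.inl ((Nat.prime_dvd_prime_iff_eq hq (by norm_num)).mp (hq.dvd_of_dvd_pow h2)))
    · exact Or.inr (Or.inr ((Nat.prime_dvd_prime_iff_eq hq (by norm_num)).mp h1))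
  rcases hq3 with rfl | rfl | rfl
  · have ha : a ≤ 4 := by
      by_contra hcon
      have : 2 ^ 5 ∣ 720 := (pow_dvd_pow 2 (by omega)).trans h720
      norm_num at this
    interval_cases a <;> interval_cases b <;> norm_num
  · have ha : a ≤ 2 := by
      by_contra hcon
      have : 3 ^ 3 ∣ 720 := (pow_dvd_pow 3 (by omega)).trans h720
      norm_num at this
    interval_cases a <;> interval_cases b <;> norm_num
  · have ha : a ≤ 1 := by
      by_contra hcon
      have : 5 ^ 2 ∣ 720 := (pow_dvd_pow 5 (by omega)).trans h720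
      norm_num at this
    interval_cases a <;> interval_cases b <;> norm_num

/-- No simple group at the orders killed by the eleven-data. -/
theorem no_of_key [IsSimpleGroup G] {N : ℕ} (h : Nat.card G = 11 * N) (hN : ¬ 11 ∣ N) (hN1 : 1 < N)
    (key : ∀ m ∈ Nat.divisors 10, ∀ n ∈ Nat.divisors N, ∀ c ∈ Nat.divisors N, 1 < m → 1 < n → n % 11 = 1 →
      c * m * n = N → (n ≠ 12 ∨ 2 * (11 * c * m) ∣ 110) → False) : False := by
  haveI := Fintype.ofFinite G
  haveI hp : Fact (Nat.Prime 11) := ⟨by norm_num⟩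
  obtain ⟨P, m, c, n, hP, hnc, hCN, hCc, hn, hmd, hm1, hcd, hnd, hcmn, hnp, hn1, hfac, hsm⟩ :=
    exists_setup2 h hN hN1 (by norm_num)
  have hsm' : n ≠ 12 ∨ 2 * (11 * c * m) ∣ 110 := by
    by_cases hh : n = 12
    · exact Or.inr (hsm hh)
    · exact Or.inl hh
  exact key m hmd n hnd c hcd hm1 hn1 hnp hcmn hsm'

/-- The two orders with a Brauer argument. -/
theorem no_of_two [IsSimpleGroup G] {N : ℕ} (h : Nat.card G = 11 * N) (hN : ¬ 11 ∣ N) (hN1 : 1 < N)
    (key : ∀ m ∈ Nat.divisors 10, ∀ n ∈ Nat.divisors N, ∀ c ∈ Nat.divisors N, 1 < m → 1 < n → n % 11 = 1 →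
      c * m * n = N → (n ≠ 12 ∨ 2 * (11 * c * m) ∣ 110) → m = 2 ∧ 1 < c)
    (hchk : ∀ x ∈ Nat.divisors N, (x % 11 = 1 → (x + 1) ∣ 11 * N → x < 2 * 11 ∨ x + 1 < 2 * 11) ∧
      (x % 11 = 11 - 1 → (x - 1) ∣ 11 * N → x < 2 * 11 ∨ x - 1 < 2 * 11)) : False := by
  haveI := Fintype.ofFinite G
  haveI hp : Fact (Nat.Prime 11) := ⟨by norm_num⟩
  obtain ⟨P, m, c, n, hP, hnc, hCN, hCc, hn, hmd, hm1, hcd, hnd, hcmn, hnp, hn1, hfac, hsm⟩ :=
    exists_setup2 h hN hN1 (by norm_num)
  have hsm' : n ≠ 12 ∨ 2 * (11 * c * m) ∣ 110 := by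
    by_cases hh : n = 12
    · exact Or.inr (hsm hh)
    · exact Or.inl hh
  obtain ⟨rfl, hc⟩ := key m hmd n hnd c hcd hm1 hn1 hnp hcmn hsm'
  have hC := not_isPGroup_of_card (H := centralizer ((P : Subgroup G) : Set G)) hCc hc
    (fun hd => hN (hd.trans (Nat.dvd_of_mem_divisors hcd)))
  exact false_two hnc P hP h (by omega) (by norm_num) (r := 5) (by norm_num) (by norm_num) hCN hC hchk

/-- No simple group of order `11 k`, `k ∣ 720`, except `k = 1, 60, 720`. -/
theorem no_simple [IsSimpleGroup G] {k : ℕ} (hk : k ∈ Nat.divisors 720) (hk1 : k ≠ 1) (hk2 : k ≠ 60) (hk3 : k ≠ 720)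
    (h : Nat.card G = 11 * k) : False := by
  have hnc : ¬ IsMulCommutative G := by
    apply Cfsg.Agent.Lib.SmallSimple.not_comm_of_not_prime
    rw [h]
    exact Nat.not_prime_mul (by norm_num) hk1
  have key : ∀ k ∈ Nat.divisors 720, k ≠ 1 → k ≠ 60 → k ≠ 720 →
      (k = 24 ∨ k = 48 ∨ k = 72 ∨ k = 120 ∨ k = 144 ∨ k = 240 ∨ k = 180 ∨ k = 360) ∨
      Cfsg.Agent.Lib.Small.sweepAt (11 * k) = true := by
    decide +kernel
  rcases key k hk hk1 hk2 hk3 with hh | hs
  · rcases hh with rfl | rfl | rfl | rfl | rfl | rfl | rfl | rfl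
    · exact no_of_key h (by norm_num) (by norm_num) (by decide +kernel)
    · exact no_of_key h (by norm_num) (by norm_num) (by decide +kernel)
    · exact no_of_key h (by norm_num) (by norm_num) (by decide +kernel)
    · exact no_of_key h (by norm_num) (by norm_num) (by decide +kernel)
    · exact no_of_key h (by norm_num) (by norm_num) (by decide +kernel)
    · exact no_of_key h (by norm_num) (by norm_num) (by decide +kernel)
    · exact no_of_two h (by norm_num) (by norm_num) (by decide +kernel) (by decide +kernel)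
    · exact no_of_two h (by norm_num) (by norm_num) (by decide +kernel) (by decide +kernel)
  · rw [← h] at hs
    exact Cfsg.Agent.Lib.Small.false_of_sweepAt hnc hs

theorem factorization_aux {m : ℕ} (hm : ¬ 11 ∣ m) (hm0 : m ≠ 0) : (11 * m).factorization 11 = 1 := by
  have h11 : Nat.Prime 11 := by norm_num
  rw [Nat.factorization_mul (by norm_num) hm0, Finsupp.add_apply, h11.factorization_self,
    Nat.factorization_eq_zero_of_not_dvd hm]

/-- Sylow 11-subgroups have order 11. -/
theorem card_sylow {H : Type*} [Group H] [Finite H] [Fact (Nat.Prime 11)] {k : ℕ} (hH : Nat.card H = 11 * k) (hk : ¬ 11 ∣ k)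
    (S : Sylow 11 H) : Nat.card (S : Subgroup H) = 11 := by
  have hk0 : k ≠ 0 := by
    rintro rfl
    exact hk (dvd_zero _)
  have h1 := Sylow.card_eq_multiplicity S
  rw [hH, factorization_aux hk hk0, pow_one] at h1
  exact h1

/-- A normal subgroup of order divisible by 11 contains every Sylow 11-subgroup. -/
theorem sylow_le_of_normal {H : Type*} [Group H] [Finite H] [Fact (Nat.Prime 11)] {k : ℕ} (hH : Nat.card H = 11 * k) (hk : ¬ 11 ∣ k)
    (N : Subgroup H) (hN : N.Normal) (h11 : 11 ∣ Nat.card N) (S : Sylow 11 H) : (S : Subgroup H) ≤ N := by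
  have hk0 : k ≠ 0 := by
    rintro rfl
    exact hk (dvd_zero _)
  obtain ⟨y, hy⟩ := exists_prime_orderOf_dvd_card' (G := N) 11 h11
  have hy' : orderOf (y : H) = 11 := by rw [Subgroup.orderOf_coe, hy]
  have hcard : Nat.card (zpowers (y : H)) = 11 ^ (Nat.card H).factorization 11 := by
    rw [Nat.card_zpowers, hy', hH, factorization_aux hk hk0, pow_one]
  let R : Sylow 11 H := Sylow.ofCard (zpowers (y : H)) hcard
  have hR : (R : Subgroup H) ≤ N := by
    change ((Sylow.ofCard (zpowers (y : H)) hcard : Sylow 11 H) : Subgroup H) ≤ N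
    rw [Sylow.coe_ofCard, zpowers_le]
    exact y.2
  obtain ⟨g, hg⟩ := MulAction.exists_smul_eq H R S
  intro u hu
  rw [← hg, Sylow.coe_subgroup_smul, Subgroup.mem_smul_pointwise_iff_exists] at hu
  obtain ⟨v, hv, rfl⟩ := hu
  simpa [MulAut.smul_def, MulAut.conj_apply] using hN.conj_mem v (hR hv) g

universe u

/-- A group of order `11 k`, `k ∣ 720`, not simple of order 7920, has at most 12 Sylow 11-subgroups. -/
theorem sylow_le (k : ℕ) : k ∣ 720 → ∀ (H : Type u) [Group H] [Finite H], Nat.card H = 11 * k →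
    (k ≠ 720 ∨ ¬ IsSimpleGroup H) → Nat.card (Sylow 11 H) ≤ 12 := by
  induction k using Nat.strong_induction_on with
  | _ k ih =>
  intro hk H _ _ hG hcond
  haveI h11 : Fact (Nat.Prime 11) := ⟨by norm_num⟩
  have hk0 : k ≠ 0 := by
    rintro rfl
    norm_num at hk
  have h11k : ¬ 11 ∣ k := fun h => by
    have := h.trans hk
    norm_num at this
  have hdvd : Nat.card (Sylow 11 H) ∣ k := by
    obtain ⟨S⟩ : Nonempty (Sylow 11 H) := inferInstance
    have h1 := Sylow.card_dvd_index S
    have h2 := Subgroup.card_mul_index (S : Subgroup H)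
    rw [card_sylow hG h11k S, hG] at h2
    have h3 : (S : Subgroup H).index = k := Nat.eq_of_mul_eq_mul_left (by norm_num) h2
    rwa [h3] at h1
  have hmod : Nat.card (Sylow 11 H) % 11 = 1 := by
    have h1 : Nat.card (Sylow 11 H) ≡ 1 [MOD 11] := card_sylow_modEq_one 11 H
    exact h1
  by_cases hk1 : k = 1
  · subst hk1
    have := Nat.le_of_dvd (by norm_num) hdvd
    omega
  by_cases hs : IsSimpleGroup H
  · have hk720 : k ≠ 720 := by
      rcases hcond with h | h
      · exact h
      · exact absurd hs h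
    have hk60 : k = 60 := by
      by_contra hk60
      exact no_simple (Nat.mem_divisors.mpr ⟨hk, by norm_num⟩) hk1 hk60 hk720 hG
    subst hk60
    have key : ∀ n ∈ Nat.divisors 60, n % 11 = 1 → n ≤ 12 := by decide +kernel
    exact key _ (Nat.mem_divisors.mpr ⟨hdvd, by norm_num⟩) hmod
  haveI : Nontrivial H := Finite.one_lt_card_iff_nontrivial.mp (by rw [hG]; omega)
  obtain ⟨N, hNn, hNbot, hNtop⟩ : ∃ N : Subgroup H, N.Normal ∧ N ≠ ⊥ ∧ N ≠ ⊤ := by
    by_contra hcon
    push Not at hcon
    exact hs ⟨fun N hN => by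
      by_cases hb : N = ⊥
      · exact Or.inl hb
      · exact Or.inr (hcon N hN hb)⟩
  have hab := Subgroup.card_mul_index N
  rw [hG] at hab
  have ha1 : 1 < Nat.card N := by
    have : Nontrivial N := (Subgroup.nontrivial_iff_ne_bot N).mpr hNbot
    exact Finite.one_lt_card
  have hb1 : 1 < N.index := by
    have h1 : N.index ≠ 0 := Subgroup.index_ne_zero_of_finite
    have h2 : N.index ≠ 1 := fun h => hNtop (Subgroup.index_eq_one.mp h)
    omega
  by_cases h11a : 11 ∣ Nat.card N
  · obtain ⟨a', ha'⟩ := id h11a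
    have hab' : a' * N.index = k := by
      rw [ha', mul_assoc] at hab
      exact Nat.eq_of_mul_eq_mul_left (by norm_num) hab
    have hlt : a' < k := by
      rw [← hab']
      have ha0 : 0 < a' := by
        rcases Nat.eq_zero_or_pos a' with h | h
        · subst h
          omega
        · exact h
      nlinarith
    have hd : a' ∣ k := ⟨_, hab'.symm⟩
    have hbound := ih a' hlt (hd.trans hk) N ha' (Or.inl (by
      have := Nat.le_of_dvd (by norm_num) hk
      omega))
    have hle := fun S : Sylow 11 H => sylow_le_of_normal hG h11k N hNn h11a S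
    have hinj : Function.Injective (fun S : Sylow 11 H => S.subtype (hle S)) := by
      intro S S' hSS
      exact Sylow.subtype_injective hSS
    exact (Nat.card_le_card_of_injective _ hinj).trans hbound
  · have h11b : 11 ∣ N.index := by
      have h1 : 11 ∣ Nat.card N * N.index := ⟨k, hab⟩
      exact ((Nat.Prime.dvd_mul (by norm_num)).mp h1).resolve_left h11a
    obtain ⟨b', hb'⟩ := h11b
    have hab' : Nat.card N * b' = k := by
      rw [hb', ← mul_assoc, mul_comm (Nat.card N), mul_assoc] at hab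
      exact Nat.eq_of_mul_eq_mul_left (by norm_num) hab
    have hlt : b' < k := by
      rw [← hab']
      have hb0 : 0 < b' := by
        rcases Nat.eq_zero_or_pos b' with h | h
        · subst h
          omega
        · exact h
      nlinarith
    have hd : b' ∣ k := ⟨Nat.card N, by rw [← hab', mul_comm]⟩
    have hcardq : Nat.card (H ⧸ N) = 11 * b' := by
      rw [← hb']
      rfl
    have hbound := ih b' hlt (hd.trans hk) (H ⧸ N) hcardq (Or.inl (by
      have := Nat.le_of_dvd (by norm_num) hk
      omega))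
    have hNd : Nat.card N ∣ 720 := (Dvd.intro _ hab').trans hk
    have hsurj : Function.Surjective (QuotientGroup.mk' N) := QuotientGroup.mk'_surjective N
    have hinj : Function.Injective (fun S : Sylow 11 H => Sylow.mapSurjective hsurj S) := by
      -- if the images agree then the subgroups agree
      have hsub : ∀ S S' : Sylow 11 H, Sylow.mapSurjective hsurj S = Sylow.mapSurjective hsurj S' →
          (S' : Subgroup H) ≤ (S : Subgroup H) := by
        intro S S' hSS y hy
        have h1 : QuotientGroup.mk' N y ∈ ((Sylow.mapSurjective hsurj S' : Sylow 11 (H ⧸ N)) : Subgroup (H ⧸ N)) := by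
          rw [Sylow.coe_mapSurjective]
          exact mem_map_of_mem _ hy
        rw [← hSS, Sylow.coe_mapSurjective] at h1
        obtain ⟨s, hs', hss⟩ := mem_map.mp h1
        set n := s⁻¹ * y with hn
        have hnN : n ∈ N := by
          apply (QuotientGroup.eq_one_iff n).mp
          change QuotientGroup.mk' N n = 1
          rw [hn, map_mul, map_inv, hss, inv_mul_cancel]
        have hs11 : s ^ 11 = 1 := by
          have h2 := pow_card_eq_one' (G := (S : Subgroup H)) (x := ⟨s, hs'⟩)
          rw [card_sylow hG h11k S] at h2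
          exact congrArg Subtype.val h2
        have hy11 : y ^ 11 = 1 := by
          have h2 := pow_card_eq_one' (G := (S' : Subgroup H)) (x := ⟨y, hy⟩)
          rw [card_sylow hG h11k S'] at h2
          exact congrArg Subtype.val h2
        have hcomm : Commute s n := commute_of_normalizes hs11 N (by
          rw [Subgroup.normalizer_eq_top]
          exact mem_top s) h11a (fun q a b hq h1 hb => good11 _ hNd q a b hq h1 hb) n hnN
        have hyeq : y = s * n := by
          rw [hn]
          group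
        have hn11 : n ^ 11 = 1 := by
          rw [hyeq, hcomm.mul_pow, hs11, one_mul] at hy11
          exact hy11
        have hn1 : n = 1 := by
          have h3 : orderOf n ∣ 11 := orderOf_dvd_of_pow_eq_one hn11
          rcases (Nat.dvd_prime (by norm_num)).mp h3 with h2 | h2
          · exact orderOf_eq_one_iff.mp h2
          · exfalso
            have h5 := orderOf_dvd_natCard (⟨n, hnN⟩ : N)
            rw [Subgroup.orderOf_mk, h2] at h5
            exact h11a h5
        rw [hyeq, hn1, mul_one]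
        exact hs'
      intro S S' hSS
      have h1 := hsub S S' hSS
      have h2 : (S : Subgroup H) = S' := S'.3 S.2 h1
      exact Sylow.ext h2
    exact (Nat.card_le_card_of_injective _ hinj).trans hbound

/-- The edges of the prime graph of a nonsimple group of order 7920. -/
theorem edges {G : Type u} [Group G] [Finite G] (hG : Nat.card G = 7920) (hns : ¬ IsSimpleGroup G) :
    (∃ g : G, orderOf g = 22) ∧ (∃ g : G, orderOf g = 33) ∧ ((∃ g : G, orderOf g = 55) ∨ (∃ g : G, orderOf g = 15)) := by
  haveI h11 : Fact (Nat.Prime 11) := ⟨by norm_num⟩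
  haveI h2 : Fact (Nat.Prime 2) := ⟨by norm_num⟩
  haveI h3 : Fact (Nat.Prime 3) := ⟨by norm_num⟩
  haveI h5 : Fact (Nat.Prime 5) := ⟨by norm_num⟩
  have hG' : Nat.card G = 11 * 720 := by rw [hG]
  have hle := sylow_le 720 dvd_rfl G hG' (Or.inr hns)
  obtain ⟨P⟩ : Nonempty (Sylow 11 G) := inferInstance
  have hP := card_sylow hG' (by norm_num) P
  have hdvd : Nat.card (Sylow 11 G) ∣ 720 := by
    have h1 := Sylow.card_dvd_index P
    have h2 := Subgroup.card_mul_index (P : Subgroup G)
    rw [hP, hG'] at h2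
    have h3 : (P : Subgroup G).index = 720 := Nat.eq_of_mul_eq_mul_left (by norm_num) h2
    rwa [h3] at h1
  have hmod : Nat.card (Sylow 11 G) % 11 = 1 := by
    have h1 : Nat.card (Sylow 11 G) ≡ 1 [MOD 11] := card_sylow_modEq_one 11 G
    exact h1
  have hn : Nat.card (Sylow 11 G) = 1 ∨ Nat.card (Sylow 11 G) = 12 := by
    have key : ∀ n ∈ Nat.divisors 720, n % 11 = 1 → n ≤ 12 → n = 1 ∨ n = 12 := by decide +kernel
    exact key _ (Nat.mem_divisors.mpr ⟨hdvd, by norm_num⟩) hmod hle
  set C := centralizer ((P : Subgroup G) : Set G) with hCdef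
  set N := normalizer ((P : Subgroup G) : Set G) with hNdef
  have hNcard : Nat.card N * Nat.card (Sylow 11 G) = 7920 := by
    rw [← hG]
    exact Cfsg.Agent.Lib.SmallSimple.card_normalizer_mul_card_sylow 11 P
  have hCN : Nat.card N = Nat.card C * C.relIndex N := by
    have h1 := Subgroup.card_mul_index (C.subgroupOf N)
    rw [Nat.card_congr (Subgroup.subgroupOfEquivOfLe (centralizer_le_normalizer ((P : Subgroup G) : Set G))).toEquiv] at h1
    exact h1.symm
  have hm : C.relIndex N ∣ 10 := by
    have hcyc : IsCyclic (P : Subgroup G) := isCyclic_of_prime_card hP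
    have h1 := Cfsg.Agent.Lib.SmallSimple.relIndex_centralizer_normalizer_dvd P
    rw [IsCyclic.card_mulAut, hP, Nat.totient_prime (by norm_num)] at h1
    exact h1
  have hCd : Nat.card C ∣ 7920 := by
    rw [← hG]
    exact card_subgroup_dvd_card _
  have hkey : ∀ c ∈ Nat.divisors 7920, ∀ m ∈ Nat.divisors 10, (c * m = 660 ∨ c * m = 7920) → 2 ∣ c ∧ 3 ∣ c := by
    decide +kernel
  have hNval : Nat.card N = 660 ∨ Nat.card N = 7920 := by
    rcases hn with hn | hn
    · right
      rw [hn] at hNcard
      omega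
    · left
      rw [hn] at hNcard
      omega
  obtain ⟨h2c, h3c⟩ := hkey _ (Nat.mem_divisors.mpr ⟨hCd, by norm_num⟩) _ (Nat.mem_divisors.mpr ⟨hm, by norm_num⟩)
    (by rw [← hCN]; exact hNval)
  have hne : Nontrivial (P : Subgroup G) := by
    apply Finite.one_lt_card_iff_nontrivial.mp
    rw [hP]
    norm_num
  obtain ⟨y', hy'⟩ := exists_ne (1 : (P : Subgroup G))
  have hy1 : (y' : G) ≠ 1 := fun e => hy' (Subtype.ext e)
  have hyo : orderOf (y' : G) = 11 := by
    have h2 : orderOf (y' : G) ∣ 11 := by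
      have h3 := orderOf_dvd_natCard y'
      rwa [← Subgroup.orderOf_coe, hP] at h3
    rcases (Nat.dvd_prime (by norm_num)).mp h2 with h3 | h3
    · exact (hy1 (orderOf_eq_one_iff.mp h3)).elim
    · exact h3
  have hedge : ∀ q : ℕ, q.Prime → q ≠ 11 → q ∣ Nat.card C → ∃ g : G, orderOf g = 11 * q := by
    intro q hq hq11 hqc
    haveI : Fact q.Prime := ⟨hq⟩
    obtain ⟨w, hw⟩ := exists_prime_orderOf_dvd_card' (G := C) q hqc
    have hw' : orderOf (w : G) = q := by rw [Subgroup.orderOf_coe, hw]
    have hcomm : Commute (y' : G) (w : G) := mem_centralizer_iff.mp w.2 y' y'.2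
    have hcop : Nat.Coprime (orderOf (y' : G)) (orderOf (w : G)) := by
      rw [hyo, hw']
      exact (Nat.coprime_primes (by norm_num) hq).mpr (Ne.symm hq11)
    refine ⟨(y' : G) * w, ?_⟩
    rw [hcomm.orderOf_mul_eq_mul_orderOf_of_coprime hcop, hyo, hw']
  refine ⟨hedge 2 (by norm_num) (by norm_num) h2c, hedge 3 (by norm_num) (by norm_num) h3c, ?_⟩
  by_cases h5c : 5 ∣ Nat.card C
  · exact Or.inl (hedge 5 (by norm_num) (by norm_num) h5c)
  · right
    have h5N : 5 ∣ Nat.card N := by
      rcases hNval with h | h <;> rw [h] <;> norm_num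
    obtain ⟨x', hx'⟩ := exists_prime_orderOf_dvd_card' (G := N) 5 h5N
    have hxo : orderOf (x' : G) = 5 := by rw [Subgroup.orderOf_coe, hx']
    have hx5 : (x' : G) ^ 5 = 1 := by
      rw [← hxo]
      exact pow_orderOf_eq_one _
    have hxN : (x' : G) ∈ normalizer (C : Set G) := by
      have hx2 := x'.2
      rw [mem_normalizer_iff]
      intro u
      have hmem : ∀ w : G, w ∈ (P : Subgroup G) ↔ (x' : G) * w * (x' : G)⁻¹ ∈ (P : Subgroup G) := fun w => mem_normalizer_iff.mp hx2 w
      constructor
      · intro hu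
        rw [hCdef, mem_centralizer_iff] at hu ⊢
        intro w hw
        have hw' : (x' : G)⁻¹ * w * (x' : G) ∈ (P : Subgroup G) := by
          apply (hmem _).mpr
          have e : (x' : G) * ((x' : G)⁻¹ * w * (x' : G)) * (x' : G)⁻¹ = w := by group
          rw [e]
          exact hw
        have h1 := hu _ hw'
        calc w * ((x' : G) * u * (x' : G)⁻¹) = (x' : G) * ((x' : G)⁻¹ * w * (x' : G) * u) * (x' : G)⁻¹ := by group
          _ = (x' : G) * (u * ((x' : G)⁻¹ * w * (x' : G))) * (x' : G)⁻¹ := by rw [h1]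
          _ = (x' : G) * u * (x' : G)⁻¹ * w := by group
      · intro hu
        rw [hCdef, mem_centralizer_iff] at hu ⊢
        intro w hw
        have hw' : (x' : G) * w * (x' : G)⁻¹ ∈ (P : Subgroup G) := (hmem w).mp hw
        have h1 := hu _ hw'
        have h2 : (x' : G) * (w * u) * (x' : G)⁻¹ = (x' : G) * (u * w) * (x' : G)⁻¹ := by
          calc (x' : G) * (w * u) * (x' : G)⁻¹ = ((x' : G) * w * (x' : G)⁻¹) * ((x' : G) * u * (x' : G)⁻¹) := by group
            _ = ((x' : G) * u * (x' : G)⁻¹) * ((x' : G) * w * (x' : G)⁻¹) := h1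
            _ = (x' : G) * (u * w) * (x' : G)⁻¹ := by group
        have h3 : w * u = u * w := mul_left_cancel (mul_right_cancel h2)
        exact h3
    obtain ⟨R, hR⟩ := fix_sylow hx5 C hxN 3 h5c (by
      intro a b ha hb
      have ha2 : a ≤ 2 := by
        by_contra hcon
        have : 3 ^ 3 ∣ 7920 := (pow_dvd_pow 3 (by omega)).trans (ha.trans hCd)
        norm_num at this
      interval_cases a <;> interval_cases b <;> norm_num)
    have h3R : 3 ∣ Nat.card (R : Subgroup C) := by
      rw [Sylow.card_eq_multiplicity R]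
      exact dvd_pow_self 3 (Nat.Prime.factorization_pos_of_dvd (by norm_num) Nat.card_pos.ne' h3c).ne'
    obtain ⟨w, hw⟩ := exists_prime_orderOf_dvd_card' (G := (R : Subgroup C)) 3 h3R
    have hw' : orderOf (((w : C) : G)) = 3 := by
      rw [Subgroup.orderOf_coe, Subgroup.orderOf_coe, hw]
    have hcomm := hR w w.2
    have hcop : Nat.Coprime (orderOf (x' : G)) (orderOf (((w : C) : G))) := by
      rw [hxo, hw']
      norm_num
    refine ⟨(x' : G) * ((w : C) : G), ?_⟩
    rw [hcomm.orderOf_mul_eq_mul_orderOf_of_coprime hcop, hxo, hw']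

end Cfsg.Agent.Lib.Misc19.M11P
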