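import Mathlib
import Cfsg.Agent.S4702
import Cfsg.Agent.Lib.Small.BrauerKill2
import Cfsg.Agent.Lib.SmallSimple.AltNormalizer
import Cfsg.Agent.Lib.SmallSimple.Intersect
import Cfsg.Agent.Lib.SmallSimple.Conj
import Cfsg.Agent.Lib.SmallSimple.Fixed
import Cfsg.Agent.Lib.Transfer.Fusion
import Cfsg.Agent.Lib.Classical.Transfer

/-! A simple group of order 504 is sharply 3-transitive on its 9 Sylow 2-subgroups. -/

set_option autoImplicit false
set_option linter.style.haveILetI false

namespace Cfsg.Agent.Lib.Misc19.O504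

open Subgroup
open scoped Pointwise commutatorElement

variable {G : Type*} [Group G] [Finite G]

/-- An element commuting with an element of order `p` has order dividing `|C(P)|`, `P` Sylow of order `p`. -/
theorem orderOf_dvd_of_commute {p : ℕ} [hp : Fact p.Prime] (P : Sylow p G) (hP : Nat.card (P : Subgroup G) = p)
    {y x : G} (hy : orderOf y = p) (hxy : Commute x y) :
    orderOf x ∣ Nat.card (centralizer ((P : Subgroup G) : Set G)) := by
  have hcardQ : Nat.card (zpowers y) = p := by rw [Nat.card_zpowers, hy]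
  let R : Sylow p G := Sylow.ofCard (zpowers y) (by
    rw [hcardQ]
    have := Sylow.card_eq_multiplicity P
    rw [hP] at this
    exact this)
  obtain ⟨g, hg⟩ := MulAction.exists_smul_eq G P R
  have hmem : g⁻¹ * x * g ∈ centralizer ((P : Subgroup G) : Set G) := by
    rw [mem_centralizer_iff]
    intro w hw
    have hw' : g * w * g⁻¹ ∈ zpowers y := by
      have h2 : MulAut.conj g • w ∈ ((g • P : Sylow p G) : Subgroup G) := by
        rw [Sylow.coe_subgroup_smul]
        exact smul_mem_pointwise_smul _ _ _ hw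
      rw [hg] at h2
      simpa [R, MulAut.smul_def, MulAut.conj_apply] using h2
    have hcomm : g * w * g⁻¹ * x = x * (g * w * g⁻¹) := by
      obtain ⟨k, hk⟩ := mem_zpowers_iff.mp hw'
      rw [← hk]
      exact ((Commute.zpow_left hxy.symm k)).eq
    have h1 : g⁻¹ * (g * w * g⁻¹ * x) * g = g⁻¹ * (x * (g * w * g⁻¹)) * g := by rw [hcomm]
    simpa [mul_assoc] using h1
  have hord : orderOf (g⁻¹ * x * g) = orderOf x := by
    have : g⁻¹ * x * g = MulAut.conj g⁻¹ x := by simp [MulAut.conj_apply]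
    rw [this, MulEquiv.orderOf_eq]
  have h1 := orderOf_dvd_natCard (⟨_, hmem⟩ : centralizer ((P : Subgroup G) : Set G))
  rw [orderOf_mk, hord] at h1
  exact h1

variable [IsSimpleGroup G]

theorem not_comm (h : Nat.card G = 504) : ¬ IsMulCommutative G :=
  Cfsg.Agent.Lib.SmallSimple.not_comm_of_not_prime (by rw [h]; norm_num)

/-- The 7-part. -/
theorem seven_part (h : Nat.card G = 504) : ∃ P : Sylow 7 G, Nat.card (P : Subgroup G) = 7 ∧
    Nat.card (centralizer ((P : Subgroup G) : Set G)) = 7 ∧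
    Nat.card (normalizer ((P : Subgroup G) : Set G)) = 14 ∧ Nat.card (Sylow 7 G) = 36 := by
  haveI := Fintype.ofFinite G
  haveI hp : Fact (Nat.Prime 7) := ⟨by norm_num⟩
  have hcard : Nat.card G = 7 * 72 := by rw [h]
  obtain ⟨P, m, c, n, hP, hnc, hCN, hCc, hn, hmd, hm1, hcd, hnd, hcmn, hnp, hn1, hfac, hsm⟩ :=
    Cfsg.Agent.Lib.Small.BD.exists_setup2 hcard (by norm_num) (by norm_num) (by norm_num)
  have hsm' : n ≠ 8 ∨ 2 * (7 * c * m) ∣ 42 := by
    by_cases hh : n = 8
    · exact Or.inr (hsm hh)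
    · exact Or.inl hh
  have key : ∀ m ∈ Nat.divisors 6, ∀ n ∈ Nat.divisors 72, ∀ c ∈ Nat.divisors 72, 1 < m → 1 < n → n % 7 = 1 →
      c * m * n = 72 → (n ≠ 8 ∨ 2 * (7 * c * m) ∣ 42) → m = 2 ∧ c = 1 ∧ n = 36 := by
    decide +kernel
  obtain ⟨rfl, rfl, rfl⟩ := key m hmd n hnd c hcd hm1 hn1 hnp hcmn hsm'
  refine ⟨P, hP, by rw [hCc], ?_, hn⟩
  rw [Cfsg.Agent.Lib.Small.BD.card_normalizer_eq (P : Subgroup G) hCN, hCc]

/-- No subgroup of index 7. -/
theorem no_index_seven (h : Nat.card G = 504) (H : Subgroup G) : H.index ≠ 7 := by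
  intro hi
  obtain ⟨P, hP, -, hN, -⟩ := seven_part h
  have hH : H ≠ ⊤ := by
    rintro rfl
    rw [index_top] at hi
    omega
  haveI hp : Fact (Nat.Prime 7) := ⟨by norm_num⟩
  have := Cfsg.Agent.Lib.SmallSimple.two_mul_card_normalizer_dvd (not_comm h) H hH (p := 7) (by norm_num)
    (Or.inl hi) P hP
  rw [hN] at this
  norm_num at this

/-- Nothing of order 7 commutes with a nontrivial element of order not 7. -/
theorem orderOf_dvd_seven (h : Nat.card G = 504) {x y : G} (hy : orderOf y = 7) (hxy : Commute x y) : orderOf x ∣ 7 := by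
  obtain ⟨P, hP, hC, -, -⟩ := seven_part h
  haveI hp : Fact (Nat.Prime 7) := ⟨by norm_num⟩
  have := orderOf_dvd_of_commute P hP hy hxy
  rwa [hC] at this

/-- Sylow 3-subgroups have order 9 and are abelian. -/
theorem card_sylow3 (h : Nat.card G = 504) [Fact (Nat.Prime 3)] (T : Sylow 3 G) : Nat.card (T : Subgroup G) = 3 ^ 2 :=
  Cfsg.Agent.Lib.SmallSimple.sylow_card_of_eq T (m := 56) (by rw [h]; norm_num) (by norm_num)

theorem comm_sylow3 (h : Nat.card G = 504) [Fact (Nat.Prime 3)] (T : Sylow 3 G) : IsMulCommutative (T : Subgroup G) :=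
  IsPGroup.isMulCommutative_of_card_eq_prime_sq (card_sylow3 h T)

theorem count_sylow3 (h : Nat.card G = 504) [Fact (Nat.Prime 3)] : Nat.card (Sylow 3 G) = 28 := by
  have hcard : Nat.card G = 3 ^ 2 * 56 := by rw [h]; norm_num
  have hnp : ¬ IsPGroup 3 G :=
    Cfsg.Agent.Lib.SmallSimple.not_isPGroup_of_dvd (q := 2) (by norm_num) (by norm_num) (by norm_num) (by rw [h]; norm_num)
  obtain ⟨h1, h2, h3, h4⟩ := Cfsg.Agent.Lib.SmallSimple.sylow_package hcard (by norm_num) (by norm_num) hnp (not_comm h)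
  have key : ∀ n ∈ Nat.divisors 56, n % 3 = 1 → 1 < n → 2 * (3 ^ 2 * 56) ∣ n.factorial → n = 7 ∨ n = 28 := by decide +kernel
  rw [hcard] at h4
  rcases key _ (Nat.mem_divisors.mpr ⟨h2, by norm_num⟩) h1 h3 h4 with h7 | h28
  · exfalso
    obtain ⟨T⟩ : Nonempty (Sylow 3 G) := inferInstance
    apply no_index_seven h (normalizer (T : Set G))
    rw [← Sylow.card_eq_index_normalizer T]
    exact h7
  · exact h28

/-- A subgroup of order 4 normal in a subgroup of order 36 cannot exist. -/
theorem no_four_normal (h : Nat.card G = 504) (C V : Subgroup G) (hC : Nat.card C = 36) (hV : Nat.card V = 4)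
    (hVC : C ≤ normalizer (V : Set G)) : False := by
  haveI hp2 : Fact (Nat.Prime 2) := ⟨by norm_num⟩
  have hV2 : IsPGroup 2 V := IsPGroup.of_card (n := 2) (by rw [hV]; norm_num)
  obtain ⟨Q, hQ⟩ := hV2.exists_le_sylow
  have hQc : Nat.card (Q : Subgroup G) = 2 ^ 3 :=
    Cfsg.Agent.Lib.SmallSimple.sylow_card_of_eq Q (m := 63) (by rw [h]; norm_num) (by norm_num)
  have hidx : (V.subgroupOf (Q : Subgroup G)).index = 2 := by
    have h1 := Subgroup.card_mul_index (V.subgroupOf (Q : Subgroup G))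
    rw [Nat.card_congr (subgroupOfEquivOfLe hQ).toEquiv, hV, hQc] at h1
    omega
  have hnorm : (V.subgroupOf (Q : Subgroup G)).Normal := normal_of_index_eq_two hidx
  have hQN : (Q : Subgroup G) ≤ normalizer (V : Set G) := by
    intro x hx
    rw [mem_normalizer_iff]
    intro y
    constructor
    · intro hy
      have := hnorm.conj_mem ⟨y, hQ hy⟩ (by simpa [mem_subgroupOf] using hy) ⟨x, hx⟩
      simpa [mem_subgroupOf] using this
    · intro hy
      have hyQ : y ∈ (Q : Subgroup G) := by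
        have h1 : x⁻¹ * (x * y * x⁻¹) * x⁻¹⁻¹ ∈ (Q : Subgroup G) :=
          mul_mem (mul_mem (inv_mem hx) (hQ hy)) (inv_mem (inv_mem hx))
        simpa [mul_assoc] using h1
      have := hnorm.conj_mem ⟨x * y * x⁻¹, hQ hy⟩ (by simpa [mem_subgroupOf] using hy) ⟨x⁻¹, inv_mem hx⟩
      simpa [mem_subgroupOf, mul_assoc] using this
  set n := Nat.card (normalizer (V : Set G)) with hn
  have h36 : 36 ∣ n := by
    rw [← hC]
    exact card_dvd_of_le hVC
  have h8 : 8 ∣ n := by
    have : (2 : ℕ) ^ 3 ∣ n := by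
      rw [← hQc]
      exact card_dvd_of_le hQN
    simpa using this
  have hd : n ∣ 504 := by
    rw [← h]
    exact card_subgroup_dvd_card _
  have h7 : ¬ 7 ∣ n := by
    intro h7
    haveI hp7 : Fact (Nat.Prime 7) := ⟨by norm_num⟩
    obtain ⟨y, hy⟩ := exists_prime_orderOf_dvd_card' (G := normalizer (V : Set G)) 7 h7
    -- `y` acts trivially on `V`
    let f := V.normalizerMonoidHom
    have hdvd1 : orderOf (f y) ∣ 7 := by
      have := orderOf_map_dvd f y
      rwa [hy] at this
    have hdvd2 : orderOf (f y) ∣ 6 := (orderOf_dvd_natCard (f y)).trans (Cfsg.Agent.Lib.SmallSimple.card_mulAut_dvd_of_card_four hV)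
    have h1 : orderOf (f y) = 1 := by
      have : orderOf (f y) ∣ Nat.gcd 7 6 := Nat.dvd_gcd hdvd1 hdvd2
      simpa using this
    have hy1 : f y = 1 := orderOf_eq_one_iff.mp h1
    have hyC : (y : G) ∈ centralizer (V : Set G) := by
      have : y ∈ f.ker := hy1
      rwa [normalizerMonoidHom_ker] at this
    obtain ⟨v, hv⟩ := exists_prime_orderOf_dvd_card' (G := V) 2 (by rw [hV]; norm_num)
    have hcomm : Commute (v : G) (y : G) := by
      have := mem_centralizer_iff.mp hyC v v.2
      exact this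
    have := orderOf_dvd_seven h (x := (v : G)) (y := (y : G)) (by rw [← orderOf_coe] at hy; exact hy) hcomm
    rw [orderOf_coe, hv] at this
    norm_num at this
  have hn72 : n = 72 := by
    have key : ∀ n ∈ Nat.divisors 504, 36 ∣ n → 8 ∣ n → ¬ 7 ∣ n → n = 72 := by decide +kernel
    exact key n (Nat.mem_divisors.mpr ⟨hd, by norm_num⟩) h36 h8 h7
  apply no_index_seven h (normalizer (V : Set G))
  have := card_mul_index (normalizer (V : Set G))
  rw [h, ← hn, hn72] at this
  omega

omit [Finite G] [IsSimpleGroup G] in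
theorem map_normal_le_normalizer (C : Subgroup G) (K : Subgroup C) [hK : K.Normal] :
    C ≤ normalizer ((K.map C.subtype : Subgroup G) : Set G) := by
  have h1 := le_normalizer_map (H := K) C.subtype
  rw [normalizer_eq_top] at h1
  intro x hx
  exact h1 ⟨⟨x, hx⟩, trivial, rfl⟩

/-- Sylow 3-subgroups intersect trivially. -/
theorem sylow3_ti (h : Nat.card G = 504) [Fact (Nat.Prime 3)] (T T' : Sylow 3 G) {d : G} (hd : d ∈ (T : Subgroup G))
    (hd' : d ∈ (T' : Subgroup G)) (hd1 : d ≠ 1) : T = T' := by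
  by_contra hne
  set C := centralizer ({d} : Set G) with hCdef
  have hle : ∀ S : Sylow 3 G, d ∈ (S : Subgroup G) → (S : Subgroup G) ≤ C := by
    intro S hS x hx
    rw [hCdef, mem_centralizer_singleton_iff]
    have := (comm_sylow3 h S).is_comm.comm (⟨x, hx⟩ : (S : Subgroup G)) ⟨d, hS⟩
    exact congrArg Subtype.val this
  have hc9 : 3 ^ 2 ∣ Nat.card C := by
    rw [← card_sylow3 h T]
    exact card_dvd_of_le (hle T hd)
  have hcd : Nat.card C ∣ 504 := by
    rw [← h]
    exact card_subgroup_dvd_card _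
  have hc7 : ¬ 7 ∣ Nat.card C := by
    intro h7
    haveI hp7 : Fact (Nat.Prime 7) := ⟨by norm_num⟩
    obtain ⟨y, hy⟩ := exists_prime_orderOf_dvd_card' (G := C) 7 h7
    have hcomm : Commute d (y : G) := by
      have := mem_centralizer_singleton_iff.mp y.2
      exact (this.symm)
    have h1 := orderOf_dvd_seven h (x := d) (y := (y : G)) (by rw [← orderOf_coe] at hy; exact hy) hcomm
    have h2 : orderOf d ∣ Nat.card (T : Subgroup G) := by
      have := orderOf_dvd_natCard (⟨d, hd⟩ : (T : Subgroup G))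
      rwa [orderOf_mk] at this
    rw [card_sylow3 h T] at h2
    have h3 : orderOf d ∣ Nat.gcd 7 (3 ^ 2) := Nat.dvd_gcd h1 h2
    have h4 : orderOf d = 1 := by simpa using h3
    exact hd1 (orderOf_eq_one_iff.mp h4)
  -- the Sylow count in `C`
  let S₁ : Sylow 3 C := T.subtype (hle T hd)
  let S₂ : Sylow 3 C := T'.subtype (hle T' hd')
  have hS₁ : ((S₁ : Subgroup C)).map C.subtype = (T : Subgroup G) := by
    show ((T : Subgroup G).subgroupOf C).map C.subtype = _
    rw [subgroupOf_map_subtype]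
    exact inf_eq_left.mpr (hle T hd)
  have hS₂ : ((S₂ : Subgroup C)).map C.subtype = (T' : Subgroup G) := by
    show ((T' : Subgroup G).subgroupOf C).map C.subtype = _
    rw [subgroupOf_map_subtype]
    exact inf_eq_left.mpr (hle T' hd')
  have hne' : S₁ ≠ S₂ := by
    intro he
    apply hne
    apply Sylow.ext
    rw [← hS₁, ← hS₂, he]
  have hcardS : Nat.card (S₁ : Subgroup C) = 3 ^ 2 := by
    rw [← card_sylow3 h T, ← hS₁]
    exact (Nat.card_congr (equivMapOfInjective _ _ C.subtype_injective).toEquiv)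
  set n := Nat.card (Sylow 3 C) with hn
  have hn1 : n % 3 = 1 := by
    have := card_sylow_modEq_one 3 C
    exact this
  have hnne : n ≠ 1 := by
    intro h1
    have : Subsingleton (Sylow 3 C) := (Nat.card_eq_one_iff_unique.mp h1).1
    exact hne' (Subsingleton.elim _ _)
  have hmul := Cfsg.Agent.Lib.SmallSimple.card_normalizer_mul_card_sylow 3 S₁
  rw [← hn] at hmul
  have h9N : 3 ^ 2 ∣ Nat.card (normalizer (S₁ : Set C)) := by
    rw [← hcardS]
    exact card_dvd_of_le le_normalizer
  obtain ⟨k, hk⟩ := h9N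
  have hc : Nat.card C = 3 ^ 2 * k * n := by rw [← hk, hmul]
  have key : ∀ c ∈ Nat.divisors 504, ∀ k ∈ Nat.divisors 504, ∀ n ∈ Nat.divisors 504, c = 3 ^ 2 * k * n → ¬ 7 ∣ c → n % 3 = 1 → n ≠ 1 →
      (n = 4 ∧ k = 1 ∧ c = 36) ∨ c = 72 := by decide +kernel
  have hk0 : k ∣ 504 := by
    refine Dvd.dvd.trans ?_ hcd
    rw [hc]
    exact Dvd.dvd.mul_right (Dvd.intro_left _ rfl) n
  have hn0 : n ∣ 504 := by
    refine Dvd.dvd.trans ?_ hcd
    rw [hc]
    exact Dvd.intro_left _ rfl
  rcases key _ (Nat.mem_divisors.mpr ⟨hcd, by norm_num⟩) k (Nat.mem_divisors.mpr ⟨hk0, by norm_num⟩) n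
    (Nat.mem_divisors.mpr ⟨hn0, by norm_num⟩) hc hc7 hn1 hnne with ⟨hn4, hk1, hc36⟩ | hc72
  · -- Burnside in `C`
    have hNeq : normalizer (S₁ : Set C) = (S₁ : Subgroup C) := by
      symm
      have hle2 : Nat.card (normalizer (S₁ : Set C)) ≤ Nat.card (S₁ : Subgroup C) := by
        rw [hk, hcardS, hk1]
        norm_num
      exact Subgroup.eq_of_le_of_card_ge le_normalizer hle2
    have hcommS : IsMulCommutative (S₁ : Subgroup C) :=
      IsPGroup.isMulCommutative_of_card_eq_prime_sq hcardS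
    have hcent : normalizer (S₁ : Set C) ≤ centralizer (S₁ : Set C) := by
      rw [hNeq]
      intro x hx
      rw [mem_centralizer_iff]
      intro y hy
      have := hcommS.is_comm.comm (⟨y, hy⟩ : (S₁ : Subgroup C)) ⟨x, hx⟩
      exact congrArg Subtype.val this
    have hcompl := MonoidHom.ker_transferSylow_isComplement' S₁ hcent
    set K := (MonoidHom.transferSylow S₁ hcent).ker with hK
    have hKn : K.Normal := MonoidHom.normal_ker _
    have hKc : Nat.card K = 4 := by
      have h1 := hcompl.card_mul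
      rw [hcardS, hc36] at h1
      omega
    refine no_four_normal h C (K.map C.subtype) hc36 ?_ ?_
    · rw [← hKc]
      exact (Nat.card_congr (equivMapOfInjective _ _ C.subtype_injective).toEquiv).symm
    · exact map_normal_le_normalizer C K
  · apply no_index_seven h C
    have := card_mul_index C
    rw [h, hc72] at this
    omega

/-- No element of order 6. -/
theorem no_six (h : Nat.card G = 504) [Fact (Nat.Prime 3)] {d t : G} (hd : orderOf d = 3) (ht : orderOf t = 2)
    (hc : Commute d t) : False := by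
  obtain ⟨T, hT⟩ := Cfsg.Agent.Lib.SmallSimple.exists_sylow_of_orderOf hd
  have hd1 : d ≠ 1 := by
    rintro rfl
    simp at hd
  have ht2 : t ^ 2 = 1 := by rw [← ht, pow_orderOf_eq_one]
  have htinv : t⁻¹ = t := by
    rw [inv_eq_iff_mul_eq_one, ← pow_two, ht2]
  have hts : t • T = T := by
    apply sylow3_ti h _ _ (d := d) ?_ hT hd1
    have h1 : MulAut.conj t • d ∈ ((t • T : Sylow 3 G) : Subgroup G) := by
      rw [Sylow.coe_subgroup_smul]
      exact smul_mem_pointwise_smul _ _ _ hT
    have h2 : MulAut.conj t • d = d := by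
      rw [MulAut.smul_def, MulAut.conj_apply, ← hc.eq]
      simp
    rwa [h2] at h1
  have htN : t ∈ normalizer (T : Set G) := Sylow.smul_eq_iff_mem_normalizer.mp hts
  haveI hcommT : IsMulCommutative (T : Subgroup G) := comm_sylow3 h T
  have hcomm : ∀ x ∈ (T : Subgroup G), ∀ y ∈ (T : Subgroup G), x * y = y * x := by
    intro x hx y hy
    have := hcommT.is_comm.comm (⟨x, hx⟩ : (T : Subgroup G)) ⟨y, hy⟩
    exact congrArg Subtype.val this
  have hNc : Nat.card (normalizer (T : Set G)) = 18 := by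
    have h1 := Cfsg.Agent.Lib.SmallSimple.card_normalizer_mul_card_sylow 3 T
    rw [count_sylow3 h, h] at h1
    omega
  have hTc := card_sylow3 h T
  have htT : t ∉ (T : Subgroup G) := by
    intro hin
    have := orderOf_dvd_natCard (⟨t, hin⟩ : (T : Subgroup G))
    rw [orderOf_mk, ht, hTc] at this
    norm_num at this
  have hσ : ∀ x ∈ (T : Subgroup G), t * x * t⁻¹ ∈ (T : Subgroup G) := fun x hx =>
    (mem_normalizer_iff.mp htN x).mp hx
  -- decomposition of the normalizer
  have hdec : ∀ a ∈ normalizer (T : Set G), a ∈ (T : Subgroup G) ∨ ∃ x ∈ (T : Subgroup G), a = x * t := by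
    intro a ha
    by_cases haT : a ∈ (T : Subgroup G)
    · exact Or.inl haT
    · right
      have hTN : (T : Subgroup G) ≤ normalizer (T : Set G) := le_normalizer
      have hidx : ((T : Subgroup G).subgroupOf (normalizer (T : Set G))).index = 2 := by
        have h1 := card_mul_index ((T : Subgroup G).subgroupOf (normalizer (T : Set G)))
        rw [Nat.card_congr (subgroupOfEquivOfLe hTN).toEquiv, hNc, hTc] at h1
        omega
      have h2 := mul_mem_iff_of_index_two hidx (a := ⟨a, ha⟩) (b := ⟨t, htN⟩)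
      have h3 : (⟨a, ha⟩ * ⟨t, htN⟩ : normalizer (T : Set G)) ∈ (T : Subgroup G).subgroupOf (normalizer (T : Set G)) := by
        rw [h2]
        simp only [mem_subgroupOf]
        exact iff_of_false haT htT
      rw [mem_subgroupOf] at h3
      refine ⟨a * t, h3, ?_⟩
      rw [mul_assoc, ← pow_two, ht2, mul_one]
  -- the anti-invariant part
  let Tm : Subgroup G :=
    { carrier := {z | z ∈ (T : Subgroup G) ∧ t * z * t⁻¹ = z⁻¹}
      mul_mem' := by
        rintro z w ⟨hz, hz'⟩ ⟨hw, hw'⟩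
        refine ⟨mul_mem hz hw, ?_⟩
        have : t * (z * w) * t⁻¹ = (t * z * t⁻¹) * (t * w * t⁻¹) := by group
        rw [this, hz', hw', mul_inv_rev, hcomm _ (inv_mem hz) _ (inv_mem hw)]
      one_mem' := by
        refine ⟨one_mem _, ?_⟩
        simp
      inv_mem' := by
        rintro z ⟨hz, hz'⟩
        refine ⟨inv_mem hz, ?_⟩
        have : t * z⁻¹ * t⁻¹ = (t * z * t⁻¹)⁻¹ := by group
        rw [this, hz'] }
  have hr : ∀ x ∈ (T : Subgroup G), x * (t * x * t⁻¹)⁻¹ ∈ Tm := by
    intro x hx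
    refine ⟨mul_mem hx (inv_mem (hσ x hx)), ?_⟩
    have h1 : t * (t * x * t⁻¹) * t⁻¹ = x := by
      have : t * (t * x * t⁻¹) * t⁻¹ = t ^ 2 * x * (t ^ 2)⁻¹ := by
        simp only [pow_two, mul_inv_rev, mul_assoc]
      rw [this, ht2]
      simp
    have h2 : t * (x * (t * x * t⁻¹)⁻¹) * t⁻¹ = (t * x * t⁻¹) * (t * (t * x * t⁻¹) * t⁻¹)⁻¹ := by group
    rw [h2, h1]
    group
  have hcase : ∀ x ∈ (T : Subgroup G), ∀ y ∈ (T : Subgroup G), ⁅x, y * t⁆ ∈ Tm := by
    intro x hx y hy
    have : ⁅x, y * t⁆ = x * (t * x * t⁻¹)⁻¹ := by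
      have h1 : y * (t * x * t⁻¹)⁻¹ = (t * x * t⁻¹)⁻¹ * y := hcomm _ hy _ (inv_mem (hσ x hx))
      rw [commutatorElement_def]
      calc x * (y * t) * x⁻¹ * (y * t)⁻¹ = x * (y * (t * x * t⁻¹)⁻¹) * y⁻¹ := by group
        _ = x * ((t * x * t⁻¹)⁻¹ * y) * y⁻¹ := by rw [h1]
        _ = _ := by group
    rw [this]
    exact hr x hx
  have hcase2 : ∀ x ∈ (T : Subgroup G), ∀ y ∈ (T : Subgroup G), ⁅x * t, y * t⁆ ∈ Tm := by
    intro x hx y hy
    have : ⁅x * t, y * t⁆ = (x * (t * x * t⁻¹)⁻¹) * (y * (t * y * t⁻¹)⁻¹)⁻¹ := by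
      have h1 : (t * y * t⁻¹) * (t * x * t⁻¹)⁻¹ = (t * x * t⁻¹)⁻¹ * (t * y * t⁻¹) :=
        hcomm _ (hσ y hy) _ (inv_mem (hσ x hx))
      rw [commutatorElement_def]
      calc x * t * (y * t) * (x * t)⁻¹ * (y * t)⁻¹
          = x * ((t * y * t⁻¹) * (t * x * t⁻¹)⁻¹) * y⁻¹ := by group
        _ = x * ((t * x * t⁻¹)⁻¹ * (t * y * t⁻¹)) * y⁻¹ := by rw [h1]
        _ = _ := by group
    rw [this]
    exact mul_mem (hr x hx) (inv_mem (hr y hy))
  have hle : ⁅normalizer (T : Set G), normalizer (T : Set G)⁆ ≤ Tm := by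
    rw [commutator_le]
    intro a ha b hb
    rcases hdec a ha with haT | ⟨x, hx, rfl⟩ <;> rcases hdec b hb with hbT | ⟨y, hy, rfl⟩
    · have : ⁅a, b⁆ = 1 := commutatorElement_eq_one_iff_commute.mpr (hcomm a haT b hbT)
      rw [this]
      exact one_mem _
    · exact hcase a haT y hy
    · have : ⁅x * t, b⁆ = ⁅b, x * t⁆⁻¹ := (commutatorElement_inv _ _).symm
      rw [this]
      exact inv_mem (hcase b hbT x hx)
    · exact hcase2 x hx y hy
  haveI := Fintype.ofFinite G
  have hperf : commutator G = ⊤ := Cfsg.Agent.Lib.Small.BD.perfect_of_simple (not_comm h)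
  have hfoc := Cfsg.Agent.Lib.Transfer.commutator_inf_eq_of_control T (normalizer (T : Set G))
    (fun x hx u hu => Cfsg.Agent.Lib.Transfer.exists_normalizer_conj_of_abelian T hx u hu) le_normalizer
  have hdmem : d ∈ commutator G ⊓ (T : Subgroup G) := by
    rw [hperf]
    exact ⟨trivial, hT⟩
  rw [hfoc] at hdmem
  have hdm := hle hdmem.1
  have hinv := hdm.2
  have hfix : t * d * t⁻¹ = d := by
    rw [← hc.eq]
    simp
  rw [hfix] at hinv
  have h2 : d ^ 2 = 1 := by
    rw [pow_two]
    nth_rewrite 1 [hinv]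
    simp
  have := orderOf_dvd_of_pow_eq_one h2
  rw [hd] at this
  norm_num at this

/-- The number of elements of order 3 or 9. -/
theorem card_three_nine (h : Nat.card G = 504) [Fact (Nat.Prime 3)] :
    224 ≤ Nat.card {g : G // orderOf g = 3} + Nat.card {g : G // orderOf g = 9} := by
  classical
  haveI := Fintype.ofFinite G
  haveI : Fintype (Sylow 3 G) := Fintype.ofFinite _
  let A := Σ T : Sylow 3 G, {x : (T : Subgroup G) // x ≠ 1}
  have hord : ∀ (T : Sylow 3 G) (x : (T : Subgroup G)), x ≠ 1 → orderOf (x : G) = 3 ∨ orderOf (x : G) = 9 := by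
    intro T x hx
    have h1 : orderOf x ∣ 3 ^ 2 := by
      rw [← card_sylow3 h T]
      exact orderOf_dvd_natCard x
    rw [orderOf_coe]
    have hle : orderOf x ≠ 1 := fun h0 => hx (orderOf_eq_one_iff.mp h0)
    have key : ∀ n ∈ Nat.divisors (3 ^ 2), n ≠ 1 → n = 3 ∨ n = 9 := by decide
    exact key _ (Nat.mem_divisors.mpr ⟨h1, by norm_num⟩) hle
  let f : A → {g : G // orderOf g = 3} ⊕ {g : G // orderOf g = 9} := fun a =>
    if h3 : orderOf ((a.2.1 : (a.1 : Subgroup G)) : G) = 3 then Sum.inl ⟨_, h3⟩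
    else Sum.inr ⟨_, (hord a.1 a.2.1 a.2.2).resolve_left h3⟩
  have hval : ∀ a : A, (match f a with | Sum.inl y => (y : G) | Sum.inr y => (y : G)) = ((a.2.1 : (a.1 : Subgroup G)) : G) := by
    intro a
    by_cases h3 : orderOf ((a.2.1 : (a.1 : Subgroup G)) : G) = 3
    · simp only [f, dif_pos h3]
    · simp only [f, dif_neg h3]
  have hinj : Function.Injective f := by
    intro a b hab
    have h1 := hval a
    have h2 := hval b
    rw [hab, h2] at h1
    obtain ⟨T, x, hx⟩ := a
    obtain ⟨T', x', hx'⟩ := b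
    simp only at h1
    have hne1 : (x : G) ≠ 1 := fun e => hx (Subtype.ext e)
    have hT : T' = T := sylow3_ti h T' T x'.2 (by rw [h1]; exact x.2) (by rw [h1]; exact hne1)
    subst hT
    have : x' = x := Subtype.ext h1
    subst this
    rfl
  have hle := Nat.card_le_card_of_injective f hinj
  rw [Nat.card_sum] at hle
  refine le_trans ?_ hle
  have hA : Nat.card A = 28 * 8 := by
    rw [Nat.card_sigma]
    have hc : ∀ T : Sylow 3 G, Nat.card {x : (T : Subgroup G) // x ≠ 1} = 8 := by
      intro T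
      have h2 := card_sylow3 h T
      rw [Nat.card_eq_fintype_card] at h2 ⊢
      rw [Fintype.card_subtype_compl, h2]
      simp
    rw [Finset.sum_congr rfl (fun T _ => hc T), Finset.sum_const, Finset.card_univ, smul_eq_mul,
      ← Nat.card_eq_fintype_card, count_sylow3 h]
  rw [hA]

/-- Centralizers of involutions are 2-groups of order at most 8. -/
theorem centralizer_dvd_eight (h : Nat.card G = 504) [Fact (Nat.Prime 3)] {t : G} (ht : orderOf t = 2) :
    Nat.card (centralizer ({t} : Set G)) ∣ 8 := by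
  have hd : Nat.card (centralizer ({t} : Set G)) ∣ 504 := by
    rw [← h]
    exact card_subgroup_dvd_card _
  have h3 : ¬ 3 ∣ Nat.card (centralizer ({t} : Set G)) := by
    intro h3
    obtain ⟨y, hy⟩ := exists_prime_orderOf_dvd_card' (G := centralizer ({t} : Set G)) 3 h3
    exact no_six h (d := (y : G)) (t := t) (by rw [← orderOf_coe] at hy; exact hy) ht (mem_centralizer_singleton_iff.mp y.2)
  have h7 : ¬ 7 ∣ Nat.card (centralizer ({t} : Set G)) := by
    intro h7
    haveI hp7 : Fact (Nat.Prime 7) := ⟨by norm_num⟩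
    obtain ⟨y, hy⟩ := exists_prime_orderOf_dvd_card' (G := centralizer ({t} : Set G)) 7 h7
    have := orderOf_dvd_seven h (x := t) (y := (y : G)) (by rw [← orderOf_coe] at hy; exact hy) (mem_centralizer_singleton_iff.mp y.2).symm
    rw [ht] at this
    norm_num at this
  have key : ∀ c ∈ Nat.divisors 504, ¬ 3 ∣ c → ¬ 7 ∣ c → c ∣ 8 := by decide +kernel
  exact key _ (Nat.mem_divisors.mpr ⟨hd, by norm_num⟩) h3 h7

/-- The count: 63 involutions, no elements of order 4 or 8, and involution centralizers have order 8. -/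
theorem two_elements (h : Nat.card G = 504) [Fact (Nat.Prime 3)] :
    Nat.card {g : G // orderOf g = 4} = 0 ∧ Nat.card {g : G // orderOf g = 8} = 0 ∧
      ∀ t : G, orderOf t = 2 → Nat.card (centralizer ({t} : Set G)) = 8 := by
  classical
  haveI hp7 : Fact (Nat.Prime 7) := ⟨by norm_num⟩
  haveI hp2 : Fact (Nat.Prime 2) := ⟨by norm_num⟩
  have h7 : Nat.card {g : G // orderOf g = 7} = 216 := by
    obtain ⟨P, hP, -, -, hn⟩ := seven_part h
    have hall : ∀ Q : Sylow 7 G, Nat.card (Q : Subgroup G) = 7 := by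
      intro Q
      exact (Sylow.card_eq_multiplicity Q).trans ((Sylow.card_eq_multiplicity P).symm.trans hP)
    rw [Cfsg.Agent.Lib.SmallSimple.card_orderOf_eq_prime hall, hn]
  have h39 := card_three_nine h
  have hsum := Cfsg.Agent.Lib.SmallSimple.sum_card_orderOf_le (G := G) {1, 2, 4, 8, 3, 9, 7}
  rw [h] at hsum
  rw [Finset.sum_insert (by decide), Finset.sum_insert (by decide), Finset.sum_insert (by decide),
    Finset.sum_insert (by decide), Finset.sum_insert (by decide), Finset.sum_insert (by decide),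
    Finset.sum_singleton, Cfsg.Agent.Lib.SmallSimple.card_orderOf_one, h7] at hsum
  -- an involution
  obtain ⟨t₀, ht₀⟩ := exists_prime_orderOf_dvd_card' (G := G) 2 (by rw [h]; norm_num)
  have hcl : ∀ t : G, orderOf t = 2 → Nat.card {y : G // IsConj t y} ≤ Nat.card {g : G // orderOf g = 2} := by
    intro t ht
    refine Nat.card_le_card_of_injective (fun y => ⟨y.1, ?_⟩) ?_
    · obtain ⟨c, hc⟩ := isConj_iff.mp y.2
      rw [← hc]
      have : c * t * c⁻¹ = MulAut.conj c t := by simp [MulAut.conj_apply]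
      rw [this, MulEquiv.orderOf_eq, ht]
    · intro a b hab
      have h3 := congrArg (fun z : {g : G // orderOf g = 2} => (z : G)) hab
      exact Subtype.ext h3
  have hclass : ∀ t : G, orderOf t = 2 → 63 ≤ Nat.card {y : G // IsConj t y} ∧
      Nat.card {y : G // IsConj t y} * Nat.card (centralizer ({t} : Set G)) = 504 := by
    intro t ht
    have h1 := Cfsg.Agent.Lib.SmallSimple.card_eq_card_isConj_mul_card_centralizer t
    rw [h] at h1
    have h2 := Nat.le_of_dvd (by norm_num) (centralizer_dvd_eight h ht)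
    refine ⟨?_, h1.symm⟩
    by_contra hlt
    have : Nat.card {y : G // IsConj t y} * Nat.card (centralizer ({t} : Set G)) ≤ 62 * 8 :=
      Nat.mul_le_mul (by omega) h2
    omega
  have h63 := (hclass t₀ ht₀).1
  have h2' := hcl t₀ ht₀
  refine ⟨by omega, by omega, ?_⟩
  intro t ht
  obtain ⟨h1, h3⟩ := hclass t ht
  have h4 := hcl t ht
  have h5 : Nat.card {y : G // IsConj t y} = 63 := by omega
  rw [h5] at h3
  omega

/-- Sylow 2-subgroups: order 8, exponent 2, and equal to the centralizers of their involutions. -/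
theorem card_sylow2 (h : Nat.card G = 504) [Fact (Nat.Prime 2)] (P : Sylow 2 G) : Nat.card (P : Subgroup G) = 2 ^ 3 :=
  Cfsg.Agent.Lib.SmallSimple.sylow_card_of_eq P (m := 63) (by rw [h]; norm_num) (by norm_num)

theorem sylow2_exp (h : Nat.card G = 504) [Fact (Nat.Prime 3)] [Fact (Nat.Prime 2)] (P : Sylow 2 G) {x : G}
    (hx : x ∈ (P : Subgroup G)) : x ^ 2 = 1 := by
  obtain ⟨h4, h8, -⟩ := two_elements h
  have h1 : orderOf x ∣ 2 ^ 3 := by
    rw [← card_sylow2 h P]
    have := orderOf_dvd_natCard (⟨x, hx⟩ : (P : Subgroup G))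
    rwa [orderOf_mk] at this
  have hn4 : orderOf x ≠ 4 := by
    intro h5
    rw [Nat.card_eq_zero] at h4
    rcases h4 with h4 | h4
    · exact h4.false ⟨x, h5⟩
    · exact h4.false
  have hn8 : orderOf x ≠ 8 := by
    intro h5
    rw [Nat.card_eq_zero] at h8
    rcases h8 with h8 | h8
    · exact h8.false ⟨x, h5⟩
    · exact h8.false
  have key : ∀ n ∈ Nat.divisors (2 ^ 3), n ≠ 4 → n ≠ 8 → n ∣ 2 := by decide
  exact orderOf_dvd_iff_pow_eq_one.mp (key _ (Nat.mem_divisors.mpr ⟨h1, by norm_num⟩) hn4 hn8)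

theorem sylow2_eq_centralizer (h : Nat.card G = 504) [Fact (Nat.Prime 3)] [Fact (Nat.Prime 2)] (P : Sylow 2 G) {t : G}
    (ht : orderOf t = 2) (htP : t ∈ (P : Subgroup G)) : (P : Subgroup G) = centralizer ({t} : Set G) := by
  apply Subgroup.eq_of_le_of_card_ge
  · intro x hx
    rw [mem_centralizer_singleton_iff]
    have hxt := sylow2_exp h P (mul_mem hx htP)
    have hx2 := sylow2_exp h P hx
    have ht2 := sylow2_exp h P htP
    have h1 : x⁻¹ = x := by rw [inv_eq_iff_mul_eq_one, ← pow_two, hx2]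
    have h2 : t⁻¹ = t := by rw [inv_eq_iff_mul_eq_one, ← pow_two, ht2]
    have h3 : (x * t)⁻¹ = x * t := by rw [inv_eq_iff_mul_eq_one, ← pow_two, hxt]
    rw [mul_inv_rev, h1, h2] at h3
    exact h3.symm
  · rw [(two_elements h).2.2 t ht, card_sylow2 h P]
    norm_num

/-- There are 9 Sylow 2-subgroups. -/
theorem count_sylow2 (h : Nat.card G = 504) [Fact (Nat.Prime 3)] [hp2 : Fact (Nat.Prime 2)] : Nat.card (Sylow 2 G) = 9 := by
  have hcard : Nat.card G = 2 ^ 3 * 63 := by rw [h]; norm_num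
  have hnp : ¬ IsPGroup 2 G :=
    Cfsg.Agent.Lib.SmallSimple.not_isPGroup_of_dvd (q := 3) (by norm_num) (by norm_num) (by norm_num) (by rw [h]; norm_num)
  obtain ⟨h1, h2, h3, h4⟩ := Cfsg.Agent.Lib.SmallSimple.sylow_package hcard (by norm_num) (by norm_num) hnp (not_comm h)
  obtain ⟨P⟩ : Nonempty (Sylow 2 G) := inferInstance
  have hmod := Cfsg.Agent.Lib.SmallSimple.card_sylow_modEq_of_index (k := 3) P (by
    intro R hne
    have hbot : (R : Subgroup G).subgroupOf (P : Subgroup G) = ⊥ := by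
      rw [eq_bot_iff]
      rintro ⟨x, hx⟩ hxR
      rw [mem_subgroupOf] at hxR
      rw [mem_bot]
      by_contra hx1
      have hx1' : x ≠ 1 := fun e => hx1 (Subtype.ext e)
      have hord : orderOf x = 2 := orderOf_eq_prime (sylow2_exp h P hx) hx1'
      apply hne
      apply Sylow.ext
      rw [sylow2_eq_centralizer h P hord hx, sylow2_eq_centralizer h R hord hxR]
    rw [hbot, index_bot, card_sylow2 h P])
  have key : ∀ n ∈ Nat.divisors 63, n ≡ 1 [MOD 2 ^ 3] → 1 < n → n = 9 := by decide +kernel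
  exact key _ (Nat.mem_divisors.mpr ⟨h2, by norm_num⟩) hmod h3

theorem card_normalizer_sylow2 (h : Nat.card G = 504) [Fact (Nat.Prime 3)] [hp2 : Fact (Nat.Prime 2)] (P : Sylow 2 G) :
    Nat.card (normalizer (P : Set G)) = 56 := by
  have h1 := Cfsg.Agent.Lib.SmallSimple.card_normalizer_mul_card_sylow 2 P
  rw [count_sylow2 h, h] at h1
  omega

/-- A nontrivial element fixes at most two Sylow 2-subgroups. -/
theorem eq_one_of_fix (h : Nat.card G = 504) [Fact (Nat.Prime 3)] [hp2 : Fact (Nat.Prime 2)] {g : G} (P₁ P₂ P₃ : Sylow 2 G)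
    (h₁ : g • P₁ = P₁) (h₂ : g • P₂ = P₂) (h₃ : g • P₃ = P₃) (h12 : P₁ ≠ P₂) (h13 : P₁ ≠ P₃) (h23 : P₂ ≠ P₃) : g = 1 := by
  by_contra hg
  have hord1 : orderOf g ≠ 1 := fun e => hg (orderOf_eq_one_iff.mp e)
  obtain ⟨q, hq, hqd⟩ := Nat.exists_prime_and_dvd hord1
  haveI hqf : Fact q.Prime := ⟨hq⟩
  set u := g ^ (orderOf g / q) with hu
  have huord : orderOf u = q := orderOf_pow_orderOf_div (orderOf_pos g).ne' hqd
  have hfix : ∀ R : Sylow 2 G, g • R = R → u • R = R := by
    intro R hR
    have h1 : g ∈ MulAction.stabilizer G R := hR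
    exact pow_mem h1 _
  have hq504 : q ∣ 2 ^ 3 * 3 ^ 2 * 7 := by
    have h1 : orderOf g ∣ Nat.card G := orderOf_dvd_natCard g
    rw [h] at h1
    exact hqd.trans (h1.trans (by norm_num))
  have hcases : q = 2 ∨ q = 3 ∨ q = 7 := by
    rcases (Nat.Prime.dvd_mul hq).mp hq504 with h1 | h1
    · rcases (Nat.Prime.dvd_mul hq).mp h1 with h1 | h1
      · exact Or.inl ((Nat.prime_dvd_prime_iff_eq hq Nat.prime_two).mp (hq.dvd_of_dvd_pow h1))
      · exact Or.inr (Or.inl ((Nat.prime_dvd_prime_iff_eq hq Nat.prime_three).mp (hq.dvd_of_dvd_pow h1)))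
    · exact Or.inr (Or.inr ((Nat.prime_dvd_prime_iff_eq hq (by norm_num)).mp h1))
  have hN₁ : u ∈ normalizer (P₁ : Set G) := Sylow.smul_eq_iff_mem_normalizer.mp (hfix P₁ h₁)
  rcases hcases with rfl | rfl | rfl
  · -- an involution
    obtain ⟨R, hR⟩ := Cfsg.Agent.Lib.SmallSimple.exists_sylow_of_orderOf huord
    have hN₂ : u ∈ normalizer (P₂ : Set G) := Sylow.smul_eq_iff_mem_normalizer.mp (hfix P₂ h₂)
    have h1 := Cfsg.Agent.Lib.SmallSimple.mem_of_mem_normalizer_sylow R P₁ hR hN₁
    have h2 := Cfsg.Agent.Lib.SmallSimple.mem_of_mem_normalizer_sylow R P₂ hR hN₂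
    apply h12
    apply Sylow.ext
    rw [sylow2_eq_centralizer h P₁ huord h1, sylow2_eq_centralizer h P₂ huord h2]
  · -- order three
    have h1 := orderOf_dvd_natCard (⟨u, hN₁⟩ : normalizer (P₁ : Set G))
    rw [orderOf_mk, huord, card_normalizer_sylow2 h P₁] at h1
    norm_num at h1
  · -- order seven
    have hpH : IsPGroup 7 (zpowers u) := IsPGroup.of_card (n := 1) (by rw [Nat.card_zpowers, huord, pow_one])
    have hmod := hpH.card_modEq_card_fixedPoints (Sylow 2 G)
    rw [count_sylow2 h] at hmod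
    have hfp : ∀ R : Sylow 2 G, g • R = R → R ∈ MulAction.fixedPoints (zpowers u) (Sylow 2 G) := by
      intro R hR a
      have h1 : zpowers u ≤ MulAction.stabilizer G R := zpowers_le.mpr (hfix R hR)
      exact h1 a.2
    have hge : 3 ≤ (MulAction.fixedPoints (zpowers u) (Sylow 2 G)).ncard := by
      have hs : ({P₁, P₂, P₃} : Set (Sylow 2 G)) ⊆ MulAction.fixedPoints (zpowers u) (Sylow 2 G) := by
        intro R hR
        simp only [Set.mem_insert_iff, Set.mem_singleton_iff] at hR
        rcases hR with rfl | rfl | rfl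
        · exact hfp _ h₁
        · exact hfp _ h₂
        · exact hfp _ h₃
      have h3 := Set.ncard_le_ncard hs (Set.toFinite _)
      rwa [Set.ncard_eq_three.mpr ⟨P₁, P₂, P₃, h12, h13, h23, rfl⟩] at h3
    have hle : (MulAction.fixedPoints (zpowers u) (Sylow 2 G)).ncard ≤ 9 := by
      have h3 := Set.ncard_le_ncard (Set.subset_univ (MulAction.fixedPoints (zpowers u) (Sylow 2 G))) (Set.toFinite _)
      rwa [Set.ncard_univ, count_sylow2 h] at h3
    have hcardfp : Nat.card (MulAction.fixedPoints (zpowers u) (Sylow 2 G)) = (MulAction.fixedPoints (zpowers u) (Sylow 2 G)).ncard :=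
      Nat.card_coe_set_eq _
    rw [hcardfp] at hmod
    have h9 : (MulAction.fixedPoints (zpowers u) (Sylow 2 G)).ncard = 9 := by
      unfold Nat.ModEq at hmod
      omega
    have huniv : MulAction.fixedPoints (zpowers u) (Sylow 2 G) = Set.univ := by
      apply Set.eq_of_subset_of_ncard_le (Set.subset_univ _)
      rw [Set.ncard_univ, count_sylow2 h, h9]
    have hu_fix : ∀ R : Sylow 2 G, u • R = R := by
      intro R
      have : R ∈ MulAction.fixedPoints (zpowers u) (Sylow 2 G) := by rw [huniv]; trivial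
      exact this ⟨u, mem_zpowers u⟩
    have hker : u ∈ (MulAction.toPermHom G (Sylow 2 G)).ker := by
      rw [MonoidHom.mem_ker]
      exact Equiv.ext fun R => hu_fix R
    rcases IsSimpleGroup.eq_bot_or_eq_top_of_normal _ (MonoidHom.normal_ker (MulAction.toPermHom G (Sylow 2 G))) with hb | ht
    · rw [hb, mem_bot] at hker
      rw [hker, orderOf_one] at huord
      omega
    · have hall : normalizer (P₁ : Set G) = ⊤ := by
        rw [eq_top_iff]
        intro x _
        apply Sylow.smul_eq_iff_mem_normalizer.mp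
        have hx : x ∈ (MulAction.toPermHom G (Sylow 2 G)).ker := by rw [ht]; trivial
        rw [MonoidHom.mem_ker] at hx
        have := congrArg (fun σ : Equiv.Perm (Sylow 2 G) => σ P₁) hx
        simpa using this
      have := card_normalizer_sylow2 h P₁
      rw [hall, card_top, h] at this
      omega

/-- The isomorphism with `SL₂` of a field with 8 elements. -/
theorem exists_iso_SL (h : Nat.card G = 504) :
    ∃ (F : Type) (_ : Field F) (_ : Fintype F), Fintype.card F = 8 ∧ Nonempty (G ≃* Matrix.SpecialLinearGroup (Fin 2) F) := by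
  classical
  haveI hp3 : Fact (Nat.Prime 3) := ⟨by norm_num⟩
  haveI hp2 : Fact (Nat.Prime 2) := ⟨by norm_num⟩
  letI : Fintype (Sylow 2 G) := Fintype.ofFinite _
  have hcardα : Fintype.card (Sylow 2 G) = 9 := by
    rw [← Nat.card_eq_fintype_card, count_sylow2 h]
  let φ : G →* Equiv.Perm (Sylow 2 G) := MulAction.toPermHom G (Sylow 2 G)
  have hφ : Function.Injective φ := by
    rw [← MonoidHom.ker_eq_bot_iff]
    rcases IsSimpleGroup.eq_bot_or_eq_top_of_normal _ (MonoidHom.normal_ker φ) with hb | ht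
    · exact hb
    · exfalso
      obtain ⟨P⟩ : Nonempty (Sylow 2 G) := inferInstance
      have hall : normalizer (P : Set G) = ⊤ := by
        rw [eq_top_iff]
        intro x _
        apply Sylow.smul_eq_iff_mem_normalizer.mp
        have hx : x ∈ φ.ker := by rw [ht]; trivial
        rw [MonoidHom.mem_ker] at hx
        have := congrArg (fun σ : Equiv.Perm (Sylow 2 G) => σ P) hx
        simpa [φ] using this
      have := card_normalizer_sylow2 h P
      rw [hall, card_top, h] at this
      omega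
  let e : G ≃* φ.range := MonoidHom.ofInjective hφ
  have hsmul : ∀ (x : φ.range) (R : Sylow 2 G), x • R = (e.symm x) • R := by
    intro x R
    have h1 : x = e (e.symm x) := (e.apply_symm_apply x).symm
    conv_lhs => rw [h1]
    rfl
  have hfree : ∀ x : φ.range, ∀ P₁ P₂ P₃ : Sylow 2 G, x • P₁ = P₁ → x • P₂ = P₂ → x • P₃ = P₃ → P₁ ≠ P₂ → P₁ ≠ P₃ → P₂ ≠ P₃ → x = 1 := by
    intro x P₁ P₂ P₃ h₁ h₂ h₃ h12 h13 h23
    rw [hsmul] at h₁ h₂ h₃
    have := eq_one_of_fix h P₁ P₂ P₃ h₁ h₂ h₃ h12 h13 h23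
    rw [← e.apply_symm_apply x, this, map_one]
  have hcardrange : Nat.card φ.range = 504 := by
    rw [← h]
    exact (Nat.card_congr e.toEquiv).symm
  have h3 : MulAction.IsMultiplyPretransitive φ.range (Sylow 2 G) 3 := by
    refine ⟨fun a b => ?_⟩
    let f : φ.range → (Fin 3 ↪ Sylow 2 G) := fun x => x • a
    have hinj : Function.Injective f := by
      intro x y hxy
      have h4 : y⁻¹ * x = 1 := by
        have hfix : ∀ i : Fin 3, (y⁻¹ * x) • a i = a i := by
          intro i
          have h5 : x • a i = y • a i := DFunLike.congr_fun hxy i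
          rw [mul_smul, h5, inv_smul_smul]
        refine hfree _ (a 0) (a 1) (a 2) (hfix 0) (hfix 1) (hfix 2) ?_ ?_ ?_ <;>
        exact fun e => absurd (a.injective e) (by decide)
      exact (inv_mul_eq_one.mp h4).symm
    have hcard : Nat.card (Fin 3 ↪ Sylow 2 G) = Nat.card φ.range := by
      rw [hcardrange, Nat.card_eq_fintype_card, Fintype.card_embedding_eq, hcardα]
      rfl
    have hbij : Function.Bijective f := (Function.Injective.bijective_of_nat_card_le hinj hcard.le)
    obtain ⟨x, hx⟩ := hbij.2 b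
    exact ⟨x, hx⟩
  have hfix' : ∀ g : φ.range, 3 ≤ Nat.card (MulAction.fixedBy (Sylow 2 G) g) → g = 1 := by
    intro g hg
    rw [Nat.card_coe_set_eq] at hg
    obtain ⟨P₁, P₂, P₃, h₁, h₂, h₃, h12, h13, h23⟩ := (Set.two_lt_ncard_iff (Set.toFinite _)).mp hg
    exact hfree g P₁ P₂ P₃ h₁ h₂ h₃ h12 h13 h23
  obtain ⟨a, ha, hca, F, hFf, hFt, hFc, ⟨e2⟩⟩ := Cfsg.Agent.S4702.result (by omega) (by rw [hcardα]; decide) φ.range h3 hfix'
  have ha3 : 2 ^ a = 8 := by omega
  exact ⟨F, hFf, hFt, by rw [hFc, ha3], ⟨e.trans e2⟩⟩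

end Cfsg.Agent.Lib.Misc19.O504
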