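import Mathlib

/-!
# Covering the `p`-elements by few proper subgroups
-/

set_option autoImplicit false

namespace Cfsg.Agent.Lib.Misc19

open Subgroup
open scoped Pointwise

/-- A finite `p`-group is not a union of at most `p` proper subgroups. -/
lemma pgroup_cover {G : Type*} [Group G] [Finite G] {p : ℕ} [Fact p.Prime] (hG : IsPGroup p G)
    {ι : Type*} [DecidableEq ι] (K : ι → Subgroup G) (s : Finset ι) :
    s.card ≤ p → (∀ g : G, ∃ i ∈ s, g ∈ K i) → ∃ i ∈ s, K i = ⊤ := by
  classical
  induction s using Finset.strongInduction with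
  | H s ih =>
    intro hcard hcov
    by_cases hred : ∃ i ∈ s, ∀ g : G, ∃ j ∈ s.erase i, g ∈ K j
    · obtain ⟨i, his, hi⟩ := hred
      obtain ⟨j, hj, hjt⟩ := ih (s.erase i) (Finset.erase_ssubset his)
        (le_trans (Finset.card_le_card (Finset.erase_subset _ _)) hcard) hi
      exact ⟨j, Finset.mem_of_mem_erase hj, hjt⟩
    · push Not at hred
      obtain ⟨i₀, hi₀, -⟩ := hcov 1
      obtain ⟨x, hx⟩ := hred i₀ hi₀
      have hxi₀ : x ∈ K i₀ := by
        obtain ⟨i, his, hi⟩ := hcov x
        by_cases h : i = i₀
        · exact h ▸ hi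
        · exact absurd hi (hx i (Finset.mem_erase.mpr ⟨h, his⟩))
      by_contra hno
      push Not at hno
      have hne := hno i₀ hi₀
      obtain ⟨y, hy⟩ : ∃ y, y ∉ K i₀ := by
        by_contra hall
        push Not at hall
        exact hne (Subgroup.eq_top_iff' _ |>.mpr hall)
      have hpick : ∀ t : ℕ, ∃ j ∈ s.erase i₀, y * x ^ t ∈ K j := by
        intro t
        obtain ⟨j, hjs, hj⟩ := hcov (y * x ^ t)
        refine ⟨j, Finset.mem_erase.mpr ⟨?_, hjs⟩, hj⟩
        rintro rfl
        apply hy
        have := mul_mem hj (inv_mem (pow_mem hxi₀ t))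
        simpa using this
      choose! f hf hf2 using hpick
      have hcardlt : (s.erase i₀).card < (Finset.range p).card := by
        rw [Finset.card_range, Finset.card_erase_of_mem hi₀]
        have : 0 < s.card := Finset.card_pos.mpr ⟨i₀, hi₀⟩
        omega
      obtain ⟨t, ht, t', ht', hne', heq⟩ := Finset.exists_ne_map_eq_of_card_lt_of_maps_to hcardlt
        (f := f) (fun a _ => hf a)
      have key : ∀ t t' : ℕ, t < t' → t' < p → f t = f t' → False := by
        intro t t' hlt hlt' hff
        have h1 : y * x ^ t ∈ K (f t') := hff ▸ hf2 t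
        have h2 := hf2 t'
        have h3 : x ^ (t' - t) ∈ K (f t') := by
          have := mul_mem (inv_mem h1) h2
          have h4 : (y * x ^ t)⁻¹ * (y * x ^ t') = x ^ (t' - t) := by
            have h5 : x ^ t' = x ^ t * x ^ (t' - t) := by
              rw [← pow_add]; congr 1; omega
            rw [h5]; group
          rwa [h4] at this
        obtain ⟨k, hk⟩ := (IsPGroup.iff_orderOf.mp hG) x
        have hco : (t' - t).Coprime (orderOf x) := by
          rw [hk]
          apply Nat.Coprime.pow_right
          apply Nat.Coprime.symm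
          apply (Nat.Prime.coprime_iff_not_dvd (Fact.out : p.Prime)).mpr
          intro hd
          have := Nat.le_of_dvd (by omega) hd
          omega
        obtain ⟨m, hm⟩ := exists_pow_eq_self_of_coprime hco
        have h6 : x ∈ K (f t') := by
          rw [← hm]; exact pow_mem h3 m
        exact hx _ (hf t') h6
      rcases lt_or_gt_of_ne hne' with h | h
      · exact key t t' h (Finset.mem_range.mp ht') heq
      · exact key t' t h (Finset.mem_range.mp ht) heq.symm

/-- The main induction. -/
theorem cover_main {p : ℕ} [Fact p.Prime] {ι : Type*} [Fintype ι] (hι : Fintype.card ι ≤ p) :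
    ∀ (n : ℕ) (G : Type*) [Group G] [Finite G], Nat.card G = n →
      Subgroup.closure {g : G | ∃ k : ℕ, orderOf g = p ^ k} = ⊤ →
      ∀ K : ι → Subgroup G, (∀ i, K i ≠ ⊤) →
      (∀ g : G, (∃ k : ℕ, orderOf g = p ^ k) → ∃ i, g ∈ K i) → False := by
  classical
  intro n
  induction n using Nat.strong_induction_on with
  | _ n ih =>
  intro G _ _ hn hgen K hK hcov
  -- the `p`-group case
  by_cases hpG : IsPGroup p G
  · obtain ⟨i, -, hi⟩ := pgroup_cover hpG K Finset.univ (by simpa using hι) (fun g => by
      obtain ⟨i, hi⟩ := hcov g ((IsPGroup.iff_orderOf.mp hpG) g)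
      exact ⟨i, Finset.mem_univ _, hi⟩)
    exact hK i hi
  -- notation
  set PE : Set G := {g : G | ∃ k : ℕ, orderOf g = p ^ k} with hPE
  -- proper `p`-generated subgroups
  let PG : Subgroup G → Prop := fun L => L ≠ ⊤ ∧ Subgroup.closure (PE ∩ (L : Set G)) = L
  have hA : ∀ L, PG L → ∃ i, L ≤ K i := by
    rintro L ⟨hLt, hLg⟩
    by_contra hno
    push Not at hno
    have hlt : Nat.card L < n := by
      rw [← hn]
      obtain ⟨z, hz⟩ : ∃ z, z ∉ L := by
        by_contra hall
        push Not at hall
        exact hLt (Subgroup.eq_top_iff' _ |>.mpr hall)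
      exact Finite.card_subtype_lt (p := fun y => y ∈ L) hz
    refine ih (Nat.card L) hlt L rfl ?_ (fun i => (K i).subgroupOf L) ?_ ?_
    · -- generation
      rw [eq_top_iff]
      rintro ⟨x, hx⟩ -
      rw [← hLg] at hx
      have : ∀ y (hy : y ∈ Subgroup.closure (PE ∩ (L : Set G))),
          ∀ hy' : y ∈ L, (⟨y, hy'⟩ : L) ∈ Subgroup.closure {g : L | ∃ k : ℕ, orderOf g = p ^ k} := by
        intro y hy
        induction hy using Subgroup.closure_induction with
        | mem z hz =>
          intro hy'
          apply Subgroup.subset_closure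
          obtain ⟨k, hk⟩ := hz.1
          refine ⟨k, ?_⟩
          rw [← hk]
          exact Subgroup.orderOf_mk z hy'
        | one => intro _; exact one_mem _
        | mul a b ha hb iha ihb =>
          intro hy'
          have ha' : a ∈ L := by
            rw [← hLg]; exact ha
          have hb' : b ∈ L := by
            rw [← hLg]; exact hb
          have := mul_mem (iha ha') (ihb hb')
          exact this
        | inv a ha iha =>
          intro hy'
          have ha' : a ∈ L := by
            rw [← hLg]; exact ha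
          have := inv_mem (iha ha')
          exact this
      exact this x hx (by rw [← hLg]; exact hx)
    · intro i hi
      apply hno i
      intro x hx
      have : (⟨x, hx⟩ : L) ∈ (K i).subgroupOf L := by rw [hi]; trivial
      exact this
    · rintro ⟨g, hg⟩ ⟨k, hk⟩
      obtain ⟨i, hi⟩ := hcov g ⟨k, by rw [← hk]; exact (Subgroup.orderOf_mk g hg).symm⟩
      exact ⟨i, hi⟩
  -- the parts of the K i generated by `p`-elements
  let Li : ι → Subgroup G := fun i => Subgroup.closure (PE ∩ (K i : Set G))
  have hLi_le : ∀ i, Li i ≤ K i := fun i => by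
    rw [Subgroup.closure_le]; exact Set.inter_subset_right
  have hLi : ∀ i, PG (Li i) := by
    intro i
    refine ⟨?_, ?_⟩
    · intro h
      apply hK i
      rw [eq_top_iff, ← h]
      exact hLi_le i
    · apply le_antisymm
      · rw [Subgroup.closure_le]; exact Set.inter_subset_right
      · apply Subgroup.closure_mono
        intro x hx
        exact ⟨hx.1, Subgroup.subset_closure hx⟩
  have hle_Li : ∀ L, PG L → ∃ i, L ≤ Li i := by
    intro L hL
    obtain ⟨i, hi⟩ := hA L hL
    refine ⟨i, ?_⟩
    rw [← hL.2]
    apply Subgroup.closure_mono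
    intro x hx
    exact ⟨hx.1, hi hx.2⟩
  -- maximal ones
  let MM : Set (Subgroup G) := {M | PG M ∧ ∀ L, PG L → M ≤ L → L = M}
  have hexmax : ∀ L, PG L → ∃ M ∈ MM, L ≤ M := by
    intro L hL
    have hfin : (({M | PG M ∧ L ≤ M} : Set (Subgroup G))).Finite := Set.toFinite _
    obtain ⟨M, hM⟩ := hfin.exists_maximal ⟨L, hL, le_refl _⟩
    refine ⟨M, ⟨hM.1.1, fun L' hL' hML' => ?_⟩, hM.1.2⟩
    exact le_antisymm (hM.2 ⟨hL', le_trans hM.1.2 hML'⟩ hML') hML'
  have hMM_range : MM ⊆ Set.range Li := by
    rintro M ⟨hM, hmax⟩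
    obtain ⟨i, hi⟩ := hle_Li M hM
    exact ⟨i, hmax _ (hLi i) hi⟩
  -- conjugation
  let cj : G → Subgroup G → Subgroup G := fun x M => M.map (MulAut.conj x).toMonoidHom
  have hcj_mul : ∀ x y M, cj (x * y) M = cj x (cj y M) := by
    intro x y M
    simp only [cj]
    rw [Subgroup.map_map]
    congr 1
    ext z
    simp [MulAut.conj_apply, mul_assoc]
  have hcj_one : ∀ M, cj 1 M = M := by
    intro M
    simp only [cj]
    ext z
    simp
  have hcj_inv : ∀ x M, cj x⁻¹ (cj x M) = M := by
    intro x M
    rw [← hcj_mul, inv_mul_cancel, hcj_one]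
  have hcj_PG : ∀ x M, PG M → PG (cj x M) := by
    rintro x M ⟨hMt, hMg⟩
    refine ⟨?_, ?_⟩
    · intro h
      apply hMt
      have := hcj_inv x M
      rw [h] at this
      rw [← this]
      simp only [cj]
      exact Subgroup.map_top_of_surjective _ (MulAut.conj x⁻¹).surjective
    · apply le_antisymm
      · rw [Subgroup.closure_le]; exact Set.inter_subset_right
      · conv_lhs => rw [← hMg]
        simp only [cj]
        rw [MonoidHom.map_closure]
        apply Subgroup.closure_mono
        rintro _ ⟨z, hz, rfl⟩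
        refine ⟨?_, ?_⟩
        · obtain ⟨k, hk⟩ := hz.1
          refine ⟨k, ?_⟩
          rw [← hk]
          exact MulEquiv.orderOf_eq (MulAut.conj x) z
        · rw [← hMg]
          exact ⟨z, Subgroup.subset_closure hz, rfl⟩
  have hcj_MM : ∀ x M, M ∈ MM → cj x M ∈ MM := by
    rintro x M ⟨hM, hmax⟩
    refine ⟨hcj_PG x M hM, fun L hL hle => ?_⟩
    have h1 : M ≤ cj x⁻¹ L := by
      intro z hz
      have : x * z * x⁻¹ ∈ L := hle ⟨z, hz, rfl⟩
      exact ⟨x * z * x⁻¹, this, by simp [MulAut.conj_apply]; group⟩
    have h2 := hmax _ (hcj_PG _ _ hL) h1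
    rw [← h2, ← hcj_mul, mul_inv_cancel, hcj_one]
  haveI : Fintype MM := Fintype.ofFinite _
  have hcardMM : Fintype.card MM ≤ p := by
    have h1 : Fintype.card MM ≤ Fintype.card ι := by
      have hinj : ∀ M : MM, ∃ i, Li i = M := fun M => hMM_range M.2
      choose g hg using hinj
      apply Fintype.card_le_of_injective g
      intro a b hab
      apply Subtype.ext
      rw [← hg a, ← hg b, hab]
    exact le_trans h1 hι
  -- p-elements normalize all the maximal ones
  have hnorm : ∀ x ∈ PE, ∀ M ∈ MM, cj x M = M := by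
    rintro x ⟨k, hk⟩ M hM
    -- x lies in some maximal member
    have hxz : Subgroup.zpowers x ≠ ⊤ := by
      intro h
      apply hpG
      have : IsPGroup p (Subgroup.zpowers x) := by
        rw [IsPGroup.iff_card]
        exact ⟨k, by rw [Nat.card_zpowers, hk]⟩
      have hbij : IsPGroup p (⊤ : Subgroup G) := h ▸ this
      exact hbij.of_equiv Subgroup.topEquiv
    have hzPG : PG (Subgroup.zpowers x) := by
      refine ⟨hxz, le_antisymm ?_ ?_⟩
      · rw [Subgroup.closure_le]; exact Set.inter_subset_right
      · rw [Subgroup.zpowers_le]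
        apply Subgroup.subset_closure
        exact ⟨⟨k, hk⟩, Subgroup.mem_zpowers x⟩
    obtain ⟨M₀, hM₀, hxM₀⟩ := hexmax _ hzPG
    have hxM₀' : x ∈ M₀ := hxM₀ (Subgroup.mem_zpowers x)
    -- the endomorphism of MM
    let f : Function.End MM := fun N => ⟨cj x N, hcj_MM x N N.2⟩
    have hfpow : ∀ m : ℕ, ∀ N : MM, ((f ^ m) N : MM).1 = cj (x ^ m) N.1 := by
      intro m
      induction m with
      | zero =>
        intro N
        rw [pow_zero, pow_zero, hcj_one]
        rfl
      | succ m ihm =>
        intro N
        rw [pow_succ', Function.End.mul_def]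
        change cj x ((f ^ m) N).1 = _
        rw [ihm, ← hcj_mul, ← pow_succ']
    have hf1 : f ^ (p ^ k) = 1 := by
      funext N
      apply Subtype.ext
      rw [hfpow]
      have : x ^ (p ^ k) = 1 := by rw [← hk]; exact pow_orderOf_eq_one x
      rw [this, hcj_one]
      rfl
    have hmod := Equiv.Perm.card_fixedPoints_modEq hf1
    have hfix0 : (⟨M₀, hM₀⟩ : MM) ∈ Function.fixedPoints f := by
      change f _ = _
      apply Subtype.ext
      change cj x M₀ = M₀
      simp only [cj]
      ext z
      constructor
      · rintro ⟨w, hw, rfl⟩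
        exact mul_mem (mul_mem hxM₀' hw) (inv_mem hxM₀')
      · intro hz
        exact ⟨x⁻¹ * z * x, mul_mem (mul_mem (inv_mem hxM₀') hz) hxM₀', by simp [MulAut.conj_apply]; group⟩
    have hcard_fix_pos : 0 < Fintype.card (Function.fixedPoints f) :=
      Fintype.card_pos_iff.mpr ⟨⟨_, hfix0⟩⟩
    have hcard_fix_le : Fintype.card (Function.fixedPoints f) ≤ Fintype.card MM :=
      Fintype.card_subtype_le _
    have hcard_eq : Fintype.card (Function.fixedPoints f) = Fintype.card MM := by
      have h1 : p ∣ Fintype.card MM - Fintype.card (Function.fixedPoints f) :=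
        (Nat.modEq_iff_dvd' hcard_fix_le).mp hmod.symm
      by_contra hne
      have h2 : 0 < Fintype.card MM - Fintype.card (Function.fixedPoints f) := by omega
      have h3 := Nat.le_of_dvd h2 h1
      omega
    have hallfix : ∀ N : MM, N ∈ Function.fixedPoints f := by
      intro N
      have h1 : (Function.fixedPoints f) = Set.univ := by
        apply Set.eq_univ_of_forall
        intro N
        by_contra hN
        have : Fintype.card (Function.fixedPoints f) < Fintype.card MM := by
          apply Fintype.card_subtype_lt (x := N)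
          exact hN
        omega
      rw [h1]; trivial
    have := hallfix ⟨M, hM⟩
    exact congrArg Subtype.val this
  -- so they are normal
  have hnormal : ∀ M ∈ MM, M.Normal := by
    intro M hM
    have hall : ∀ g : G, cj g M = M := by
      intro g
      have hg : g ∈ Subgroup.closure PE := by rw [hgen]; trivial
      induction hg using Subgroup.closure_induction with
      | mem z hz => exact hnorm z hz M hM
      | one => exact hcj_one M
      | mul a b _ _ iha ihb => rw [hcj_mul, ihb, iha]
      | inv a _ iha =>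
        have := hcj_inv a M
        rwa [iha] at this
    refine ⟨fun n hn g => ?_⟩
    rw [← hall g]
    exact ⟨n, hn, rfl⟩
  -- a Sylow subgroup lies in a maximal member
  obtain ⟨P⟩ : Nonempty (Sylow p G) := inferInstance
  have hPtop : (P : Subgroup G) ≠ ⊤ := by
    intro h
    apply hpG
    have h1 : IsPGroup p (P : Subgroup G) := P.isPGroup'
    rw [h] at h1
    exact h1.of_equiv Subgroup.topEquiv
  have hPPG : PG (P : Subgroup G) := by
    refine ⟨hPtop, le_antisymm ?_ ?_⟩
    · rw [Subgroup.closure_le]; exact Set.inter_subset_right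
    · intro x hx
      apply Subgroup.subset_closure
      refine ⟨?_, hx⟩
      obtain ⟨k, hk⟩ := (IsPGroup.iff_orderOf.mp P.isPGroup') ⟨x, hx⟩
      exact ⟨k, by rw [← hk]; exact (Subgroup.orderOf_mk x hx).symm⟩
  obtain ⟨M, hM, hPM⟩ := hexmax _ hPPG
  haveI hMn := hnormal M hM
  apply hM.1.1
  rw [eq_top_iff, ← hgen, Subgroup.closure_le]
  rintro x ⟨k, hk⟩
  have hpz : IsPGroup p (Subgroup.zpowers x) := by
    rw [IsPGroup.iff_card]
    exact ⟨k, by rw [Nat.card_zpowers, hk]⟩
  obtain ⟨Q, hQ⟩ := hpz.exists_le_sylow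
  obtain ⟨g, hg⟩ := MulAction.exists_smul_eq G P Q
  have hxQ : x ∈ Q := hQ (Subgroup.mem_zpowers x)
  rw [← hg] at hxQ
  have h2 : x ∈ MulAut.conj g • (P : Subgroup G) := hxQ
  rw [Subgroup.mem_pointwise_smul_iff_inv_smul_mem] at h2
  have h3 : g⁻¹ * x * g ∈ M := by
    apply hPM
    simpa [MulAut.smul_def, MulAut.conj_apply] using h2
  have h4 := hMn.conj_mem _ h3 g
  have h5 : g * (g⁻¹ * x * g) * g⁻¹ = x := by group
  rw [h5] at h4
  exact h4

end Cfsg.Agent.Lib.Misc19
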