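import Mathlib

set_option autoImplicit false

namespace Cfsg.Agent.Lib.Misc19.SchurCyc

open Finset

variable {G Ω : Type*} [Group G] [MulAction G Ω] {C : Subgroup G}

/-- The relation attached to a subset `U` of the regular subgroup is `G`-invariant. -/
def RInv (Ω : Type*) [MulAction G Ω] (C : Subgroup G) (U : Set C) : Prop :=
  ∀ (g : G) (a : Ω) (t : C), t ∈ U → ∃ t' ∈ U, t' • (g • a) = g • (t • a)

/-- Frobenius for commuting families. -/
theorem sum_pow_char_of_commute {R ι : Type*} [Ring R] (p : ℕ) [Fact p.Prime] [CharP R p] (s : Finset ι) (f : ι → R)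
    (hc : ∀ i j, Commute (f i) (f j)) : (∑ i ∈ s, f i) ^ p = ∑ i ∈ s, f i ^ p := by
  classical
  induction s using Finset.induction_on with
  | empty =>
    simp only [sum_empty]
    exact zero_pow (Fact.out : p.Prime).ne_zero
  | insert a s ha ih =>
    rw [sum_insert ha, sum_insert ha, add_pow_char_of_commute, ih]
    exact Commute.sum_right _ _ _ (fun j _ => hc a j)

section closure

variable (hreg : ∀ a b : Ω, ∃! c : C, c • a = b)
include hreg

omit hreg in
/-- invariance passes to the generated subgroup. -/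
theorem rinv_closure {U : Set C} (hU : RInv Ω C U) (g : G) (l : C) (hl : l ∈ Subgroup.closure U) :
    ∀ a : Ω, ∃ l' ∈ Subgroup.closure U, l' • (g • a) = g • (l • a) := by
  induction hl using Subgroup.closure_induction with
  | mem u hu =>
    intro a
    obtain ⟨t', ht', h⟩ := hU g a u hu
    exact ⟨t', Subgroup.subset_closure ht', h⟩
  | one =>
    intro a
    exact ⟨1, one_mem _, by simp⟩
  | mul x y _ _ hx hy =>
    intro a
    obtain ⟨y', hy', h1⟩ := hy a
    obtain ⟨x', hx', h2⟩ := hx (y • a)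
    refine ⟨x' * y', mul_mem hx' hy', ?_⟩
    rw [mul_smul, h1, h2, mul_smul]
  | inv x _ hx =>
    intro a
    obtain ⟨x', hx', h1⟩ := hx (x⁻¹ • a)
    refine ⟨x'⁻¹, inv_mem hx', ?_⟩
    rw [smul_inv_smul] at h1
    rw [← h1, inv_smul_smul]

/-- In a primitive group, an invariant subset generates the trivial group or everything. -/
theorem closure_eq_bot_or_top (hprim : MulAction.IsPreprimitive G Ω) (ω : Ω) {U : Set C} (hU : RInv Ω C U) :
    Subgroup.closure U = ⊥ ∨ Subgroup.closure U = ⊤ := by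
  set L := Subgroup.closure U with hL
  let B : Set Ω := {b | ∃ l ∈ L, l • ω = b}
  have hB : MulAction.IsBlock G B := by
    rw [MulAction.isBlock_iff_smul_eq_of_nonempty]
    intro g hne
    obtain ⟨_, ⟨b₁, ⟨l₁, hl₁, rfl⟩, rfl⟩, ⟨l₂, hl₂, hb₂⟩⟩ := hne
    have hb₂' : g • (l₁ • ω) = l₂ • ω := hb₂.symm
    obtain ⟨l₁', hl₁', h1⟩ := rinv_closure hU g l₁ hl₁ ω
    have hgω : g • ω = (l₁'⁻¹ * l₂) • ω := by
      rw [mul_smul, ← hb₂', ← h1, inv_smul_smul]
    have hl₀ : l₁'⁻¹ * l₂ ∈ L := mul_mem (inv_mem hl₁') hl₂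
    -- the inverse also maps ω into B
    obtain ⟨l₃, hl₃, h3⟩ := rinv_closure hU g⁻¹ (l₁'⁻¹ * l₂) hl₀ ω
    have hgiω : g⁻¹ • ω = l₃⁻¹ • ω := by
      rw [← hgω, inv_smul_smul] at h3
      exact eq_inv_smul_iff.mpr h3
    ext x
    constructor
    · rintro ⟨_, ⟨l, hl, rfl⟩, rfl⟩
      obtain ⟨l', hl', h4⟩ := rinv_closure hU g l hl ω
      refine ⟨l' * (l₁'⁻¹ * l₂), mul_mem hl' hl₀, ?_⟩
      change (l' * (l₁'⁻¹ * l₂)) • ω = g • (l • ω)
      rw [mul_smul, ← hgω, h4]
    · rintro ⟨l, hl, rfl⟩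
      rw [Set.mem_smul_set_iff_inv_smul_mem]
      obtain ⟨l', hl', h4⟩ := rinv_closure hU g⁻¹ l hl ω
      refine ⟨l' * l₃⁻¹, mul_mem hl' (inv_mem hl₃), ?_⟩
      rw [mul_smul, ← hgiω, h4]
  have hω : ω ∈ B := ⟨1, one_mem _, one_smul _ _⟩
  rcases hprim.isTrivialBlock_of_isBlock hB with h | h
  · left
    rw [eq_bot_iff]
    intro l hl
    have h1 : l • ω = ω := h ⟨l, hl, rfl⟩ hω
    obtain ⟨c, -, hc⟩ := hreg ω ω
    rw [Subgroup.mem_bot, hc l h1, hc 1 (one_smul _ _)]
  · right
    rw [eq_top_iff]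
    intro c _
    have h1 : c • ω ∈ B := by rw [h]; trivial
    obtain ⟨l, hl, h2⟩ := h1
    obtain ⟨c', -, hc'⟩ := hreg ω (c • ω)
    rwa [hc' c rfl, ← hc' l h2]

/-- The set of right translations preserving `T` is invariant. -/
theorem rinv_stab {T : Set C} (hT : RInv Ω C T) : RInv Ω C {h : C | ∀ t ∈ T, t * h ∈ T} := by
  intro g a h hh
  obtain ⟨h', hh', -⟩ := hreg (g • a) (g • (h • a))
  refine ⟨h', ?_, ?_⟩
  · intro t ht
    obtain ⟨t₁, ht₁, h1⟩ := hT g⁻¹ (g • (h • a)) t ht
    rw [inv_smul_smul] at h1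
    have ht₂ : t₁ * h ∈ T := hh t₁ ht₁
    obtain ⟨t₃, ht₃, h3⟩ := hT g a (t₁ * h) ht₂
    have h4 : (t * h') • (g • a) = t₃ • (g • a) := by
      rw [mul_smul, hh', h3, mul_smul, h1, smul_inv_smul]
    obtain ⟨c, -, hc⟩ := hreg (g • a) (t₃ • (g • a))
    have e : t * h' = t₃ := by rw [hc _ h4, hc t₃ rfl]
    rw [e]
    exact ht₃
  · exact hh'

end closure

section frob

variable (hreg : ∀ a b : Ω, ∃! c : C, c • a = b)
include hreg

/-- The Frobenius invariance: the count of `t ∈ T` with `t^p • a = b` modulo `p` is `G`-invariant. -/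
theorem count_invariant [Fintype Ω] [DecidableEq Ω] [Fintype C] (hcomm : ∀ x y : C, x * y = y * x) (p : ℕ) [hp : Fact p.Prime]
    (T : Finset C) (hT : RInv Ω C (T : Set C)) (g : G) (a b : Ω) :
    (((T.filter (fun t => t ^ p • (g • a) = g • b)).card : ℕ) : ZMod p)
      = ((T.filter (fun t => t ^ p • a = b)).card : ℕ) := by
  have hne : Nonempty Ω := ⟨a⟩
  let P : C → Matrix Ω Ω (ZMod p) := fun t => Matrix.of fun x y => if t • x = y then 1 else 0
  have hPapp : ∀ (t : C) (x y : Ω), P t x y = if t • x = y then 1 else 0 := fun _ _ _ => rfl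
  have hPmul : ∀ s t : C, P s * P t = P (t * s) := by
    intro s t
    ext x y
    rw [Matrix.mul_apply, hPapp, Finset.sum_eq_single (s • x)]
    · simp [hPapp, mul_smul]
    · intro e _ he
      simp [hPapp, Ne.symm he]
    · simp
  have hPone : P 1 = 1 := by
    ext x y
    simp [hPapp, Matrix.one_apply]
  have hPpow : ∀ (t : C) (k : ℕ), P t ^ k = P (t ^ k) := by
    intro t k
    induction k with
    | zero => simp [hPone]
    | succ k ih => rw [pow_succ, ih, hPmul, pow_succ']
  have hPcomm : ∀ s t, Commute (P s) (P t) := by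
    intro s t
    change P s * P t = P t * P s
    rw [hPmul, hPmul, hcomm]
  let A : Matrix Ω Ω (ZMod p) := ∑ t ∈ T, P t
  have hAapp : ∀ x y : Ω, A x y = ((T.filter (fun t => t • x = y)).card : ZMod p) := by
    intro x y
    simp only [A, Matrix.sum_apply, hPapp]
    rw [Finset.sum_boole]
  have hle1 : ∀ x y : Ω, (T.filter (fun t => t • x = y)).card ≤ 1 := by
    intro x y
    rw [Finset.card_le_one]
    intro s hs t ht
    have h1 := (Finset.mem_filter.mp hs).2
    have h2 := (Finset.mem_filter.mp ht).2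
    obtain ⟨c, -, hc⟩ := hreg x y
    rw [hc s h1, hc t h2]
  have hAinv : ∀ (g : G) (x y : Ω), A (g • x) (g • y) = A x y := by
    have hone : ∀ (g : G) (x y : Ω), (T.filter (fun t => t • x = y)).card ≤ (T.filter (fun t => t • (g • x) = g • y)).card := by
      intro g x y
      rcases Finset.eq_empty_or_nonempty (T.filter (fun t => t • x = y)) with h | ⟨t, ht⟩
      · rw [h]; simp
      · obtain ⟨ht1, rfl⟩ := Finset.mem_filter.mp ht
        obtain ⟨t', ht', h1⟩ := hT g x t ht1
        have h2 : t' ∈ T.filter (fun t₀ => t₀ • (g • x) = g • (t • x)) :=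
          Finset.mem_filter.mpr ⟨ht', h1⟩
        exact (hle1 x _).trans (Finset.card_pos.mpr ⟨t', h2⟩)
    intro g x y
    rw [hAapp, hAapp]
    have h9 : (T.filter (fun t => t • (g • x) = g • y)).card = (T.filter (fun t => t • x = y)).card := by
      apply le_antisymm
      · have := hone g⁻¹ (g • x) (g • y)
        simpa using this
      · exact hone g x y
    rw [h9]
  have hApow : ∀ (k : ℕ) (x y : Ω), (A ^ k) (g • x) (g • y) = (A ^ k) x y := by
    intro k
    induction k with
    | zero =>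
      intro x y
      simp [Matrix.one_apply]
    | succ k ih =>
      intro x y
      rw [pow_succ, Matrix.mul_apply, Matrix.mul_apply]
      rw [← Equiv.sum_comp (MulAction.toPerm g : Equiv.Perm Ω)]
      apply Finset.sum_congr rfl
      intro e _
      rw [MulAction.toPerm_apply, ih, hAinv]
  have hfrob : A ^ p = ∑ t ∈ T, P (t ^ p) := by
    have := sum_pow_char_of_commute p T P hPcomm
    rw [this]
    exact Finset.sum_congr rfl (fun t _ => hPpow t p)
  have hfin : ∀ x y : Ω, (A ^ p) x y = ((T.filter (fun t => t ^ p • x = y)).card : ZMod p) := by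
    intro x y
    rw [hfrob]
    simp only [Matrix.sum_apply, hPapp]
    rw [Finset.sum_boole]
  rw [← hfin, ← hfin, hApow]

end frob

section main

variable [Finite G] [Finite Ω] (hreg : ∀ a b : Ω, ∃! c : C, c • a = b) (hcomm : ∀ x y : C, x * y = y * x)
  (hprim : MulAction.IsPreprimitive G Ω) (ω : Ω)

include hreg hcomm hprim ω

/-- `(★)`: basic sets are unions of cosets of the `p`-torsion, away from it. -/
theorem star [hfin : Fintype C] (hcyc : IsCyclic C) (p : ℕ) [hp : Fact p.Prime] (y₀ : C) (hy₀ : y₀ ≠ 1) (hy₀p : y₀ ^ p = 1)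
    (T : Finset C) (hT : RInv Ω C (T : Set C)) (s : C) (hs : s ∈ T) (hsp : s ^ p ≠ 1) (y : C) (hy : y ^ p = 1) :
    s * y ∈ T := by
  classical
  letI : Fintype Ω := Fintype.ofFinite Ω
  have hcount : ∀ (g : G) (a b : Ω), (((T.filter (fun t => t ^ p • (g • a) = g • b)).card : ℕ) : ZMod p)
      = ((T.filter (fun t => t ^ p • a = b)).card : ℕ) := fun g a b => count_invariant hreg hcomm p T hT g a b
  -- translate into the function φ
  let φ : C → ZMod p := fun h => ((T.filter (fun t => t ^ p = h)).card : ℕ)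
  have hφ : ∀ (h : C) (a : Ω), ((T.filter (fun t => t ^ p • a = h • a)).card : ZMod p) = φ h := by
    intro h a
    have : T.filter (fun t => t ^ p • a = h • a) = T.filter (fun t => t ^ p = h) := by
      apply Finset.filter_congr
      intro t _
      constructor
      · intro e
        obtain ⟨c, -, hc⟩ := hreg a (h • a)
        rw [hc _ e, hc h rfl]
      · intro e
        rw [e]
    rw [this]
  -- level sets are invariant
  have hU : ∀ r : ZMod p, RInv Ω C {h : C | φ h = r} := by
    intro r g a h hh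
    obtain ⟨h', hh', -⟩ := hreg (g • a) (g • (h • a))
    refine ⟨h', ?_, hh'⟩
    have h1 := hcount g a (h • a)
    rw [← hh', hφ, hφ] at h1
    rw [Set.mem_ofPred_eq, h1]
    exact hh
  -- the nonzero level sets are trivial
  have hpow_mem : ∀ (r : ZMod p), r ≠ 0 → ∀ h ∈ Subgroup.closure {h : C | φ h = r}, ∃ x : C, x ^ p = h := by
    intro r hr h hh
    induction hh using Subgroup.closure_induction with
    | mem u hu =>
      have hu' : φ u = r := hu
      by_contra hno
      push Not at hno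
      apply hr
      rw [← hu']
      have : T.filter (fun t => t ^ p = u) = ∅ := by
        rw [Finset.filter_eq_empty_iff]
        intro t _
        exact hno t
      simp only [φ, this, Finset.card_empty, Nat.cast_zero]
    | one => exact ⟨1, one_pow _⟩
    | mul a b _ _ ha hb =>
      obtain ⟨x, rfl⟩ := ha
      obtain ⟨z, rfl⟩ := hb
      exact ⟨x * z, (Commute.mul_pow (hcomm x z) p)⟩
    | inv a _ ha =>
      obtain ⟨x, rfl⟩ := ha
      exact ⟨x⁻¹, inv_pow x p⟩
  have hnotsurj : ¬ ∀ h : C, ∃ x : C, x ^ p = h := by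
    intro hsurj
    have hs : Function.Surjective (fun x : C => x ^ p) := hsurj
    have hi := Finite.injective_iff_surjective.mpr hs
    apply hy₀
    apply hi
    simpa using hy₀p
  have hφ0 : ∀ h : C, h ≠ 1 → φ h = 0 := by
    intro h hh1
    by_contra hne
    rcases closure_eq_bot_or_top hreg hprim ω (hU (φ h)) with hb | ht
    · apply hh1
      have : h ∈ Subgroup.closure {h' : C | φ h' = φ h} := Subgroup.subset_closure rfl
      rw [hb] at this
      simpa using this
    · apply hnotsurj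
      intro c
      apply hpow_mem (φ h) hne
      rw [ht]
      trivial
  -- the count
  have hs0 := hφ0 (s ^ p) hsp
  have hdvd : p ∣ (T.filter (fun t => t ^ p = s ^ p)).card := by
    rw [← ZMod.natCast_eq_zero_iff]
    exact hs0
  have hpos : 0 < (T.filter (fun t => t ^ p = s ^ p)).card :=
    Finset.card_pos.mpr ⟨s, Finset.mem_filter.mpr ⟨hs, rfl⟩⟩
  have hge : p ≤ (T.filter (fun t => t ^ p = s ^ p)).card := Nat.le_of_dvd hpos hdvd
  have hle : (Finset.univ.filter (fun t : C => t ^ p = s ^ p)).card ≤ p := by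
    have h1 := IsCyclic.card_pow_eq_one_le (α := C) hp.out.pos
    refine le_trans ?_ h1
    refine Finset.card_le_card_of_injOn (fun t => t * s⁻¹) ?_ ?_
    · intro t ht
      have ht' : t ^ p = s ^ p := (Finset.mem_filter.mp ht).2
      simp only [Finset.coe_filter, Finset.mem_univ, true_and, Set.mem_ofPred_eq] at ht ⊢
      rw [Commute.mul_pow (hcomm t s⁻¹), ht', inv_pow, mul_inv_cancel]
    · intro t _ t' _ e
      exact mul_right_cancel e
  have heq : T.filter (fun t => t ^ p = s ^ p) = Finset.univ.filter (fun t : C => t ^ p = s ^ p) := by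
    apply Finset.eq_of_subset_of_card_le
    · intro t ht
      exact Finset.mem_filter.mpr ⟨Finset.mem_univ _, (Finset.mem_filter.mp ht).2⟩
    · exact hle.trans hge
  have hmem : s * y ∈ Finset.univ.filter (fun t : C => t ^ p = s ^ p) := by
    refine Finset.mem_filter.mpr ⟨Finset.mem_univ _, ?_⟩
    rw [Commute.mul_pow (hcomm s y), hy, mul_one]
  rw [← heq] at hmem
  exact (Finset.mem_filter.mp hmem).1

/-- `(☆)`: every nontrivial basic set meets the `p`-torsion. -/
theorem exists_torsion_mem [hfin : Fintype C] (hcyc : IsCyclic C) (p : ℕ) [hp : Fact p.Prime] (y₀ : C) (hy₀ : y₀ ≠ 1) (hy₀p : y₀ ^ p = 1)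
    (T : Finset C) (hT : RInv Ω C (T : Set C)) (hne : T.Nonempty) (h1T : (1 : C) ∉ T) : ∃ y ∈ T, y ^ p = 1 := by
  classical
  by_contra hno
  push Not at hno
  have hst : y₀ ∈ {h : C | ∀ t ∈ (T : Set C), t * h ∈ (T : Set C)} := by
    intro t ht
    exact star hreg hcomm hprim ω hcyc p y₀ hy₀ hy₀p T hT t ht (hno t ht) y₀ hy₀p
  have hinv := rinv_stab hreg hT
  rcases closure_eq_bot_or_top hreg hprim ω hinv with hb | ht
  · apply hy₀
    have := Subgroup.subset_closure hst
    rw [hb] at this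
    simpa using this
  · have key : ∀ c ∈ Subgroup.closure {h : C | ∀ t ∈ (T : Set C), t * h ∈ (T : Set C)}, ∀ t ∈ T, t * c ∈ T := by
      intro c hc
      induction hc using Subgroup.closure_induction with
      | mem u hu => exact fun t ht => hu t ht
      | one => exact fun t ht => by simpa using ht
      | mul a b _ _ ha hb =>
        intro t ht
        rw [← mul_assoc]
        exact hb _ (ha t ht)
      | inv a _ ha =>
        intro t ht
        have himg : T.image (fun x => x * a) = T := by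
          apply Finset.eq_of_subset_of_card_le
          · intro z hz
            obtain ⟨w, hw, rfl⟩ := Finset.mem_image.mp hz
            exact ha w hw
          · rw [Finset.card_image_of_injective _ (mul_left_injective a)]
        rw [← himg] at ht
        obtain ⟨w, hw, rfl⟩ := Finset.mem_image.mp ht
        simpa using hw
    obtain ⟨t₀, ht₀⟩ := hne
    have h1 := key t₀⁻¹ (by rw [ht]; trivial) t₀ ht₀
    rw [mul_inv_cancel] at h1
    exact h1T h1

/-- With two primes, every nontrivial basic set contains all of the `p`-torsion. -/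
theorem torsion_subset [hfin : Fintype C] (hcyc : IsCyclic C) (p q : ℕ) [hp : Fact p.Prime] [hq : Fact q.Prime] (hpq : p ≠ q)
    (y₀ : C) (hy₀ : y₀ ≠ 1) (hy₀p : y₀ ^ p = 1) (z₀ : C) (hz₀ : z₀ ≠ 1) (hz₀q : z₀ ^ q = 1)
    (T : Finset C) (hT : RInv Ω C (T : Set C)) (hne : T.Nonempty) (h1T : (1 : C) ∉ T)
    (y : C) (hy : y ≠ 1) (hyp : y ^ p = 1) : y ∈ T := by
  obtain ⟨x, hxT, hxq⟩ := exists_torsion_mem hreg hcomm hprim ω hcyc q z₀ hz₀ hz₀q T hT hne h1T
  have hcop : Nat.gcd p q = 1 := (Nat.coprime_primes hp.out hq.out).mpr hpq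
  have hx1 : x ≠ 1 := fun e => h1T (e ▸ hxT)
  have hxp : x ^ p ≠ 1 := by
    intro e
    apply hx1
    have := pow_gcd_eq_one.mpr ⟨e, hxq⟩
    rwa [hcop, pow_one] at this
  have h1 : x * y ∈ T := star hreg hcomm hprim ω hcyc p y₀ hy₀ hy₀p T hT x hxT hxp y hyp
  have h2 : (x * y) ^ q ≠ 1 := by
    rw [Commute.mul_pow (hcomm x y), hxq, one_mul]
    intro e
    apply hy
    have := pow_gcd_eq_one.mpr ⟨hyp, e⟩
    rwa [hcop, pow_one] at this
  have h3 := star hreg hcomm hprim ω hcyc q z₀ hz₀ hz₀q T hT (x * y) h1 h2 x⁻¹ (by rw [inv_pow, hxq, inv_one])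
  have e : x * y * x⁻¹ = y := by
    rw [hcomm x y, mul_assoc, mul_inv_cancel, mul_one]
  rwa [e] at h3

end main

/-- Schur's theorem for non-prime-power degree. -/
theorem main_result {G Ω : Type*} [Group G] [Finite G] [MulAction G Ω] [FaithfulSMul G Ω] [Finite Ω]
    (htrans : MulAction.IsPretransitive G Ω) (hn : 2 ≤ Nat.card Ω) (hnp : ¬ IsPrimePow (Nat.card Ω))
    (C : Subgroup G) (hcyc : IsCyclic ↥C) (hC : MulAction.IsPretransitive ↥C Ω ∧ ∀ a : Ω, MulAction.stabilizer ↥C a = ⊥) :
    ¬ MulAction.IsPreprimitive G Ω ∨ MulAction.IsMultiplyPretransitive G Ω 2 := by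
  classical
  by_cases hprim : MulAction.IsPreprimitive G Ω
  swap
  · exact Or.inl hprim
  right
  letI : Fintype C := Fintype.ofFinite C
  letI : Fintype Ω := Fintype.ofFinite Ω
  obtain ⟨htr, hst⟩ := hC
  have hreg : ∀ a b : Ω, ∃! c : C, c • a = b := by
    intro a b
    obtain ⟨c, hc⟩ := MulAction.exists_smul_eq C a b
    refine ⟨c, hc, ?_⟩
    intro c' hc'
    have h1 : c⁻¹ * c' ∈ MulAction.stabilizer C a := by
      rw [MulAction.mem_stabilizer_iff, mul_smul, hc', ← hc, inv_smul_smul]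
    rw [hst a, Subgroup.mem_bot] at h1
    calc c' = c * (c⁻¹ * c') := by group
      _ = c := by rw [h1, mul_one]
  have hcomm : ∀ x y : C, x * y = y * x := by
    have := hcyc.isMulCommutative
    exact fun x y => mul_comm' x y
  obtain ⟨ω⟩ : Nonempty Ω := (Nat.card_pos_iff.mp (by omega)).1
  have hcard : Nat.card C = Nat.card Ω := by
    apply Nat.card_congr
    refine Equiv.ofBijective (fun c : C => c • ω) ⟨?_, ?_⟩
    · intro c c' e
      obtain ⟨d, -, hd⟩ := hreg ω (c' • ω)
      exact (hd c e).trans (hd c' rfl).symm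
    · intro b
      obtain ⟨c, hc, -⟩ := hreg ω b
      exact ⟨c, hc⟩
  obtain ⟨p, hpm, q, hqm, hpq⟩ := (Nat.not_isPrimePow_iff_nontrivial_of_two_le hn).1 hnp
  have hpp := Nat.prime_of_mem_primeFactors hpm
  have hqp := Nat.prime_of_mem_primeFactors hqm
  have hpd := Nat.dvd_of_mem_primeFactors hpm
  have hqd := Nat.dvd_of_mem_primeFactors hqm
  haveI : Fact p.Prime := ⟨hpp⟩
  haveI : Fact q.Prime := ⟨hqp⟩
  rw [← hcard] at hpd hqd
  obtain ⟨y₀, hy₀⟩ := exists_prime_orderOf_dvd_card' (G := C) p hpd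
  obtain ⟨z₀, hz₀⟩ := exists_prime_orderOf_dvd_card' (G := C) q hqd
  have hy₀1 : y₀ ≠ 1 := by
    intro e
    rw [e, orderOf_one] at hy₀
    exact hpp.one_lt.ne hy₀
  have hz₀1 : z₀ ≠ 1 := by
    intro e
    rw [e, orderOf_one] at hz₀
    exact hqp.one_lt.ne hz₀
  have hy₀p : y₀ ^ p = 1 := by rw [← hy₀]; exact pow_orderOf_eq_one _
  have hz₀q : z₀ ^ q = 1 := by rw [← hz₀]; exact pow_orderOf_eq_one _
  -- the basic sets
  have hkey : ∀ x : Ω, x ≠ ω → ∃ g : G, g • ω = ω ∧ g • x = (y₀ : G) • ω := by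
    intro x hx
    let T : Finset C := Finset.univ.filter (fun t : C => ∃ g : G, g • ω = ω ∧ g • x = (t : G) • ω)
    have hT : RInv Ω C (T : Set C) := by
      intro g a t ht
      obtain ⟨g₀, hg₀, hg₀x⟩ := (Finset.mem_filter.mp (Finset.mem_coe.mp ht)).2
      obtain ⟨t', ht', -⟩ := hreg (g • a) (g • (t • a))
      refine ⟨t', ?_, ht'⟩
      obtain ⟨c, hc, -⟩ := hreg ω a
      obtain ⟨c', hc', -⟩ := hreg ω (g • a)
      refine Finset.mem_coe.mpr (Finset.mem_filter.mpr ⟨Finset.mem_univ _, ?_⟩)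
      have hc₁ : (c : G) • ω = a := hc
      have hc₁' : (c' : G) • ω = g • a := hc'
      have ht₁ : (t' : G) • (g • a) = g • ((t : G) • a) := ht'
      refine ⟨(c' : G)⁻¹ * g * c * g₀, ?_, ?_⟩
      · rw [mul_smul, hg₀, mul_smul, mul_smul, hc₁, ← hc₁', inv_smul_smul]
      · rw [mul_smul, hg₀x, mul_smul, mul_smul]
        have h1 : (c : G) • (t : G) • ω = (t : G) • a := by
          rw [← hc₁, ← mul_smul, ← mul_smul]
          congr 1
          exact congrArg Subtype.val (hcomm c t)
        rw [h1, ← ht₁, hc₁' |>.symm, ← mul_smul, ← mul_smul]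
        have h2 : (t' : G) * (c' : G) = (c' : G) * t' := congrArg Subtype.val (hcomm t' c')
        have e : (c' : G)⁻¹ * t' * c' = t' := by
          rw [mul_assoc, h2, inv_mul_cancel_left]
        rw [e]
    have hne : T.Nonempty := by
      obtain ⟨c, hc, -⟩ := hreg ω x
      exact ⟨c, Finset.mem_filter.mpr ⟨Finset.mem_univ _, 1, one_smul _ _, by rw [one_smul]; exact hc.symm⟩⟩
    have h1T : (1 : C) ∉ T := by
      intro h
      obtain ⟨g, hg, hgx⟩ := (Finset.mem_filter.mp h).2
      apply hx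
      apply MulAction.injective g
      change g • x = g • ω
      rw [hgx, hg]
      simp
    have hmem := torsion_subset hreg hcomm hprim ω hcyc p q hpq y₀ hy₀1 hy₀p z₀ hz₀1 hz₀q T hT hne h1T y₀ hy₀1 hy₀p
    exact (Finset.mem_filter.mp hmem).2
  have hto : ∀ a b : Ω, a ≠ b → ∃ u : G, u • a = ω ∧ u • b = (y₀ : G) • ω := by
    intro a b hab
    obtain ⟨c, hc, -⟩ := hreg ω a
    have hc₁ : (c : G) • ω = a := hc
    have hx : (c : G)⁻¹ • b ≠ ω := by
      intro e
      apply hab
      rw [← hc₁, ← e, smul_inv_smul]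
    obtain ⟨g, hg, hgx⟩ := hkey _ hx
    refine ⟨g * (c : G)⁻¹, ?_, ?_⟩
    · rw [mul_smul, ← hc₁, inv_smul_smul, hg]
    · rw [mul_smul, hgx]
  rw [MulAction.is_two_pretransitive_iff]
  intro a b c d hab hcd
  obtain ⟨u, hu1, hu2⟩ := hto a b hab
  obtain ⟨v, hv1, hv2⟩ := hto c d hcd
  refine ⟨v⁻¹ * u, ?_, ?_⟩
  · rw [mul_smul, hu1, ← hv1, inv_smul_smul]
  · rw [mul_smul, hu2, ← hv2, inv_smul_smul]

end Cfsg.Agent.Lib.Misc19.SchurCyc
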