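import Mathlib

/-! Sims' theorem on suborbits of length 3: basic structure of the orbital digraph. -/

namespace Cfsg.Agent.Misc19.Sims3

open MulAction Subgroup

variable {G Ω : Type*} [Group G] [MulAction G Ω]

structure SD (G Ω : Type*) [Group G] [MulAction G Ω] where
  a : Ω
  b : Ω
  prim : IsPreprimitive G Ω
  h3 : Nat.card (orbit (stabilizer G a) b) = 3

def HH (G : Type*) {Ω : Type*} [Group G] [MulAction G Ω] (x y : Ω) : Subgroup G :=
  stabilizer G x ⊓ stabilizer G y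

omit [MulAction G Ω] in
lemma HH_comm [MulAction G Ω] (x y : Ω) : HH G x y = HH G y x := inf_comm _ _

lemma mem_HH {x y : Ω} {k : G} : k ∈ HH G x y ↔ k • x = x ∧ k • y = y := by
  simp [HH, mem_stabilizer_iff]

lemma mem_stab_smul {x : Ω} {g k : G} : k ∈ stabilizer G (g • x) ↔ g⁻¹ * k * g ∈ stabilizer G x := by
  simp only [mem_stabilizer_iff, mul_smul]
  constructor
  · intro h; rw [h]; simp
  · intro h; exact (inv_smul_eq_iff.mp h)

lemma conj_mem_stab {x : Ω} {g k : G} (h : k ∈ stabilizer G x) :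
    g * k * g⁻¹ ∈ stabilizer G (g • x) := by
  rw [mem_stab_smul]; simpa [mul_assoc] using h

lemma conj_mem_HH {x y : Ω} {g k : G} (h : k ∈ HH G x y) :
    g * k * g⁻¹ ∈ HH G (g • x) (g • y) := by
  rw [HH, mem_inf] at *
  exact ⟨conj_mem_stab h.1, conj_mem_stab h.2⟩

lemma card_stab_smul [Finite G] (g : G) (x : Ω) :
    Nat.card (stabilizer G (g • x)) = Nat.card (stabilizer G x) := by
  rw [stabilizer_smul_eq_stabilizer_map_conj]
  exact Subgroup.card_map_of_injective (MulEquiv.injective _)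

lemma HH_map (g : G) (x y : Ω) :
    (HH G x y).map (MulAut.conj g).toMonoidHom = HH G (g • x) (g • y) := by
  ext k
  simp only [mem_map]
  constructor
  · rintro ⟨u, hu, rfl⟩
    simpa [MulAut.conj_apply] using conj_mem_HH (g := g) hu
  · intro h
    refine ⟨g⁻¹ * k * g, ?_, by simp [MulAut.conj_apply, mul_assoc]⟩
    rw [mem_HH] at h ⊢
    constructor
    · simp only [mul_smul]; rw [h.1]; simp
    · simp only [mul_smul]; rw [h.2]; simp

lemma card_HH_smul [Finite G] (g : G) (x y : Ω) :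
    Nat.card (HH G (g • x) (g • y)) = Nat.card (HH G x y) := by
  rw [← HH_map]
  exact Subgroup.card_map_of_injective (MulEquiv.injective _)

lemma card_orbit_mul_HH [Finite G] (x y : Ω) :
    Nat.card (orbit (stabilizer G x) y) * Nat.card (HH G x y) = Nat.card (stabilizer G x) := by
  have h1 : Nat.card (stabilizer (stabilizer G x) y) = Nat.card (HH G x y) := by
    have : (stabilizer (stabilizer G x) y).map (stabilizer G x).subtype = HH G x y := by
      ext k
      simp only [mem_map, mem_stabilizer_iff, subtype_apply, Subtype.exists, exists_and_right,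
        exists_eq_right, mem_HH]
      constructor
      · rintro ⟨h, h2⟩; exact ⟨h, h2⟩
      · rintro ⟨h, h2⟩; exact ⟨h, h2⟩
    rw [← this]
    exact (Subgroup.card_map_of_injective (Subgroup.subtype_injective _)).symm
  rw [← h1, Nat.card_coe_set_eq, ← index_stabilizer, mul_comm]
  exact Subgroup.card_mul_index _

namespace SD

variable (D : SD G Ω)

def Arc (x y : Ω) : Prop := ∃ g : G, g • D.a = x ∧ g • D.b = y

variable {D}

lemma Arc.smul {x y : Ω} (h : D.Arc x y) (g : G) : D.Arc (g • x) (g • y) := by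
  obtain ⟨k, rfl, rfl⟩ := h
  exact ⟨g * k, mul_smul _ _ _, mul_smul _ _ _⟩

lemma arc_trans {x y x' y' : Ω} (h : D.Arc x y) (h' : D.Arc x' y') :
    ∃ g : G, g • x = x' ∧ g • y = y' := by
  obtain ⟨k, rfl, rfl⟩ := h
  obtain ⟨k', rfl, rfl⟩ := h'
  exact ⟨k' * k⁻¹, by simp [mul_smul], by simp [mul_smul]⟩

variable (D) in
lemma arc_base : D.Arc D.a D.b := ⟨1, one_smul _ _, one_smul _ _⟩

lemma Arc.stab {x y : Ω} {k : G} (h : D.Arc x y) (hk : k • x = x) : D.Arc x (k • y) := by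
  have := h.smul k; rwa [hk] at this

lemma Arc.stab' {x y : Ω} {k : G} (h : D.Arc x y) (hk : k • y = y) : D.Arc (k • x) y := by
  have := h.smul k; rwa [hk] at this

lemma exists_stab {x y y' : Ω} (h : D.Arc x y) (h' : D.Arc x y') :
    ∃ k : G, k • x = x ∧ k • y = y' := arc_trans h h'

lemma exists_stab' {x x' y : Ω} (h : D.Arc x y) (h' : D.Arc x' y) :
    ∃ k : G, k • y = y ∧ k • x = x' := by
  obtain ⟨k, h1, h2⟩ := arc_trans h h'
  exact ⟨k, h2, h1⟩

lemma ncard_out {x y : Ω} (h : D.Arc x y) : {u | D.Arc x u}.ncard = 3 := by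
  obtain ⟨g, rfl, rfl⟩ := h
  have h1 : {u | D.Arc (g • D.a) u} = (fun u => g • u) '' (orbit (stabilizer G D.a) D.b) := by
    ext u
    simp only [Set.mem_setOf_eq, Set.mem_image]
    constructor
    · rintro ⟨g', h1, rfl⟩
      refine ⟨(g⁻¹ * g') • D.b, ?_, by simp [mul_smul]⟩
      have hk : g⁻¹ * g' ∈ stabilizer G D.a := by
        rw [mem_stabilizer_iff, mul_smul, h1]; simp
      exact ⟨⟨_, hk⟩, rfl⟩
    · rintro ⟨v, ⟨⟨k, hk⟩, rfl⟩, rfl⟩
      refine ⟨g * k, ?_, ?_⟩
      · rw [mul_smul, mem_stabilizer_iff.mp hk]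
      · simp [mul_smul, Subgroup.smul_def]
  rw [h1, Set.ncard_image_of_injective _ (MulAction.injective g), ← Nat.card_coe_set_eq, D.h3]

lemma three {x y : Ω} (h : D.Arc x y) : ∃ y' y'' : Ω, y ≠ y' ∧ y ≠ y'' ∧ y' ≠ y'' ∧
    D.Arc x y' ∧ D.Arc x y'' ∧ ∀ u, D.Arc x u → u = y ∨ u = y' ∨ u = y'' := by
  obtain ⟨p, q, r, hpq, hpr, hqr, hs⟩ := Set.ncard_eq_three.mp (ncard_out h)
  have hmem : ∀ u, D.Arc x u ↔ u = p ∨ u = q ∨ u = r := by
    intro u
    have : u ∈ {u | D.Arc x u} ↔ u ∈ ({p, q, r} : Set Ω) := by rw [hs]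
    simpa using this
  rcases (hmem y).mp h with rfl | rfl | rfl
  · refine ⟨q, r, hpq, hpr, hqr, (hmem q).2 (by simp), (hmem r).2 (by simp), fun u hu => (hmem u).1 hu⟩
  · refine ⟨p, r, hpq.symm, hqr, hpr, (hmem p).2 (by simp), (hmem r).2 (by simp), fun u hu => ?_⟩
    rcases (hmem u).1 hu with h | h | h <;> simp [h]
  · refine ⟨p, q, hpr.symm, hqr.symm, hpq, (hmem p).2 (by simp), (hmem q).2 (by simp), fun u hu => ?_⟩
    rcases (hmem u).1 hu with h | h | h <;> simp [h]

lemma arc_ne {x y : Ω} (h : D.Arc x y) : x ≠ y := by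
  rintro rfl
  obtain ⟨g, rfl, h2⟩ := h
  have h0 : D.b = D.a := smul_left_cancel g h2
  have := D.h3
  rw [h0] at this
  have h1 : orbit (stabilizer G D.a) D.a = {D.a} := by
    ext u
    constructor
    · rintro ⟨⟨k, hk⟩, rfl⟩
      simpa [Subgroup.smul_def] using mem_stabilizer_iff.mp hk
    · intro hu
      rw [Set.mem_singleton_iff.mp hu]
      exact mem_orbit_self _
  rw [h1] at this
  simp at this


variable [Finite G]

lemma pret (D : SD G Ω) : IsPretransitive G Ω := D.prim.toIsPretransitive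

lemma card_stab_eq (D : SD G Ω) (x y : Ω) : Nat.card (stabilizer G x) = Nat.card (stabilizer G y) := by
  haveI := D.pret
  obtain ⟨g, rfl⟩ := exists_smul_eq G y x
  exact card_stab_smul g y

lemma h3' (D : SD G Ω) : Nat.card (orbit (stabilizer G D.b) D.a) = 3 := by
  have h1 := card_orbit_mul_HH (G := G) D.a D.b
  have h2 := card_orbit_mul_HH (G := G) D.b D.a
  rw [D.h3] at h1
  rw [HH_comm D.b D.a, D.card_stab_eq D.b D.a, ← h1] at h2
  have hpos : 0 < Nat.card (HH G D.a D.b) := Nat.card_pos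
  exact Nat.eq_of_mul_eq_mul_right hpos h2

def rev (D : SD G Ω) : SD G Ω := ⟨D.b, D.a, D.prim, D.h3'⟩

lemma rev_arc {D : SD G Ω} {x y : Ω} : D.rev.Arc x y ↔ D.Arc y x := by
  constructor
  · rintro ⟨g, h1, h2⟩; exact ⟨g, h2, h1⟩
  · rintro ⟨g, h1, h2⟩; exact ⟨g, h2, h1⟩

lemma card_HH_arc {x y x' y' : Ω} (h : D.Arc x y) (h' : D.Arc x' y') :
    Nat.card (HH G x y) = Nat.card (HH G x' y') := by
  obtain ⟨g, rfl, rfl⟩ := arc_trans h h'
  exact (card_HH_smul g x y).symm

lemma card_stab_arc {x y : Ω} (h : D.Arc x y) :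
    Nat.card (stabilizer G x) = 3 * Nat.card (HH G x y) := by
  obtain ⟨g, rfl, rfl⟩ := h
  rw [card_stab_smul, card_HH_smul, ← card_orbit_mul_HH D.a D.b, D.h3]

lemma exists_in {y : Ω} : ∃ x, D.Arc x y := by
  haveI := D.pret
  obtain ⟨g, rfl⟩ := exists_smul_eq G D.b y
  exact ⟨g • D.a, (arc_base D).smul g⟩

lemma exists_out (x : Ω) : ∃ y, D.Arc x y := by
  haveI := D.pret
  obtain ⟨g, rfl⟩ := exists_smul_eq G D.a x
  exact ⟨g • D.b, (arc_base D).smul g⟩

lemma stab_max (D : SD G Ω) (x : Ω) (K : Subgroup G) (hK : stabilizer G x ≤ K) (k : G) (hk : k ∈ K)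
    (hkx : k • x ≠ x) : K = ⊤ := by
  haveI := D.pret
  haveI := D.prim
  haveI : Nontrivial Ω := ⟨⟨_, _, hkx⟩⟩
  have hc := (isCoatom_stabilizer_iff_preprimitive G x).mpr D.prim
  rcases eq_or_lt_of_le hK with h | h
  · exact absurd (mem_stabilizer_iff.mp (h ▸ hk)) hkx
  · exact hc.2 _ h

lemma in_moved {x y : Ω} (h : D.Arc x y) : ∃ k : G, k • y = y ∧ k • x ≠ x := by
  obtain ⟨x', x'', h1, _, _, h4, _, _⟩ := three (D := D.rev) (rev_arc.mpr h)
  obtain ⟨k, hk1, hk2⟩ := exists_stab' h (rev_arc.mp h4)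
  exact ⟨k, hk1, by rw [hk2]; exact h1.symm⟩

lemma out_moved {x y : Ω} (h : D.Arc x y) : ∃ k : G, k • x = x ∧ k • y ≠ y := by
  obtain ⟨x', x'', h1, _, _, h4, _, _⟩ := three h
  obtain ⟨k, hk1, hk2⟩ := exists_stab h h4
  exact ⟨k, hk1, by rw [hk2]; exact h1.symm⟩

lemma eq_one_of_fix [FaithfulSMul G Ω] {k : G} (h : ∀ u : Ω, k • u = u) : k = 1 :=
  FaithfulSMul.eq_of_smul_eq_smul (α := Ω) (by simpa using h)

/-- CORE -/
lemma core [FaithfulSMul G Ω] {x y : Ω} (h : D.Arc x y) (C : Subgroup G) (hCx : C ≤ stabilizer G x)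
    (h1 : ∀ k : G, k • x = x → ∀ c ∈ C, k * c * k⁻¹ ∈ C)
    (h2 : ∀ k : G, k • y = y → ∀ c ∈ C, k * c * k⁻¹ ∈ C) : C = ⊥ := by
  haveI := D.pret
  have hn : Subgroup.normalizer (C : Set G) = ⊤ := by
    obtain ⟨k, hk1, hk2⟩ := in_moved h
    refine D.stab_max x _ ?_ k ?_ hk2
    · intro l hl
      rw [mem_stabilizer_iff] at hl
      rw [Subgroup.mem_normalizer_iff]
      intro c
      refine ⟨h1 l hl c, fun hc => ?_⟩
      have := h1 l⁻¹ (by rw [inv_smul_eq_iff, hl]) _ hc
      simpa [mul_assoc] using this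
    · rw [Subgroup.mem_normalizer_iff]
      intro c
      refine ⟨h2 k hk1 c, fun hc => ?_⟩
      have := h2 k⁻¹ (by rw [inv_smul_eq_iff, hk1]) _ hc
      simpa [mul_assoc] using this
  rw [eq_bot_iff]
  intro c hc
  rw [Subgroup.mem_bot]
  refine eq_one_of_fix (Ω := Ω) fun u => ?_
  obtain ⟨g, rfl⟩ := exists_smul_eq G x u
  have hg : g ∈ Subgroup.normalizer (C : Set G) := by rw [hn]; trivial
  have := (Subgroup.mem_normalizer_iff.mp (inv_mem hg) c).mp hc
  have h3 := mem_stabilizer_iff.mp (hCx this)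
  simp only [inv_inv, mul_smul] at h3
  rw [inv_smul_eq_iff] at h3
  exact h3

/-- A-Const -/
lemma const_of {α : Type*} (D : SD G Ω) (F : Ω → α)
    (hF : ∀ (g : G) (u v : Ω), F u = F v → F (g • u) = F (g • v)) {x x' : Ω} (hne : x ≠ x')
    (he : F x = F x') (u v : Ω) : F u = F v := by
  have hb : IsBlock G {w | F w = F x} := by
    rw [isBlock_iff_smul_eq_of_nonempty]
    intro g hg
    obtain ⟨w, ⟨w', hw', rfl⟩, hw⟩ := hg
    simp only [Set.mem_setOf_eq] at hw hw'
    have hsub : ∀ (g : G) (w' : Ω), F w' = F x → F (g • w') = F x → ∀ w'', F w'' = F x → F (g • w'') = F x := by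
      intro g w' h1 h2 w'' h3
      rw [← h2]; exact hF g _ _ (h3.trans h1.symm)
    ext z
    constructor
    · rintro ⟨z', hz', rfl⟩
      exact hsub g w' hw' hw z' hz'
    · intro hz
      refine ⟨g⁻¹ • z, ?_, by simp⟩
      refine hsub g⁻¹ (g • w') hw ?_ z hz
      simpa using hw'
  have := D.prim.isTrivialBlock_of_isBlock hb
  rcases this with h | h
  · exact absurd (h (show x ∈ {w | F w = F x} from rfl) (show x' ∈ {w | F w = F x} from he.symm)) hne
  · have hu : u ∈ {w | F w = F x} := by rw [h]; trivial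
    have hv : v ∈ {w | F w = F x} := by rw [h]; trivial
    exact hu.trans hv.symm

def Od (k : G) : Prop := ∃ m, Odd m ∧ k ^ m = 1

lemma odd_fix {x y u : Ω} {k : G} (h : D.Arc x y) (hu : D.Arc x u) (hk : Od k) (h1 : k • x = x)
    (h2 : k • y = y) : k • u = u := by
  obtain ⟨y', y'', h12, h13, h23, hy', hy'', hall⟩ := three h
  by_contra hne
  obtain ⟨m, ⟨j, rfl⟩, hm⟩ := hk
  have hku : D.Arc x (k • u) := by simpa [h1] using hu.smul k
  have hne2 : u ≠ y := by rintro rfl; exact hne h2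
  have hne3 : k • u ≠ y := by
    intro h3; rw [← h2] at h3; exact hne2 (smul_left_cancel k h3)
  have hkk : D.Arc x (k • k • u) := by simpa [h1] using hku.smul k
  have hne4 : k • k • u ≠ y := by
    intro h3; rw [← h2] at h3; exact hne3 (smul_left_cancel k h3)
  have hne5 : k • k • u ≠ k • u := fun h3 => hne (smul_left_cancel k h3)
  have hfix : k • k • u = u := by
    have a1 := hall u hu
    have a2 := hall _ hku
    have a3 := hall _ hkk
    rcases a1 with a1 | a1 | a1 <;> rcases a2 with a2 | a2 | a2 <;> rcases a3 with a3 | a3 | a3 <;>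
      first
      | exact absurd a1 hne2 | exact absurd a2 hne3 | exact absurd a3 hne4
      | exact a3.trans a1.symm
      | exact absurd (a3.trans a2.symm) hne5
      | exact absurd (a2.trans a1.symm) hne
  have hs : (k ^ 2) ∈ stabilizer G u := by
    rw [mem_stabilizer_iff, pow_two, mul_smul]; exact hfix
  have hs2 := mem_stabilizer_iff.mp (pow_mem hs j)
  have : k ^ (2 * j + 1) • u = k • u := by
    rw [pow_succ', mul_smul, pow_mul, hs2]
  rw [hm, one_smul] at this
  exact hne this.symm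

def oddF (D : SD G Ω) (x : Ω) : Set G := {k | Od k ∧ k • x = x ∧ ∀ u, D.Arc x u → k • u = u}

lemma odd_trivial [FaithfulSMul G Ω] {x y : Ω} {k : G} (h : D.Arc x y) (hk : Od k) (h1 : k • x = x)
    (h2 : k • y = y) : k = 1 := by
  have hF : ∀ (g : G) (u v : Ω), D.oddF u = D.oddF v → D.oddF (g • u) = D.oddF (g • v) := by
    have key : ∀ (g : G) (u : Ω) (l : G), l ∈ D.oddF (g • u) ↔ g⁻¹ * l * g ∈ D.oddF u := by
      intro g u l
      simp only [oddF, Set.mem_setOf_eq]
      constructor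
      · rintro ⟨⟨m, hm, hl⟩, h3, h4⟩
        refine ⟨⟨m, hm, ?_⟩, ?_, fun w hw => ?_⟩
        · have : g⁻¹ * l * g = g⁻¹ * l * g⁻¹⁻¹ := by simp
          rw [this, conj_pow, hl]; simp
        · simp only [mul_smul]; rw [h3]; simp
        · simp only [mul_smul]; rw [h4 _ (hw.smul g)]; simp
      · rintro ⟨⟨m, hm, hl⟩, h3, h4⟩
        refine ⟨⟨m, hm, ?_⟩, ?_, fun w hw => ?_⟩
        · have h5 : l = g * (g⁻¹ * l * g) * g⁻¹ := by group
          rw [h5, conj_pow, hl]; simp
        · simp only [mul_smul] at h3; exact inv_smul_eq_iff.mp h3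
        · have hw' : D.Arc u (g⁻¹ • w) := by simpa using hw.smul g⁻¹
          have := h4 _ hw'
          simp only [mul_smul, smul_inv_smul] at this
          exact smul_left_cancel _ this
    intro g u v huv
    ext l
    rw [key, key, huv]
  obtain ⟨x', x'', h12, _, _, hx', _, _⟩ := three (D := D.rev) (rev_arc.mpr h)
  have hx' := rev_arc.mp hx'
  have he : D.oddF x = D.oddF x' := by
    have sub : ∀ p q, D.Arc p y → D.Arc q y → D.oddF p ⊆ D.oddF q := by
      intro p q hp hq l hl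
      obtain ⟨hl1, hl2, hl3⟩ := hl
      have hly := hl3 _ hp
      have hlq : l • q = l • q := rfl
      have hq' : l • q = q := odd_fix (D := D.rev) (rev_arc.mpr hp) (rev_arc.mpr hq) hl1 hly hl2
      exact ⟨hl1, hq', fun u hu => odd_fix hq hu hl1 hq' hly⟩
    exact Set.Subset.antisymm (sub _ _ h hx') (sub _ _ hx' h)
  have hc := const_of D D.oddF hF h12 he
  refine eq_one_of_fix (Ω := Ω) fun u => ?_
  have hk' : k ∈ D.oddF x := ⟨hk, h1, fun u hu => odd_fix h hu hk h1 h2⟩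
  have : k ∈ D.oddF u := by rw [hc u x]; exact hk'
  exact this.2.1

lemma two_elem [FaithfulSMul G Ω] {x y : Ω} {k : G} (h : D.Arc x y) (h1 : k • x = x)
    (h2 : k • y = y) : ∃ n, k ^ 2 ^ n = 1 := by
  have hpos : orderOf k ≠ 0 := (orderOf_pos k).ne'
  obtain ⟨n, m, hm, hnm⟩ := Nat.exists_eq_two_pow_mul_odd hpos
  refine ⟨n, odd_trivial h ⟨m, hm, ?_⟩ ?_ ?_⟩
  · rw [← pow_mul, ← hnm, pow_orderOf_eq_one]
  · exact mem_stabilizer_iff.mp (pow_mem (mem_stabilizer_iff.mpr h1) _)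
  · exact mem_stabilizer_iff.mp (pow_mem (mem_stabilizer_iff.mpr h2) _)

/-- fixed point for 2-subgroups of a vertex stabilizer on out-neighbours. -/
lemma fp {x y : Ω} (h : D.Arc x y) (K : Subgroup G) (hK : K ≤ stabilizer G x)
    (h2 : ∀ k ∈ K, ∃ n, k ^ 2 ^ n = 1) : ∃ u, D.Arc x u ∧ ∀ k ∈ K, k • u = u := by
  haveI : Fact (Nat.Prime 2) := ⟨Nat.prime_two⟩
  have hP : IsPGroup 2 K := fun k => by
    obtain ⟨n, hn⟩ := h2 k.1 k.2
    exact ⟨n, Subtype.ext (by simpa using hn)⟩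
  letI : MulAction K {u // D.Arc x u} :=
    { smul := fun k u => ⟨k.1 • u.1, u.2.stab (mem_stabilizer_iff.mp (hK k.2))⟩
      one_smul := fun u => Subtype.ext (by change (1 : G) • u.1 = u.1; simp)
      mul_smul := fun k l u => Subtype.ext (by change (k.1 * l.1) • u.1 = k.1 • l.1 • u.1; rw [mul_smul]) }
  have hcard : Nat.card {u // D.Arc x u} = 3 := by
    have := ncard_out h
    rw [← Nat.card_coe_set_eq] at this
    exact this
  haveI : Finite {u // D.Arc x u} := Nat.finite_of_card_ne_zero (by omega)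
  obtain ⟨⟨u, hu⟩, hfix⟩ := hP.nonempty_fixed_point_of_prime_not_dvd_card {u // D.Arc x u}
    (by rw [hcard]; norm_num)
  refine ⟨u, hu, fun k hk => ?_⟩
  have := hfix ⟨k, hk⟩
  exact congrArg Subtype.val this
end SD

end Cfsg.Agent.Misc19.Sims3
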