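import Cfsg.Agent.Lib.Misc19.Sims3A

/-! Sims' theorem on suborbits of length 3: the kernels `Q x`, offenders, the elements `zeta`. -/

namespace Cfsg.Agent.Misc19.Sims3

open MulAction Subgroup

variable {G Ω : Type*} [Group G] [MulAction G Ω] [Finite G]

lemma idx2 {K L : Subgroup G} (hKL : K ≤ L)
    (h : ∀ u ∈ L, ∀ v ∈ L, u ∉ K → v ∉ K → u * v ∈ K) : Nat.card L ≤ 2 * Nat.card K := by
  classical
  by_cases hle : L ≤ K
  · have := Subgroup.card_le_of_le hle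
    omega
  · obtain ⟨t, ht, htn⟩ := SetLike.not_le_iff_exists.mp hle
    have htn' : t⁻¹ ∉ K := fun h' => htn (by simpa using K.inv_mem h')
    let f : L → K × Bool := fun u =>
      if hu : u.1 ∈ K then (⟨u.1, hu⟩, false)
      else (⟨t⁻¹ * u.1, h _ (L.inv_mem ht) _ u.2 htn' hu⟩, true)
    have hf : Function.Injective f := by
      intro u v huv
      by_cases hu : u.1 ∈ K <;> by_cases hv : v.1 ∈ K <;> simp only [f, hu, hv, dif_pos, dif_neg,
        not_false_iff, Prod.mk.injEq, Subtype.mk.injEq, reduceCtorEq, and_false, and_true] at huv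
      · exact Subtype.ext huv
      · exact Subtype.ext (mul_left_cancel huv)
    have := Nat.card_le_card_of_injective f hf
    rw [Nat.card_prod, Nat.card_eq_fintype_card (α := Bool)] at this
    simpa [mul_comm] using this

lemma two_mul_le {K L : Subgroup G} (hKL : K ≤ L) {v : G} (hv : v ∈ L) (hv' : v ∉ K) :
    2 * Nat.card K ≤ Nat.card L := by
  obtain ⟨c, hc⟩ := Subgroup.card_dvd_of_le hKL
  have hpos : 0 < Nat.card L := Nat.card_pos
  have hposK : 0 < Nat.card K := Nat.card_pos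
  have hc0 : c ≠ 0 := by rintro rfl; simp at hc; omega
  have hc1 : c ≠ 1 := by
    rintro rfl
    rw [mul_one] at hc
    have := Subgroup.eq_of_le_of_card_ge hKL hc.le
    exact hv' (this ▸ hv)
  have : 2 ≤ c := by omega
  rw [hc, mul_comm]
  exact Nat.mul_le_mul_left _ this

namespace SD

variable [FaithfulSMul G Ω] {D : SD G Ω}

def Q (D : SD G Ω) (x : Ω) : Subgroup G where
  carrier := {k | k • x = x ∧ ∀ u, D.Arc x u → k • u = u}
  one_mem' := ⟨one_smul _ _, fun u _ => one_smul _ _⟩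
  mul_mem' := by
    rintro a b ⟨h1, h2⟩ ⟨h3, h4⟩
    exact ⟨by rw [mul_smul, h3, h1], fun u hu => by rw [mul_smul, h4 u hu, h2 u hu]⟩
  inv_mem' := by
    rintro a ⟨h1, h2⟩
    exact ⟨inv_smul_eq_iff.mpr h1.symm, fun u hu => inv_smul_eq_iff.mpr (h2 u hu).symm⟩

omit [Finite G] [FaithfulSMul G Ω] in
lemma mem_Q {x : Ω} {k : G} : k ∈ D.Q x ↔ k • x = x ∧ ∀ u, D.Arc x u → k • u = u := Iff.rfl

omit [Finite G] [FaithfulSMul G Ω] in
lemma Q_conj {x : Ω} {k : G} (g : G) (h : k ∈ D.Q x) : g * k * g⁻¹ ∈ D.Q (g • x) := by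
  refine ⟨by simp [mul_smul, h.1], fun u hu => ?_⟩
  have hu' : D.Arc x (g⁻¹ • u) := by simpa using hu.smul g⁻¹
  have := h.2 _ hu'
  simp only [mul_smul]; rw [this]; simp

omit [Finite G] [FaithfulSMul G Ω] in
lemma Q_conj_inv {x : Ω} {k : G} (g : G) (h : k ∈ D.Q (g • x)) : g⁻¹ * k * g ∈ D.Q x := by
  have := Q_conj (D := D) g⁻¹ h
  simpa using this

omit [Finite G] [FaithfulSMul G Ω] in
lemma Q_norm {x : Ω} {k l : G} (hl : l • x = x) (h : k ∈ D.Q x) : l * k * l⁻¹ ∈ D.Q x := by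
  have := Q_conj (D := D) l h; rwa [hl] at this

omit [Finite G] [FaithfulSMul G Ω] in
lemma Q_le {x y : Ω} {k : G} (h : D.Arc x y) (hk : k ∈ D.Q x) : k ∈ HH G x y :=
  mem_HH.mpr ⟨hk.1, hk.2 y h⟩

lemma Q_fix_in {x w : Ω} {k : G} (hw : D.Arc w x) (hk : k ∈ D.Q x) : k • w = w := by
  obtain ⟨y, hy⟩ := exists_out (D := D) x
  have h2 : ∀ q ∈ D.Q x, ∃ n, q ^ 2 ^ n = 1 := fun q hq => two_elem hy hq.1 (hq.2 y hy)
  obtain ⟨w₀, hw₀, hfix⟩ := fp (D := D.rev) (rev_arc.mpr hw) (D.Q x)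
    (fun q hq => mem_stabilizer_iff.mpr hq.1) h2
  obtain ⟨l, hl1, hl2⟩ := exists_stab' (rev_arc.mp hw₀) hw
  have := hfix (l⁻¹ * k * l⁻¹⁻¹) (Q_norm (inv_smul_eq_iff.mpr hl1.symm) hk)
  simp only [inv_inv, mul_smul] at this
  rw [inv_smul_eq_iff, hl2] at this
  exact this

lemma rev_Q (D : SD G Ω) (x : Ω) : D.rev.Q x = D.Q x := by
  ext k
  constructor
  · intro h
    exact ⟨h.1, fun u hu => Q_fix_in (D := D.rev) (w := u) (rev_arc.mpr hu) h⟩
  · intro h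
    exact ⟨h.1, fun u hu => Q_fix_in (rev_arc.mp hu) h⟩

def Big (D : SD G Ω) : Prop := 16 < Nat.card (HH G D.a D.b)

omit [FaithfulSMul G Ω] in
lemma big_arc (hb : D.Big) {x y : Ω} (h : D.Arc x y) : 16 < Nat.card (HH G x y) := by
  rw [card_HH_arc h (arc_base D)]; exact hb

omit [FaithfulSMul G Ω] in
lemma rev_big (hb : D.Big) : D.rev.Big := by
  change 16 < Nat.card (HH G D.b D.a)
  rw [HH_comm]; exact hb

/-- `Tri x p q r` : the out-neighbours of `x` are exactly the distinct `p, q, r`. -/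
def Tri (D : SD G Ω) (x p q r : Ω) : Prop :=
  p ≠ q ∧ p ≠ r ∧ q ≠ r ∧ D.Arc x p ∧ D.Arc x q ∧ D.Arc x r ∧ ∀ u, D.Arc x u → u = p ∨ u = q ∨ u = r

omit [FaithfulSMul G Ω] in
lemma tri_of {x y : Ω} (h : D.Arc x y) : ∃ q r, D.Tri x y q r := by
  obtain ⟨q, r, h1, h2, h3, h4, h5, h6⟩ := three h
  exact ⟨q, r, h1, h2, h3, h, h4, h5, h6⟩

omit [Finite G] [FaithfulSMul G Ω] in
lemma Tri.swap12 {x p q r : Ω} (h : D.Tri x p q r) : D.Tri x q p r := by
  obtain ⟨h1, h2, h3, h4, h5, h6, h7⟩ := h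
  refine ⟨h1.symm, h3, h2, h5, h4, h6, fun u hu => ?_⟩
  rcases h7 u hu with a | a | a <;> simp [a]

omit [Finite G] [FaithfulSMul G Ω] in
lemma Tri.swap23 {x p q r : Ω} (h : D.Tri x p q r) : D.Tri x p r q := by
  obtain ⟨h1, h2, h3, h4, h5, h6, h7⟩ := h
  refine ⟨h2, h1, h3.symm, h4, h6, h5, fun u hu => ?_⟩
  rcases h7 u hu with a | a | a <;> simp [a]

omit [Finite G] [FaithfulSMul G Ω] in
lemma Tri.smul {x p q r : Ω} (h : D.Tri x p q r) (g : G) :
    D.Tri (g • x) (g • p) (g • q) (g • r) := by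
  obtain ⟨h1, h2, h3, h4, h5, h6, h7⟩ := h
  refine ⟨fun e => h1 (smul_left_cancel g e), fun e => h2 (smul_left_cancel g e),
    fun e => h3 (smul_left_cancel g e), h4.smul g, h5.smul g, h6.smul g, fun u hu => ?_⟩
  have hu' : D.Arc x (g⁻¹ • u) := by simpa using hu.smul g⁻¹
  rcases h7 _ hu' with a | a | a
  · left; rw [← a]; simp
  · right; left; rw [← a]; simp
  · right; right; rw [← a]; simp

omit [Finite G] [FaithfulSMul G Ω] in
lemma Tri.split {x p q r : Ω} {k : G} (h : D.Tri x p q r) (h1 : k • x = x) (h2 : k • p = p) :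
    (k • q = q ∧ k • r = r) ∨ (k • q = r ∧ k • r = q) := by
  obtain ⟨h12, h13, h23, hp, hq, hr, hall⟩ := h
  have hqne : k • q ≠ p := fun e => h12 (smul_left_cancel k (h2.trans e.symm))
  have hrne : k • r ≠ p := fun e => h13 (smul_left_cancel k (h2.trans e.symm))
  have hqr : k • q ≠ k • r := fun e => h23 (smul_left_cancel k e)
  rcases hall _ (hq.stab h1) with a | a | a
  · exact absurd a hqne
  · rcases hall _ (hr.stab h1) with b | b | b
    · exact absurd b hrne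
    · exact absurd (a.trans b.symm) hqr
    · exact Or.inl ⟨a, b⟩
  · rcases hall _ (hr.stab h1) with b | b | b
    · exact absurd b hrne
    · exact Or.inr ⟨a, b⟩
    · exact absurd (a.trans b.symm) hqr

omit [Finite G] [FaithfulSMul G Ω] in
lemma Tri.notQ {x p q r : Ω} {k : G} (h : D.Tri x p q r) (h1 : k • x = x) (h2 : k • p = p)
    (hn : k ∉ D.Q x) : k • q = r ∧ k • r = q := by
  rcases h.split h1 h2 with ⟨a, b⟩ | a
  · refine absurd ⟨h1, fun u hu => ?_⟩ hn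
    rcases h.2.2.2.2.2.2 u hu with c | c | c <;> rw [c] <;> assumption
  · exact a

omit [Finite G] [FaithfulSMul G Ω] in
lemma Tri.inQ {x p q r : Ω} {k : G} (h : D.Tri x p q r) (h1 : k • x = x) (h2 : k • p = p)
    (h3 : k • q = q) : k ∈ D.Q x := by
  refine ⟨h1, fun u hu => ?_⟩
  rcases h.split h1 h2 with ⟨a, b⟩ | ⟨a, _⟩
  · rcases h.2.2.2.2.2.2 u hu with c | c | c <;> rw [c] <;> assumption
  · exact absurd (h3.symm.trans a) h.2.2.1

omit [Finite G] [FaithfulSMul G Ω] in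
lemma Tri.mul_mem {x p q r : Ω} {k l : G} (h : D.Tri x p q r) (h1 : k • x = x) (h2 : k • p = p)
    (hn : k ∉ D.Q x) (h3 : l • x = x) (h4 : l • p = p) (hm : l ∉ D.Q x) : k * l ∈ D.Q x := by
  have a := h.notQ h1 h2 hn
  have b := h.notQ h3 h4 hm
  refine h.inQ (by rw [mul_smul, h3, h1]) (by rw [mul_smul, h4, h2]) ?_
  rw [mul_smul, b.1, a.2]

lemma card_H_le {x y : Ω} (h : D.Arc x y) : Nat.card (HH G x y) ≤ 2 * Nat.card (D.Q x) := by
  obtain ⟨q, r, ht⟩ := tri_of h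
  refine idx2 (fun k hk => Q_le h hk) fun u hu v hv hun hvn => ?_
  rw [mem_HH] at hu hv
  exact ht.mul_mem hu.1 hu.2 hun hv.1 hv.2 hvn

def NormH (H : Subgroup G) (g : G) : Prop := ∀ u, u ∈ H ↔ g * u * g⁻¹ ∈ H

omit [Finite G] [FaithfulSMul G Ω] in
lemma NormH.inv {H : Subgroup G} {g : G} (h : NormH H g) : NormH H g⁻¹ := by
  intro u
  have := h (g⁻¹ * u * g)
  simp only [inv_inv]
  constructor
  · intro hu; exact this.mpr (by simpa [mul_assoc] using hu)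
  · intro hu; simpa [mul_assoc] using this.mp hu

lemma H_next {x y : Ω} (h : D.Arc x y) : ∃ y'', D.Arc y y'' ∧ HH G x y = HH G y y'' := by
  obtain ⟨y₀, hy₀⟩ := exists_out (D := D) y
  obtain ⟨y'', hy'', hfix⟩ := fp hy₀ (HH G x y) (fun k hk => mem_stabilizer_iff.mpr (mem_HH.mp hk).2)
    (fun k hk => two_elem h (mem_HH.mp hk).1 (mem_HH.mp hk).2)
  refine ⟨y'', hy'', Subgroup.eq_of_le_of_card_ge (fun k hk => mem_HH.mpr ⟨(mem_HH.mp hk).2, hfix k hk⟩) ?_⟩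
  exact (card_HH_arc hy'' h).le

lemma exists_g {x y : Ω} (h : D.Arc x y) : ∃ g : G, g • x = y ∧ NormH (HH G x y) g := by
  obtain ⟨y'', hy'', he⟩ := H_next h
  obtain ⟨g, hg1, hg2⟩ := arc_trans h hy''
  refine ⟨g, hg1, fun u => ?_⟩
  constructor
  · intro hu
    have := conj_mem_HH (g := g) hu
    rwa [hg1, hg2, ← he] at this
  · intro hu
    rw [he, ← hg1, ← hg2] at hu
    have := conj_mem_HH (g := g⁻¹) hu
    simpa [mul_assoc] using this

lemma char_core {x y : Ω} (h : D.Arc x y) (C : Subgroup G) (hC : C ≤ HH G x y)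
    (h1 : ∀ k : G, k • x = x → ∀ c ∈ C, k * c * k⁻¹ ∈ C)
    (h2 : ∀ g : G, NormH (HH G x y) g → ∀ c ∈ C, g * c * g⁻¹ ∈ C) : C = ⊥ := by
  obtain ⟨g, hg1, hg2⟩ := exists_g h
  refine core h C (fun c hc => (mem_inf.mp (hC hc)).1) h1 fun l hl c hc => ?_
  have e1 := h2 g⁻¹ hg2.inv c hc
  have hl' : (g⁻¹ * l * g) • x = x := by
    simp only [mul_smul]; rw [hg1, hl]; simp [← hg1]
  have e2 := h1 _ hl' _ e1
  have e3 := h2 g hg2 _ e2
  convert e3 using 1
  group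

lemma exists_T (hb : D.Big) {x y : Ω} (h : D.Arc x y) : ∃ t ∈ HH G x y, t ∉ D.Q x := by
  by_contra hcon
  push Not at hcon
  have all : ∀ x' y', D.Arc x' y' → ∀ t ∈ HH G x' y', t ∈ D.Q x' := by
    intro x' y' h' t ht
    obtain ⟨g, rfl, rfl⟩ := arc_trans h h'
    have h1 : g⁻¹ * t * g ∈ HH G x y := by
      have := conj_mem_HH (g := g⁻¹) ht
      simpa using this
    have := Q_conj (D := D) g (hcon _ h1)
    simpa [mul_assoc] using this
  obtain ⟨y'', hy'', he⟩ := H_next h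
  have hbot : HH G x y = ⊥ := by
    refine core h _ inf_le_left (fun k hk c hc => Q_le h (Q_norm hk (hcon c hc))) fun k hk c hc => ?_
    rw [he] at hc ⊢
    exact Q_le hy'' (Q_norm hk (all _ _ hy'' c hc))
  have := big_arc hb h
  rw [hbot, Subgroup.card_bot] at this
  omega

lemma two_trans (hb : D.Big) {x u v u' v' : Ω} (hu : D.Arc x u) (hv : D.Arc x v) (hu' : D.Arc x u')
    (hv' : D.Arc x v') (hne : u ≠ v) (hne' : u' ≠ v') : ∃ k : G, k • x = x ∧ k • u = u' ∧ k • v = v' := by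
  obtain ⟨k₀, hk1, hk2⟩ := exists_stab hu hu'
  obtain ⟨q, r, ht⟩ := tri_of hu'
  obtain ⟨T, hT, hTn⟩ := exists_T hb hu'
  rw [mem_HH] at hT
  have hsw := ht.notQ hT.1 hT.2 hTn
  have hw : D.Arc x (k₀ • v) := hv.stab hk1
  have hwne : k₀ • v ≠ u' := fun e => hne (smul_left_cancel k₀ (hk2.trans e.symm))
  have hall := ht.2.2.2.2.2.2
  by_cases he : k₀ • v = v'
  · exact ⟨k₀, hk1, hk2, he⟩
  · refine ⟨T * k₀, by rw [mul_smul, hk1, hT.1], by rw [mul_smul, hk2, hT.2], ?_⟩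
    rw [mul_smul]
    rcases hall _ hw with a | a | a
    · exact absurd a hwne
    · rcases hall _ hv' with b | b | b
      · exact absurd b.symm hne'
      · exact absurd (a.trans b.symm) he
      · rw [a, hsw.1, b]
    · rcases hall _ hv' with b | b | b
      · exact absurd b.symm hne'
      · rw [a, hsw.2, b]
      · exact absurd (a.trans b.symm) he

lemma cent_indep (hb : D.Big) {x : Ω} {k : G} (hk : k • x = x) (hc : ∀ q ∈ D.Q x, k * q * k⁻¹ = q)
    (hn : k ∉ D.Q x) {y y' : Ω} (hy : D.Arc x y) (hy' : D.Arc x y') {q : G} (hq : q ∈ D.Q x)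
    (hqy : q ∈ D.Q y) : q ∈ D.Q y' := by
  by_cases he : y = y'
  · exact he ▸ hqy
  have hex : ∃ u, D.Arc x u ∧ k • u ≠ u := by
    by_contra hcon
    push Not at hcon
    exact hn ⟨hk, hcon⟩
  obtain ⟨u, hu, hku⟩ := hex
  obtain ⟨p, hp, hp1, hp2⟩ := two_trans hb hu (hu.stab hk) hy hy' (Ne.symm hku) he
  have hk1y : (p * k * p⁻¹) • y = y' := by
    rw [← hp1]; simp only [mul_smul, inv_smul_smul]; exact hp2
  have hq' : p⁻¹ * q * p ∈ D.Q x := by
    have := Q_norm (D := D) (l := p⁻¹) (inv_smul_eq_iff.mpr hp.symm) hq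
    simpa using this
  have hc' := hc _ hq'
  have e : (p * k * p⁻¹) * q * (p * k * p⁻¹)⁻¹ = q := by
    calc (p * k * p⁻¹) * q * (p * k * p⁻¹)⁻¹ = p * (k * (p⁻¹ * q * p) * k⁻¹) * p⁻¹ := by group
      _ = p * (p⁻¹ * q * p) * p⁻¹ := by rw [hc']
      _ = q := by group
  have h2 := Q_conj (D := D) (p * k * p⁻¹) hqy
  rw [e, hk1y] at h2
  exact h2

lemma Q_inf_card {x y : Ω} (h : D.Arc x y) :
    Nat.card (D.Q x) ≤ 2 * Nat.card (D.Q x ⊓ D.Q y : Subgroup G) := by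
  obtain ⟨y'', hy'', he⟩ := H_next h
  obtain ⟨q, r, ht⟩ := tri_of hy''
  refine idx2 inf_le_left fun u hu v hv hun hvn => ?_
  have hu' : u ∈ HH G y y'' := he ▸ Q_le h hu
  have hv' : v ∈ HH G y y'' := he ▸ Q_le h hv
  rw [mem_HH] at hu' hv'
  have hun' : u ∉ D.Q y := fun e => hun (mem_inf.mpr ⟨hu, e⟩)
  have hvn' : v ∉ D.Q y := fun e => hvn (mem_inf.mpr ⟨hv, e⟩)
  exact mem_inf.mpr ⟨mul_mem hu hv, ht.mul_mem hu'.1 hu'.2 hun' hv'.1 hv'.2 hvn'⟩

lemma not_inf_bot (hb : D.Big) {x y : Ω} (h : D.Arc x y) : (D.Q x ⊓ D.Q y : Subgroup G) ≠ ⊥ := by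
  intro he
  have h1 := big_arc hb h
  have h2 := card_H_le h
  have h3 := Q_inf_card h
  rw [he, Subgroup.card_bot] at h3
  omega

lemma CQ (hb : D.Big) {x : Ω} {k : G} (hk : k • x = x) (hc : ∀ q ∈ D.Q x, k * q * k⁻¹ = q) :
    k ∈ D.Q x := by
  by_contra hn
  obtain ⟨y, hy⟩ := exists_out (D := D) x
  obtain ⟨y'', hy''⟩ := exists_out (D := D) y
  obtain ⟨g, hg1, hg2⟩ := arc_trans hy hy''
  have hky : (g * k * g⁻¹) • y = y := by
    rw [← hg1]; simp only [mul_smul, inv_smul_smul]; rw [hk]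
  have hcy : ∀ q ∈ D.rev.Q y, (g * k * g⁻¹) * q * (g * k * g⁻¹)⁻¹ = q := by
    intro q hq
    rw [rev_Q, ← hg1] at hq
    have := hc _ (Q_conj_inv g hq)
    calc (g * k * g⁻¹) * q * (g * k * g⁻¹)⁻¹ = g * (k * (g⁻¹ * q * g) * k⁻¹) * g⁻¹ := by group
      _ = g * (g⁻¹ * q * g) * g⁻¹ := by rw [this]
      _ = q := by group
  have hny : (g * k * g⁻¹) ∉ D.rev.Q y := by
    intro e
    rw [rev_Q, ← hg1] at e
    have := Q_conj_inv g e
    apply hn
    simpa [mul_assoc] using this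
  refine not_inf_bot hb hy (core hy _ (fun c hc => mem_stabilizer_iff.mpr (mem_inf.mp hc).1.1) ?_ ?_)
  · intro l hl c hc'
    obtain ⟨c1, c2⟩ := mem_inf.mp hc'
    refine mem_inf.mpr ⟨Q_norm hl c1, cent_indep hb hk hc hn (hy.stab hl) hy (Q_norm hl c1) ?_⟩
    exact Q_conj l c2
  · intro l hl c hc'
    obtain ⟨c1, c2⟩ := mem_inf.mp hc'
    refine mem_inf.mpr ⟨?_, Q_norm hl c2⟩
    have a1 : l * c * l⁻¹ ∈ D.rev.Q y := by rw [rev_Q]; exact Q_norm hl c2
    have a2 : l * c * l⁻¹ ∈ D.rev.Q (l • x) := by rw [rev_Q]; exact Q_conj l c1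
    have := cent_indep (D := D.rev) (rev_big hb) (x := y) hky hcy hny (y := l • x) (y' := x)
      (rev_arc.mpr (hy.stab' hl)) (rev_arc.mpr hy) a1 a2
    rwa [rev_Q] at this

end SD

end Cfsg.Agent.Misc19.Sims3
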