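import Cfsg.Agent.Lib.Misc19.Sims3B

/-! Sims' theorem on suborbits of length 3: offenders and the elements `zeta`. -/

namespace Cfsg.Agent.Misc19.Sims3

open MulAction Subgroup

variable {G Ω : Type*} [Group G] [MulAction G Ω] [Finite G]

omit [Finite G] in
/-- central involutions (and `1`) of a subgroup -/
def Om (K : Subgroup G) : Subgroup G where
  carrier := {z | z ∈ K ∧ z * z = 1 ∧ ∀ t ∈ K, z * t = t * z}
  one_mem' := ⟨K.one_mem, by simp, by simp⟩
  mul_mem' := by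
    rintro a b ⟨h1, h2, h3⟩ ⟨h4, h5, h6⟩
    refine ⟨K.mul_mem h1 h4, ?_, fun t ht => ?_⟩
    · calc a * b * (a * b) = a * (b * a) * b := by simp only [mul_assoc]
        _ = a * (a * b) * b := by rw [h6 a h1]
        _ = (a * a) * (b * b) := by simp only [mul_assoc]
        _ = 1 := by rw [h2, h5, one_mul]
    · calc a * b * t = a * (b * t) := by simp only [mul_assoc]
        _ = a * (t * b) := by rw [h6 t ht]
        _ = (a * t) * b := by simp only [mul_assoc]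
        _ = (t * a) * b := by rw [h3 t ht]
        _ = t * (a * b) := by simp only [mul_assoc]
  inv_mem' := by
    rintro a ⟨h1, h2, h3⟩
    have : a⁻¹ = a := inv_eq_of_mul_eq_one_left h2
    rw [this]; exact ⟨h1, h2, h3⟩

omit [Finite G] in
lemma Om_inv {K : Subgroup G} {z : G} (h : z ∈ Om K) : z⁻¹ = z := inv_eq_of_mul_eq_one_left h.2.1

omit [Finite G] in
lemma Om_comm {K : Subgroup G} {u v : G} (hu : u ∈ Om K) (hv : v ∈ Om K) : u * v = v * u :=
  hu.2.2 v hv.1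

omit [Finite G] in
lemma Om_conj {K K' : Subgroup G} (g : G) (h1 : ∀ u ∈ K, g * u * g⁻¹ ∈ K')
    (h2 : ∀ u ∈ K', g⁻¹ * u * g ∈ K) {z : G} (hz : z ∈ Om K) : g * z * g⁻¹ ∈ Om K' := by
  refine ⟨h1 z hz.1, ?_, fun t ht => ?_⟩
  · calc g * z * g⁻¹ * (g * z * g⁻¹) = g * (z * z) * g⁻¹ := by group
      _ = 1 := by rw [hz.2.1]; group
  · have := hz.2.2 _ (h2 t ht)
    calc g * z * g⁻¹ * t = g * (z * (g⁻¹ * t * g)) * g⁻¹ := by group
      _ = g * ((g⁻¹ * t * g) * z) * g⁻¹ := by rw [this]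
      _ = t * (g * z * g⁻¹) := by group

lemma Om_nontriv {K : Subgroup G} (h2 : ∀ k ∈ K, ∃ n, k ^ 2 ^ n = 1) (hK : K ≠ ⊥) :
    ∃ z ∈ Om K, z ≠ 1 := by
  classical
  haveI : Fact (Nat.Prime 2) := ⟨Nat.prime_two⟩
  have hP : IsPGroup 2 K := fun k => by
    obtain ⟨n, hn⟩ := h2 k.1 k.2
    exact ⟨n, Subtype.ext (by simpa using hn)⟩
  haveI : Nontrivial K := (Subgroup.nontrivial_iff_ne_bot K).mpr hK
  haveI := hP.center_nontrivial
  obtain ⟨c, hc⟩ := exists_ne (1 : Subgroup.center K)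
  have hc0ne : ((c : K) : G) ≠ 1 := by
    intro e; apply hc; apply Subtype.ext; apply Subtype.ext; simpa using e
  have hcK : ((c : K) : G) ∈ K := (c : K).2
  have hcc : ∀ t ∈ K, ((c : K) : G) * t = t * ((c : K) : G) := by
    intro t ht
    have := Subgroup.mem_center_iff.mp c.2 ⟨t, ht⟩
    exact (congrArg Subtype.val this).symm
  generalize ((c : K) : G) = c₀ at hc0ne hcK hcc
  have hex := h2 c₀ hcK
  have hfind := Nat.find_spec hex
  rcases hn : Nat.find hex with _ | m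
  · rw [hn] at hfind
    simp at hfind
    exact absurd hfind hc0ne
  · rw [hn] at hfind
    have hmin := Nat.find_min hex (m := m) (by omega)
    refine ⟨c₀ ^ 2 ^ m, ⟨K.pow_mem hcK _, ?_, fun t ht => ?_⟩, hmin⟩
    · rw [← pow_add, ← two_mul, ← pow_succ', hfind]
    · exact (Commute.pow_left (hcc t ht) _)

/-- elementary abelian subgroups -/
def EA (K : Subgroup G) : Prop := ∀ u ∈ K, ∀ v ∈ K, u * v = v * u ∧ u * u = 1

omit [Finite G] in
def extS (K : Subgroup G) (v : G) (hv : v * v = 1) (hc : ∀ k ∈ K, v * k = k * v) : Subgroup G where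
  carrier := {u | u ∈ K ∨ ∃ k ∈ K, u = k * v}
  one_mem' := Or.inl K.one_mem
  mul_mem' := by
    rintro a b (ha | ⟨k, hk, rfl⟩) (hb | ⟨l, hl, rfl⟩)
    · exact Or.inl (K.mul_mem ha hb)
    · exact Or.inr ⟨a * l, K.mul_mem ha hl, by simp only [mul_assoc]⟩
    · exact Or.inr ⟨k * b, K.mul_mem hk hb, by rw [mul_assoc, hc b hb, mul_assoc]⟩
    · have : k * v * (l * v) = k * l := by
        calc k * v * (l * v) = k * (v * l) * v := by simp only [mul_assoc]
          _ = k * (l * v) * v := by rw [hc l hl]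
          _ = k * l * (v * v) := by simp only [mul_assoc]
          _ = k * l := by rw [hv, mul_one]
      rw [this]
      exact Or.inl (K.mul_mem hk hl)
  inv_mem' := by
    rintro a (ha | ⟨k, hk, rfl⟩)
    · exact Or.inl (K.inv_mem ha)
    · refine Or.inr ⟨k⁻¹, K.inv_mem hk, ?_⟩
      rw [mul_inv_rev, inv_eq_of_mul_eq_one_left hv, hc _ (K.inv_mem hk)]

omit [Finite G] in
lemma le_extS {K : Subgroup G} {v : G} {hv : v * v = 1} {hc : ∀ k ∈ K, v * k = k * v} :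
    K ≤ extS K v hv hc := fun _ h => Or.inl h

omit [Finite G] in
lemma self_mem_extS {K : Subgroup G} {v : G} {hv : v * v = 1} {hc : ∀ k ∈ K, v * k = k * v} :
    v ∈ extS K v hv hc := Or.inr ⟨1, K.one_mem, (one_mul v).symm⟩

omit [Finite G] in
lemma mem_extS {K : Subgroup G} {v : G} {hv : v * v = 1} {hc : ∀ k ∈ K, v * k = k * v} {u : G} :
    u ∈ extS K v hv hc ↔ u ∈ K ∨ ∃ k ∈ K, u = k * v := Iff.rfl

omit [Finite G] in
lemma extS_le {K H : Subgroup G} {v : G} {hv : v * v = 1} {hc : ∀ k ∈ K, v * k = k * v}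
    (h1 : K ≤ H) (h2 : v ∈ H) : extS K v hv hc ≤ H := by
  rintro u (hu | ⟨k, hk, rfl⟩)
  · exact h1 hu
  · exact H.mul_mem (h1 hk) h2

omit [Finite G] in
lemma EA_extS {K : Subgroup G} {v : G} {hv : v * v = 1} {hc : ∀ k ∈ K, v * k = k * v} (hK : EA K) :
    EA (extS K v hv hc) := by
  have sq : ∀ k ∈ K, (k * v) * (k * v) = 1 := by
    intro k hk
    have hkv : Commute k v := (hc k hk).symm
    rw [← pow_two, hkv.mul_pow, pow_two, pow_two, (hK k hk k hk).2, hv, one_mul]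
  rintro a (ha | ⟨k, hk, rfl⟩) b (hb | ⟨l, hl, rfl⟩)
  · exact hK a ha b hb
  · refine ⟨?_, (hK a ha a ha).2⟩
    have h1 : Commute a l := (hK a ha l hl).1
    have h2 : Commute a v := (hc a ha).symm
    exact h1.mul_right h2
  · refine ⟨?_, sq k hk⟩
    have h1 : Commute k b := (hK k hk b hb).1
    have h2 : Commute v b := (hc b hb)
    exact h1.mul_left h2
  · refine ⟨?_, sq k hk⟩
    have h1 : Commute k l := (hK k hk l hl).1
    have h2 : Commute v l := (hc l hl)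
    have h3 : Commute k v := (hc k hk).symm
    exact (h1.mul_left h2).mul_right (h3.mul_left (Commute.refl v))

omit [Finite G] in
lemma EA_bot : EA (⊥ : Subgroup G) := by
  intro u hu v hv
  rw [Subgroup.mem_bot] at hu hv
  subst hu; subst hv; simp

def cj (g : G) (A : Subgroup G) : Subgroup G := A.map (MulAut.conj g).toMonoidHom

omit [Finite G] in
lemma mem_cj {g u : G} {A : Subgroup G} : u ∈ cj g A ↔ g⁻¹ * u * g ∈ A := by
  simp only [cj, mem_map]
  constructor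
  · rintro ⟨a, ha, rfl⟩
    simpa [MulAut.conj_apply, mul_assoc] using ha
  · intro h
    exact ⟨_, h, by simp [MulAut.conj_apply, mul_assoc]⟩

lemma card_cj {g : G} {A : Subgroup G} : Nat.card (cj g A) = Nat.card A :=
  Subgroup.card_map_of_injective (MulEquiv.injective _)

omit [Finite G] in
lemma EA_cj {g : G} {A : Subgroup G} (hA : EA A) : EA (cj g A) := by
  rintro _ ⟨a, ha, rfl⟩ _ ⟨b, hb, rfl⟩
  obtain ⟨h1, h2⟩ := hA a ha b hb
  have h3 := (hA a ha a ha).2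
  constructor
  · rw [← map_mul, h1, map_mul]
  · rw [← map_mul, h3, map_one]

def IsMaxEA (H A : Subgroup G) : Prop :=
  A ≤ H ∧ EA A ∧ ∀ B : Subgroup G, B ≤ H → EA B → Nat.card B ≤ Nat.card A

lemma IsMaxEA.of_card {H A B : Subgroup G} (hA : IsMaxEA H A) (hB : B ≤ H) (hE : EA B)
    (hc : Nat.card B = Nat.card A) : IsMaxEA H B :=
  ⟨hB, hE, fun C h1 h2 => by rw [hc]; exact hA.2.2 C h1 h2⟩

lemma exists_maxEA (H : Subgroup G) : ∃ A, IsMaxEA H A := by
  obtain ⟨A, hA, hmax⟩ := Set.exists_max_image {B : Subgroup G | B ≤ H ∧ EA B}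
    (fun B => Nat.card B) (Set.toFinite _) ⟨⊥, bot_le, EA_bot⟩
  exact ⟨A, hA.1, hA.2, fun B h1 h2 => hmax B ⟨h1, h2⟩⟩

lemma off1 {H A K : Subgroup G} (hA : IsMaxEA H A) (hKH : K ≤ H) {t : G} (ht : t ∈ A)
    (hidx : ∀ u ∈ A, ∀ v ∈ A, u ∉ K → v ∉ K → u * v ∈ K)
    {e₁ e₂ : G} (he₁ : e₁ ∈ Om K) (he₂ : e₂ ∈ Om K) (h1 : e₁ * t ≠ t * e₁) (h2 : e₂ * t ≠ t * e₂) :
    (e₁ * e₂) * t = t * (e₁ * e₂) := by
  by_contra h3
  have hB : EA (A ⊓ K) := fun u hu v hv => hA.2.1 u (mem_inf.mp hu).1 v (mem_inf.mp hv).1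
  have hc1 : ∀ k ∈ A ⊓ K, e₁ * k = k * e₁ := fun k hk => he₁.2.2 k (mem_inf.mp hk).2
  have hc2 : ∀ k ∈ extS (A ⊓ K) e₁ he₁.2.1 hc1, e₂ * k = k * e₂ := by
    rintro k (hk | ⟨l, hl, rfl⟩)
    · exact he₂.2.2 k (mem_inf.mp hk).2
    · have a1 : Commute e₂ l := he₂.2.2 l (mem_inf.mp hl).2
      have a2 : Commute e₂ e₁ := Om_comm he₂ he₁
      exact a1.mul_right a2
  have hE := EA_extS (hv := he₂.2.1) (hc := hc2) (EA_extS (hv := he₁.2.1) (hc := hc1) hB)
  have hle : extS (extS (A ⊓ K) e₁ he₁.2.1 hc1) e₂ he₂.2.1 hc2 ≤ H :=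
    extS_le (extS_le (inf_le_left.trans hA.1) (hKH he₁.1)) (hKH he₂.1)
  have hcomm : ∀ c ∈ A, c * t = t * c := fun c hc => (hA.2.1 c hc t ht).1
  have hn1 : e₁ ∉ A ⊓ K := fun e => h1 (hcomm _ (mem_inf.mp e).1)
  have hn2 : e₂ ∉ extS (A ⊓ K) e₁ he₁.2.1 hc1 := by
    rintro (e | ⟨l, hl, hl2⟩)
    · exact h2 (hcomm _ (mem_inf.mp e).1)
    · have : l = e₁ * e₂ := by
        have h5 : e₂ * e₁ = l * (e₁ * e₁) := by
          have h6 : l * e₁ * e₁ = l * (e₁ * e₁) := by simp only [mul_assoc]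
          rw [← h6, ← hl2]
        rw [he₁.2.1, mul_one] at h5
        rw [← h5]; exact Om_comm he₂ he₁
      exact h3 (this ▸ hcomm _ (mem_inf.mp hl).1)
  have c1 := two_mul_le (le_extS (hv := he₁.2.1) (hc := hc1)) (self_mem_extS) hn1
  have c2 := two_mul_le (le_extS (hv := he₂.2.1) (hc := hc2)) (self_mem_extS) hn2
  have c3 := hA.2.2 _ hle hE
  have c4 : Nat.card A ≤ 2 * Nat.card (A ⊓ K : Subgroup G) := by
    refine idx2 inf_le_left fun u hu v hv hun hvn => ?_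
    have hun' : u ∉ K := fun e => hun (mem_inf.mpr ⟨hu, e⟩)
    have hvn' : v ∉ K := fun e => hvn (mem_inf.mpr ⟨hv, e⟩)
    exact mem_inf.mpr ⟨A.mul_mem hu hv, hidx u hu v hv hun' hvn'⟩
  have c5 : 0 < Nat.card (A ⊓ K : Subgroup G) := Nat.card_pos
  omega

omit [Finite G] in
lemma mem_cent {e g : G} : g ∈ Subgroup.centralizer ({e} : Set G) ↔ e * g = g * e := by
  simp [Subgroup.mem_centralizer_iff]

def tau (t e : G) : G := e * (t * e * t⁻¹)

omit [Finite G] in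
lemma tau_eq_one {t e : G} (he : e * e = 1) : tau t e = 1 ↔ e * t = t * e := by
  unfold tau
  constructor
  · intro h
    have h1 : t * e * t⁻¹ = e := mul_left_cancel (h.trans he.symm)
    exact (mul_inv_eq_iff_eq_mul.mp h1).symm
  · intro h
    have h1 : t * e * t⁻¹ = e := by rw [← h]; group
    rw [h1, he]

omit [Finite G] in
lemma tau_conj (g t e : G) : tau (g * t * g⁻¹) (g * e * g⁻¹) = g * tau t e * g⁻¹ := by
  unfold tau; group

namespace SD

variable [FaithfulSMul G Ω] {D : SD G Ω}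

omit [Finite G] [FaithfulSMul G Ω] in
lemma E_norm {x : Ω} {k e : G} (hk : k • x = x) (he : e ∈ Om (D.Q x)) : k * e * k⁻¹ ∈ Om (D.Q x) := by
  refine Om_conj k (fun u hu => Q_norm hk hu) (fun u hu => ?_) he
  have := Q_norm (D := D) (l := k⁻¹) (inv_smul_eq_iff.mpr hk.symm) hu
  simpa using this

omit [Finite G] [FaithfulSMul G Ω] in
lemma tau_mem {x : Ω} {k e : G} (hk : k • x = x) (he : e ∈ Om (D.Q x)) : tau k e ∈ Om (D.Q x) :=
  mul_mem he (E_norm hk he)

omit [Finite G] [FaithfulSMul G Ω] in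
lemma tau_of_mul {x : Ω} {t q e : G} (hq : q ∈ D.Q x) (he : e ∈ Om (D.Q x)) :
    tau (t * q) e = tau t e := by
  unfold tau
  have h1 : q * e * q⁻¹ = e := by rw [← he.2.2 q hq]; group
  have : t * q * e * (t * q)⁻¹ = t * (q * e * q⁻¹) * t⁻¹ := by group
  rw [this, h1]

omit [Finite G] [FaithfulSMul G Ω] in
lemma tau_mul {x : Ω} {t e e' : G} (ht : t • x = x) (he : e ∈ Om (D.Q x)) (he' : e' ∈ Om (D.Q x)) :
    tau t (e * e') = tau t e * tau t e' := by
  unfold tau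
  have h1 : e' * (t * e * t⁻¹) = (t * e * t⁻¹) * e' := Om_comm he' (E_norm ht he)
  calc e * e' * (t * (e * e') * t⁻¹) = e * (e' * (t * e * t⁻¹)) * (t * e' * t⁻¹) := by group
    _ = e * ((t * e * t⁻¹) * e') * (t * e' * t⁻¹) := by rw [h1]
    _ = e * (t * e * t⁻¹) * (e' * (t * e' * t⁻¹)) := by group

omit [Finite G] [FaithfulSMul G Ω] in
lemma gen {x p q r : Ω} (ht : D.Tri x p q r) (C : Subgroup G) (hQ : D.Q x ≤ C) {T₁ T₂ : G}
    (h1 : T₁ ∈ C) (h1' : T₁ ∈ HH G x p) (h1n : T₁ ∉ D.Q x)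
    (h2 : T₂ ∈ C) (h2' : T₂ ∈ HH G x q) (h2n : T₂ ∉ D.Q x) : stabilizer G x ≤ C := by
  intro k hk
  rw [mem_stabilizer_iff] at hk
  rw [mem_HH] at h1' h2'
  have a1 := ht.notQ h1'.1 h1'.2 h1n
  have a2 := ht.swap12.notQ h2'.1 h2'.2 h2n
  have key : ∃ c ∈ C, c • x = x ∧ (c * k) • p = p := by
    rcases ht.2.2.2.2.2.2 _ (ht.2.2.2.1.stab hk) with e | e | e
    · exact ⟨1, C.one_mem, one_smul _ _, by simp [e]⟩
    · refine ⟨T₂ * T₁, C.mul_mem h2 h1, by rw [mul_smul, h1'.1, h2'.1], ?_⟩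
      rw [mul_smul, e, mul_smul, a1.1, a2.2]
    · refine ⟨T₂, h2, h2'.1, ?_⟩
      rw [mul_smul, e, a2.2]
  obtain ⟨c, hc, hcx, hcp⟩ := key
  have hck : (c * k) • x = x := by rw [mul_smul, hk, hcx]
  have hk' : k = c⁻¹ * (c * k) := by group
  rw [hk']
  refine C.mul_mem (C.inv_mem hc) ?_
  by_cases hm : c * k ∈ D.Q x
  · exact hQ hm
  · have h3 := ht.mul_mem h1'.1 h1'.2 h1n hck hcp hm
    have h4 : c * k = T₁⁻¹ * (T₁ * (c * k)) := by group
    rw [h4]
    exact C.mul_mem (C.inv_mem h1) (hQ h3)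

lemma H_two {x y : Ω} (h : D.Arc x y) : ∀ k ∈ HH G x y, ∃ n, k ^ 2 ^ n = 1 :=
  fun k hk => two_elem h (mem_HH.mp hk).1 (mem_HH.mp hk).2

omit [FaithfulSMul G Ω] in
lemma H_ne_bot (hb : D.Big) {x y : Ω} (h : D.Arc x y) : HH G x y ≠ ⊥ := by
  intro e
  have := big_arc hb h
  rw [e, Subgroup.card_bot] at this
  omega

lemma offender (hb : D.Big) {x y : Ω} (h : D.Arc x y) :
    ∃ A, IsMaxEA (HH G x y) A ∧ ∃ t ∈ A, t ∉ D.Q x := by
  by_contra hcon
  push Not at hcon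
  let S : Set (Subgroup G) := {A | IsMaxEA (HH G x y) A}
  let J : Subgroup G := sSup S
  have hJQ : J ≤ D.Q x := sSup_le fun A hA t ht => hcon A hA t ht
  have hconj : ∀ k : G, (∀ A ∈ S, cj k A ≤ HH G x y) → ∀ c ∈ J, k * c * k⁻¹ ∈ J := by
    intro k hk c hc
    have hle : J ≤ J.comap (MulAut.conj k).toMonoidHom := by
      refine sSup_le fun A hA a ha => ?_
      have hmem : cj k A ∈ S := IsMaxEA.of_card hA (hk A hA) (EA_cj hA.2.1) card_cj
      have : (MulAut.conj k).toMonoidHom a ∈ cj k A := mem_map_of_mem _ ha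
      exact (le_sSup hmem : cj k A ≤ J) this
    have := hle hc
    simpa [MulAut.conj_apply] using this
  have hbot : J = ⊥ := by
    refine char_core h J (hJQ.trans fun k hk => Q_le h hk) ?_ ?_
    · intro k hk
      refine hconj k fun A hA u hu => ?_
      have h1 := hcon A hA _ (mem_cj.mp hu)
      have h2 := Q_norm hk h1
      have e : k * (k⁻¹ * u * k) * k⁻¹ = u := by group
      rw [e] at h2
      exact Q_le h h2
    · intro g hg
      refine hconj g fun A hA u hu => ?_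
      have h1 := hA.1 (mem_cj.mp hu)
      have h2 := (hg _).mp h1
      have e : g * (g⁻¹ * u * g) * g⁻¹ = u := by group
      rwa [e] at h2
  obtain ⟨z, hz, hz1⟩ := Om_nontriv (H_two h) (H_ne_bot hb h)
  obtain ⟨A, hA⟩ := exists_maxEA (HH G x y)
  have hAJ : A ≤ J := le_sSup hA
  rw [hbot] at hAJ
  have hc : ∀ k ∈ (⊥ : Subgroup G), z * k = k * z := by
    intro k hk
    rw [Subgroup.mem_bot] at hk
    simp [hk]
  have h1 := hA.2.2 (extS ⊥ z hz.2.1 hc) (extS_le bot_le hz.1) (EA_extS EA_bot)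
  have h2 := two_mul_le (K := ⊥) (L := extS ⊥ z hz.2.1 hc) bot_le self_mem_extS
    (by rw [Subgroup.mem_bot]; exact hz1)
  rw [Subgroup.card_bot] at h2
  have h3 := Subgroup.card_le_of_le hAJ
  rw [Subgroup.card_bot] at h3
  omega

lemma Om_H_le {x y : Ω} (hb : D.Big) (h : D.Arc x y) {z : G} (hz : z ∈ Om (HH G x y)) :
    z ∈ Om (D.Q x) := by
  have hzx := (mem_HH.mp hz.1).1
  have hq : z ∈ D.Q x := CQ hb hzx fun q hq => by
    rw [hz.2.2 q (Q_le h hq)]; group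
  exact ⟨hq, hz.2.1, fun t ht => hz.2.2 t (Q_le h ht)⟩

lemma Om_H_char {x y : Ω} {g c : G} (hg : NormH (HH G x y) g) (hc : c ∈ Om (HH G x y)) :
    g * c * g⁻¹ ∈ Om (HH G x y) :=
  Om_conj g (fun u hu => (hg u).mp hu) (fun u hu => by have := (hg.inv u).mp hu; simpa using this) hc

lemma Z_moved (hb : D.Big) {x y : Ω} (h : D.Arc x y) :
    ∃ z ∈ Om (HH G x y), ∃ k : G, k • x = x ∧ z * k ≠ k * z := by
  by_contra hcon
  push Not at hcon
  obtain ⟨z, hz, hz1⟩ := Om_nontriv (H_two h) (H_ne_bot hb h)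
  have hbot : Om (HH G x y) = ⊥ := by
    refine char_core h _ (fun c hc => hc.1) ?_ ?_
    · intro k hk c hc
      have : k * c * k⁻¹ = c := by rw [← hcon c hc k hk]; group
      rwa [this]
    · intro g hg c hc
      exact Om_H_char hg hc
  rw [hbot, Subgroup.mem_bot] at hz
  exact hz1 hz

lemma T_not_central (hb : D.Big) {x y : Ω} (h : D.Arc x y) {t : G} (ht : t ∈ HH G x y)
    (hn : t ∉ D.Q x) : ∃ e ∈ Om (D.Q x), e * t ≠ t * e := by
  by_contra hcon
  push Not at hcon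
  obtain ⟨z, hz, k, hk, hzk⟩ := Z_moved hb h
  apply hzk
  have hzE := Om_H_le hb h hz
  obtain ⟨q, r, htri⟩ := tri_of h
  obtain ⟨l, hl1, hl2⟩ := exists_stab h htri.2.2.2.2.1
  have hT2 : l * t * l⁻¹ ∈ HH G x q := by
    have := conj_mem_HH (g := l) ht
    rwa [hl1, hl2] at this
  have hT2n : l * t * l⁻¹ ∉ D.Q x := by
    intro e
    have := Q_norm (D := D) (l := l⁻¹) (inv_smul_eq_iff.mpr hl1.symm) e
    apply hn
    simpa [mul_assoc] using this
  have hle := gen htri (Subgroup.centralizer ({z} : Set G))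
    (fun q hq => mem_cent.mpr (hzE.2.2 q hq)) (T₁ := t) (T₂ := l * t * l⁻¹)
    (mem_cent.mpr (hcon z hzE)) ht hn ?_ hT2 hT2n
  · exact mem_cent.mp (hle (mem_stabilizer_iff.mpr hk))
  · apply mem_cent.mpr
    have he0 : l⁻¹ * z * l ∈ Om (D.Q x) := by
      have := E_norm (D := D) (k := l⁻¹) (inv_smul_eq_iff.mpr hl1.symm) hzE
      simpa using this
    have := hcon _ he0
    calc z * (l * t * l⁻¹) = l * ((l⁻¹ * z * l) * t) * l⁻¹ := by group
      _ = l * (t * (l⁻¹ * z * l)) * l⁻¹ := by rw [this]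
      _ = (l * t * l⁻¹) * z := by group

structure IsZ (D : SD G Ω) (x y : Ω) (ζ : G) : Prop where
  mem : ζ ∈ Om (D.Q x)
  ne : ζ ≠ 1
  val : ∀ t ∈ HH G x y, ∀ e ∈ Om (D.Q x), tau t e = 1 ∨ tau t e = ζ
  wit : ∀ t ∈ HH G x y, t ∉ D.Q x → ∃ e ∈ Om (D.Q x), tau t e = ζ

lemma exists_IsZ (hb : D.Big) {x y : Ω} (h : D.Arc x y) : ∃ ζ, D.IsZ x y ζ := by
  obtain ⟨A, hA, t', ht', htn⟩ := offender hb h
  have ht'H := hA.1 ht'
  have hfix := mem_HH.mp ht'H
  obtain ⟨q, r, htri⟩ := tri_of h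
  have hidx : ∀ u ∈ A, ∀ v ∈ A, u ∉ D.Q x → v ∉ D.Q x → u * v ∈ D.Q x := by
    intro u hu v hv hun hvn
    have a := mem_HH.mp (hA.1 hu)
    have b := mem_HH.mp (hA.1 hv)
    exact htri.mul_mem a.1 a.2 hun b.1 b.2 hvn
  obtain ⟨e₀, he₀, hne⟩ := T_not_central hb h ht'H htn
  have hQH : D.Q x ≤ HH G x y := fun k hk => Q_le h hk
  have hinvn : t'⁻¹ ∉ D.Q x := fun e => htn (by simpa using (D.Q x).inv_mem e)
  have htt : ∀ t ∈ HH G x y, t ∉ D.Q x → ∀ e ∈ Om (D.Q x), tau t e = tau t' e := by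
    intro t ht htq e he
    have a := mem_HH.mp ht
    have h1 : t'⁻¹ * t ∈ D.Q x := htri.mul_mem (inv_smul_eq_iff.mpr hfix.1.symm)
      (inv_smul_eq_iff.mpr hfix.2.symm) hinvn a.1 a.2 htq
    have h2 := tau_of_mul (t := t') h1 he
    rwa [mul_inv_cancel_left] at h2
  have hval : ∀ e ∈ Om (D.Q x), tau t' e = 1 ∨ tau t' e = tau t' e₀ := by
    intro e he
    by_cases hc : e * t' = t' * e
    · exact Or.inl ((tau_eq_one he.2.1).mpr hc)
    · right
      have hoff := off1 hA hQH ht' hidx he he₀ hc hne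
      have hz0 := tau_mem hfix.1 he₀
      have hz1 := tau_mem hfix.1 he
      have h1 : tau t' (e * e₀) = 1 := (tau_eq_one (by
        have := (Om (D.Q x)).mul_mem he he₀
        exact this.2.1)).mpr hoff
      rw [tau_mul hfix.1 he he₀] at h1
      exact mul_right_cancel (h1.trans hz0.2.1.symm)
  refine ⟨tau t' e₀, tau_mem hfix.1 he₀, ?_, ?_, ?_⟩
  · intro e
    exact hne ((tau_eq_one he₀.2.1).mp e)
  · intro t ht e he
    by_cases htq : t ∈ D.Q x
    · exact Or.inl ((tau_eq_one he.2.1).mpr (he.2.2 t htq))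
    · rw [htt t ht htq e he]
      exact hval e he
  · intro t ht htq
    exact ⟨e₀, he₀, htt t ht htq e₀ he₀⟩

lemma IsZ_unique (hb : D.Big) {x y : Ω} (h : D.Arc x y) {ζ₁ ζ₂ : G} (h1 : D.IsZ x y ζ₁)
    (h2 : D.IsZ x y ζ₂) : ζ₁ = ζ₂ := by
  obtain ⟨T, hT, hTn⟩ := exists_T hb h
  obtain ⟨e, he, hte⟩ := h1.wit T hT hTn
  rcases h2.val T hT e he with a | a
  · exact absurd (hte.symm.trans a) h1.ne
  · exact hte.symm.trans a

lemma IsZ_conj {x y : Ω} {ζ : G} (g : G) (h : D.IsZ x y ζ) :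
    D.IsZ (g • x) (g • y) (g * ζ * g⁻¹) := by
  have hE : ∀ e ∈ Om (D.Q (g • x)), g⁻¹ * e * g ∈ Om (D.Q x) := by
    intro e he
    have := Om_conj g⁻¹ (K := D.Q (g • x)) (K' := D.Q x) (fun u hu => by simpa using Q_conj_inv g hu)
      (fun u hu => by simpa using Q_conj g hu) he
    simpa using this
  have hE' : ∀ e ∈ Om (D.Q x), g * e * g⁻¹ ∈ Om (D.Q (g • x)) := by
    intro e he
    refine Om_conj g (fun u hu => Q_conj g hu) (fun u hu => Q_conj_inv g hu) he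
  have hH : ∀ t ∈ HH G (g • x) (g • y), g⁻¹ * t * g ∈ HH G x y := by
    intro t ht
    have := conj_mem_HH (g := g⁻¹) ht
    simpa using this
  have he1 : ∀ t e : G, tau t e = g * tau (g⁻¹ * t * g) (g⁻¹ * e * g) * g⁻¹ := by
    intro t e
    have := tau_conj g⁻¹ t e
    simp only [inv_inv] at this
    rw [this]; group
  refine ⟨hE' _ h.mem, ?_, ?_, ?_⟩
  · intro e
    apply h.ne
    have : ζ = g⁻¹ * (g * ζ * g⁻¹) * g := by group
    rw [this, e]; group
  · intro t ht e he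
    rw [he1]
    rcases h.val _ (hH t ht) _ (hE e he) with a | a
    · left; rw [a]; group
    · right; rw [a]
  · intro t ht htn
    have hn : g⁻¹ * t * g ∉ D.Q x := by
      intro e
      apply htn
      have := Q_conj (D := D) g e
      simpa [mul_assoc] using this
    obtain ⟨e, he, hv⟩ := h.wit _ (hH t ht) hn
    refine ⟨g * e * g⁻¹, hE' e he, ?_⟩
    rw [he1]
    have : g⁻¹ * (g * e * g⁻¹) * g = e := by group
    rw [this, hv]

end SD

end Cfsg.Agent.Misc19.Sims3
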