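import Cfsg.Agent.Lib.Misc19.Sims3C

/-! Sims' theorem on suborbits of length 3: `zeta`, the subgroups `Dz`. -/

namespace Cfsg.Agent.Misc19.Sims3

open MulAction Subgroup

variable {G Ω : Type*} [Group G] [MulAction G Ω] [Finite G]

lemma idx3 {H L S : Subgroup G} (h1 : H ≤ L) (h2 : L ≤ S) (h3 : Nat.card S = 3 * Nat.card H)
    (h4 : Nat.card S ≤ 2 * Nat.card L) : S ≤ L := by
  obtain ⟨m, hm⟩ := Subgroup.card_dvd_of_le h1
  obtain ⟨n, hn⟩ := Subgroup.card_dvd_of_le h2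
  have hH : 0 < Nat.card H := Nat.card_pos
  have hmn : m * n = 3 := by
    rw [hm, h3, mul_assoc, mul_comm 3] at hn
    exact (Nat.eq_of_mul_eq_mul_left hH hn).symm
  have h5 : 3 ≤ 2 * m := by
    rw [h3, hm] at h4
    have : Nat.card H * 3 ≤ Nat.card H * (2 * m) := by nlinarith
    exact Nat.le_of_mul_le_mul_left this hH
  have hm3 : m ∣ 3 := ⟨n, hmn.symm⟩
  have hm4 : m = 3 := by
    have := Nat.le_of_dvd (by norm_num) hm3
    interval_cases m <;> omega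
  have hn1 : n = 1 := by subst hm4; omega
  rw [hn1, mul_one] at hn
  exact (Subgroup.eq_of_le_of_card_ge h2 hn.le).ge

omit [Finite G] in
lemma conj_of_tau {t z ζ : G} (hz : z * z = 1) (h : tau t z = ζ) : t * z * t⁻¹ = z * ζ := by
  unfold tau at h
  rw [← h, ← mul_assoc, hz, one_mul]

omit [Finite G] in
/-- stabilizer elements moving `z` at most by the central involution `ζ`. -/
def twoC (x : Ω) (z ζ : G) (hζ : ζ * ζ = 1) (hcen : ∀ k : G, k • x = x → k * ζ * k⁻¹ = ζ) :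
    Subgroup G where
  carrier := {k | k • x = x ∧ (k * z * k⁻¹ = z ∨ k * z * k⁻¹ = z * ζ)}
  one_mem' := ⟨one_smul _ _, Or.inl (by simp)⟩
  mul_mem' := by
    rintro a b ⟨h1, h2⟩ ⟨h3, h4⟩
    refine ⟨by rw [mul_smul, h3, h1], ?_⟩
    have e : (a * b) * z * (a * b)⁻¹ = a * (b * z * b⁻¹) * a⁻¹ := by group
    rw [e]
    have hm : a * (z * ζ) * a⁻¹ = (a * z * a⁻¹) * ζ := by
      calc a * (z * ζ) * a⁻¹ = (a * z * a⁻¹) * (a * ζ * a⁻¹) := by group
        _ = _ := by rw [hcen a h1]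
    rcases h4 with h4 | h4 <;> rw [h4]
    · exact h2
    · rw [hm]
      rcases h2 with h2 | h2 <;> rw [h2]
      · exact Or.inr rfl
      · left; rw [mul_assoc, hζ, mul_one]
  inv_mem' := by
    rintro a ⟨h1, h2⟩
    have h1' : a⁻¹ • x = x := inv_smul_eq_iff.mpr h1.symm
    refine ⟨h1', ?_⟩
    rcases h2 with h2 | h2
    · left
      calc a⁻¹ * z * a⁻¹⁻¹ = a⁻¹ * (a * z * a⁻¹) * a := by rw [h2]; group
        _ = z := by group
    · right
      have h3 := hcen a⁻¹ h1'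
      have h4 : (a⁻¹ * z * a⁻¹⁻¹) * ζ = z := by
        calc (a⁻¹ * z * a⁻¹⁻¹) * ζ = (a⁻¹ * z * a⁻¹⁻¹) * (a⁻¹ * ζ * a⁻¹⁻¹) := by rw [h3]
          _ = a⁻¹ * (z * ζ) * a := by group
          _ = a⁻¹ * (a * z * a⁻¹) * a := by rw [h2]
          _ = z := by group
      calc a⁻¹ * z * a⁻¹⁻¹ = (a⁻¹ * z * a⁻¹⁻¹) * ζ * ζ := by rw [mul_assoc _ ζ ζ, hζ, mul_one]
        _ = z * ζ := by rw [h4]

namespace SD

variable [FaithfulSMul G Ω] {D : SD G Ω}

noncomputable def zeta (D : SD G Ω) (x y : Ω) : G := Classical.epsilon (fun ζ => D.IsZ x y ζ)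

lemma zeta_spec (hb : D.Big) {x y : Ω} (h : D.Arc x y) : D.IsZ x y (D.zeta x y) :=
  Classical.epsilon_spec (exists_IsZ hb h)

lemma zeta_conj (hb : D.Big) {x y : Ω} (h : D.Arc x y) (g : G) :
    g * D.zeta x y * g⁻¹ = D.zeta (g • x) (g • y) :=
  IsZ_unique hb (h.smul g) (IsZ_conj g (zeta_spec hb h)) (zeta_spec hb (h.smul g))

lemma zeta_out (hb : D.Big) {x y : Ω} {k : G} (h : D.Arc x y) (hk : k • x = x) :
    k * D.zeta x y * k⁻¹ = D.zeta x (k • y) := by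
  have := zeta_conj hb h k; rwa [hk] at this

lemma zeta_comm (hb : D.Big) {x y : Ω} {t : G} (h : D.Arc x y) (ht : t ∈ HH G x y) :
    D.zeta x y * t = t * D.zeta x y := by
  have a := mem_HH.mp ht
  have := zeta_out hb h a.1
  rw [a.2] at this
  exact (mul_inv_eq_iff_eq_mul.mp this).symm

omit [Finite G] [FaithfulSMul G Ω] in
lemma tri_of2' {x p q r y' : Ω} (ht : D.Tri x p q r) (hy' : D.Arc x y') (hne : p ≠ y') :
    ∃ r', D.Tri x p y' r' := by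
  rcases ht.2.2.2.2.2.2 y' hy' with a | a | a
  · exact absurd a.symm hne
  · exact ⟨r, a ▸ ht⟩
  · exact ⟨q, a ▸ ht.swap23⟩

omit [FaithfulSMul G Ω] in
lemma tri_of2 {x p y' : Ω} (hp : D.Arc x p) (hy' : D.Arc x y') (hne : p ≠ y') :
    ∃ r', D.Tri x p y' r' := by
  obtain ⟨q, r, ht⟩ := tri_of hp
  exact tri_of2' ht hy' hne

lemma zeta_ne (hb : D.Big) {x y y' : Ω} (hy : D.Arc x y) (hy' : D.Arc x y') (hne : y ≠ y') :
    D.zeta x y ≠ D.zeta x y' := by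
  intro he
  have hall : ∀ u, D.Arc x u → D.zeta x u = D.zeta x y := by
    intro u hu
    by_cases huy : y = u
    · rw [huy]
    obtain ⟨k, hk, hk1, hk2⟩ := two_trans hb hy hy' hy hu hne huy
    have a1 := zeta_out hb hy' hk
    rw [hk2] at a1
    have a2 := zeta_out hb hy hk
    rw [hk1] at a2
    rw [← a1, ← he, a2]
  have hcen : ∀ k : G, k • x = x → k * D.zeta x y * k⁻¹ = D.zeta x y := by
    intro k hk
    rw [zeta_out hb hy hk]
    exact hall _ (hy.stab hk)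
  obtain ⟨z, hz, k, hk, hzk⟩ := Z_moved hb hy
  apply hzk
  have hzE := Om_H_le hb hy hz
  have hζ := zeta_spec hb hy
  have hζ' := zeta_spec hb hy'
  obtain ⟨r', htri⟩ := tri_of2 hy hy' hne
  obtain ⟨T₁, h1, h1n⟩ := exists_T hb hy
  obtain ⟨T₂, h2, h2n⟩ := exists_T hb hy'
  have hgen := gen htri (twoC x z (D.zeta x y) hζ.mem.2.1 hcen)
    (fun q hq => ⟨hq.1, Or.inl (by rw [← hzE.2.2 q hq]; group)⟩) (T₁ := T₁) (T₂ := T₂)
    ⟨(mem_HH.mp h1).1, by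
      rcases hζ.val T₁ h1 z hzE with a | a
      · left; rw [conj_of_tau hzE.2.1 a, mul_one]
      · right; exact conj_of_tau hzE.2.1 a⟩ h1 h1n
    ⟨(mem_HH.mp h2).1, by
      rcases hζ'.val T₂ h2 z hzE with a | a
      · left; rw [conj_of_tau hzE.2.1 a, mul_one]
      · right; rw [he]; exact conj_of_tau hzE.2.1 a⟩ h2 h2n
  have hle : stabilizer G x ≤ stabilizer G x ⊓ Subgroup.centralizer ({z} : Set G) := by
    refine idx3 (H := HH G x y) ?_ inf_le_left (card_stab_arc hy) ?_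
    · intro t ht
      exact mem_inf.mpr ⟨mem_stabilizer_iff.mpr (mem_HH.mp ht).1, mem_cent.mpr (hz.2.2 t ht)⟩
    · refine idx2 inf_le_left fun u hu v hv hun hvn => ?_
      have step : ∀ w ∈ stabilizer G x, w ∉ stabilizer G x ⊓ Subgroup.centralizer ({z} : Set G) →
          w * z * w⁻¹ = z * D.zeta x y := by
        intro w hw hwn
        rcases (hgen hw).2 with a | a
        · exfalso
          apply hwn
          refine mem_inf.mpr ⟨hw, mem_cent.mpr ?_⟩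
          exact (mul_inv_eq_iff_eq_mul.mp a).symm
        · exact a
      have a1 := step u hu hun
      have a2 := step v hv hvn
      refine mem_inf.mpr ⟨mul_mem hu hv, mem_cent.mpr ?_⟩
      have hcu := hcen u (mem_stabilizer_iff.mp hu)
      have : (u * v) * z * (u * v)⁻¹ = z := by
        calc (u * v) * z * (u * v)⁻¹ = u * (v * z * v⁻¹) * u⁻¹ := by group
          _ = u * (z * D.zeta x y) * u⁻¹ := by rw [a2]
          _ = (u * z * u⁻¹) * (u * D.zeta x y * u⁻¹) := by group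
          _ = z * D.zeta x y * D.zeta x y := by rw [a1, hcu]
          _ = z := by rw [mul_assoc, hζ.mem.2.1, mul_one]
      exact (mul_inv_eq_iff_eq_mul.mp this).symm
  exact mem_cent.mp (mem_inf.mp (hle (mem_stabilizer_iff.mpr hk))).2

lemma zeta_prod (hb : D.Big) {x p q r : Ω} (ht : D.Tri x p q r) :
    D.zeta x q * D.zeta x r = D.zeta x p := by
  obtain ⟨h12, h13, h23, hp, hq, hr, hall⟩ := id ht
  obtain ⟨T, hT, hTn⟩ := exists_T hb hp
  have a := mem_HH.mp hT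
  have hsw := ht.notQ a.1 a.2 hTn
  have hv := (zeta_spec hb hp).val T hT _ (zeta_spec hb hq).mem
  have e : tau T (D.zeta x q) = D.zeta x q * D.zeta x r := by
    unfold tau; rw [zeta_out hb hq a.1, hsw.1]
  rw [e] at hv
  rcases hv with hv | hv
  · exfalso
    exact zeta_ne hb hq hr h23 (mul_right_cancel (hv.trans (zeta_spec hb hr).mem.2.1.symm))
  · exact hv

lemma tau_q (hb : D.Big) {x p q r : Ω} (ht : D.Tri x p q r) {T : G} (hT : T ∈ HH G x p)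
    (hTn : T ∉ D.Q x) : tau T (D.zeta x q) = D.zeta x p := by
  have a := mem_HH.mp hT
  have hsw := ht.notQ a.1 a.2 hTn
  unfold tau
  rw [zeta_out hb ht.2.2.2.2.1 a.1, hsw.1]
  exact zeta_prod hb ht

lemma tau_p (hb : D.Big) {x p : Ω} (hp : D.Arc x p) {T : G} (hT : T ∈ HH G x p) :
    tau T (D.zeta x p) = 1 :=
  (tau_eq_one (zeta_spec hb hp).mem.2.1).mpr (zeta_comm hb hp hT)

def Dz (D : SD G Ω) (x : Ω) : Subgroup G where
  carrier := {e | e ∈ D.Q x ∧ e * e = 1 ∧ ∀ k : G, k • x = x → e * k = k * e}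
  one_mem' := ⟨one_mem _, by simp, by simp⟩
  mul_mem' := by
    rintro a b ⟨h1, h2, h3⟩ ⟨h4, h5, h6⟩
    refine ⟨mul_mem h1 h4, ?_, fun k hk => ?_⟩
    · have c : a * b = b * a := h3 b h4.1
      calc a * b * (a * b) = a * (b * a) * b := by simp only [mul_assoc]
        _ = a * (a * b) * b := by rw [← c]
        _ = (a * a) * (b * b) := by simp only [mul_assoc]
        _ = 1 := by rw [h2, h5, one_mul]
    · exact Commute.mul_left (h3 k hk) (h6 k hk)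
  inv_mem' := by
    rintro a ⟨h1, h2, h3⟩
    rw [inv_eq_of_mul_eq_one_left h2]; exact ⟨h1, h2, h3⟩

omit [Finite G] [FaithfulSMul G Ω] in
lemma Dz_E {x : Ω} {d : G} (hd : d ∈ D.Dz x) : d ∈ Om (D.Q x) :=
  ⟨hd.1, hd.2.1, fun t ht => hd.2.2 t ht.1⟩

omit [Finite G] [FaithfulSMul G Ω] in
lemma Dz_conj {x : Ω} {d : G} (g : G) (hd : d ∈ D.Dz x) : g * d * g⁻¹ ∈ D.Dz (g • x) := by
  refine ⟨Q_conj g hd.1, ?_, fun k hk => ?_⟩
  · calc g * d * g⁻¹ * (g * d * g⁻¹) = g * (d * d) * g⁻¹ := by group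
      _ = 1 := by rw [hd.2.1]; group
  · have hk' : (g⁻¹ * k * g) • x = x := by
      simp only [mul_smul]; rw [hk]; simp
    have := hd.2.2 _ hk'
    calc g * d * g⁻¹ * k = g * (d * (g⁻¹ * k * g)) * g⁻¹ := by group
      _ = g * ((g⁻¹ * k * g) * d) * g⁻¹ := by rw [this]
      _ = k * (g * d * g⁻¹) := by group

lemma gen_center {x p q r : Ω} (ht : D.Tri x p q r) {e : G} (he : e ∈ Om (D.Q x)) {T₁ T₂ : G}
    (h1 : T₁ ∈ HH G x p) (h1n : T₁ ∉ D.Q x) (h2 : T₂ ∈ HH G x q) (h2n : T₂ ∉ D.Q x)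
    (c1 : e * T₁ = T₁ * e) (c2 : e * T₂ = T₂ * e) : e ∈ D.Dz x := by
  have hle := gen ht (Subgroup.centralizer ({e} : Set G)) (fun q hq => mem_cent.mpr (he.2.2 q hq))
    (mem_cent.mpr c1) h1 h1n (mem_cent.mpr c2) h2 h2n
  exact ⟨he.1, he.2.1, fun k hk => mem_cent.mp (hle (mem_stabilizer_iff.mpr hk))⟩

lemma DW (hb : D.Big) {x p q r : Ω} (ht : D.Tri x p q r) {e : G} (he : e ∈ Om (D.Q x)) :
    ∃ d ∈ D.Dz x, e = d ∨ e = d * D.zeta x p ∨ e = d * D.zeta x q ∨ e = d * D.zeta x r := by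
  obtain ⟨h12, h13, h23, hp, hq, hr, hall⟩ := id ht
  obtain ⟨T₁, h1, h1n⟩ := exists_T hb hp
  obtain ⟨T₂, h2, h2n⟩ := exists_T hb hq
  have a1 := mem_HH.mp h1
  have a2 := mem_HH.mp h2
  have v1 := (zeta_spec hb hp).val T₁ h1 e he
  have v2 := (zeta_spec hb hq).val T₂ h2 e he
  have tp1 := tau_p hb hp h1
  have tq1 := tau_q hb ht h1 h1n
  have tr1 := tau_q hb ht.swap23 h1 h1n
  have tq2 := tau_p hb hq h2
  have tp2 := tau_q hb ht.swap12 h2 h2n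
  have tr2 := tau_q hb ht.swap12.swap23 h2 h2n
  have Ep := (zeta_spec hb hp).mem
  have Eq := (zeta_spec hb hq).mem
  have Er := (zeta_spec hb hr).mem
  have mk : ∀ w ∈ Om (D.Q x), tau T₁ e * tau T₁ w = 1 → tau T₂ e * tau T₂ w = 1 →
      e * w ∈ D.Dz x ∧ e = e * w * w := by
    intro w hw c1 c2
    have hew := (Om (D.Q x)).mul_mem he hw
    refine ⟨gen_center ht hew h1 h1n h2 h2n ?_ ?_, ?_⟩
    · exact (tau_eq_one hew.2.1).mp (by rw [tau_mul a1.1 he hw, c1])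
    · exact (tau_eq_one hew.2.1).mp (by rw [tau_mul a2.1 he hw, c2])
    · rw [mul_assoc, hw.2.1, mul_one]
  rcases v1 with v1 | v1 <;> rcases v2 with v2 | v2
  · exact ⟨e, gen_center ht he h1 h1n h2 h2n ((tau_eq_one he.2.1).mp v1)
      ((tau_eq_one he.2.1).mp v2), Or.inl rfl⟩
  · obtain ⟨m1, m2⟩ := mk _ Ep (by rw [v1, tp1, one_mul]) (by rw [v2, tp2, Eq.2.1])
    exact ⟨_, m1, Or.inr (Or.inl m2)⟩
  · obtain ⟨m1, m2⟩ := mk _ Eq (by rw [v1, tq1, Ep.2.1]) (by rw [v2, tq2, one_mul])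
    exact ⟨_, m1, Or.inr (Or.inr (Or.inl m2))⟩
  · obtain ⟨m1, m2⟩ := mk _ Er (by rw [v1, tr1, Ep.2.1]) (by rw [v2, tr2, Eq.2.1])
    exact ⟨_, m1, Or.inr (Or.inr (Or.inr m2))⟩

lemma Om_split (hb : D.Big) {x p q r : Ω} (ht : D.Tri x p q r) {z : G} (hz : z ∈ Om (HH G x p)) :
    ∃ d ∈ D.Dz x, z = d ∨ z = d * D.zeta x p := by
  obtain ⟨h12, h13, h23, hp, hq, hr, hall⟩ := id ht
  have hzE := Om_H_le hb hp hz
  obtain ⟨d, hd, hcases⟩ := DW hb ht hzE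
  obtain ⟨T, hT, hTn⟩ := exists_T hb hp
  have a := mem_HH.mp hT
  have t0 : tau T z = 1 := (tau_eq_one hz.2.1).mpr (hz.2.2 T hT)
  have td : tau T d = 1 := (tau_eq_one hd.2.1).mpr (hd.2.2 T a.1)
  have Ep := (zeta_spec hb hp).mem
  rcases hcases with e | e | e | e
  · exact ⟨d, hd, Or.inl e⟩
  · exact ⟨d, hd, Or.inr e⟩
  · exfalso
    rw [e, tau_mul a.1 (Dz_E hd) (zeta_spec hb hq).mem, td, one_mul, tau_q hb ht hT hTn] at t0
    exact (zeta_spec hb hp).ne t0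
  · exfalso
    rw [e, tau_mul a.1 (Dz_E hd) (zeta_spec hb hr).mem, td, one_mul, tau_q hb ht.swap23 hT hTn] at t0
    exact (zeta_spec hb hp).ne t0

lemma zeta_Om (hb : D.Big) {x p : Ω} (hp : D.Arc x p) : D.zeta x p ∈ Om (HH G x p) :=
  ⟨Q_le hp (zeta_spec hb hp).mem.1, (zeta_spec hb hp).mem.2.1, fun _ ht => zeta_comm hb hp ht⟩

omit [Finite G] [FaithfulSMul G Ω] in
lemma Dz_out {x y : Ω} {d : G} (hy : D.Arc x y) (hd : d ∈ D.Dz x) : d ∈ Om (HH G x y) :=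
  ⟨Q_le hy hd.1, hd.2.1, fun t ht => hd.2.2 t (mem_HH.mp ht).1⟩

lemma Dz_in {x y : Ω} {d : G} (hy : D.Arc x y) (hd : d ∈ D.Dz y) : d ∈ Om (HH G x y) :=
  ⟨mem_HH.mpr ⟨Q_fix_in hy hd.1, hd.1.1⟩, hd.2.1, fun t ht => hd.2.2 t (mem_HH.mp ht).2⟩

lemma Dz_inter {x y : Ω} {c : G} (h : D.Arc x y) (h1 : c ∈ D.Dz x) (h2 : c ∈ D.Dz y) : c = 1 := by
  have hbot : (D.Dz x ⊓ D.Dz y : Subgroup G) = ⊥ := by
    refine core h _ (fun c hc => mem_stabilizer_iff.mpr (mem_inf.mp hc).1.1.1) ?_ ?_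
    · intro k hk c hc
      have : k * c * k⁻¹ = c := by rw [← (mem_inf.mp hc).1.2.2 k hk]; group
      rwa [this]
    · intro k hk c hc
      have : k * c * k⁻¹ = c := by rw [← (mem_inf.mp hc).2.2.2 k hk]; group
      rwa [this]
  have : c ∈ (D.Dz x ⊓ D.Dz y : Subgroup G) := mem_inf.mpr ⟨h1, h2⟩
  rwa [hbot, Subgroup.mem_bot] at this

lemma Dy_unique (hb : D.Big) {x y : Ω} (h : D.Arc x y) {u v : G} (hu : u ∈ D.Dz y) (hv : v ∈ D.Dz y)
    (hu1 : u ≠ 1) (hv1 : v ≠ 1) : u = v := by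
  obtain ⟨q, r, ht⟩ := tri_of h
  obtain ⟨d₁, hd₁, c1⟩ := Om_split hb ht (Dz_in h hu)
  obtain ⟨d₂, hd₂, c2⟩ := Om_split hb ht (Dz_in h hv)
  have Ez := (zeta_spec hb h).mem
  rcases c1 with c1 | c1
  · exact absurd (Dz_inter h (c1 ▸ hd₁) hu) hu1
  rcases c2 with c2 | c2
  · exact absurd (Dz_inter h (c2 ▸ hd₂) hv) hv1
  have e : u * v = d₁ * d₂ := by
    rw [c1, c2]
    have : D.zeta x y * d₂ = d₂ * D.zeta x y := (hd₂.2.2 _ Ez.1.1).symm
    calc d₁ * D.zeta x y * (d₂ * D.zeta x y) = d₁ * (D.zeta x y * d₂) * D.zeta x y := by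
          simp only [mul_assoc]
      _ = d₁ * (d₂ * D.zeta x y) * D.zeta x y := by rw [this]
      _ = d₁ * d₂ * (D.zeta x y * D.zeta x y) := by simp only [mul_assoc]
      _ = d₁ * d₂ := by rw [Ez.2.1, mul_one]
  have h1 : u * v ∈ D.Dz x := e ▸ mul_mem hd₁ hd₂
  have h2 := Dz_inter h h1 (mul_mem hu hv)
  exact mul_right_cancel (h2.trans hv.2.1.symm)

lemma rev_Dz (D : SD G Ω) (y : Ω) : D.rev.Dz y = D.Dz y := by
  ext k
  change (k ∈ D.rev.Q y ∧ _) ↔ (k ∈ D.Q y ∧ _)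
  rw [rev_Q]

lemma rev_Tri_in {x y : Ω} (h : D.Arc x y) : ∃ q r, D.rev.Tri y x q r :=
  tri_of (rev_arc.mpr h)

/-- `zetaR x y` is the in-version of `zeta` on an arc `x → y`. -/
noncomputable def zetaR (D : SD G Ω) (x y : Ω) : G := D.rev.zeta y x

lemma zetaR_E (hb : D.Big) {x y : Ω} (h : D.Arc x y) : D.zetaR x y ∈ Om (D.Q y) := by
  have := (zeta_spec (rev_big hb) (rev_arc.mpr h)).mem
  rwa [rev_Q] at this

lemma zetaR_ne (hb : D.Big) {x y : Ω} (h : D.Arc x y) : D.zetaR x y ≠ 1 :=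
  (zeta_spec (rev_big hb) (rev_arc.mpr h)).ne

lemma zetaR_Om (hb : D.Big) {x y : Ω} (h : D.Arc x y) : D.zetaR x y ∈ Om (HH G x y) := by
  have := zeta_Om (rev_big hb) (rev_arc.mpr h)
  rwa [HH_comm] at this

lemma zetaR_conj (hb : D.Big) {x y : Ω} (h : D.Arc x y) (g : G) :
    g * D.zetaR x y * g⁻¹ = D.zetaR (g • x) (g • y) :=
  zeta_conj (rev_big hb) (rev_arc.mpr h) g

end SD

end Cfsg.Agent.Misc19.Sims3
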