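import Cfsg.Agent.Lib.Misc19.Sims3D

/-! Sims' theorem on suborbits of length 3: excluding the case `zeta x y = d y`. -/

namespace Cfsg.Agent.Misc19.Sims3

open MulAction Subgroup

variable {G Ω : Type*} [Group G] [MulAction G Ω] [Finite G]

omit [Finite G] in
lemma inv_of_sq {u : G} (h : u * u = 1) : u⁻¹ = u := inv_eq_of_mul_eq_one_left h

omit [Finite G] in
lemma tau_pair {u t : G} (hu : u * u = 1) (ht : t * t = 1) : tau t u * tau u t = 1 := by
  unfold tau
  rw [inv_of_sq hu, inv_of_sq ht]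
  have hu2 : ∀ y, u * (u * y) = y := fun y => by rw [← mul_assoc, hu, one_mul]
  have ht2 : ∀ y, t * (t * y) = y := fun y => by rw [← mul_assoc, ht, one_mul]
  simp only [mul_assoc, hu2, ht2, hu, ht, mul_one]

omit [Finite G] in
lemma tau_four {x t : G} (hx : x * x = 1) (ht : t * t = 1) :
    tau (x * t * x⁻¹) t * tau (t * x * t⁻¹) x = 1 := by
  unfold tau
  rw [inv_of_sq hx, inv_of_sq ht]
  have hx' : ∀ a b : G, (a * b)⁻¹ = b⁻¹ * a⁻¹ := fun a b => mul_inv_rev a b
  simp only [hx', inv_of_sq hx, inv_of_sq ht]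
  have hu2 : ∀ y, x * (x * y) = y := fun y => by rw [← mul_assoc, hx, one_mul]
  have ht2 : ∀ y, t * (t * y) = y := fun y => by rw [← mul_assoc, ht, one_mul]
  simp only [mul_assoc, hu2, ht2, hx, ht, mul_one]

omit [Finite G] in
lemma tau_central_left {c e a : G} (h1 : c * e = e * c) (h2 : c * a = a * c) :
    tau (c * e) a = tau e a := by
  unfold tau
  have h3 : c * (e * a * e⁻¹) = (e * a * e⁻¹) * c := by
    have h4 : c * e⁻¹ = e⁻¹ * c := (Commute.inv_right h1)
    calc c * (e * a * e⁻¹) = (c * e) * a * e⁻¹ := by simp only [mul_assoc]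
      _ = e * (c * a) * e⁻¹ := by rw [h1]; simp only [mul_assoc]
      _ = e * a * (c * e⁻¹) := by rw [h2]; simp only [mul_assoc]
      _ = (e * a * e⁻¹) * c := by rw [h4]; simp only [mul_assoc]
  have : c * e * a * (c * e)⁻¹ = c * (e * a * e⁻¹) * c⁻¹ := by group
  rw [this, h3]
  group

omit [Finite G] in
lemma tau_central_right {c e a : G} (hc : c * c = 1) (h1 : c * e = e * c) (h2 : c * a = a * c) :
    tau e (c * a) = tau e a := by
  unfold tau
  have h4 : e * (c * a) * e⁻¹ = c * (e * a * e⁻¹) := by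
    have h5 : e * c = c * e := h1.symm
    calc e * (c * a) * e⁻¹ = (e * c) * a * e⁻¹ := by simp only [mul_assoc]
      _ = c * (e * a * e⁻¹) := by rw [h5]; simp only [mul_assoc]
  rw [h4]
  calc c * a * (c * (e * a * e⁻¹)) = (c * a) * c * (e * a * e⁻¹) := by simp only [mul_assoc]
    _ = (a * c) * c * (e * a * e⁻¹) := by rw [h2]
    _ = a * (c * c) * (e * a * e⁻¹) := by simp only [mul_assoc]
    _ = a * (e * a * e⁻¹) := by rw [hc, mul_one]

namespace SD

variable [FaithfulSMul G Ω] {D : SD G Ω}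

def Adj (D : SD G Ω) (u v : Ω) : Prop := D.Arc u v ∨ D.Arc v u

omit [Finite G] [FaithfulSMul G Ω] in
lemma Adj.symm {u v : Ω} (h : D.Adj u v) : D.Adj v u := Or.symm h

omit [Finite G] [FaithfulSMul G Ω] in
lemma Adj.smul {u v : Ω} (h : D.Adj u v) (g : G) : D.Adj (g • u) (g • v) :=
  h.imp (fun a => a.smul g) (fun a => a.smul g)

def Rn (D : SD G Ω) : ℕ → Ω → Ω → Prop
  | 0, u, v => u = v
  | n + 1, u, v => ∃ s, D.Adj u s ∧ Rn D n s v

omit [Finite G] [FaithfulSMul G Ω] in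
lemma Rn_snoc {n : ℕ} {u s v : Ω} (h : D.Rn n u s) (h' : D.Adj s v) : D.Rn (n + 1) u v := by
  induction n generalizing u with
  | zero => exact ⟨v, (h : u = s) ▸ h', rfl⟩
  | succ n ih =>
    obtain ⟨w, hw, hr⟩ := h
    exact ⟨w, hw, ih hr⟩

omit [Finite G] [FaithfulSMul G Ω] in
lemma Rn_unsnoc {n : ℕ} {u v : Ω} (h : D.Rn (n + 1) u v) : ∃ s, D.Rn n u s ∧ D.Adj s v := by
  induction n generalizing u with
  | zero =>
    obtain ⟨s, hs, hr⟩ := h
    exact ⟨u, rfl, (hr : s = v) ▸ hs⟩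
  | succ n ih =>
    obtain ⟨s, hs, hr⟩ := h
    obtain ⟨t, ht, ht'⟩ := ih hr
    exact ⟨t, ⟨s, hs, ht⟩, ht'⟩

omit [Finite G] [FaithfulSMul G Ω] in
lemma Rn_smul {n : ℕ} {u v : Ω} (h : D.Rn n u v) (g : G) : D.Rn n (g • u) (g • v) := by
  induction n generalizing u with
  | zero => exact congrArg (g • ·) h
  | succ n ih =>
    obtain ⟨s, hs, hr⟩ := h
    exact ⟨g • s, hs.smul g, ih hr⟩

omit [Finite G] [FaithfulSMul G Ω] in
lemma Rn_trans {n m : ℕ} {u v w : Ω} (h : D.Rn n u v) (h' : D.Rn m v w) : D.Rn (n + m) u w := by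
  induction n generalizing u with
  | zero => rw [Nat.zero_add]; exact (h : u = v) ▸ h'
  | succ n ih =>
    obtain ⟨s, hs, hr⟩ := h
    rw [Nat.succ_add]
    exact ⟨s, hs, ih hr⟩

omit [Finite G] [FaithfulSMul G Ω] in
lemma Rn_symm {n : ℕ} {u v : Ω} (h : D.Rn n u v) : D.Rn n v u := by
  induction n generalizing u with
  | zero => exact (h : u = v).symm
  | succ n ih =>
    obtain ⟨s, hs, hr⟩ := h
    exact Rn_snoc (ih hr) hs.symm

lemma Rn_conn (D : SD G Ω) (u v : Ω) : ∃ n, D.Rn n u v := by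
  have hF : ∀ (g : G) (u v : Ω), {w | ∃ n, D.Rn n u w} = {w | ∃ n, D.Rn n v w} →
      {w | ∃ n, D.Rn n (g • u) w} = {w | ∃ n, D.Rn n (g • v) w} := by
    have key : ∀ (g : G) (u w : Ω), (∃ n, D.Rn n (g • u) w) ↔ ∃ n, D.Rn n u (g⁻¹ • w) := by
      intro g u w
      constructor
      · rintro ⟨n, h⟩
        exact ⟨n, by simpa using Rn_smul h g⁻¹⟩
      · rintro ⟨n, h⟩
        exact ⟨n, by simpa using Rn_smul h g⟩
    intro g u v h
    ext w
    simp only [Set.mem_setOf_eq, key]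
    have := Set.ext_iff.mp h (g⁻¹ • w)
    simpa using this
  have hne : D.a ≠ D.b := arc_ne (arc_base D)
  have hab : D.Rn 1 D.a D.b := ⟨D.b, Or.inl (arc_base D), rfl⟩
  have he : {w | ∃ n, D.Rn n D.a w} = {w | ∃ n, D.Rn n D.b w} := by
    ext w
    constructor
    · rintro ⟨n, h⟩
      exact ⟨1 + n, Rn_trans (Rn_symm hab) h⟩
    · rintro ⟨n, h⟩
      exact ⟨1 + n, Rn_trans hab h⟩
  have hc := const_of D _ hF hne he u v
  have : v ∈ {w | ∃ n, D.Rn n v w} := ⟨0, rfl⟩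
  rw [← hc] at this
  exact this

/-- Hypotheses of the case `zeta x y = d y`. -/
structure II0 (D : SD G Ω) (d : Ω → G) : Prop where
  conj : ∀ (g : G) (x : Ω), g * d x * g⁻¹ = d (g • x)
  sq : ∀ x, d x * d x = 1
  ne : ∀ x, d x ≠ 1
  stab : ∀ (k : G) (x : Ω), k • x = x ↔ k * d x = d x * k
  inj : ∀ x x', d x = d x' → x = x'
  zeta : ∀ x y, D.Arc x y → D.zeta x y = d y
  iv : ∀ w x, D.Arc w x → ∃ y, D.Arc x y ∧ (d w = d y ∨ d w = d x * d y)

variable {d : Ω → G}

lemma II0.mem_E (hd : D.II0 d) (hb : D.Big) {x y : Ω} (h : D.Arc x y) : d y ∈ Om (D.Q x) := by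
  rw [← hd.zeta x y h]; exact (zeta_spec hb h).mem

lemma II0.arc_comm (hd : D.II0 d) (hb : D.Big) {x y : Ω} (h : D.Arc x y) : d x * d y = d y * d x :=
  ((hd.stab (d y) x).mp (hd.mem_E hb h).1.1).symm

lemma II0.adj_comm (hd : D.II0 d) (hb : D.Big) {x y : Ω} (h : D.Adj x y) : d x * d y = d y * d x := by
  rcases h with h | h
  · exact hd.arc_comm hb h
  · exact (hd.arc_comm hb h).symm

lemma II0.sib_comm (hd : D.II0 d) (hb : D.Big) {x y y' : Ω} (h : D.Arc x y) (h' : D.Arc x y') :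
    d y * d y' = d y' * d y := Om_comm (hd.mem_E hb h) (hd.mem_E hb h')

lemma II0.prod (hd : D.II0 d) (hb : D.Big) {x p q r : Ω} (ht : D.Tri x p q r) :
    d q * d r = d p := by
  have := zeta_prod hb ht
  rwa [hd.zeta _ _ ht.2.2.2.1, hd.zeta _ _ ht.2.2.2.2.1, hd.zeta _ _ ht.2.2.2.2.2.1] at this

lemma II0.T_lemma (hd : D.II0 d) (hb : D.Big) {x y : Ω} {t : G} (h : D.Arc x y) (ht : t • x = x)
    (hty : t • y ≠ y) : ∃ r, D.Tri x y (t • y) r ∧ tau t (d y) = d r := by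
  obtain ⟨r, hr⟩ := tri_of2 h (h.stab ht) (Ne.symm hty)
  refine ⟨r, hr, ?_⟩
  unfold tau
  rw [hd.conj]
  exact hd.prod hb hr.swap23.swap12

lemma II0.commute_iff (hd : D.II0 d) {x y : Ω} : d x • y = y ↔ d x * d y = d y * d x := hd.stab _ _

/-- key lemma (A) -/
lemma II0.key_A (hd : D.II0 d) (hb : D.Big) {v n q : Ω} (hn : D.Arc v n) (hq : D.Arc v q) :
    d q ∈ D.Q n := by
  by_cases hqn : q = n
  · subst hqn
    refine ⟨(hd.stab _ _).mpr rfl, fun r hr => (hd.stab _ _).mpr (hd.arc_comm hb hr)⟩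
  refine ⟨(hd.stab _ _).mpr (hd.sib_comm hb hq hn), fun r hr => ?_⟩
  by_contra hmv
  have htn : d q • n = n := (hd.stab _ _).mpr (hd.sib_comm hb hq hn)
  obtain ⟨r'', hr'', hc⟩ := hd.T_lemma hb hr htn hmv
  have huQ := (hd.mem_E hb hr)
  have huv : d r • v = v := Q_fix_in hn huQ.1
  have hun : d r • n = n := (hd.stab _ _).mpr (hd.arc_comm hb hr).symm
  have huq : d r • q ≠ q := by
    intro e
    apply hmv
    exact (hd.stab _ _).mpr ((hd.stab _ _).mp e).symm
  obtain ⟨q₃, ht⟩ := tri_of2 hn hq (Ne.symm hqn)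
  have huQn : d r ∉ D.Q v := fun e => huq (e.2 q hq)
  have hsw := ht.notQ huv hun huQn
  have h1 : tau (d r) (d q) = d n := by
    unfold tau
    rw [hd.conj, hsw.1]
    exact hd.prod hb ht
  have h2 := tau_pair (hd.sq q) (hd.sq r)
  rw [h1, hc] at h2
  -- `d n * d r'' = 1`
  have h3 : d n = d r'' := mul_right_cancel (h2.trans (hd.sq r'').symm)
  have h4 := hd.inj _ _ h3
  exact arc_ne (h4 ▸ hr''.2.2.2.2.2.1) rfl

/-- the commutator configuration -/
def C1 (D : SD G Ω) (d : Ω → G) (m v w a e : Ω) : Prop :=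
  D.Arc v m ∧ D.Arc w m ∧ v ≠ w ∧ D.Arc v a ∧ D.Arc w e ∧ a ≠ m ∧ e ≠ m

lemma II0.form (hd : D.II0 d) {a s : Ω} (h : D.Adj a s) :
    ∃ y, D.Arc s y ∧ (d a = d y ∨ d a = d s * d y) := by
  rcases h with h | h
  · exact hd.iv _ _ h
  · exact ⟨a, h, Or.inl rfl⟩

lemma II0.exists_C1 (hd : D.II0 d) (hb : D.Big) :
    ∃ m v w a e, D.C1 d m v w a e ∧ tau (d e) (d a) = d m := by
  classical
  have hex : ∃ n, ∃ u v, D.Rn n u v ∧ d u * d v ≠ d v * d u := by
    have h1 : ∃ u : Ω, d D.a • u ≠ u := by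
      by_contra hcon
      push Not at hcon
      exact hd.ne D.a (eq_one_of_fix hcon)
    obtain ⟨u, hu⟩ := h1
    obtain ⟨n, hn⟩ := Rn_conn D D.a u
    exact ⟨n, D.a, u, hn, fun e => hu ((hd.stab _ _).mpr e)⟩
  have hmin := fun m => @Nat.find_min _ _ hex m
  obtain ⟨a', e', hR, hnc⟩ := Nat.find_spec hex
  have hlt : ∀ m, m < Nat.find hex → ∀ u v, D.Rn m u v → d u * d v = d v * d u := by
    intro m hm u v huv
    by_contra hcon
    exact hmin m hm ⟨u, v, huv, hcon⟩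
  rcases hfn : Nat.find hex with _ | _ | k
  · rw [hfn] at hR
    exact absurd (by rw [(hR : a' = e')]) hnc
  · rw [hfn] at hR
    obtain ⟨s, hs, hr⟩ := hR
    exact absurd (hd.adj_comm hb ((hr : s = e') ▸ hs)) hnc
  · rw [hfn] at hR hlt
    obtain ⟨s₁, hs₁, hr⟩ := hR
    obtain ⟨s', hs', hs'e⟩ := Rn_unsnoc hr
    have hr2 : D.Rn (k + 1) a' s' := ⟨s₁, hs₁, hs'⟩
    have c1 : d s₁ * d e' = d e' * d s₁ := hlt (k + 1) (by omega) _ _ hr
    have c2 : d a' * d s' = d s' * d a' := hlt (k + 1) (by omega) _ _ hr2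
    have c3 : d s₁ * d s' = d s' * d s₁ := hlt k (by omega) _ _ hs'
    have c4 : d a' * d s₁ = d s₁ * d a' := hd.adj_comm hb hs₁
    have c5 : d e' * d s' = d s' * d e' := (hd.adj_comm hb hs'e).symm
    obtain ⟨ya, hya, hfa⟩ := hd.form hs₁
    obtain ⟨ye, hye, hfe⟩ := hd.form hs'e.symm
    have hEfix : d e' • s₁ = s₁ := (hd.stab _ _).mpr c1.symm
    have hAfix : d a' • s' = s' := (hd.stab _ _).mpr c2
    have c6 : d s₁ * d ya = d ya * d s₁ := hd.arc_comm hb hya
    have c7 : d s' * d ye = d ye * d s' := hd.arc_comm hb hye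
    -- `tau` reductions on the `a'` side
    have ta : tau (d e') (d a') = tau (d e') (d ya) := by
      rcases hfa with h | h
      · rw [h]
      · rw [h]; exact tau_central_right (hd.sq _) c1 c6
    have te : tau (d a') (d e') = tau (d a') (d ye) := by
      rcases hfe with h | h
      · rw [h]
      · rw [h]; exact tau_central_right (hd.sq _) c2.symm c7
    have hnt : tau (d e') (d a') ≠ 1 := fun e => hnc ((tau_eq_one (hd.sq _)).mp e)
    have hmov : d e' • ya ≠ ya := by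
      intro e
      apply hnt
      rw [ta]
      exact (tau_eq_one (hd.sq _)).mpr ((hd.stab _ _).mp e).symm
    have hmov' : d a' • ye ≠ ye := by
      intro e
      have hnt' : tau (d a') (d e') ≠ 1 := fun e' => hnc ((tau_eq_one (hd.sq _)).mp e').symm
      apply hnt'
      rw [te]
      exact (tau_eq_one (hd.sq _)).mpr ((hd.stab _ _).mp e).symm
    obtain ⟨m, hm, hm2⟩ := hd.T_lemma hb hya hEfix hmov
    obtain ⟨m', hm', hm2'⟩ := hd.T_lemma hb hye hAfix hmov'
    have hpair := tau_pair (hd.sq a') (hd.sq e')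
    rw [ta, te, hm2, hm2'] at hpair
    have hmm : m = m' := hd.inj _ _ (mul_right_cancel (hpair.trans (hd.sq m').symm))
    subst hmm
    have harc1 : D.Arc s₁ m := hm.2.2.2.2.2.1
    have harc2 : D.Arc s' m := hm'.2.2.2.2.2.1
    have hss : s₁ ≠ s' := by
      rintro rfl
      apply hnc
      have c8 : d ya * d ye = d ye * d ya := hd.sib_comm hb hya hye
      have a1 : Commute (d s₁) (d ya) := c6
      have a2 : Commute (d s₁) (d ye) := c7
      rcases hfa with h | h <;> rcases hfe with h' | h' <;> rw [h, h']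
      · exact c8
      · exact Commute.mul_right a1.symm c8
      · exact Commute.mul_left a2 c8
      · exact Commute.mul_right (Commute.mul_left (Commute.refl _) a1.symm)
          (Commute.mul_left a2 c8)
    -- `d ya ∈ Q m` so it commutes with `d s'`
    have hA := hd.key_A hb harc1 hya
    have hc9 : d s' * d ya = d ya * d s' :=
      ((hd.stab _ _).mp (Q_fix_in harc2 hA)).symm
    have tfin : tau (d ye) (d ya) = d m := by
      rw [← hm2]
      rcases hfe with h | h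
      · rw [h]
      · rw [h]; exact (tau_central_left c7 hc9).symm
    refine ⟨m, s₁, s', ya, ye, ⟨harc1, harc2, hss, hya, hye, ?_, ?_⟩, tfin⟩
    · exact hm.2.1
    · exact hm'.2.1

lemma II0.form2 (hd : D.II0 d) (hb : D.Big) {v m a a' : Ω} (hm : D.Arc v m) (ha : D.Arc v a)
    (ham : a ≠ m) (ha' : D.Arc v a') (ham' : a' ≠ m) : d a' = d a ∨ d a' = d m * d a := by
  obtain ⟨r, hr⟩ := tri_of2 hm ha (Ne.symm ham)
  rcases hr.2.2.2.2.2.2 a' ha' with e | e | e
  · exact absurd e ham'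
  · left; rw [e]
  · right; rw [e]; exact (hd.prod hb hr.swap23.swap12).symm

lemma II0.C1_all (hd : D.II0 d) (hb : D.Big) {m v w a e : Ω} (hc : D.C1 d m v w a e) :
    tau (d e) (d a) = d m := by
  obtain ⟨m₀, v₀, w₀, a₀, e₀, ⟨h1, h2, h3, h4, h5, h6, h7⟩, h0⟩ := hd.exists_C1 hb
  obtain ⟨h1', h2', h3', h4', h5', h6', h7'⟩ := hc
  obtain ⟨g₀, hg1, hg2⟩ := arc_trans h1 h1'
  have hw1 : D.Arc (g₀ • w₀) m := hg2 ▸ h2.smul g₀
  have hne1 : v ≠ g₀ • w₀ := by
    rw [← hg1]; exact fun e => h3 (smul_left_cancel _ e)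
  obtain ⟨k, hk, hk1, hk2⟩ := two_trans (rev_big hb) (x := m) (rev_arc.mpr h1') (rev_arc.mpr hw1)
    (rev_arc.mpr h1') (rev_arc.mpr h2') hne1 h3'
  have gm : (k * g₀) • m₀ = m := by rw [mul_smul, hg2, hk]
  have gv : (k * g₀) • v₀ = v := by rw [mul_smul, hg1, hk1]
  have gw : (k * g₀) • w₀ = w := by rw [mul_smul, hk2]
  have a'a : D.Arc v ((k * g₀) • a₀) := gv ▸ h4.smul (k * g₀)
  have e'e : D.Arc w ((k * g₀) • e₀) := gw ▸ h5.smul (k * g₀)
  have a'm : (k * g₀) • a₀ ≠ m := by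
    rw [← gm]; exact fun e => h6 (smul_left_cancel _ e)
  have e'm : (k * g₀) • e₀ ≠ m := by
    rw [← gm]; exact fun e => h7 (smul_left_cancel _ e)
  have h00 : tau (d ((k * g₀) • e₀)) (d ((k * g₀) • a₀)) = d m := by
    rw [← gm, ← hd.conj, ← hd.conj, ← hd.conj, tau_conj, h0]
  have ca : d m * d a = d a * d m := hd.sib_comm hb h1' h4'
  have ce : d m * d e = d e * d m := hd.sib_comm hb h2' h5'
  have ce' : d m * d ((k * g₀) • e₀) = d ((k * g₀) • e₀) * d m := hd.sib_comm hb h2' e'e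
  have step1 : tau (d ((k * g₀) • e₀)) (d ((k * g₀) • a₀)) = tau (d ((k * g₀) • e₀)) (d a) := by
    rcases hd.form2 hb h1' h4' h6' a'a a'm with e1 | e1
    · rw [e1]
    · rw [e1]; exact tau_central_right (hd.sq _) ce' ca
  have step2 : tau (d ((k * g₀) • e₀)) (d a) = tau (d e) (d a) := by
    rcases hd.form2 hb h2' h5' h7' e'e e'm with e1 | e1
    · rw [e1]
    · rw [e1]; exact tau_central_left ce ca
  rw [← step2, ← step1, h00]

theorem II0.false (hd : D.II0 d) (hb : D.Big) : False := by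
  have hmn := arc_base D
  obtain ⟨v', _, h1, _, _, hv', _, _⟩ := three (D := D.rev) (rev_arc.mpr hmn)
  have hv'' : D.Arc v' D.b := rev_arc.mp hv'
  obtain ⟨q, _, hnq, _, _, hq, _, _⟩ := three hv''
  obtain ⟨a₁, _, hna, _, _, ha₁, _, _⟩ := three hmn
  have C : tau (d q) (d a₁) = d D.b := hd.C1_all hb ⟨hmn, hv'', h1, ha₁, hq, hna.symm, hnq.symm⟩
  have htQn : d q ∈ D.Q D.b := hd.key_A hb hv'' hq
  have htm : d q • D.a = D.a := Q_fix_in hmn htQn
  have htQm : d q ∉ D.Q D.a := by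
    intro e
    have h2 := e.2 a₁ ha₁
    have c := (hd.stab _ _).mp h2
    rw [(tau_eq_one (hd.sq a₁)).mpr c.symm] at C
    exact hd.ne _ C.symm
  have hex : ∃ v, D.Arc v D.a ∧ d q • v ≠ v := by
    by_contra hcon
    push Not at hcon
    apply htQm
    rw [← rev_Q]
    exact ⟨htm, fun u hu => hcon u (rev_arc.mp hu)⟩
  obtain ⟨v, hv, htv⟩ := hex
  have hw : D.Arc (d q • v) D.a := hv.stab' htm
  obtain ⟨a, _, hma, _, _, ha, _, _⟩ := three hv
  have he : D.Arc (d q • v) (d q • a) := ha.smul _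
  have hem : d q • a ≠ D.a := by
    intro e
    rw [← htm] at e
    exact hma.symm (smul_left_cancel _ e)
  have C2 : tau (d (d q • a)) (d a) = d D.a :=
    hd.C1_all hb ⟨hv, hw, Ne.symm htv, ha, he, hma.symm, hem⟩
  rw [← hd.conj] at C2
  have hxQ : d a ∈ D.Q D.a := hd.key_A hb hv ha
  have hxn : d a • D.b = D.b := hxQ.2 _ hmn
  have hx4 := tau_four (hd.sq a) (hd.sq q)
  rw [C2, hd.conj] at hx4
  have hT : tau (d (d a • q)) (d q) = d D.a := mul_right_cancel (hx4.trans (hd.sq _).symm)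
  have hq' : D.Arc (d a • v') (d a • q) := hq.smul _
  have hv3 : D.Arc (d a • v') D.b := by
    have := hv''.smul (d a); rwa [hxn] at this
  have hq'n : d a • q ≠ D.b := by
    intro e
    rw [← hxn] at e
    exact hnq.symm (smul_left_cancel _ e)
  by_cases hvv : d a • v' = v'
  · rw [hvv] at hq'
    have := hd.sib_comm hb hq hq'
    rw [(tau_eq_one (hd.sq q)).mpr this] at hT
    exact hd.ne _ hT.symm
  · have C3 := hd.C1_all hb (m := D.b) (v := v') (w := d a • v') (a := q) (e := d a • q)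
      ⟨hv'', hv3, Ne.symm hvv, hq, hq', hnq.symm, hq'n⟩
    rw [hT] at C3
    exact arc_ne hmn (hd.inj _ _ C3)

end SD

end Cfsg.Agent.Misc19.Sims3
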