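import Cfsg.Agent.Lib.Misc19.Sims3E

/-! Sims' theorem on suborbits of length 3: the self-dual case. -/

namespace Cfsg.Agent.Misc19.Sims3

open MulAction Subgroup

variable {G Ω : Type*} [Group G] [MulAction G Ω] [Finite G]

omit [Finite G] in
lemma comm_of_exp2 {p q : G} (hp : p * p = 1) (hq : q * q = 1) (hpq : (p * q) * (p * q) = 1) :
    p * q = q * p := by
  have h1 : (p * q)⁻¹ = p * q := inv_eq_of_mul_eq_one_left hpq
  rw [mul_inv_rev, inv_of_sq hp, inv_of_sq hq] at h1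
  exact h1.symm

namespace SD

variable [FaithfulSMul G Ω] {D : SD G Ω}

lemma Q_mul_mem {x y u v : Ω} {a b : G} (h : D.Arc x y) (ha : a ∈ D.Q x) (hb' : b ∈ D.Q x)
    (han : a ∉ D.Q y) (hbn : b ∉ D.Q y) : a * b ∈ D.Q y := by
  obtain ⟨y'', hy'', he⟩ := H_next h
  obtain ⟨q, r, ht⟩ := tri_of hy''
  have hu' : a ∈ HH G y y'' := he ▸ Q_le h ha
  have hv' : b ∈ HH G y y'' := he ▸ Q_le h hb'
  rw [mem_HH] at hu' hv'
  exact ht.mul_mem hu'.1 hu'.2 han hv'.1 hv'.2 hbn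

lemma inf_gen {x y : Ω} (h : D.Arc x y) (L : Subgroup G) (hL : L ≤ D.Q x) :
    Nat.card L ≤ 2 * Nat.card (L ⊓ D.Q y : Subgroup G) := by
  refine idx2 inf_le_left fun u hu v hv hun hvn => ?_
  have hun' : u ∉ D.Q y := fun e => hun (mem_inf.mpr ⟨hu, e⟩)
  have hvn' : v ∉ D.Q y := fun e => hvn (mem_inf.mpr ⟨hv, e⟩)
  exact mem_inf.mpr ⟨mul_mem hu hv, Q_mul_mem (u := x) (v := x) h (hL hu) (hL hv) hun' hvn'⟩

lemma card_Q_eq {x y y' : Ω} (h : D.Arc x y) (h' : D.Arc y y') : Nat.card (D.Q x) = Nat.card (D.Q y) := by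
  obtain ⟨g, hg1, _⟩ := arc_trans h h'
  have : D.Q y = cj g (D.Q x) := by
    ext u
    rw [mem_cj, ← hg1]
    exact ⟨fun e => Q_conj_inv g e, fun e => by
      have := Q_conj (D := D) g e
      simpa [mul_assoc] using this⟩
  rw [this, card_cj]

lemma claim_T' (hb : D.Big) {x y : Ω} {t₁ : G} (h : D.Arc x y) (ht₁ : t₁ ∈ Om (D.Q x))
    (hn : t₁ ∉ D.Q y) : ∃ u, D.Arc y u ∧ D.zeta y u ∉ D.Q x := by
  have hfy : t₁ • y = y := ht₁.1.2 y h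
  have hex : ∃ u, D.Arc y u ∧ t₁ • u ≠ u := by
    by_contra hcon
    push Not at hcon
    exact hn ⟨hfy, hcon⟩
  obtain ⟨u, hu, htu⟩ := hex
  refine ⟨u, hu, fun e => ?_⟩
  have h1 : t₁ * D.zeta y u * t₁⁻¹ = D.zeta y u := by
    rw [ht₁.2.2 _ e]; group
  rw [zeta_out hb hu hfy] at h1
  exact zeta_ne hb (hu.stab hfy) hu htu h1

def Bad (D : SD G Ω) : Prop := ∃ x y u, D.Arc x y ∧ D.Arc x u ∧ D.zeta x u ∉ D.Q y

lemma bad_all (hb : D.Big) (hB : D.Bad) {x y : Ω} (h : D.Arc x y) :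
    ∃ u, D.Arc x u ∧ D.zeta x u ∉ D.Q y := by
  obtain ⟨x₀, y₀, u₀, h1, h2, h3⟩ := hB
  obtain ⟨g, rfl, rfl⟩ := arc_trans h1 h
  refine ⟨g • u₀, h2.smul g, ?_⟩
  rw [← zeta_conj hb h2]
  intro e
  apply h3
  have := Q_conj_inv g e
  simpa [mul_assoc] using this

lemma F1_exp (hb : D.Big) {x y : Ω} {t₁ t₂ : G} (hxy : D.Arc x y) (ht₁ : t₁ ∈ Om (D.Q x))
    (ht₁n : t₁ ∉ D.Q y) (ht₂ : t₂ ∈ Om (D.Q y)) (ht₂n : t₂ ∉ D.Q x) : ∀ q ∈ D.Q x, q * q = 1 := by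
  have sqm : ∀ (a t : G), t * t = 1 → a * t = t * a → (a * t) * (a * t) = a * a := by
    intro a t ht hat
    calc (a * t) * (a * t) = a * (t * a) * t := by simp only [mul_assoc]
      _ = a * (a * t) * t := by rw [← hat]
      _ = a * a * (t * t) := by simp only [mul_assoc]
      _ = a * a := by rw [ht, mul_one]
  have hsq1 : ∀ q ∈ D.Q x, ∃ r ∈ (D.Q x ⊓ D.Q y : Subgroup G), q * q = r * r := by
    intro q hq
    by_cases hqy : q ∈ D.Q y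
    · exact ⟨q, mem_inf.mpr ⟨hq, hqy⟩, rfl⟩
    · refine ⟨q * t₁, mem_inf.mpr ⟨mul_mem hq ht₁.1, Q_mul_mem (u := x) (v := x) hxy hq ht₁.1 hqy ht₁n⟩, ?_⟩
      exact (sqm q t₁ ht₁.2.1 (ht₁.2.2 q hq).symm).symm
  have hsq2 : ∀ p ∈ D.Q y, ∃ r ∈ (D.Q x ⊓ D.Q y : Subgroup G), p * p = r * r := by
    intro p hp
    by_cases hpx : p ∈ D.Q x
    · exact ⟨p, mem_inf.mpr ⟨hpx, hp⟩, rfl⟩
    · have h1 : p * t₂ ∈ D.rev.Q x := by
        refine Q_mul_mem (D := D.rev) (u := x) (v := x) (rev_arc.mpr hxy) ?_ ?_ ?_ ?_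
        · rwa [rev_Q]
        · rw [rev_Q]; exact ht₂.1
        · rwa [rev_Q]
        · rwa [rev_Q]
      rw [rev_Q] at h1
      refine ⟨p * t₂, mem_inf.mpr ⟨h1, mul_mem hp ht₂.1⟩, ?_⟩
      exact (sqm p t₂ ht₂.2.1 (ht₂.2.2 p hp).symm).symm
  have hbot : Subgroup.closure {c | ∃ q ∈ D.Q x, c = q * q} = ⊥ := by
    have hnorm : ∀ k : G, (∀ q ∈ D.Q x, ∃ q' ∈ D.Q x, k * (q * q) * k⁻¹ = q' * q') →
        ∀ c ∈ Subgroup.closure {c | ∃ q ∈ D.Q x, c = q * q},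
          k * c * k⁻¹ ∈ Subgroup.closure {c | ∃ q ∈ D.Q x, c = q * q} := by
      intro k hk c hc
      have hle : Subgroup.closure {c | ∃ q ∈ D.Q x, c = q * q} ≤
          (Subgroup.closure {c | ∃ q ∈ D.Q x, c = q * q}).comap (MulAut.conj k).toMonoidHom := by
        rw [Subgroup.closure_le]
        rintro _ ⟨q, hq, rfl⟩
        obtain ⟨q', hq', e⟩ := hk q hq
        apply Subgroup.subset_closure
        exact ⟨q', hq', by simpa [MulAut.conj_apply] using e⟩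
      have := hle hc
      simpa [MulAut.conj_apply] using this
    refine core hxy _ ?_ ?_ ?_
    · rw [Subgroup.closure_le]
      rintro _ ⟨q, hq, rfl⟩
      exact mem_stabilizer_iff.mpr (mul_mem hq hq).1
    · intro k hk
      refine hnorm k fun q hq => ⟨k * q * k⁻¹, Q_norm hk hq, by group⟩
    · intro k hk
      refine hnorm k fun q hq => ?_
      obtain ⟨r, hr, e⟩ := hsq1 q hq
      have hr' : k * r * k⁻¹ ∈ D.Q y := Q_norm hk (mem_inf.mp hr).2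
      obtain ⟨r', hr'', e'⟩ := hsq2 _ hr'
      refine ⟨r', (mem_inf.mp hr'').1, ?_⟩
      rw [← e', e]
      group
  intro q hq
  have : q * q ∈ Subgroup.closure {c | ∃ q ∈ D.Q x, c = q * q} :=
    Subgroup.subset_closure ⟨q, hq, rfl⟩
  rwa [hbot, Subgroup.mem_bot] at this

lemma N2 (hb : D.Big) {x y : Ω} (hy : D.Arc x y) (hexp : ∀ q ∈ D.Q x, q * q = 1)
    (hT : ∀ u, D.Arc x u → ∃ T ∈ Om (D.Q u), T ∉ D.Q x) :
    ∃ N : Subgroup G, N ≤ D.Q x ⊓ D.Q y ∧ N ≤ D.Dz x ∧ Nat.card (D.Q x) ≤ 4 * Nat.card N := by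
  obtain ⟨y₂, y₃, htri⟩ := tri_of hy
  have hy₂ := htri.2.2.2.2.1
  refine ⟨D.Q x ⊓ D.Q y ⊓ D.Q y₂, inf_le_left, fun c hc => ?_, ?_⟩
  · obtain ⟨h0, h3⟩ := mem_inf.mp hc
    obtain ⟨h1, h2⟩ := mem_inf.mp h0
    have hcE : c ∈ Om (D.Q x) := by
      refine ⟨h1, hexp c h1, fun t ht => ?_⟩
      exact comm_of_exp2 (hexp c h1) (hexp t ht) (hexp _ (mul_mem h1 ht))
    obtain ⟨T₁, hT₁, hT₁n⟩ := hT y hy
    obtain ⟨T₂, hT₂, hT₂n⟩ := hT y₂ hy₂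
    exact gen_center htri hcE (mem_HH.mpr ⟨Q_fix_in hy hT₁.1, hT₁.1.1⟩) hT₁n
      (mem_HH.mpr ⟨Q_fix_in hy₂ hT₂.1, hT₂.1.1⟩) hT₂n (hT₁.2.2 c h2).symm (hT₂.2.2 c h3).symm
  · have a1 := Q_inf_card hy
    have a2 := inf_gen hy₂ (D.Q x ⊓ D.Q y) inf_le_left
    omega

theorem F1 (hb : D.Big) (hB : D.Bad) : False := by
  have hxy := arc_base D
  obtain ⟨y'', hy''⟩ := exists_out (D := D) D.b
  have hT : ∀ x u, D.Arc x u → ∃ T ∈ Om (D.Q u), T ∉ D.Q x := by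
    intro x u hu
    obtain ⟨v, hv, hvn⟩ := bad_all hb hB hu
    obtain ⟨w, hw, hwn⟩ := claim_T' hb hu (zeta_spec hb hv).mem hvn
    exact ⟨_, (zeta_spec hb hw).mem, hwn⟩
  have hall : ∀ x y, D.Arc x y → ∀ q ∈ D.Q x, q * q = 1 := by
    intro x y h
    obtain ⟨v, hv, hvn⟩ := bad_all hb hB h
    obtain ⟨T, hT1, hT2⟩ := hT x y h
    exact F1_exp hb h (zeta_spec hb hv).mem hvn hT1 hT2
  obtain ⟨N, hN1, hN2, hN3⟩ := N2 hb hxy (hall _ _ hxy) (hT _)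
  have hN' := N2 (D := D.rev) (rev_big hb) (x := D.b) (y := D.a) (rev_arc.mpr hxy)
    (by rw [rev_Q]; exact hall _ _ hy'') (by
      intro u hu
      obtain ⟨v, hv, hvn⟩ := bad_all hb hB (rev_arc.mp hu)
      refine ⟨D.zeta u v, ?_, ?_⟩
      · rw [rev_Q]; exact (zeta_spec hb hv).mem
      · rw [rev_Q]; exact hvn)
  obtain ⟨N', hN1', hN2', hN3'⟩ := hN'
  simp only [rev_Q, rev_Dz] at hN1' hN2' hN3'
  have hinf : ∀ c, c ∈ N → c ∈ N' → c = 1 := fun c h1 h2 => Dz_inter hxy (hN2 h1) (hN2' h2)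
  have hRexp := hall _ _ hxy
  have hcomm : ∀ p ∈ D.Q D.a, ∀ q ∈ D.Q D.a, p * q = q * p := fun p hp q hq =>
    comm_of_exp2 (hRexp p hp) (hRexp q hq) (hRexp _ (mul_mem hp hq))
  have hprod : Nat.card N * Nat.card N' ≤ Nat.card (D.Q D.a ⊓ D.Q D.b : Subgroup G) := by
    rw [← Nat.card_prod]
    let f : N × N' → (D.Q D.a ⊓ D.Q D.b : Subgroup G) := fun p =>
      ⟨p.1.1 * p.2.1, mul_mem (hN1 p.1.2) (by
        have := hN1' p.2.2
        exact mem_inf.mpr ⟨(mem_inf.mp this).2, (mem_inf.mp this).1⟩)⟩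
    refine Nat.card_le_card_of_injective f ?_
    rintro ⟨⟨a, ha⟩, ⟨b, hb'⟩⟩ ⟨⟨a', ha'⟩, ⟨b', hb''⟩⟩ he
    have he' : a * b = a' * b' := congrArg Subtype.val he
    have hbm : ∀ c ∈ N', c ∈ D.Q D.a := fun c hc => (mem_inf.mp (hN1' hc)).2
    have ham : ∀ c ∈ N, c ∈ D.Q D.a := fun c hc => (mem_inf.mp (hN1 hc)).1
    have h1 : a'⁻¹ * a = b' * b⁻¹ := by
      have : a = a' * b' * b⁻¹ := by rw [← he']; group
      rw [this]; group
    have h2 : a'⁻¹ * a = 1 := hinf _ (mul_mem (inv_mem ha') ha) (h1 ▸ mul_mem hb'' (inv_mem hb'))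
    have h3 : a = a' := by
      have := mul_left_cancel (a := a'⁻¹) (b := a) (c := a') (by rw [h2]; simp)
      exact this
    subst h3
    have h4 : b = b' := mul_left_cancel he'
    subst h4
    rfl
  obtain ⟨u, hu, hun⟩ := bad_all hb hB hxy
  have h2R := two_mul_le (K := D.Q D.a ⊓ D.Q D.b) (L := D.Q D.a) inf_le_left
    (zeta_spec hb hu).mem.1 (fun e => hun (mem_inf.mp e).2)
  have hcardQ := card_Q_eq hxy hy''
  have hH := card_H_le hxy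
  have hbig := big_arc hb hxy
  rw [← hcardQ] at hN3'
  generalize Nat.card (D.Q D.a) = n at *
  generalize Nat.card N = a at *
  generalize Nat.card N' = b at *
  generalize Nat.card (D.Q D.a ⊓ D.Q D.b : Subgroup G) = r at *
  have h5 : n * n ≤ (4 * a) * (4 * b) := Nat.mul_le_mul hN3 hN3'
  have h6 : n * n ≤ 8 * n := by nlinarith
  have hn : n ≤ 8 := by
    by_contra hlt
    push Not at hlt
    nlinarith
  omega

end SD

end Cfsg.Agent.Misc19.Sims3
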