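import Cfsg.Agent.Lib.Misc19.Sims3F

/-! Sims' theorem on suborbits of length 3: the self-dual case, second part. -/

namespace Cfsg.Agent.Misc19.Sims3

open MulAction Subgroup

variable {G Ω : Type*} [Group G] [MulAction G Ω] [Finite G]

lemma exists_ext (K : Subgroup G) (v : G) (hv : v * v = 1) (hc : ∀ k ∈ K, v * k = k * v)
    (hE : EA K) (hn : v ∉ K) : ∃ K' : Subgroup G, K ≤ K' ∧ v ∈ K' ∧ EA K' ∧
      2 * Nat.card K ≤ Nat.card K' ∧ (∀ u ∈ K', u ∈ K ∨ ∃ k ∈ K, u = k * v) ∧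
      ∀ H : Subgroup G, K ≤ H → v ∈ H → K' ≤ H :=
  ⟨extS K v hv hc, le_extS, self_mem_extS, EA_extS hE, two_mul_le le_extS self_mem_extS hn,
    fun _ h => h, fun _ h1 h2 => extS_le h1 h2⟩

namespace SD

variable [FaithfulSMul G Ω] {D : SD G Ω}

structure CaseS (D : SD G Ω) : Prop where
  hz : ∀ x y, D.Arc x y → D.zetaR x y = D.zeta x y
  hw : ∀ w x, D.Arc w x → ∃ y, D.Arc x y ∧ D.zeta w x = D.zeta x y
  hw' : ∀ x y, D.Arc x y → ∃ w, D.Arc w x ∧ D.zeta x y = D.zeta w x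

lemma CaseS.z_in (hS : D.CaseS) (hb : D.Big) {x y : Ω} (h : D.Arc x y) :
    D.zeta x y ∈ Om (D.Q y) := by
  rw [← hS.hz x y h]; exact zetaR_E hb h

lemma CaseS.rz (hS : D.CaseS) {y u : Ω} (hu : D.rev.Arc y u) : D.rev.zeta y u = D.zeta u y :=
  hS.hz u y (rev_arc.mp hu)

lemma CaseS.rev_prod (hS : D.CaseS) (hb : D.Big) {y p q r : Ω} (ht : D.rev.Tri y p q r) :
    D.zeta q y * D.zeta r y = D.zeta p y := by
  have := zeta_prod (rev_big hb) ht
  rwa [hS.rz ht.2.2.2.1, hS.rz ht.2.2.2.2.1, hS.rz ht.2.2.2.2.2.1] at this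

lemma CaseS.z_ne_rev (hS : D.CaseS) (hb : D.Big) {y w w' : Ω} (hw : D.Arc w y) (hw' : D.Arc w' y)
    (hne : w ≠ w') : D.zeta w y ≠ D.zeta w' y := by
  have := zeta_ne (rev_big hb) (rev_arc.mpr hw) (rev_arc.mpr hw') hne
  rwa [hS.rz (rev_arc.mpr hw), hS.rz (rev_arc.mpr hw')] at this

lemma CaseS.F_tau2 (hS : D.CaseS) (hb : D.Big) {x y a : Ω} {q : G} (hx : D.Arc x y) (ha : D.Arc a y)
    (hax : a ≠ x) (hq : q ∈ D.Q x) (hqn : q ∉ D.Q y) : tau q (D.zeta a y) = D.zeta x y := by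
  have hqy : q • y = y := hq.2 y hx
  obtain ⟨r, hr⟩ := tri_of2 (D := D.rev) (rev_arc.mpr hx) (rev_arc.mpr ha) (Ne.symm hax)
  have hqn' : q ∉ D.rev.Q y := by rw [rev_Q]; exact hqn
  have hsw := hr.notQ hqy hq.1 hqn'
  unfold tau
  rw [zeta_conj hb ha q, hsw.1, hqy]
  exact hS.rev_prod hb hr

lemma CaseS.F_tau (hS : D.CaseS) (hb : D.Big) {x y a : Ω} {q : G} (hx : D.Arc x y) (ha : D.Arc a y)
    (hq : q ∈ D.Q x) : tau q (D.zeta a y) = 1 ∨ tau q (D.zeta a y) = D.zeta x y := by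
  by_cases hqn : q ∈ D.Q y
  · left
    refine (tau_eq_one (zeta_spec hb ha).mem.2.1).mpr (zeta_comm hb ha ?_)
    exact mem_HH.mpr ⟨Q_fix_in ha hqn, hqn.1⟩
  · by_cases hax : a = x
    · left
      subst hax
      exact (tau_eq_one (zeta_spec hb ha).mem.2.1).mpr ((zeta_spec hb ha).mem.2.2 q hq)
    · right
      exact hS.F_tau2 hb hx ha hax hq hqn

lemma CaseS.hW (hS : D.CaseS) (hb : D.Big) (hnb : ¬ D.Bad) {x y w : Ω} (hx : D.Arc x y)
    (hw : D.Arc w y) : D.zeta w y ∈ D.Q x := by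
  by_contra hn
  apply hnb
  obtain ⟨u, hu, he⟩ := hS.hw w y hw
  rw [he] at hn
  have hT := (zeta_spec hb hu).mem
  obtain ⟨w', hw', hw'n⟩ := claim_T' (D := D.rev) (rev_big hb) (rev_arc.mpr hx)
    (by rw [rev_Q]; exact hT) (by rw [rev_Q]; exact hn)
  have hw'' := rev_arc.mp hw'
  rw [hS.rz hw', rev_Q] at hw'n
  obtain ⟨y', hy', he'⟩ := hS.hw w' x hw''
  rw [he'] at hw'n
  exact ⟨x, y, y', hx, hy', hw'n⟩

/-- the subgroup `W x` -/
noncomputable def Wg (hb : D.Big) (x : Ω) : Subgroup G where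
  carrier := {e | e = 1 ∨ ∃ y, D.Arc x y ∧ e = D.zeta x y}
  one_mem' := Or.inl rfl
  mul_mem' := by
    rintro a b (rfl | ⟨v, hv, rfl⟩) (rfl | ⟨v', hv', rfl⟩)
    · left; simp
    · right; exact ⟨v', hv', by simp⟩
    · right; exact ⟨v, hv, by simp⟩
    · by_cases he : v = v'
      · subst he
        left; exact (zeta_spec hb hv).mem.2.1
      · obtain ⟨r, hr⟩ := tri_of2 hv hv' he
        right
        exact ⟨r, hr.2.2.2.2.2.1, zeta_prod hb hr.swap23.swap12⟩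
  inv_mem' := by
    rintro a (rfl | ⟨v, hv, rfl⟩)
    · left; simp
    · right; exact ⟨v, hv, inv_eq_of_mul_eq_one_left (zeta_spec hb hv).mem.2.1⟩

theorem CaseS.F2 (hS : D.CaseS) (hb : D.Big) (hnb : ¬ D.Bad) :
    ∃ x y₂ u, D.Arc x y₂ ∧ D.Arc u y₂ ∧ D.zeta u y₂ ∈ Om (D.Q x) ∧
      ∀ v, D.Arc x v → D.zeta u y₂ ≠ D.zeta x v := by
  have hy₁ := arc_base D
  obtain ⟨y₂, y₃, ht⟩ := tri_of hy₁
  obtain ⟨h12, h13, h23, _, hy₂, hy₃, hall⟩ := id ht
  obtain ⟨A, hA, t', ht', ht'n⟩ := offender hb hy₁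
  have hfix := mem_HH.mp (hA.1 ht')
  have hsw := ht.notQ hfix.1 hfix.2 ht'n
  obtain ⟨u, _, hxu, _, _, hu, _, _⟩ := three (D := D.rev) (rev_arc.mpr hy₂)
  have hu' : D.Arc u y₂ := rev_arc.mp hu
  have hrQu := (zeta_spec hb hu').mem
  have hrQ2 := hS.z_in hb hu'
  have hrx : D.zeta u y₂ ∈ D.Q D.a := hS.hW hb hnb hy₂ hu'
  have hr2 : D.zeta u y₂ * D.zeta u y₂ = 1 := hrQu.2.1
  have hu3 : D.Arc (t' • u) y₃ := by
    have := hu'.smul t'; rwa [hsw.1] at this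
  have hs_eq : t' * D.zeta u y₂ * t'⁻¹ = D.zeta (t' • u) y₃ := by
    have := zeta_conj hb hu' t'; rwa [hsw.1] at this
  have hsQ3 := hS.z_in hb hu3
  have hsx : D.zeta (t' • u) y₃ ∈ D.Q D.a := hS.hW hb hnb hy₃ hu3
  have hs2 : D.zeta (t' • u) y₃ * D.zeta (t' • u) y₃ = 1 := hsQ3.2.1
  have hu3x : t' • u ≠ D.a := by
    intro e
    rw [← hfix.1] at e
    exact hxu.symm (smul_left_cancel _ e)
  have hξE := (zeta_spec hb hy₂).mem
  have hξ2 := hS.z_in hb hy₂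
  have hζ₃E := (zeta_spec hb hy₃).mem
  have hne23 := zeta_ne hb hy₂ hy₃ h23
  have hprod := zeta_prod hb ht
  have hconjξ : t' * D.zeta D.a y₂ * t'⁻¹ = D.zeta D.a y₃ := by
    rw [zeta_out hb hy₂ hfix.1, hsw.1]
  have hξne := (zeta_spec hb hy₂).ne
  have hζ₃ne := (zeta_spec hb hy₃).ne
  have hcomm : ∀ a b, D.Arc a y₂ → D.Arc b y₃ →
      D.zeta a y₂ * D.zeta b y₃ = D.zeta b y₃ * D.zeta a y₂ := by
    intro a b ha hb'
    have h1 := hS.F_tau hb hy₂ ha (hS.hW hb hnb hy₃ hb')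
    have h2 := hS.F_tau hb hy₃ hb' (hS.hW hb hnb hy₂ ha)
    have hp := tau_pair (zeta_spec hb ha).mem.2.1 (zeta_spec hb hb').mem.2.1
    rcases h1 with h1 | h1
    · exact (tau_eq_one (zeta_spec hb ha).mem.2.1).mp h1
    · exfalso
      rw [h1] at hp
      rcases h2 with h2 | h2
      · rw [h2, mul_one] at hp
        exact hξne hp
      · rw [h2] at hp
        exact hne23 (mul_right_cancel (hp.trans hζ₃E.2.1.symm))
  have hrs_c := hcomm _ _ hu' hu3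
  have hnotW : ∀ v, D.Arc D.a v → D.zeta u y₂ ≠ D.zeta D.a v := by
    intro v hv he
    have hv2 : v ≠ y₂ := by
      rintro rfl
      exact hS.z_ne_rev hb hu' hy₂ (Ne.symm hxu) he
    obtain ⟨u₁, hr⟩ := tri_of2 (D := D.rev) (rev_arc.mpr hy₂) hu hxu
    obtain ⟨v₁, hv₁⟩ := tri_of2 hy₂ hv (Ne.symm hv2)
    have e1 : D.zeta D.a y₂ * D.zeta D.a v = D.zeta D.a v₁ := zeta_prod hb hv₁.swap23.swap12
    have e2 : D.zeta D.a y₂ * D.zeta u y₂ = D.zeta u₁ y₂ := hS.rev_prod hb hr.swap23.swap12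
    have e3 : D.zeta D.a v₁ = D.zeta u₁ y₂ := by rw [← e1, ← e2, he]
    have hu₁ : D.Arc u₁ y₂ := rev_arc.mp hr.2.2.2.2.2.1
    have hiff : ∀ e, e ∈ Wg hb D.a ↔ e = 1 ∨ ∃ w, D.Arc w y₂ ∧ e = D.zeta w y₂ := by
      intro e
      constructor
      · rintro (h | ⟨w₀, hw₀, rfl⟩)
        · exact Or.inl h
        · right
          rcases hv₁.2.2.2.2.2.2 w₀ hw₀ with c | c | c
          · exact ⟨D.a, hy₂, by rw [c]⟩
          · exact ⟨u, hu', by rw [c, he]⟩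
          · exact ⟨u₁, hu₁, by rw [c, e3]⟩
      · rintro (h | ⟨w₀, hw₀, rfl⟩)
        · exact Or.inl h
        · right
          rcases hr.2.2.2.2.2.2 w₀ (rev_arc.mpr hw₀) with c | c | c
          · exact ⟨y₂, hy₂, by rw [c]⟩
          · exact ⟨v, hv, by rw [c, he]⟩
          · exact ⟨v₁, hv₁.2.2.2.2.2.1, by rw [c, e3]⟩
    have hbot : Wg hb D.a = ⊥ := by
      refine core hy₂ _ ?_ ?_ ?_
      · rintro c (rfl | ⟨w₀, hw₀, rfl⟩)
        · exact one_mem _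
        · exact mem_stabilizer_iff.mpr (zeta_spec hb hw₀).mem.1.1
      · rintro k hk c (rfl | ⟨w₀, hw₀, rfl⟩)
        · simp
        · right
          exact ⟨k • w₀, hw₀.stab hk, zeta_out hb hw₀ hk⟩
      · intro k hk c hc
        rcases (hiff c).mp hc with rfl | ⟨w₀, hw₀, rfl⟩
        · simp
        · refine (hiff _).mpr (Or.inr ⟨k • w₀, hw₀.stab' hk, ?_⟩)
          have := zeta_conj hb hw₀ k
          rwa [hk] at this
    have hmem : D.zeta D.a y₂ ∈ Wg hb D.a := Or.inr ⟨y₂, hy₂, rfl⟩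
    rw [hbot, Subgroup.mem_bot] at hmem
    exact hξne hmem
  have hrs : D.zeta u y₂ * D.zeta (t' • u) y₃ = 1 ∨
      ∃ v, D.Arc D.a v ∧ D.zeta u y₂ * D.zeta (t' • u) y₃ = D.zeta D.a v := by
    by_contra hcon
    push Not at hcon
    obtain ⟨hn1, hn2⟩ := hcon
    have hA2A : ∀ k ∈ (A ⊓ D.Q D.a ⊓ D.Q y₂ : Subgroup G), k ∈ A := fun k hk =>
      (mem_inf.mp (mem_inf.mp hk).1).1
    have hA2Q : ∀ k ∈ (A ⊓ D.Q D.a ⊓ D.Q y₂ : Subgroup G), k ∈ D.Q D.a := fun k hk =>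
      (mem_inf.mp (mem_inf.mp hk).1).2
    have hA22 : ∀ k ∈ (A ⊓ D.Q D.a ⊓ D.Q y₂ : Subgroup G), k ∈ D.Q y₂ := fun k hk =>
      (mem_inf.mp hk).2
    have hA2t : ∀ k ∈ (A ⊓ D.Q D.a ⊓ D.Q y₂ : Subgroup G), k * t' = t' * k := fun k hk =>
      (hA.2.1 k (hA2A k hk) t' ht').1
    have hA23 : ∀ k ∈ (A ⊓ D.Q D.a ⊓ D.Q y₂ : Subgroup G), k ∈ D.Q y₃ := by
      intro k hk
      have h1 := Q_conj (D := D) t' (hA22 k hk)
      rw [hsw.1, ← hA2t k hk, mul_inv_cancel_right] at h1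
      exact h1
    have hEA2 : EA (A ⊓ D.Q D.a ⊓ D.Q y₂ : Subgroup G) := fun u hu v hv =>
      hA.2.1 u (hA2A u hu) v (hA2A v hv)
    have hc1 : ∀ k ∈ (A ⊓ D.Q D.a ⊓ D.Q y₂ : Subgroup G), D.zeta D.a y₂ * k = k * D.zeta D.a y₂ :=
      fun k hk => hξE.2.2 k (hA2Q k hk)
    have hξA : D.zeta D.a y₂ ∉ (A ⊓ D.Q D.a ⊓ D.Q y₂ : Subgroup G) := by
      intro h
      have c := hA2t _ h
      apply hne23
      rw [← hconjξ, ← c]
      group
    obtain ⟨K₁, hK₁le, hξK₁, hK₁E, hK₁c, hK₁m, hK₁u⟩ := exists_ext _ _ hξE.2.1 hc1 hEA2 hξA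
    have hc2 : ∀ k ∈ K₁, D.zeta u y₂ * k = k * D.zeta u y₂ := by
      have hle := hK₁u (Subgroup.centralizer ({D.zeta u y₂} : Set G))
        (fun k hk => mem_cent.mpr (hrQ2.2.2 k (hA22 k hk))) (mem_cent.mpr (Om_comm hrQ2 hξ2))
      exact fun k hk => mem_cent.mp (hle hk)
    have hrK₁ : D.zeta u y₂ ∉ K₁ := by
      intro h
      rcases hK₁m _ h with h | ⟨k, hk, e⟩
      · have c := hA2t _ h
        have h5 : D.zeta (t' • u) y₃ = D.zeta u y₂ := by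
          rw [← hs_eq, ← c]; group
        exact hn1 (by rw [h5, hr2])
      · have hk' : k = D.zeta u y₂ * D.zeta D.a y₂ := by
          rw [e, mul_assoc, hξE.2.1, mul_one]
        have c := hA2t k hk
        have c2 : t' * k * t'⁻¹ = k := by rw [← c]; group
        rw [hk'] at c2
        have c3 : t' * (D.zeta u y₂ * D.zeta D.a y₂) * t'⁻¹ =
            D.zeta (t' • u) y₃ * D.zeta D.a y₃ := by
          rw [← hs_eq, ← hconjξ]; group
        rw [c3] at c2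
        have c4 : D.zeta u y₂ * D.zeta (t' • u) y₃ = D.zeta D.a D.b := by
          calc D.zeta u y₂ * D.zeta (t' • u) y₃
              = D.zeta u y₂ * (D.zeta (t' • u) y₃ * D.zeta D.a y₃) * D.zeta D.a y₃ := by
                rw [mul_assoc (D.zeta u y₂), mul_assoc (D.zeta (t' • u) y₃), hζ₃E.2.1, mul_one]
            _ = D.zeta u y₂ * (D.zeta u y₂ * D.zeta D.a y₂) * D.zeta D.a y₃ := by rw [c2]
            _ = (D.zeta u y₂ * D.zeta u y₂) * D.zeta D.a y₂ * D.zeta D.a y₃ := by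
                simp only [mul_assoc]
            _ = D.zeta D.a y₂ * D.zeta D.a y₃ := by rw [hr2, one_mul]
            _ = D.zeta D.a D.b := hprod
        exact hn2 _ hy₁ c4
    obtain ⟨K₂, hK₂le, hrK₂, hK₂E, hK₂c, hK₂m, hK₂u⟩ := exists_ext _ _ hr2 hc2 hK₁E hrK₁
    have hQH : D.Q D.a ≤ HH G D.a D.b := fun k hk => Q_le hy₁ hk
    have hK₁H : K₁ ≤ HH G D.a D.b :=
      hK₁u _ (fun k hk => hA.1 (hA2A k hk)) (hQH hξE.1)
    have hK₂H : K₂ ≤ HH G D.a D.b := hK₂u _ hK₁H (hQH hrx)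
    have c3 := hA.2.2 K₂ hK₂H hK₂E
    have c4 : Nat.card A ≤ 2 * Nat.card (A ⊓ D.Q D.a : Subgroup G) := by
      refine idx2 inf_le_left fun v hv w hw hvn hwn => ?_
      have hvn' : v ∉ D.Q D.a := fun e => hvn (mem_inf.mpr ⟨hv, e⟩)
      have hwn' : w ∉ D.Q D.a := fun e => hwn (mem_inf.mpr ⟨hw, e⟩)
      have a1 := mem_HH.mp (hA.1 hv)
      have a2 := mem_HH.mp (hA.1 hw)
      exact mem_inf.mpr ⟨A.mul_mem hv hw, ht.mul_mem a1.1 a1.2 hvn' a2.1 a2.2 hwn'⟩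
    have c5 := inf_gen hy₂ (A ⊓ D.Q D.a) inf_le_right
    have c0 : 0 < Nat.card (A ⊓ D.Q D.a ⊓ D.Q y₂ : Subgroup G) := Nat.card_pos
    by_cases hsub : ∀ a₀ ∈ A, a₀ ∈ D.Q D.a → a₀ ∈ D.Q y₂
    · have c6 : Nat.card (A ⊓ D.Q D.a : Subgroup G) ≤ Nat.card (A ⊓ D.Q D.a ⊓ D.Q y₂ : Subgroup G) :=
        Subgroup.card_le_of_le fun k hk =>
          mem_inf.mpr ⟨hk, hsub k (mem_inf.mp hk).1 (mem_inf.mp hk).2⟩
      omega
    · push Not at hsub
      obtain ⟨a₀, ha₀A, ha₀Q, ha₀n⟩ := hsub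
      have hat : a₀ * t' = t' * a₀ := (hA.2.1 a₀ ha₀A t' ht').1
      have ha₀n3 : a₀ ∉ D.Q y₃ := by
        intro e
        have h1 : a₀ ∈ D.Q (t' • y₂) := by rw [hsw.1]; exact e
        have h2 := Q_conj_inv (D := D) t' h1
        have h3 : t'⁻¹ * a₀ * t' = a₀ := by rw [mul_assoc, hat, inv_mul_cancel_left]
        rw [h3] at h2
        exact ha₀n h2
      have ta := hS.F_tau2 hb hy₂ hu' (Ne.symm hxu) ha₀Q ha₀n
      have ts := hS.F_tau2 hb hy₃ hu3 hu3x ha₀Q ha₀n3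
      have hvv : (D.zeta u y₂ * D.zeta (t' • u) y₃) * (D.zeta u y₂ * D.zeta (t' • u) y₃) = 1 := by
        have hcm : Commute (D.zeta u y₂) (D.zeta (t' • u) y₃) := hrs_c
        rw [← pow_two, hcm.mul_pow, pow_two, pow_two, hr2, hs2, one_mul]
      have hc3 : ∀ k ∈ K₂, (D.zeta u y₂ * D.zeta (t' • u) y₃) * k =
          k * (D.zeta u y₂ * D.zeta (t' • u) y₃) := by
        have hA2C : (A ⊓ D.Q D.a ⊓ D.Q y₂ : Subgroup G) ≤
            Subgroup.centralizer ({D.zeta u y₂ * D.zeta (t' • u) y₃} : Set G) := by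
          intro k hk
          apply mem_cent.mpr
          have a1 : Commute (D.zeta u y₂) k := hrQ2.2.2 k (hA22 k hk)
          have a2 : Commute (D.zeta (t' • u) y₃) k := hsQ3.2.2 k (hA23 k hk)
          exact a1.mul_left a2
        have hξC : D.zeta D.a y₂ ∈
            Subgroup.centralizer ({D.zeta u y₂ * D.zeta (t' • u) y₃} : Set G) := by
          apply mem_cent.mpr
          have a1 : Commute (D.zeta u y₂) (D.zeta D.a y₂) := Om_comm hrQ2 hξ2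
          have a2 : Commute (D.zeta (t' • u) y₃) (D.zeta D.a y₂) := (hξE.2.2 _ hsx).symm
          exact a1.mul_left a2
        have hrC : D.zeta u y₂ ∈
            Subgroup.centralizer ({D.zeta u y₂ * D.zeta (t' • u) y₃} : Set G) := by
          apply mem_cent.mpr
          have a1 : Commute (D.zeta (t' • u) y₃) (D.zeta u y₂) := hrs_c.symm
          exact (Commute.refl _).mul_left a1
        have hle := hK₂u _ (hK₁u _ hA2C hξC) hrC
        exact fun k hk => mem_cent.mp (hle hk)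
      have hK₁a : ∀ k ∈ K₁, a₀ * k = k * a₀ := by
        have hle := hK₁u (Subgroup.centralizer ({a₀} : Set G))
          (fun k hk => mem_cent.mpr (hA.2.1 a₀ ha₀A k (hA2A k hk)).1)
          (mem_cent.mpr (hξE.2.2 a₀ ha₀Q).symm)
        exact fun k hk => mem_cent.mp (hle hk)
      have hvn : D.zeta u y₂ * D.zeta (t' • u) y₃ ∉ K₂ := by
        intro h
        rcases hK₂m _ h with h | ⟨k, hk, e⟩
        · have e1 : a₀ * (D.zeta u y₂ * D.zeta (t' • u) y₃) * a₀⁻¹ =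
              D.zeta u y₂ * D.zeta (t' • u) y₃ := by
            rw [hK₁a _ h]; group
          have e2 : a₀ * (D.zeta u y₂ * D.zeta (t' • u) y₃) * a₀⁻¹ =
              (D.zeta u y₂ * D.zeta D.a y₂) * (D.zeta (t' • u) y₃ * D.zeta D.a y₃) := by
            rw [← conj_of_tau hr2 ta, ← conj_of_tau hs2 ts]; group
          have e3 : (D.zeta u y₂ * D.zeta D.a y₂) * (D.zeta (t' • u) y₃ * D.zeta D.a y₃) =
              (D.zeta u y₂ * D.zeta (t' • u) y₃) * (D.zeta D.a y₂ * D.zeta D.a y₃) := by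
            calc (D.zeta u y₂ * D.zeta D.a y₂) * (D.zeta (t' • u) y₃ * D.zeta D.a y₃)
                = D.zeta u y₂ * (D.zeta D.a y₂ * D.zeta (t' • u) y₃) * D.zeta D.a y₃ := by
                  simp only [mul_assoc]
              _ = D.zeta u y₂ * (D.zeta (t' • u) y₃ * D.zeta D.a y₂) * D.zeta D.a y₃ := by
                  rw [hξE.2.2 _ hsx]
              _ = _ := by simp only [mul_assoc]
          rw [e2, e3] at e1
          have e4 : D.zeta D.a y₂ * D.zeta D.a y₃ = 1 :=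
            mul_left_cancel (e1.trans (mul_one _).symm)
          exact hne23 (mul_right_cancel (e4.trans hζ₃E.2.1.symm))
        · have e1 : D.zeta (t' • u) y₃ = k := mul_right_cancel (hrs_c.symm.trans e)
          have e2 := hK₁a k hk
          rw [← e1] at e2
          have e3 := (tau_eq_one hs2).mpr e2.symm
          rw [ts] at e3
          exact hζ₃ne e3
      obtain ⟨K₃, _, _, hK₃E, hK₃c, _, hK₃u⟩ := exists_ext _ _ hvv hc3 hK₂E hvn
      have hK₃H : K₃ ≤ HH G D.a D.b := hK₃u _ hK₂H (hQH (mul_mem hrx hsx))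
      have c7 := hA.2.2 K₃ hK₃H hK₃E
      omega
  have hrE : D.zeta u y₂ ∈ Om (D.Q D.a) := by
    refine ⟨hrx, hr2, fun q hq => ?_⟩
    by_contra hne
    have h1 : tau q (D.zeta u y₂) = D.zeta D.a y₂ := by
      rcases hS.F_tau hb hy₂ hu' hq with h | h
      · exact absurd ((tau_eq_one hr2).mp h) hne
      · exact h
    have hrsE : D.zeta u y₂ * D.zeta (t' • u) y₃ ∈ Om (D.Q D.a) := by
      rcases hrs with h | ⟨v, hv, h⟩
      · rw [h]; exact one_mem _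
      · rw [h]; exact (zeta_spec hb hv).mem
    have h2 : q * (D.zeta u y₂ * D.zeta (t' • u) y₃) * q⁻¹ = D.zeta u y₂ * D.zeta (t' • u) y₃ := by
      rw [← hrsE.2.2 q hq]; group
    have h3 : q * D.zeta u y₂ * q⁻¹ = D.zeta u y₂ * D.zeta D.a y₂ := conj_of_tau hr2 h1
    have h4 : (q * D.zeta u y₂ * q⁻¹) * (q * D.zeta (t' • u) y₃ * q⁻¹) =
        D.zeta u y₂ * D.zeta (t' • u) y₃ := by
      rw [← h2]; group
    rw [h3, mul_assoc] at h4
    have h5 := mul_left_cancel h4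
    have h6 : q * D.zeta (t' • u) y₃ * q⁻¹ = D.zeta D.a y₂ * D.zeta (t' • u) y₃ := by
      calc q * D.zeta (t' • u) y₃ * q⁻¹
          = D.zeta D.a y₂ * (D.zeta D.a y₂ * (q * D.zeta (t' • u) y₃ * q⁻¹)) := by
            rw [← mul_assoc, hξE.2.1, one_mul]
        _ = D.zeta D.a y₂ * D.zeta (t' • u) y₃ := by rw [h5]
    have h7 : tau q (D.zeta (t' • u) y₃) = D.zeta D.a y₂ := by
      unfold tau
      rw [h6, hξE.2.2 _ hsx, ← mul_assoc, hs2, one_mul]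
    rcases hS.F_tau hb hy₃ hu3 hq with h8 | h8
    · rw [h7] at h8; exact hξne h8
    · rw [h7] at h8; exact hne23 h8
  exact ⟨D.a, y₂, u, hy₂, hu', hrE, hnotW⟩

end SD

end Cfsg.Agent.Misc19.Sims3
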