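import Cfsg.Agent.Lib.Misc19.Sims3G

/-! Sims' theorem on suborbits of length 3: assembling the cases. -/

namespace Cfsg.Agent.Misc19.Sims3

open MulAction Subgroup

variable {G Ω : Type*} [Group G] [MulAction G Ω] [Finite G]

namespace SD

variable [FaithfulSMul G Ω] {D : SD G Ω}

theorem case1 (hb : D.Big) (hD : ∀ x, ∀ e ∈ D.Dz x, e = 1) : False := by
  have hzn : ∀ x y, D.Arc x y → D.zeta x y ≠ 1 := fun x y h => (zeta_spec hb h).ne
  have hz : ∀ x y, D.Arc x y → D.zetaR x y = D.zeta x y := by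
    intro x y h
    obtain ⟨q, r, ht⟩ := tri_of h
    obtain ⟨d₁, hd₁, c⟩ := Om_split hb ht (zetaR_Om hb h)
    simp only [hD x d₁ hd₁, one_mul] at c
    rcases c with c | c
    · exact absurd c (zetaR_ne hb h)
    · exact c
  have hE : ∀ x e, e ∈ Om (D.Q x) → e ≠ 1 → ∃ y, D.Arc x y ∧ e = D.zeta x y := by
    intro x e he hne
    obtain ⟨y₀, hy₀⟩ := exists_out (D := D) x
    obtain ⟨q, r, ht⟩ := tri_of hy₀
    obtain ⟨d₁, hd₁, c⟩ := DW hb ht he
    simp only [hD x d₁ hd₁, one_mul] at c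
    rcases c with c | c | c | c
    · exact absurd c hne
    · exact ⟨_, hy₀, c⟩
    · exact ⟨_, ht.2.2.2.2.1, c⟩
    · exact ⟨_, ht.2.2.2.2.2.1, c⟩
  have hS : D.CaseS := by
    refine ⟨hz, ?_, ?_⟩
    · intro w x h
      have hE1 : D.zeta w x ∈ Om (D.Q x) := by rw [← hz w x h]; exact zetaR_E hb h
      exact hE x _ hE1 (hzn _ _ h)
    · intro x y h
      have hE1 : D.zeta x y ∈ Om (D.rev.Q x) := by rw [rev_Q]; exact (zeta_spec hb h).mem
      obtain ⟨w₀, hw₀⟩ := exists_in (D := D) (y := x)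
      have hw₀' : D.rev.Arc x w₀ := rev_arc.mpr hw₀
      obtain ⟨q, r, ht⟩ := tri_of hw₀'
      obtain ⟨d₁, hd₁, c⟩ := DW (rev_big hb) ht hE1
      rw [rev_Dz] at hd₁
      simp only [hD x d₁ hd₁, one_mul] at c
      have e : ∀ u, D.rev.Arc x u → D.rev.zeta x u = D.zeta u x :=
        fun u hu => hz u x (rev_arc.mp hu)
      rcases c with c | c | c | c
      · exact absurd c (hzn _ _ h)
      · exact ⟨w₀, hw₀, by rw [c, e _ hw₀']⟩
      · exact ⟨q, rev_arc.mp ht.2.2.2.2.1, by rw [c, e _ ht.2.2.2.2.1]⟩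
      · exact ⟨r, rev_arc.mp ht.2.2.2.2.2.1, by rw [c, e _ ht.2.2.2.2.2.1]⟩
  by_cases hB : D.Bad
  · exact F1 hb hB
  obtain ⟨x, y₂, u, h1, h2, h3, h4⟩ := hS.F2 hb hB
  obtain ⟨y, hy, he⟩ := hE x _ h3 (hzn _ _ h2)
  exact h4 y hy he

/-- Data for case II. -/
structure DD (D : SD G Ω) (d : Ω → G) : Prop where
  mem : ∀ x, d x ∈ D.Dz x
  ne : ∀ x, d x ≠ 1
  uniq : ∀ x, ∀ e ∈ D.Dz x, e = 1 ∨ e = d x
  conj : ∀ (g : G) (x : Ω), g * d x * g⁻¹ = d (g • x)
  stab : ∀ (k : G) (x : Ω), k • x = x ↔ k * d x = d x * k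
  inj : ∀ x x', d x = d x' → x = x'

variable {d : Ω → G}

lemma zeta_form (hb : D.Big) (hd : D.DD d) {x y : Ω} (h : D.Arc x y) :
    D.zeta x y = d y ∨ D.zeta x y = d x * d y := by
  obtain ⟨q, r, ht⟩ := tri_of h
  obtain ⟨d₁, hd₁, c⟩ := Om_split hb ht (Dz_in h (hd.mem y))
  rcases c with c | c
  · exact absurd (Dz_inter h (c ▸ hd₁) (hd.mem y)) (hd.ne y)
  · rcases hd.uniq x d₁ hd₁ with e | e
    · left
      rw [e, one_mul] at c
      exact c.symm
    · right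
      rw [e] at c
      rw [c, ← mul_assoc, (hd.mem x).2.1, one_mul]

lemma mem_E_in (hb : D.Big) (hd : D.DD d) {w x : Ω} (h : D.Arc w x) : d w ∈ Om (D.Q x) := by
  have h1 : d w ∈ Om (HH G x w) := by
    rw [HH_comm]; exact Dz_out h (hd.mem w)
  have := Om_H_le (D := D.rev) (rev_big hb) (rev_arc.mpr h) h1
  rwa [rev_Q] at this

lemma mk_II0 (hb : D.Big) (hd : D.DD d) (hf : ∀ x y, D.Arc x y → D.zeta x y = d y) : D.II0 d := by
  refine ⟨hd.conj, fun x => (hd.mem x).2.1, hd.ne, hd.stab, hd.inj, hf, ?_⟩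
  intro w x h
  obtain ⟨y₀, hy₀⟩ := exists_out (D := D) x
  obtain ⟨q, r, ht⟩ := tri_of hy₀
  obtain ⟨d₁, hd₁, c⟩ := DW hb ht (mem_E_in hb hd h)
  have hcase : ∀ p, D.Arc x p → d w = d₁ * D.zeta x p → ∃ y, D.Arc x y ∧ (d w = d y ∨ d w = d x * d y) := by
    intro p hp e
    rw [hf _ _ hp] at e
    rcases hd.uniq x d₁ hd₁ with e' | e'
    · rw [e', one_mul] at e
      exact ⟨p, hp, Or.inl e⟩
    · rw [e'] at e
      exact ⟨p, hp, Or.inr e⟩
  rcases c with c | c | c | c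
  · exfalso
    rcases hd.uniq x d₁ hd₁ with e' | e'
    · rw [e'] at c; exact hd.ne _ c
    · rw [e'] at c; exact arc_ne h (hd.inj _ _ c)
  · exact hcase _ hy₀ c
  · exact hcase _ ht.2.2.2.2.1 c
  · exact hcase _ ht.2.2.2.2.2.1 c

lemma no_triangle (hb : D.Big) (hd : D.DD d) (hfz : ∀ x y, D.Arc x y → D.zeta x y = d x * d y)
    (hfr : ∀ x y, D.Arc x y → D.zetaR x y = d y * d x) {w x p : Ω} (h : D.Arc w x) (hp : D.Arc x p)
    (he : d w = d x * d p) : False := by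
  obtain ⟨w₂, w₃, ht⟩ := tri_of (rev_arc.mpr h)
  have hw₂ : D.Arc w₂ x := rev_arc.mp ht.2.2.2.2.1
  have hw₃ : D.Arc w₃ x := rev_arc.mp ht.2.2.2.2.2.1
  obtain ⟨k₂, hk₂, hk₂'⟩ := exists_stab' h hw₂
  obtain ⟨k₃, hk₃, hk₃'⟩ := exists_stab' h hw₃
  have hsq := (hd.mem x).2.1
  have conj_form : ∀ k : G, k • x = x → d (k • w) = d x * d (k • p) := by
    intro k hk
    have hx : k * d x * k⁻¹ = d x := by rw [hd.conj, hk]
    rw [← hd.conj k w, he, ← hd.conj k p]
    calc k * (d x * d p) * k⁻¹ = (k * d x * k⁻¹) * (k * d p * k⁻¹) := by group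
      _ = d x * (k * d p * k⁻¹) := by rw [hx]
  have h2 : d w₂ = d x * d (k₂ • p) := by rw [← hk₂']; exact conj_form k₂ hk₂
  have h3 : d w₃ = d x * d (k₃ • p) := by rw [← hk₃']; exact conj_form k₃ hk₃
  have hp₂ : D.Arc x (k₂ • p) := hp.stab hk₂
  have hp₃ : D.Arc x (k₃ • p) := hp.stab hk₃
  have hne1 : p ≠ k₂ • p := by
    intro e
    rw [← e, ← he] at h2
    exact ht.1 (hd.inj _ _ h2).symm
  have hne2 : k₂ • p ≠ k₃ • p := by
    intro e
    rw [← e, ← h2] at h3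
    exact ht.2.2.1 (hd.inj _ _ h3).symm
  have hne3 : p ≠ k₃ • p := by
    intro e
    rw [← e, ← he] at h3
    exact ht.2.1 (hd.inj _ _ h3).symm
  obtain ⟨r, hr⟩ := tri_of2 hp hp₂ hne1
  have hr3 : k₃ • p = r := by
    rcases hr.2.2.2.2.2.2 _ hp₃ with e | e | e
    · exact absurd e.symm hne3
    · exact absurd e.symm hne2
    · exact e
  rw [← hr3] at hr
  have hcm : ∀ q, D.Arc x q → d x * d q = d q * d x := fun q hq =>
    Om_comm (Dz_out hq (hd.mem x)) (Dz_in hq (hd.mem q))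
  have hrz : ∀ u, D.rev.Arc x u → D.rev.zeta x u = d x * d u := fun u hu =>
    hfr u x (rev_arc.mp hu)
  have pr1 := zeta_prod (rev_big hb) ht
  rw [hrz _ ht.2.2.2.1, hrz _ ht.2.2.2.2.1, hrz _ ht.2.2.2.2.2.1, h2, h3, he,
    ← mul_assoc (d x) (d x), ← mul_assoc (d x) (d x), ← mul_assoc (d x) (d x), hsq, one_mul, one_mul,
    one_mul] at pr1
  have pr2 := zeta_prod hb hr
  rw [hfz _ _ hp, hfz _ _ hp₂, hfz _ _ hp₃] at pr2
  have pr3 : d x * d (k₂ • p) * (d x * d (k₃ • p)) = d (k₂ • p) * d (k₃ • p) := by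
    calc d x * d (k₂ • p) * (d x * d (k₃ • p)) = d x * (d (k₂ • p) * d x) * d (k₃ • p) := by
          simp only [mul_assoc]
      _ = d x * (d x * d (k₂ • p)) * d (k₃ • p) := by rw [hcm _ hp₂]
      _ = (d x * d x) * d (k₂ • p) * d (k₃ • p) := by simp only [mul_assoc]
      _ = d (k₂ • p) * d (k₃ • p) := by rw [hsq, one_mul]
  rw [pr3, pr1] at pr2
  have : d x = 1 := by
    have h9 : d x * d p = 1 * d p := by rw [← pr2, one_mul]
    exact mul_right_cancel h9
  exact hd.ne x this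

lemma final_C (hb : D.Big) (hd : D.DD d) (hund : ∀ w x, D.Arc w x → D.Arc x w) {u y₂ p₀ : Ω}
    (h : D.Arc u y₂) (he : d u * d y₂ = d p₀) : False := by
  have hyu := hund _ _ h
  obtain ⟨g, hg1, hg2⟩ := arc_trans h hyu
  have hcomm : d u * d y₂ = d y₂ * d u := Om_comm (Dz_out h (hd.mem u)) (Dz_in h (hd.mem y₂))
  have hfix : ∀ k : G, k * d u = d u * k → k * d y₂ = d y₂ * k → k • p₀ = p₀ := by
    intro k h1 h2
    rw [hd.stab, ← he]
    have a1 : Commute k (d u) := h1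
    have a2 : Commute k (d y₂) := h2
    exact a1.mul_right a2
  have hHfix : ∀ k ∈ HH G u y₂, k • p₀ = p₀ := fun k hk =>
    hfix k ((hd.stab _ _).mp (mem_HH.mp hk).1) ((hd.stab _ _).mp (mem_HH.mp hk).2)
  have hgfix : g • p₀ = p₀ := by
    rw [hd.stab, ← he]
    have e1 : g * (d u * d y₂) * g⁻¹ = d u * d y₂ := by
      calc g * (d u * d y₂) * g⁻¹ = (g * d u * g⁻¹) * (g * d y₂ * g⁻¹) := by group
        _ = d (g • u) * d (g • y₂) := by rw [hd.conj, hd.conj]
        _ = d y₂ * d u := by rw [hg1, hg2]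
        _ = d u * d y₂ := hcomm.symm
    exact mul_inv_eq_iff_eq_mul.mp e1
  obtain ⟨y₀, hy₀⟩ := exists_out (D := D) p₀
  obtain ⟨p₁, hp₁, hp₁f⟩ := fp hy₀ (HH G u y₂) (fun k hk => mem_stabilizer_iff.mpr (hHfix k hk))
    (H_two h)
  have hEq : HH G u y₂ = HH G p₀ p₁ := Subgroup.eq_of_le_of_card_ge
    (fun k hk => mem_HH.mpr ⟨hHfix k hk, hp₁f k hk⟩) (card_HH_arc hp₁ h).le
  have hgN : ∀ k ∈ HH G u y₂, g⁻¹ * k * g ∈ HH G u y₂ := by
    intro k hk
    have a := mem_HH.mp hk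
    refine mem_HH.mpr ⟨?_, ?_⟩
    · simp only [mul_smul]
      rw [hg1, a.2, inv_smul_eq_iff]
      exact hg1.symm
    · simp only [mul_smul]
      rw [hg2, a.1, inv_smul_eq_iff]
      exact hg2.symm
  have hgp₁ : g • p₁ = p₁ := by
    by_contra hne
    obtain ⟨r, hr⟩ := tri_of2 hp₁ (hp₁.stab hgfix) (Ne.symm hne)
    obtain ⟨T, hT, hTn⟩ := exists_T hb hp₁
    have a := mem_HH.mp hT
    have hT' : T ∈ HH G u y₂ := hEq ▸ hT
    have hm : T • (g • p₁) = g • p₁ := by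
      have := hp₁f _ (hgN T hT')
      simp only [mul_smul] at this
      exact inv_smul_eq_iff.mp this
    exact hTn (hr.inQ a.1 a.2 hm)
  have hgH : g ∈ HH G u y₂ := by
    rw [hEq]; exact mem_HH.mpr ⟨hgfix, hgp₁⟩
  have h9 := (mem_HH.mp hgH).1
  rw [hg1] at h9
  exact arc_ne h h9.symm

theorem caseC (hb : D.Big) (hd : D.DD d) (hfz : ∀ x y, D.Arc x y → D.zeta x y = d x * d y)
    (hfr : ∀ x y, D.Arc x y → D.zetaR x y = d y * d x) : False := by
  have hcm : ∀ x y, D.Arc x y → d x * d y = d y * d x := fun x y hq =>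
    Om_comm (Dz_out hq (hd.mem x)) (Dz_in hq (hd.mem y))
  have hund : ∀ w x, D.Arc w x → D.Arc x w := by
    intro w x h
    obtain ⟨y₀, hy₀⟩ := exists_out (D := D) x
    obtain ⟨q, r, ht⟩ := tri_of hy₀
    obtain ⟨d₁, hd₁, c⟩ := DW hb ht (mem_E_in hb hd h)
    have hcase : ∀ p, D.Arc x p → d w = d₁ * D.zeta x p → D.Arc x w := by
      intro p hp e
      rw [hfz _ _ hp] at e
      rcases hd.uniq x d₁ hd₁ with e' | e'
      · rw [e', one_mul] at e
        exact (no_triangle hb hd hfz hfr h hp e).elim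
      · rw [e', ← mul_assoc, (hd.mem x).2.1, one_mul] at e
        rw [hd.inj _ _ e]
        exact hp
    rcases c with c | c | c | c
    · exfalso
      rcases hd.uniq x d₁ hd₁ with e' | e'
      · rw [e'] at c; exact hd.ne _ c
      · rw [e'] at c; exact arc_ne h (hd.inj _ _ c)
    · exact hcase _ hy₀ c
    · exact hcase _ ht.2.2.2.2.1 c
    · exact hcase _ ht.2.2.2.2.2.1 c
  have hS : D.CaseS := by
    refine ⟨?_, ?_, ?_⟩
    · intro x y h
      rw [hfr _ _ h, hfz _ _ h, hcm _ _ h]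
    · intro w x h
      exact ⟨w, hund _ _ h, by rw [hfz _ _ h, hfz _ _ (hund _ _ h), hcm _ _ h]⟩
    · intro x y h
      exact ⟨y, hund _ _ h, by rw [hfz _ _ h, hfz _ _ (hund _ _ h), hcm _ _ h]⟩
  by_cases hB : D.Bad
  · exact F1 hb hB
  obtain ⟨x, y₂, u, h1, h2, h3, h4⟩ := hS.F2 hb hB
  obtain ⟨y₀, hy₀⟩ := exists_out (D := D) x
  obtain ⟨q, r, ht⟩ := tri_of hy₀
  obtain ⟨d₁, hd₁, c⟩ := DW hb ht h3
  have hne := (zeta_spec hb h2).ne
  have hcase : ∀ p, D.Arc x p → D.zeta u y₂ = d₁ * D.zeta x p → ∃ p₀, D.zeta u y₂ = d p₀ := by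
    intro p hp e
    rcases hd.uniq x d₁ hd₁ with e' | e'
    · rw [e', one_mul] at e
      exact absurd e (h4 p hp)
    · rw [e', hfz _ _ hp, ← mul_assoc, (hd.mem x).2.1, one_mul] at e
      exact ⟨p, e⟩
  have hex : ∃ p₀, D.zeta u y₂ = d p₀ := by
    rcases c with c | c | c | c
    · rcases hd.uniq x d₁ hd₁ with e' | e'
      · rw [e'] at c; exact absurd c hne
      · rw [e'] at c; exact ⟨x, c⟩
    · exact hcase _ hy₀ c
    · exact hcase _ ht.2.2.2.2.1 c
    · exact hcase _ ht.2.2.2.2.2.1 c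
  obtain ⟨p₀, hp₀⟩ := hex
  rw [hfz _ _ h2] at hp₀
  exact final_C hb hd hund h2 hp₀

theorem case2 (hb : D.Big) (hD : ∃ x, ∃ e ∈ D.Dz x, e ≠ 1) : False := by
  haveI := D.pret
  have hall : ∀ x, ∃ e, e ∈ D.Dz x ∧ e ≠ 1 := by
    obtain ⟨x₀, e₀, h1, h2⟩ := hD
    intro x
    obtain ⟨g, rfl⟩ := exists_smul_eq G x₀ x
    refine ⟨g * e₀ * g⁻¹, Dz_conj g h1, fun e => h2 ?_⟩
    have h3 : e₀ = g⁻¹ * (g * e₀ * g⁻¹) * g := by group
    rw [h3, e]; group
  choose d hd1 hd2 using hall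
  have huniq : ∀ x, ∀ e ∈ D.Dz x, e = 1 ∨ e = d x := by
    intro x e he
    by_cases h : e = 1
    · exact Or.inl h
    · right
      obtain ⟨w, hw⟩ := exists_in (D := D) (y := x)
      exact Dy_unique hb hw he (hd1 x) h (hd2 x)
  have hconj : ∀ (g : G) (x : Ω), g * d x * g⁻¹ = d (g • x) := by
    intro g x
    rcases huniq (g • x) _ (Dz_conj g (hd1 x)) with h | h
    · exfalso
      apply hd2 x
      have h3 : d x = g⁻¹ * (g * d x * g⁻¹) * g := by group
      rw [h3, h]; group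
    · exact h
  have hstab : ∀ (k : G) (x : Ω), k • x = x ↔ k * d x = d x * k := by
    intro k x
    constructor
    · intro h
      exact ((hd1 x).2.2 k h).symm
    · intro h
      by_contra hne
      have htop := D.stab_max x (Subgroup.centralizer ({d x} : Set G))
        (fun l hl => mem_cent.mpr ((hd1 x).2.2 l (mem_stabilizer_iff.mp hl))) k
        (mem_cent.mpr h.symm) hne
      apply hd2 x
      refine eq_one_of_fix (Ω := Ω) fun u => ?_
      obtain ⟨g, rfl⟩ := exists_smul_eq G x u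
      have hg : g ∈ Subgroup.centralizer ({d x} : Set G) := by rw [htop]; trivial
      have hg' := mem_cent.mp hg
      rw [← mul_smul, hg', mul_smul, (hd1 x).1.1]
  have hinj : ∀ x x', d x = d x' → x = x' := by
    intro x x' he
    by_contra hne
    have hF : ∀ (g : G) (u v : Ω), d u = d v → d (g • u) = d (g • v) := by
      intro g u v h
      rw [← hconj, ← hconj, h]
    have hc := const_of D d hF hne he
    obtain ⟨y, hy⟩ := exists_out (D := D) x
    obtain ⟨T, hT, hTn⟩ := exists_T hb hy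
    apply hTn
    have a := mem_HH.mp hT
    have hfixall : ∀ u : Ω, T • u = u := by
      intro u
      rw [hstab, hc u x]
      exact (hstab _ _).mp a.1
    exact ⟨a.1, fun u _ => hfixall u⟩
  have hDD : D.DD d := ⟨hd1, hd2, huniq, hconj, hstab, hinj⟩
  have hDDr : D.rev.DD d := ⟨fun x => by rw [rev_Dz]; exact hd1 x, hd2,
    fun x e he => huniq x e (by rwa [rev_Dz] at he), hconj, hstab, hinj⟩
  have hab := arc_base D
  rcases zeta_form hb hDD hab with f1 | f1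
  · have hf : ∀ x y, D.Arc x y → D.zeta x y = d y := by
      rintro x y ⟨g, rfl, rfl⟩
      rw [← zeta_conj hb hab g, f1, hconj]
    exact (mk_II0 hb hDD hf).false hb
  · rcases zeta_form (rev_big hb) hDDr (rev_arc.mpr hab) with f2 | f2
    · have hf : ∀ x y, D.rev.Arc x y → D.rev.zeta x y = d y := by
        rintro x y ⟨g, rfl, rfl⟩
        rw [← zeta_conj (rev_big hb) (arc_base D.rev) g]
        change g * D.rev.zeta D.b D.a * g⁻¹ = _
        rw [f2, hconj]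
        rfl
      exact (mk_II0 (rev_big hb) hDDr hf).false (rev_big hb)
    · have hfz : ∀ x y, D.Arc x y → D.zeta x y = d x * d y := by
        rintro x y ⟨g, rfl, rfl⟩
        rw [← zeta_conj hb hab g, f1, ← hconj, ← hconj]
        group
      have hfr : ∀ x y, D.Arc x y → D.zetaR x y = d y * d x := by
        rintro x y ⟨g, rfl, rfl⟩
        rw [← zetaR_conj hb hab g]
        change g * D.rev.zeta D.b D.a * g⁻¹ = _
        rw [f2, ← hconj, ← hconj]
        group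
      exact caseC hb hDD hfz hfr

theorem bound (D : SD G Ω) : Nat.card (HH G D.a D.b) ≤ 16 := by
  by_contra hn
  have hb : D.Big := by
    unfold Big
    omega
  by_cases hD : ∃ x, ∃ e ∈ D.Dz x, e ≠ 1
  · exact case2 hb hD
  · push Not at hD
    exact case1 hb hD

end SD

end Cfsg.Agent.Misc19.Sims3
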