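import Mathlib
import Cfsg.Agent.Lib.Basic.Nilpotent
import Cfsg.Agent.Lib.Basic.Frattini
import Cfsg.Agent.Lib.Transfer.Frattini

/-!
# A 2-group with small fourth central term

Let `T` be a 2-group of order at least `2^14` with `|Z₄(T)| = 16`, `W = C_T(Z₃(T))`, `|Φ(W)| ≤ 8`, and `Φ(W)` inside every
subgroup of `W` of index at most 16.  Then `T` has order `2^14` and `W` is determined up to its commutator form.
-/

set_option autoImplicit false

namespace Cfsg.Agent.Lib.Misc19.W14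

open scoped Classical

section generic

variable {G : Type*} [Group G]

/-- The indicator of the complement of a subgroup. -/
noncomputable def ind (H : Subgroup G) (y : G) : ZMod 2 := if y ∈ H then 0 else 1

theorem ind_eq_zero {H : Subgroup G} {y : G} : ind H y = 0 ↔ y ∈ H := by
  unfold ind
  split_ifs with h
  · simp [h]
  · simp [h]

theorem ind_of_mem {H : Subgroup G} {y : G} (h : y ∈ H) : ind H y = 0 := ind_eq_zero.2 h

theorem ind_of_not_mem {H : Subgroup G} {y : G} (h : y ∉ H) : ind H y = 1 := by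
  unfold ind
  simp [h]

theorem ind_eq_one {H : Subgroup G} {y : G} : ind H y = 1 ↔ y ∉ H := by
  refine ⟨fun h hy => ?_, ind_of_not_mem⟩
  rw [ind_of_mem hy] at h
  exact zero_ne_one h

theorem mul_mem_iff_two {H K : Subgroup G} (hidx : (H.subgroupOf K).index = 2) {u v : G} (hu : u ∈ K) (hv : v ∈ K) :
    u * v ∈ H ↔ (u ∈ H ↔ v ∈ H) := by
  have := Subgroup.mul_mem_iff_of_index_two hidx (a := ⟨u, hu⟩) (b := ⟨v, hv⟩)
  simpa [Subgroup.mem_subgroupOf] using this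

theorem ind_mul {H K : Subgroup G} (hidx : (H.subgroupOf K).index = 2) {u v : G} (hu : u ∈ K) (hv : v ∈ K) :
    ind H (u * v) = ind H u + ind H v := by
  have h := mul_mem_iff_two hidx hu hv
  by_cases h1 : u ∈ H <;> by_cases h2 : v ∈ H
  · rw [ind_of_mem h1, ind_of_mem h2, ind_of_mem (h.2 (iff_of_true h1 h2))]; rfl
  · rw [ind_of_mem h1, ind_of_not_mem h2, ind_of_not_mem (fun h3 => h2 ((h.1 h3).1 h1))]; rfl
  · rw [ind_of_not_mem h1, ind_of_mem h2, ind_of_not_mem (fun h3 => h1 ((h.1 h3).2 h2))]; rfl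
  · rw [ind_of_not_mem h1, ind_of_not_mem h2, ind_of_mem (h.2 (iff_of_false h1 h2))]; rfl

theorem idx_two [Finite G] {H K : Subgroup G} (hle : H ≤ K) (hc : Nat.card K = 2 * Nat.card H) :
    (H.subgroupOf K).index = 2 := by
  have h1 := (H.subgroupOf K).card_mul_index
  have h2 : Nat.card (H.subgroupOf K) = Nat.card H := Nat.card_congr (Subgroup.subgroupOfEquivOfLe hle).toEquiv
  rw [h2, hc] at h1
  have h3 : 0 < Nat.card H := Nat.card_pos
  nlinarith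

theorem two_cases {H K : Subgroup G} (hidx : (H.subgroupOf K).index = 2) {c y : G} (hc : c ∈ K) (hcH : c ∉ H) (hy : y ∈ K) :
    y ∈ H ∨ c⁻¹ * y ∈ H := by
  by_cases h : y ∈ H
  · exact Or.inl h
  · right
    rw [mul_mem_iff_two hidx (K.inv_mem hc) hy]
    have h1 : c⁻¹ ∉ H := fun h2 => hcH (by simpa using H.inv_mem h2)
    exact iff_of_false h1 h

/-- A subgroup with at most two cosets. -/
theorem rel_le_two [Finite G] {H K : Subgroup G} (c : G) (hcov : ∀ g ∈ K, g ∈ H ∨ c * g ∈ H) :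
    (H.subgroupOf K).index ≤ 2 := by
  have hinj : Function.Injective (fun q : ↥K ⧸ H.subgroupOf K => decide ((q.out : G) ∈ H)) := by
    intro q q' h
    have h' : (q.out : G) ∈ H ↔ (q'.out : G) ∈ H := by simpa using h
    have key : q.out⁻¹ * q'.out ∈ H.subgroupOf K := by
      rw [Subgroup.mem_subgroupOf]
      by_cases h1 : (q.out : G) ∈ H
      · have h2 := h'.1 h1
        simpa using H.mul_mem (H.inv_mem h1) h2
      · have h2 : (q'.out : G) ∉ H := fun h3 => h1 (h'.2 h3)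
        have h3 := (hcov _ q.out.2).resolve_left h1
        have h4 := (hcov _ q'.out.2).resolve_left h2
        have h5 := H.mul_mem (H.inv_mem h3) h4
        have e : ((q.out⁻¹ * q'.out : ↥K) : G) = (c * (q.out : G))⁻¹ * (c * (q'.out : G)) := by
          push_cast
          group
        rw [e]
        exact h5
    have := QuotientGroup.eq.2 key
    simpa using this
  have := Nat.card_le_card_of_injective _ hinj
  simpa [Subgroup.index] using this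

/-- Hyperplanes in an elementary abelian section. -/
theorem hyper [Finite G] (P X : Subgroup G) (hXP : X ≤ P) (h2 : ∀ g ∈ P, g * g ∈ X)
    (hc : ∀ a ∈ P, ∀ b ∈ P, a * b * a⁻¹ * b⁻¹ ∈ X) (c : G) (hcP : c ∈ P) (hcX : c ∉ X) :
    ∃ M : Subgroup G, X ≤ M ∧ M ≤ P ∧ c ∉ M ∧ ∀ g ∈ P, g ∈ M ∨ c * g ∈ M := by
  let S : Set (Subgroup G) := {M | X ≤ M ∧ M ≤ P ∧ c ∉ M}
  have hSne : S.Nonempty := ⟨X, le_rfl, hXP, hcX⟩
  obtain ⟨M, hM⟩ := (Set.toFinite S).exists_maximal hSne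
  obtain ⟨hXM, hMP, hcM⟩ := hM.prop
  refine ⟨M, hXM, hMP, hcM, ?_⟩
  intro g hg
  by_cases hgM : g ∈ M
  · exact Or.inl hgM
  right
  have hconj : ∀ m ∈ M, ∀ y ∈ P, y * m * y⁻¹ ∈ M := by
    intro m hm y hy
    have e : y * m * y⁻¹ = (y * m * y⁻¹ * m⁻¹) * m := by group
    rw [e]
    exact M.mul_mem (hXM (hc y hy m (hMP hm))) hm
  let S' : Subgroup G :=
    { carrier := {y | y ∈ P ∧ (y ∈ M ∨ g⁻¹ * y ∈ M)}
      one_mem' := ⟨P.one_mem, Or.inl M.one_mem⟩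
      mul_mem' := by
        rintro y y' ⟨hy, h1⟩ ⟨hy', h2'⟩
        refine ⟨P.mul_mem hy hy', ?_⟩
        rcases h1 with h1 | h1 <;> rcases h2' with h2' | h2'
        · exact Or.inl (M.mul_mem h1 h2')
        · right
          have e : g⁻¹ * (y * y') = (g⁻¹ * y * g⁻¹⁻¹) * (g⁻¹ * y') := by group
          rw [e]
          exact M.mul_mem (hconj y h1 g⁻¹ (P.inv_mem hg)) h2'
        · right
          have e : g⁻¹ * (y * y') = (g⁻¹ * y) * y' := by group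
          rw [e]
          exact M.mul_mem h1 h2'
        · left
          have e : y * y' = (g * (g⁻¹ * y) * g⁻¹) * (g * g) * (g⁻¹ * y') := by group
          rw [e]
          exact M.mul_mem (M.mul_mem (hconj _ h1 g hg) (hXM (h2 g hg))) h2'
      inv_mem' := by
        rintro y ⟨hy, h1⟩
        refine ⟨P.inv_mem hy, ?_⟩
        rcases h1 with h1 | h1
        · exact Or.inl (M.inv_mem h1)
        · right
          have e : g⁻¹ * y⁻¹ = (g⁻¹ * (g⁻¹ * y)⁻¹ * g⁻¹⁻¹) * (g * g)⁻¹ := by group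
          rw [e]
          exact M.mul_mem (hconj _ (M.inv_mem h1) g⁻¹ (P.inv_mem hg)) (M.inv_mem (hXM (h2 g hg))) }
  have hMS' : M ≤ S' := fun m hm => ⟨hMP hm, Or.inl hm⟩
  have hgS' : g ∈ S' := ⟨hg, Or.inr (by simpa using M.one_mem)⟩
  have hcS' : c ∈ S' := by
    by_contra h
    have hS' : S' ∈ S := ⟨hXM.trans hMS', fun y hy => hy.1, h⟩
    have := hM.le_of_ge hS' hMS'
    exact hgM (this hgS')
  rcases hcS'.2 with h3 | h3
  · exact absurd h3 hcM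
  · have e : c * g = (c * c) * (g⁻¹ * c)⁻¹ := by group
    rw [e]
    exact M.mul_mem (hXM (h2 c hcP)) (M.inv_mem h3)

/-- Normal subgroups of a 2-group: a relatively central element outside. -/
theorem exists_fixed [Finite G] (hG : IsPGroup 2 G) (X N : Subgroup G) [hX : X.Normal] [hN : N.Normal] (h : ¬ N ≤ X) :
    ∃ n ∈ N, n ∉ X ∧ ∀ t, n * t * n⁻¹ * t⁻¹ ∈ X := by
  haveI : Fact (Nat.Prime 2) := ⟨Nat.prime_two⟩
  let π := QuotientGroup.mk' X
  have hQ : IsPGroup 2 (G ⧸ X) := hG.to_quotient X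
  haveI : Group.IsNilpotent (G ⧸ X) := hQ.isNilpotent
  haveI : (N.map π).Normal := hN.map π (QuotientGroup.mk'_surjective X)
  have hne : N.map π ≠ ⊥ := by
    intro h0
    apply h
    intro n hn
    have : π n ∈ N.map π := ⟨n, hn, rfl⟩
    rw [h0, Subgroup.mem_bot] at this
    exact (QuotientGroup.eq_one_iff n).1 this
  have h1 := Cfsg.Agent.Lib.Basic.normal_inf_center_ne_bot (N.map π) hne
  obtain ⟨c, hc, hc1⟩ := (Subgroup.bot_or_exists_ne_one _).resolve_left h1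
  obtain ⟨⟨n, hn, rfl⟩, hcen⟩ := hc
  refine ⟨n, hn, fun hnX => hc1 ((QuotientGroup.eq_one_iff n).2 hnX), fun t => ?_⟩
  rw [← QuotientGroup.eq_one_iff]
  have h2 := (Subgroup.mem_center_iff.1 hcen) (π t)
  have h3 : π (n * t * n⁻¹ * t⁻¹) = 1 := by
    simp only [map_mul, map_inv]
    rw [← h2]
    group
  exact h3

end generic

section ucs

variable {T : Type*} [Group T] [Finite T]

local notation "Zc" => Subgroup.upperCentralSeries T

theorem mem_ucs_succ {i : ℕ} {x : T} : x ∈ Zc (i + 1) ↔ ∀ y, x * y * x⁻¹ * y⁻¹ ∈ Zc i :=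
  Subgroup.mem_upperCentralSeries_succ_iff

theorem ucs_lt (hT : IsPGroup 2 T) (i : ℕ) (h : Zc i ≠ ⊤) : Zc i < Zc (i + 1) := by
  refine lt_of_le_of_ne (Subgroup.upperCentralSeries_mono T (Nat.le_succ i)) ?_
  intro he
  have hnot : ¬ (⊤ : Subgroup T) ≤ Zc i := fun h1 => h (top_le_iff.1 h1)
  obtain ⟨n, -, hn, hfix⟩ := exists_fixed hT (Zc i) ⊤ hnot
  apply hn
  rw [he]
  exact mem_ucs_succ.2 hfix

theorem card_lt_two {H K : Subgroup T} (h : H < K) : 2 * Nat.card H ≤ Nat.card K := by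
  have h1 := (H.subgroupOf K).card_mul_index
  have h2 : Nat.card (H.subgroupOf K) = Nat.card H := Nat.card_congr (Subgroup.subgroupOfEquivOfLe h.le).toEquiv
  rw [h2] at h1
  have h3 : (H.subgroupOf K).index ≠ 1 := by
    intro h4
    rw [Subgroup.index_eq_one] at h4
    exact absurd (Subgroup.subgroupOf_eq_top.1 h4) (not_le_of_gt h)
  have h4 : (H.subgroupOf K).index ≠ 0 := Subgroup.index_ne_zero_of_finite
  have h5 : 2 ≤ (H.subgroupOf K).index := by omega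
  rw [← h1]
  nlinarith [Nat.card_pos (α := H)]

/-- A normal subgroup of order `2^k` lies in the `k`-th central term. -/
theorem le_ucs (hT : IsPGroup 2 T) (N : Subgroup T) [hN : N.Normal] (k : ℕ) (hcard : Nat.card N = 2 ^ k) : N ≤ Zc k := by
  by_contra hnot
  have hmono : ∀ i ≤ k, ¬ N ≤ Zc i := fun i hi h => hnot (h.trans (Subgroup.upperCentralSeries_mono T hi))
  have hgrow : ∀ i ≤ k, 2 ^ i ≤ Nat.card ↥(N ⊓ Zc i) := by
    intro i
    induction i with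
    | zero =>
      intro _
      simpa using Nat.card_pos (α := ↥(N ⊓ Zc 0))
    | succ i ih =>
      intro hi
      have h1 := ih (by omega)
      obtain ⟨n, hn, hnZ, hfix⟩ := exists_fixed hT (Zc i) N (hmono i (by omega))
      have hlt : N ⊓ Zc i < N ⊓ Zc (i + 1) := by
        refine lt_of_le_of_ne (inf_le_inf_left _ (Subgroup.upperCentralSeries_mono T (Nat.le_succ i))) ?_
        intro he
        have : n ∈ N ⊓ Zc (i + 1) := ⟨hn, mem_ucs_succ.2 hfix⟩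
        rw [← he] at this
        exact hnZ this.2
      have h2 := card_lt_two hlt
      rw [pow_succ]
      omega
  have h3 := hgrow k le_rfl
  have h4 : N ⊓ Zc k = N := by
    apply Subgroup.eq_of_le_of_card_ge inf_le_left
    rw [hcard]
    exact h3
  exact hnot (inf_eq_left.1 h4)

end ucs


section psi

variable {T : Type*} [Group T] [Finite T]

theorem idx_two_of_cov {H K : Subgroup T} {x : T} (hxK : x ∈ K) (hxH : x ∉ H) (hcov : ∀ g ∈ K, g ∈ H ∨ x * g ∈ H) :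
    (H.subgroupOf K).index = 2 := by
  have h1 := rel_le_two x hcov
  have h2 : (H.subgroupOf K).index ≠ 0 := Subgroup.index_ne_zero_of_finite
  have h3 : (H.subgroupOf K).index ≠ 1 := by
    intro h
    rw [Subgroup.index_eq_one] at h
    have := Subgroup.subgroupOf_eq_top.1 h
    exact hxH (this hxK)
  omega

theorem ind_inv (M : Subgroup T) (y : T) : ind M y⁻¹ = ind M y := by
  unfold ind
  simp only [Subgroup.inv_mem_iff]

/-- The coordinate map. -/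
theorem psi_main (hT : IsPGroup 2 T) (W X M : Subgroup T) [hWn : W.Normal] [hXn : X.Normal]
    (hXW : X ≤ W) (hXM : X ≤ M) (hMW : M ≤ W)
    (hcomm : ∀ u ∈ W, ∀ v ∈ W, u * v * u⁻¹ * v⁻¹ ∈ X)
    (x : T) (hxW : x ∈ W) (hxM : x ∉ M) (hcov : ∀ g ∈ W, g ∈ M ∨ x * g ∈ M)
    (hfix : ∀ u ∈ W, (∀ t, u * t * u⁻¹ * t⁻¹ ∈ X) → u ∉ X → x⁻¹ * u ∈ X)
    {I : Type*} [Finite I] (s : I → T) (hs : ∀ t : T, ∃ i, (s i)⁻¹ * t ∈ W) :
    (∀ u ∈ W, ∀ v ∈ W, (∀ i, ind M (s i * u * (s i)⁻¹) = ind M (s i * v * (s i)⁻¹)) → u⁻¹ * v ∈ X) ∧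
    (X.subgroupOf W).index ≤ 2 ^ Nat.card I ∧
    ((X.subgroupOf W).index = 2 ^ Nat.card I → ∀ φ : I → ZMod 2, ∃ w ∈ W, ∀ i, ind M (s i * w * (s i)⁻¹) = φ i) := by
  have hidx : (M.subgroupOf W).index = 2 := idx_two_of_cov hxW hxM hcov
  -- the core of M is X
  have hcore : ∀ y ∈ W, (∀ t : T, t * y * t⁻¹ ∈ M) → y ∈ X := by
    let K : Subgroup T :=
      { carrier := {y | ∀ t : T, t * y * t⁻¹ ∈ M}
        one_mem' := fun t => by simpa using M.one_mem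
        mul_mem' := by
          intro a b ha hb t
          have e : t * (a * b) * t⁻¹ = (t * a * t⁻¹) * (t * b * t⁻¹) := by group
          rw [e]
          exact M.mul_mem (ha t) (hb t)
        inv_mem' := by
          intro a ha t
          have e : t * a⁻¹ * t⁻¹ = (t * a * t⁻¹)⁻¹ := by group
          rw [e]
          exact M.inv_mem (ha t) }
    haveI hKn : K.Normal := ⟨fun n hn g t => by
      have e : t * (g * n * g⁻¹) * t⁻¹ = (t * g) * n * (t * g)⁻¹ := by group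
      rw [e]
      exact hn _⟩
    intro y hy hyt
    by_contra hyX
    have hnot : ¬ K ≤ X := fun h => hyX (h hyt)
    obtain ⟨n, hnK, hnX, hnfix⟩ := exists_fixed hT X K hnot
    have hnM : n ∈ M := by simpa using hnK 1
    have h1 := hfix n (hMW hnM) hnfix hnX
    apply hxM
    have e : x = n * (x⁻¹ * n)⁻¹ := by group
    rw [e]
    exact M.mul_mem hnM (M.inv_mem (hXM h1))
  have hconjW : ∀ (t y : T), y ∈ W → t * y * t⁻¹ ∈ W := fun t y hy => hWn.conj_mem y hy t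
  have hinj : ∀ u ∈ W, ∀ v ∈ W, (∀ i, ind M (s i * u * (s i)⁻¹) = ind M (s i * v * (s i)⁻¹)) → u⁻¹ * v ∈ X := by
    intro u hu v hv h
    apply hcore _ (W.mul_mem (W.inv_mem hu) hv)
    intro t
    obtain ⟨i, hi⟩ := hs t
    set w₀ := (s i)⁻¹ * t with hw₀
    have ht : t = s i * w₀ := by rw [hw₀]; group
    set y := u⁻¹ * v with hy
    have hyW : y ∈ W := W.mul_mem (W.inv_mem hu) hv
    have hξ : w₀ * y * w₀⁻¹ * y⁻¹ ∈ X := hcomm _ hi _ hyW
    have e : t * y * t⁻¹ = (s i * (w₀ * y * w₀⁻¹ * y⁻¹) * (s i)⁻¹) * (s i * y * (s i)⁻¹) := by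
      rw [ht]
      group
    rw [e]
    have hy1 : s i * y * (s i)⁻¹ ∈ M := by
      have e2 : s i * y * (s i)⁻¹ = (s i * u * (s i)⁻¹)⁻¹ * (s i * v * (s i)⁻¹) := by
        rw [hy]
        group
      rw [e2, ← ind_eq_zero, ind_mul hidx (W.inv_mem (hconjW _ _ hu)) (hconjW _ _ hv), ind_inv, h i]
      exact CharTwo.add_self_eq_zero _
    have hy2 : s i * (w₀ * y * w₀⁻¹ * y⁻¹) * (s i)⁻¹ ∈ M := hXM (hXn.conj_mem _ hξ _)
    exact M.mul_mem hy2 hy1
  have hdef : Function.Injective (fun q : ↥W ⧸ X.subgroupOf W => fun i : I => ind M (s i * (q.out : T) * (s i)⁻¹)) := by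
    intro q q' h
    have h1 : ∀ i, ind M (s i * (q.out : T) * (s i)⁻¹) = ind M (s i * (q'.out : T) * (s i)⁻¹) := fun i => congrFun h i
    have h2 := hinj _ q.out.2 _ q'.out.2 h1
    have h3 : q.out⁻¹ * q'.out ∈ X.subgroupOf W := by
      rw [Subgroup.mem_subgroupOf]
      simpa using h2
    have := QuotientGroup.eq.2 h3
    simpa using this
  have hcardf : Nat.card (I → ZMod 2) = 2 ^ Nat.card I := by
    rw [Nat.card_fun, Nat.card_zmod]
  refine ⟨hinj, ?_, ?_⟩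
  · have := Nat.card_le_card_of_injective _ hdef
    rw [hcardf] at this
    exact this
  · intro heq φ
    have hle : Nat.card (I → ZMod 2) ≤ Nat.card (↥W ⧸ X.subgroupOf W) := by
      rw [hcardf, ← heq]
      rfl
    have hbij := hdef.bijective_of_nat_card_le hle
    obtain ⟨q, hq⟩ := hbij.2 φ
    exact ⟨q.out, q.out.2, fun i => congrFun hq i⟩

end psi

section stage1

variable {T : Type*} [Group T] [Finite T]

local notation "Zc" => Subgroup.upperCentralSeries T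

theorem comm_mem_ucs {i : ℕ} {x : T} (hx : x ∈ Zc (i + 1)) (t : T) : t * x * t⁻¹ * x⁻¹ ∈ Zc i := by
  have h := (mem_ucs_succ.1 hx) t
  have e : t * x * t⁻¹ * x⁻¹ = (x * t * x⁻¹ * t⁻¹)⁻¹ := by group
  rw [e]
  exact (Zc i).inv_mem h

theorem central_of_mem_one {x : T} (hx : x ∈ Zc 1) (t : T) : t * x = x * t := by
  rw [Subgroup.upperCentralSeries_one] at hx
  exact (Subgroup.mem_center_iff.1 hx) t

theorem map_char_normal (W : Subgroup T) [hW : W.Normal] (C : Subgroup ↥W) [hC : C.Characteristic] :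
    (C.map W.subtype).Normal := by
  constructor
  rintro _ ⟨c, hc, rfl⟩ t
  refine ⟨MulAut.conjNormal t c, ?_, rfl⟩
  have h := hC.fixed (MulAut.conjNormal t)
  have h2 : c ∈ C.comap (MulAut.conjNormal t).toMonoidHom := by rw [h]; exact hc
  exact h2

/-- pure arithmetic -/
theorem arith_main (i j k : ℕ) (hi : i ≤ 8) (hk : k ≤ 3) (hj : j ≤ 2 ^ i) (h : 2 ^ 14 ≤ 2 ^ k * j * i) :
    i = 8 ∧ k = 3 ∧ j = 2 ^ 8 := by
  interval_cases i <;> interval_cases k <;> omega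

theorem gen3 (hT : IsPGroup 2 T) {z2 z3 t : T} (hidx1 : ((Zc 1).subgroupOf (Zc 2)).index = 2)
    (hidx2 : ((Zc 2).subgroupOf (Zc 3)).index = 2) (hz2 : z2 ∈ Zc 2) (hz2' : z2 ∉ Zc 1) (hz3 : z3 ∈ Zc 3) (hz3' : z3 ∉ Zc 2)
    (h2 : t * z2 = z2 * t) (h3 : t * z3 = z3 * t) : ∀ y ∈ Zc 3, t * y = y * t := by
  have hZ2 : ∀ y ∈ Zc 2, t * y = y * t := by
    intro y hy
    rcases two_cases hidx1 hz2 hz2' hy with h | h
    · exact central_of_mem_one h t
    · have h4 := central_of_mem_one h t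
      calc t * y = t * z2 * (z2⁻¹ * y) := by group
        _ = z2 * t * (z2⁻¹ * y) := by rw [h2]
        _ = z2 * (t * (z2⁻¹ * y)) := by group
        _ = z2 * (z2⁻¹ * y * t) := by rw [h4]
        _ = y * t := by group
  intro y hy
  rcases two_cases hidx2 hz3 hz3' hy with h | h
  · exact hZ2 y h
  · have h4 := hZ2 _ h
    calc t * y = t * z3 * (z3⁻¹ * y) := by group
      _ = z3 * t * (z3⁻¹ * y) := by rw [h3]
      _ = z3 * (t * (z3⁻¹ * y)) := by group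
      _ = z3 * (z3⁻¹ * y * t) := by rw [h4]
      _ = y * t := by group

/-- First stage: orders. -/
theorem stage1 (hT : IsPGroup 2 T) (ha : 2 ^ 14 ≤ Nat.card T) (hb : Nat.card ↥(Zc 4) = 16)
    (W : Subgroup T) (hW : W = Subgroup.centralizer ((Zc 3 : Subgroup T) : Set T))
    (hc : Nat.card ↥(frattini ↥W) ≤ 8) :
    Nat.card ↥(Zc 1) = 2 ∧ Nat.card ↥(Zc 2) = 4 ∧ Nat.card ↥(Zc 3) = 8 ∧ W.Normal ∧
      (frattini ↥W).map W.subtype = Zc 3 ∧ W.index = 8 ∧ ((Zc 3).subgroupOf W).index = 2 ^ 8 ∧ Nat.card T = 2 ^ 14 := by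
  haveI : Fact (Nat.Prime 2) := ⟨Nat.prime_two⟩
  have hne : ∀ i ≤ 4, Zc i ≠ ⊤ := by
    intro i hi h
    have h1 : Zc i ≤ Zc 4 := Subgroup.upperCentralSeries_mono T hi
    rw [h] at h1
    have h2 : Zc 4 = ⊤ := top_le_iff.1 h1
    rw [h2] at hb
    have h3 : Nat.card ↥(⊤ : Subgroup T) = Nat.card T := Nat.card_congr Subgroup.topEquiv.toEquiv
    omega
  have h01 := card_lt_two (ucs_lt hT 0 (hne 0 (by omega)))
  have h12 := card_lt_two (ucs_lt hT 1 (hne 1 (by omega)))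
  have h23 := card_lt_two (ucs_lt hT 2 (hne 2 (by omega)))
  have h34 := card_lt_two (ucs_lt hT 3 (hne 3 (by omega)))
  have h0 : 1 ≤ Nat.card ↥(Zc 0) := Nat.card_pos
  simp only [zero_add] at h01
  simp only [Nat.reduceAdd] at h12 h23 h34
  have c1 : Nat.card ↥(Zc 1) = 2 := by omega
  have c2 : Nat.card ↥(Zc 2) = 4 := by omega
  have c3 : Nat.card ↥(Zc 3) = 8 := by omega
  have hcZ : ∀ k ≤ 3, Nat.card ↥(Zc k) = 2 ^ k ∧ (((Zc k).subgroupOf (Zc (k + 1))).index = 2) := by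
    intro k hk
    have c0 : Nat.card ↥(Zc 0) = 1 := by omega
    have i0 : ((Zc 0).subgroupOf (Zc 1)).index = 2 :=
      idx_two (Subgroup.upperCentralSeries_mono T (Nat.le_succ 0)) (by omega)
    have i1 : ((Zc 1).subgroupOf (Zc 2)).index = 2 :=
      idx_two (Subgroup.upperCentralSeries_mono T (Nat.le_succ 1)) (by omega)
    have i2 : ((Zc 2).subgroupOf (Zc 3)).index = 2 :=
      idx_two (Subgroup.upperCentralSeries_mono T (Nat.le_succ 2)) (by omega)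
    have i3 : ((Zc 3).subgroupOf (Zc 4)).index = 2 :=
      idx_two (Subgroup.upperCentralSeries_mono T (Nat.le_succ 3)) (by omega)
    interval_cases k
    · exact ⟨c0, i0⟩
    · exact ⟨c1, i1⟩
    · exact ⟨c2, i2⟩
    · exact ⟨c3, i3⟩
  have hidx1 := (hcZ 1 (by omega)).2
  have hidx2 := (hcZ 2 (by omega)).2
  haveI hWn : W.Normal := by rw [hW]; infer_instance
  -- the index of W
  obtain ⟨z2, hz2, hz2'⟩ := SetLike.exists_of_lt (ucs_lt hT 1 (hne 1 (by omega)))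
  obtain ⟨z3, hz3, hz3'⟩ := SetLike.exists_of_lt (ucs_lt hT 2 (hne 2 (by omega)))
  have hindex : W.index ≤ 8 := by
    let f : T ⧸ W → ↥(Zc 1) × ↥(Zc 2) := fun q =>
      (⟨q.out * z2 * q.out⁻¹ * z2⁻¹, comm_mem_ucs hz2 _⟩, ⟨q.out * z3 * q.out⁻¹ * z3⁻¹, comm_mem_ucs hz3 _⟩)
    have hf : Function.Injective f := by
      intro q q' h
      have h1 : q.out * z2 * q.out⁻¹ * z2⁻¹ = q'.out * z2 * q'.out⁻¹ * z2⁻¹ := congrArg (fun p => ((p.1 : ↥(Zc 1)) : T)) h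
      have h2 : q.out * z3 * q.out⁻¹ * z3⁻¹ = q'.out * z3 * q'.out⁻¹ * z3⁻¹ := congrArg (fun p => ((p.2 : ↥(Zc 2)) : T)) h
      have h1' : q.out * z2 * q.out⁻¹ = q'.out * z2 * q'.out⁻¹ := mul_right_cancel h1
      have h2' : q.out * z3 * q.out⁻¹ = q'.out * z3 * q'.out⁻¹ := mul_right_cancel h2
      have hu2 : (q.out⁻¹ * q'.out) * z2 = z2 * (q.out⁻¹ * q'.out) := by
        have e : (q.out⁻¹ * q'.out) * z2 = q.out⁻¹ * (q'.out * z2 * q'.out⁻¹) * q'.out := by group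
        rw [e, ← h1']
        group
      have hu3 : (q.out⁻¹ * q'.out) * z3 = z3 * (q.out⁻¹ * q'.out) := by
        have e : (q.out⁻¹ * q'.out) * z3 = q.out⁻¹ * (q'.out * z3 * q'.out⁻¹) * q'.out := by group
        rw [e, ← h2']
        group
      have hcen := gen3 hT hidx1 hidx2 hz2 hz2' hz3 hz3' hu2 hu3
      have hmem : q.out⁻¹ * q'.out ∈ W := by
        have h5 : q.out⁻¹ * q'.out ∈ Subgroup.centralizer ((Zc 3 : Subgroup T) : Set T) :=
          Subgroup.mem_centralizer_iff.2 (fun y hy => (hcen y hy).symm)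
        exact hW.symm.le h5
      have := QuotientGroup.eq.2 hmem
      simpa using this
    have h3 := Nat.card_le_card_of_injective f hf
    rw [Nat.card_prod, c1, c2] at h3
    exact h3
  -- frattini
  have hWp : IsPGroup 2 ↥W := hT.to_subgroup W
  set X : Subgroup T := (frattini ↥W).map W.subtype with hX
  haveI hXn : X.Normal := map_char_normal W _
  have hXW : X ≤ W := Subgroup.map_subtype_le _
  have hXcard : Nat.card X = Nat.card ↥(frattini ↥W) :=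
    Nat.card_congr (Subgroup.equivMapOfInjective _ _ W.subtype_injective).toEquiv.symm
  obtain ⟨k, hk⟩ := IsPGroup.iff_card.1 (hT.to_subgroup X)
  have hk3 : k ≤ 3 := by
    by_contra hk4
    have h1 : 2 ^ 4 ≤ 2 ^ k := Nat.pow_le_pow_right (by norm_num) (by omega)
    omega
  have hXle : X ≤ Zc k := le_ucs hT X k hk
  have hXeq : X = Zc k := Subgroup.eq_of_le_of_card_ge hXle (by rw [(hcZ k hk3).1, hk])
  have hsq : ∀ w ∈ W, w * w ∈ X := fun w hw =>
    ⟨⟨w, hw⟩ ^ 2, Cfsg.Agent.Lib.Transfer.pow_mem_frattini hWp ⟨w, hw⟩, by simp [pow_two]⟩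
  have hcm : ∀ u ∈ W, ∀ v ∈ W, u * v * u⁻¹ * v⁻¹ ∈ X := fun u hu v hv =>
    ⟨_, Cfsg.Agent.Lib.Transfer.commutator_mem_frattini hWp ⟨u, hu⟩ ⟨v, hv⟩, rfl⟩
  have hWcard := W.card_mul_index
  have hnot : ¬ W ≤ X := by
    intro h
    have h1 : Nat.card W ≤ Nat.card X := Subgroup.card_le_of_le h
    have h2 : Nat.card W * W.index ≤ 8 * 8 := Nat.mul_le_mul (by omega) hindex
    omega
  obtain ⟨x₀, hx₀W, hx₀X, hx₀fix⟩ := exists_fixed hT X W hnot
  have hfix : ∀ u ∈ W, (∀ t, u * t * u⁻¹ * t⁻¹ ∈ X) → u ∉ X → x₀⁻¹ * u ∈ X := by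
    intro u _ hu huX
    rw [hXeq] at hu huX hx₀X hx₀fix ⊢
    rcases two_cases (hcZ k hk3).2 (mem_ucs_succ.2 hx₀fix) hx₀X (mem_ucs_succ.2 hu) with h | h
    · exact absurd h huX
    · exact h
  obtain ⟨M, hXM, hMW, hx₀M, hcov⟩ := hyper W X hXW hsq hcm x₀ hx₀W hx₀X
  have hs : ∀ t : T, ∃ i : T ⧸ W, (Quotient.out i)⁻¹ * t ∈ W := fun t =>
    ⟨(t : T ⧸ W), QuotientGroup.eq.1 (QuotientGroup.out_eq' _)⟩
  obtain ⟨-, hbound, -⟩ := psi_main hT W X M hXW hXM hMW hcm x₀ hx₀W hx₀M hcov hfix (I := T ⧸ W) Quotient.out hs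
  have hj : (X.subgroupOf W).index ≤ 2 ^ W.index := hbound
  have h1 := (X.subgroupOf W).card_mul_index
  have h2 : Nat.card (X.subgroupOf W) = Nat.card X := Nat.card_congr (Subgroup.subgroupOfEquivOfLe hXW).toEquiv
  rw [h2, hk] at h1
  have h3 : Nat.card T = 2 ^ k * (X.subgroupOf W).index * W.index := by
    rw [← hWcard, ← h1]
  obtain ⟨hi8, hk', hj8⟩ := arith_main _ _ k hindex hk3 hj (by rw [← h3]; exact ha)
  subst hk'
  refine ⟨c1, c2, c3, hWn, hXeq, hi8, ?_, ?_⟩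
  · rw [← hXeq]
    exact hj8
  · rw [h3, hj8, hi8]
    norm_num

/-- Second stage: the commutator subgroup and the exponent of the third central term. -/
theorem stage2 (hT : IsPGroup 2 T) (c1 : Nat.card ↥(Zc 1) = 2) (c2 : Nat.card ↥(Zc 2) = 4) (c3 : Nat.card ↥(Zc 3) = 8)
    (W : Subgroup T) [hWn : W.Normal] (hW : W = Subgroup.centralizer ((Zc 3 : Subgroup T) : Set T))
    (hX : (frattini ↥W).map W.subtype = Zc 3)
    (hd : ∀ U : Subgroup ↥W, U.index ≤ 16 → frattini ↥W ≤ U) :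
    (commutator ↥W).map W.subtype = Zc 3 ∧ ∀ z ∈ Zc 3, z ^ 2 = 1 := by
  haveI : Fact (Nat.Prime 2) := ⟨Nat.prime_two⟩
  have hWp : IsPGroup 2 ↥W := hT.to_subgroup W
  have hZW : Zc 3 ≤ W := by
    rw [← hX]
    exact Subgroup.map_subtype_le _
  have hcen : ∀ ξ ∈ Zc 3, ∀ w ∈ W, ξ * w = w * ξ := by
    intro ξ hξ w hw
    have h1 : w ∈ Subgroup.centralizer ((Zc 3 : Subgroup T) : Set T) := hW.le hw
    exact Subgroup.mem_centralizer_iff.1 h1 ξ hξ
  have hsq : ∀ w ∈ W, w * w ∈ Zc 3 := fun w hw => by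
    rw [← hX]
    exact ⟨⟨w, hw⟩ ^ 2, Cfsg.Agent.Lib.Transfer.pow_mem_frattini hWp ⟨w, hw⟩, by simp [pow_two]⟩
  have hcm : ∀ u ∈ W, ∀ v ∈ W, u * v * u⁻¹ * v⁻¹ ∈ Zc 3 := fun u hu v hv => by
    rw [← hX]
    exact ⟨_, Cfsg.Agent.Lib.Transfer.commutator_mem_frattini hWp ⟨u, hu⟩ ⟨v, hv⟩, rfl⟩
  set C : Subgroup T := (commutator ↥W).map W.subtype with hC
  haveI hCn : C.Normal := map_char_normal W _
  have hCle : C ≤ Zc 3 := by
    rw [← hX]
    exact Subgroup.map_mono (Cfsg.Agent.Lib.Transfer.commutator_le_frattini hWp)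
  have h23 : Zc 2 ≤ Zc 3 := Subgroup.upperCentralSeries_mono T (Nat.le_succ 2)
  have hidx2 : ((Zc 2).subgroupOf (Zc 3)).index = 2 := idx_two h23 (by omega)
  have hCeq : C = Zc 3 := by
    by_contra hne
    -- C is in Z₂
    have hCZ2 : C ≤ Zc 2 := by
      obtain ⟨j, hj⟩ := IsPGroup.iff_card.1 (hT.to_subgroup C)
      have h1 : Nat.card C ≤ Nat.card ↥(Zc 3) := Subgroup.card_le_of_le hCle
      have h2 : Nat.card C ≠ 8 := fun h => hne (Subgroup.eq_of_le_of_card_ge hCle (by omega))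
      have hj2 : j ≤ 2 := by
        by_contra hj3
        have h3 : j = 3 ∨ 4 ≤ j := by omega
        rcases h3 with rfl | h3
        · exact h2 hj
        · have h4 : 2 ^ 4 ≤ 2 ^ j := Nat.pow_le_pow_right (by norm_num) h3
          omega
      exact (le_ucs hT C j hj).trans (Subgroup.upperCentralSeries_mono T hj2)
    have hcmC : ∀ u ∈ W, ∀ v ∈ W, u * v * u⁻¹ * v⁻¹ ∈ Zc 2 := fun u hu v hv => by
      apply hCZ2
      refine ⟨⟨u, hu⟩ * ⟨v, hv⟩ * (⟨u, hu⟩ : ↥W)⁻¹ * (⟨v, hv⟩ : ↥W)⁻¹, ?_, rfl⟩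
      exact Subgroup.commutator_mem_commutator (Subgroup.mem_top _) (Subgroup.mem_top _)
    have hmulsq : ∀ g ∈ W, ∀ h ∈ W, (g * h) * (g * h) = (g * g) * (g⁻¹ * h * g⁻¹⁻¹ * h⁻¹) * (h * h) := by
      intro g _ h _
      group
    let K : Subgroup T :=
      { carrier := {g | g ∈ W ∧ g * g ∈ Zc 2}
        one_mem' := ⟨W.one_mem, by simpa using (Zc 2).one_mem⟩
        mul_mem' := by
          rintro g h ⟨hg, hg2⟩ ⟨hh, hh2⟩
          refine ⟨W.mul_mem hg hh, ?_⟩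
          rw [hmulsq g hg h hh]
          exact (Zc 2).mul_mem ((Zc 2).mul_mem hg2 (hcmC _ (W.inv_mem hg) _ hh)) hh2
        inv_mem' := by
          rintro g ⟨hg, hg2⟩
          refine ⟨W.inv_mem hg, ?_⟩
          have e : g⁻¹ * g⁻¹ = (g * g)⁻¹ := by group
          rw [e]
          exact (Zc 2).inv_mem hg2 }
    have hKW : K ≤ W := fun g hg => hg.1
    obtain ⟨z3, hz3, hz3'⟩ : ∃ z3 ∈ Zc 3, z3 ∉ Zc 2 := by
      by_contra hcon
      push Not at hcon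
      have h1 : Nat.card ↥(Zc 3) ≤ Nat.card ↥(Zc 2) := Subgroup.card_le_of_le hcon
      omega
    have hsq2 : ∀ y ∈ Zc 3, y * y ∈ Zc 2 := fun y hy =>
      (mul_mem_iff_two hidx2 hy hy).2 Iff.rfl
    have hz3K : z3 ∈ K := ⟨hZW hz3, hsq2 z3 hz3⟩
    have hZ2K : Zc 2 ≤ K := fun y hy => ⟨hZW (h23 hy), (Zc 2).mul_mem hy hy⟩
    obtain ⟨M₀, hZM, hMK, hzM, hcov⟩ := hyper K (Zc 2) hZ2K (fun g hg => hg.2)
      (fun a ha b hb => hcmC a ha.1 b hb.1) z3 hz3K hz3'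
    -- K has index at most 2 in W
    have hcov₁ : ∃ c₁, ∀ g ∈ W, g ∈ K ∨ c₁ * g ∈ K := by
      by_cases hall : ∀ g ∈ W, g ∈ K
      · exact ⟨1, fun g hg => Or.inl (hall g hg)⟩
      · push Not at hall
        obtain ⟨c₁, hc₁, hc₁K⟩ := hall
        refine ⟨c₁, fun g hg => ?_⟩
        by_cases hgK : g ∈ K
        · exact Or.inl hgK
        · right
          refine ⟨W.mul_mem hc₁ hg, ?_⟩
          rw [hmulsq c₁ hc₁ g hg]
          have h1 : c₁ * c₁ ∉ Zc 2 := fun h => hc₁K ⟨hc₁, h⟩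
          have h2 : g * g ∉ Zc 2 := fun h => hgK ⟨hg, h⟩
          have h3 : (c₁ * c₁) * (g * g) ∈ Zc 2 :=
            (mul_mem_iff_two hidx2 (hsq c₁ hc₁) (hsq g hg)).2 (iff_of_false h1 h2)
          have e : (c₁ * c₁) * (c₁⁻¹ * g * c₁⁻¹⁻¹ * g⁻¹) * (g * g) = (c₁⁻¹ * g * c₁⁻¹⁻¹ * g⁻¹) * ((c₁ * c₁) * (g * g)) := by
            rw [hcen _ (hsq c₁ hc₁) _ (W.mul_mem (W.mul_mem (W.mul_mem (W.inv_mem hc₁) hg) (W.inv_mem (W.inv_mem hc₁))) (W.inv_mem hg))]
            group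
          rw [e]
          exact (Zc 2).mul_mem (hcmC _ (W.inv_mem hc₁) _ hg) h3
    obtain ⟨c₁, hc₁⟩ := hcov₁
    have hi1 := rel_le_two c₁ hc₁
    have hi2 := rel_le_two z3 hcov
    have hU : (M₀.subgroupOf W).index ≤ 16 := by
      have h1 : M₀.relIndex K * K.relIndex W = M₀.relIndex W := Subgroup.relIndex_mul_relIndex M₀ K W hMK hKW
      have h2 : M₀.relIndex W = (M₀.subgroupOf W).index := rfl
      have h3 : M₀.relIndex K = (M₀.subgroupOf K).index := rfl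
      have h4 : K.relIndex W = (K.subgroupOf W).index := rfl
      rw [← h2, ← h1, h3, h4]
      nlinarith
    have hfr := hd _ hU
    have hz3X : z3 ∈ (frattini ↥W).map W.subtype := by rw [hX]; exact hz3
    obtain ⟨y, hy, hyz⟩ := hz3X
    have := hfr hy
    rw [Subgroup.mem_subgroupOf] at this
    apply hzM
    rw [← hyz]
    exact this
  refine ⟨hCeq, ?_⟩
  -- exponent two
  have hcomm2 : ∀ u ∈ W, ∀ v ∈ W, (u * v * u⁻¹ * v⁻¹) ^ 2 = 1 := by
    intro u hu v hv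
    have hω := hcm u hu v hv
    set ω := u * v * u⁻¹ * v⁻¹ with hωd
    have h1 : u * v * u⁻¹ = ω * v := by rw [hωd]; group
    have h2 : (u * u) * v * (u * u)⁻¹ = v := by
      have := hcen _ (hsq u hu) v hv
      rw [this]
      group
    have h3 : (u * u) * v * (u * u)⁻¹ = u * (u * v * u⁻¹) * u⁻¹ := by group
    rw [h3, h1] at h2
    have h4 : u * (ω * v) * u⁻¹ = ω * (u * v * u⁻¹) := by
      have := hcen _ hω u hu
      calc u * (ω * v) * u⁻¹ = (u * ω) * v * u⁻¹ := by group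
        _ = (ω * u) * v * u⁻¹ := by rw [this]
        _ = ω * (u * v * u⁻¹) := by group
    rw [h4, h1] at h2
    have h5 : ω * (ω * v) * v⁻¹ = 1 := by rw [h2]; group
    rw [pow_two]
    calc ω * ω = ω * (ω * v) * v⁻¹ := by group
      _ = 1 := h5
  let E₂ : Subgroup ↥W :=
    { carrier := {y | (y : T) ∈ Zc 3 ∧ (y : T) ^ 2 = 1}
      one_mem' := ⟨(Zc 3).one_mem, by simp⟩
      mul_mem' := by
        rintro a b ⟨ha, ha2⟩ ⟨hb, hb2⟩
        refine ⟨(Zc 3).mul_mem ha hb, ?_⟩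
        have hc : Commute (a : T) (b : T) := hcen _ ha _ b.2
        push_cast
        rw [hc.mul_pow, ha2, hb2, one_mul]
      inv_mem' := by
        rintro a ⟨ha, ha2⟩
        refine ⟨(Zc 3).inv_mem ha, ?_⟩
        push_cast
        rw [inv_pow, ha2, inv_one] }
  have hle : commutator ↥W ≤ E₂ := by
    rw [commutator_def, Subgroup.commutator_le]
    intro a _ b _
    exact ⟨hcm a a.2 b b.2, hcomm2 a a.2 b b.2⟩
  intro z hz
  rw [← hCeq] at hz
  obtain ⟨y, hy, rfl⟩ := hz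
  exact (hle hy).2

/-- The coordinates on the dihedral group of order 8. -/
def code (a b c : ZMod 2) : DihedralGroup 4 :=
  if a = 0 then (if b = 0 then (if c = 0 then .r 0 else .r 2) else (if c = 0 then .sr 3 else .sr 1))
  else (if b = 0 then (if c = 0 then .sr 0 else .sr 2) else (if c = 0 then .r 1 else .r 3))

theorem code_mul : ∀ a b c a' b' c' : ZMod 2, code (a + a') (b + b') (c + c' + a * b') = code a b c * code a' b' c' := by
  decide

theorem code_eq_one : ∀ a b c : ZMod 2, code a b c = 1 → a = 0 ∧ b = 0 ∧ c = 0 := by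
  decide

theorem code_zero : code 0 0 0 = 1 := by decide

theorem code_sr3 : ∀ a b c : ZMod 2, code a b c = .sr 3 → b = 1 := by
  decide

theorem ind_conj_normal (H : Subgroup T) [hH : H.Normal] (t y : T) : ind H (t * y * t⁻¹) = ind H y := by
  by_cases h : y ∈ H
  · rw [ind_of_mem h, ind_of_mem (hH.conj_mem y h t)]
  · have h1 : t * y * t⁻¹ ∉ H := by
      intro h2
      apply h
      have := hH.conj_mem _ h2 t⁻¹
      simpa [mul_assoc] using this
    rw [ind_of_not_mem h, ind_of_not_mem h1]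

/-- Third stage: the map onto the dihedral group. -/
theorem stage3 (hT : IsPGroup 2 T) (c1 : Nat.card ↥(Zc 1) = 2) (c2 : Nat.card ↥(Zc 2) = 4) (c3 : Nat.card ↥(Zc 3) = 8)
    (W : Subgroup T) (hW : W = Subgroup.centralizer ((Zc 3 : Subgroup T) : Set T))
    (hidx : W.index = 8) (helem : ∀ z ∈ Zc 3, z ^ 2 = 1) :
    ∃ π : T →* DihedralGroup 4, π.ker = W ∧ Function.Surjective π ∧
      ∀ b, π b = .sr 3 → ∀ ω ∈ Zc 3, b * ω * b⁻¹ = ω → ω ∈ Zc 2 := by
  haveI : Fact (Nat.Prime 2) := ⟨Nat.prime_two⟩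
  have h12 : Zc 1 ≤ Zc 2 := Subgroup.upperCentralSeries_mono T (Nat.le_succ 1)
  have h23 : Zc 2 ≤ Zc 3 := Subgroup.upperCentralSeries_mono T (Nat.le_succ 2)
  have hidx1 : ((Zc 1).subgroupOf (Zc 2)).index = 2 := idx_two h12 (by omega)
  have hidx2 : ((Zc 2).subgroupOf (Zc 3)).index = 2 := idx_two h23 (by omega)
  have hidx0 : ((⊥ : Subgroup T).subgroupOf (Zc 1)).index = 2 := idx_two bot_le (by
    rw [c1]; simp)
  obtain ⟨z1, hz1, hz1'⟩ : ∃ z1 ∈ Zc 1, z1 ∉ (⊥ : Subgroup T) := by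
    by_contra hcon
    push Not at hcon
    have h1 : Nat.card ↥(Zc 1) ≤ Nat.card ↥(⊥ : Subgroup T) := Subgroup.card_le_of_le hcon
    have h2 : Nat.card ↥(⊥ : Subgroup T) = 1 := Subgroup.card_bot
    omega
  obtain ⟨z2, hz2, hz2'⟩ : ∃ z2 ∈ Zc 2, z2 ∉ Zc 1 := by
    by_contra hcon
    push Not at hcon
    have h1 : Nat.card ↥(Zc 2) ≤ Nat.card ↥(Zc 1) := Subgroup.card_le_of_le hcon
    omega
  obtain ⟨z3, hz3, hz3'⟩ : ∃ z3 ∈ Zc 3, z3 ∉ Zc 2 := by
    by_contra hcon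
    push Not at hcon
    have h1 : Nat.card ↥(Zc 3) ≤ Nat.card ↥(Zc 2) := Subgroup.card_le_of_le hcon
    omega
  have hz1c : ∀ t : T, t * z1 = z1 * t := central_of_mem_one hz1
  have hZ1 : ∀ y ∈ Zc 1, y = 1 ∨ y = z1 := by
    intro y hy
    rcases two_cases hidx0 hz1 hz1' hy with h | h
    · left; simpa using h
    · right
      have h1 : z1⁻¹ * y = 1 := by simpa using h
      exact (inv_mul_eq_one.1 h1).symm
  have hz2sq : z2 * z2 = 1 := by
    have := helem z2 (h23 hz2)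
    rwa [pow_two] at this
  have hz1sq : z1 * z1 = 1 := by
    have := helem z1 (h23 (h12 hz1))
    rwa [pow_two] at this
  let Y : Subgroup T :=
    { carrier := {y | y = 1 ∨ y = z2}
      one_mem' := Or.inl rfl
      mul_mem' := by
        rintro a b (rfl | rfl) (rfl | rfl)
        · left; simp
        · right; simp
        · right; simp
        · left; exact hz2sq
      inv_mem' := by
        rintro a (rfl | rfl)
        · left; simp
        · right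
          exact inv_eq_of_mul_eq_one_left hz2sq }
  have hYZ : ∀ y, y ∈ Y → y ∈ Zc 1 → y = 1 := by
    rintro y (rfl | rfl) h
    · rfl
    · exact absurd h hz2'
  have hidxY : (Y.subgroupOf (Zc 2)).index = 2 := by
    refine idx_two_of_cov (x := z1) (h12 hz1) ?_ ?_
    · intro h
      have := hYZ z1 h hz1
      exact hz1' (by rw [this]; exact Subgroup.one_mem _)
    · intro g hg
      rcases two_cases hidx1 hz2 hz2' hg with h | h
      · rcases hZ1 g h with rfl | rfl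
        · exact Or.inl (Or.inl rfl)
        · exact Or.inr (Or.inl hz1sq)
      · rcases hZ1 _ h with h1 | h1
        · left; right
          exact (inv_mul_eq_one.1 h1).symm
        · right; right
          have h2 : g = z2 * z1 := by
            rw [← h1]; group
          rw [h2, hz1c z2, ← mul_assoc, hz1sq, one_mul]
  let cc2 : T → T := fun t => t * z2 * t⁻¹ * z2⁻¹
  let cc3 : T → T := fun t => t * z3 * t⁻¹ * z3⁻¹
  have hc2Z : ∀ t, cc2 t ∈ Zc 1 := fun t => comm_mem_ucs hz2 t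
  have hc3Z : ∀ t, cc3 t ∈ Zc 2 := fun t => comm_mem_ucs hz3 t
  have hc2mul : ∀ t s, cc2 (t * s) = cc2 s * cc2 t := by
    intro t s
    have h1 : t * cc2 s * t⁻¹ = cc2 s := by
      rw [central_of_mem_one (hc2Z s) t]
      group
    calc cc2 (t * s) = (t * cc2 s * t⁻¹) * cc2 t := by
          show t * s * z2 * (t * s)⁻¹ * z2⁻¹ = (t * (s * z2 * s⁻¹ * z2⁻¹) * t⁻¹) * (t * z2 * t⁻¹ * z2⁻¹)
          group
      _ = cc2 s * cc2 t := by rw [h1]
  have hc3mul : ∀ t s, cc3 (t * s) = (t * cc3 s * t⁻¹) * cc3 t := by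
    intro t s
    show t * s * z3 * (t * s)⁻¹ * z3⁻¹ = (t * (s * z3 * s⁻¹ * z3⁻¹) * t⁻¹) * (t * z3 * t⁻¹ * z3⁻¹)
    group
  have hconjY : ∀ t, ∀ y ∈ Zc 2, ind Y (t * y * t⁻¹) = ind Y y + ind Y (cc2 t) * ind (Zc 1) y := by
    intro t y hy
    have hyc : t * y * t⁻¹ * y⁻¹ ∈ Zc 2 := (Zc 2).mul_mem ((Subgroup.normal_of_characteristic _).conj_mem y hy t) ((Zc 2).inv_mem hy)
    have e : t * y * t⁻¹ = (t * y * t⁻¹ * y⁻¹) * y := by group
    rw [e, ind_mul hidxY hyc hy]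
    by_cases h : y ∈ Zc 1
    · have h1 : t * y * t⁻¹ * y⁻¹ = 1 := by
        rw [central_of_mem_one h t]
        group
      rw [h1, ind_of_mem h, ind_of_mem Y.one_mem]
      simp
    · have hy1 := (two_cases hidx1 hz2 hz2' hy).resolve_left h
      have h1 : t * y * t⁻¹ * y⁻¹ = cc2 t := by
        have hc := central_of_mem_one hy1 t⁻¹
        calc t * y * t⁻¹ * y⁻¹ = t * z2 * ((z2⁻¹ * y) * t⁻¹) * (z2⁻¹ * y)⁻¹ * z2⁻¹ := by group
          _ = t * z2 * (t⁻¹ * (z2⁻¹ * y)) * (z2⁻¹ * y)⁻¹ * z2⁻¹ := by rw [hc]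
          _ = cc2 t := by
            show _ = t * z2 * t⁻¹ * z2⁻¹
            group
      rw [h1, ind_of_not_mem h, mul_one, add_comm]
  let α : T → ZMod 2 := fun t => ind Y (cc2 t)
  let β : T → ZMod 2 := fun t => ind (Zc 1) (cc3 t)
  let γ : T → ZMod 2 := fun t => ind Y (cc3 t)
  have hZ2n : (Zc 2).Normal := Subgroup.normal_of_characteristic _
  have hZ1n : (Zc 1).Normal := Subgroup.normal_of_characteristic _
  have hα : ∀ t s, α (t * s) = α t + α s := by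
    intro t s
    show ind Y (cc2 (t * s)) = ind Y (cc2 t) + ind Y (cc2 s)
    rw [hc2mul, ind_mul hidxY (h12 (hc2Z s)) (h12 (hc2Z t)), add_comm]
  have hβ : ∀ t s, β (t * s) = β t + β s := by
    intro t s
    show ind (Zc 1) (cc3 (t * s)) = ind (Zc 1) (cc3 t) + ind (Zc 1) (cc3 s)
    rw [hc3mul, ind_mul hidx1 (hZ2n.conj_mem _ (hc3Z s) t) (hc3Z t), ind_conj_normal, add_comm]
  have hγ : ∀ t s, γ (t * s) = γ t + γ s + α t * β s := by
    intro t s
    show ind Y (cc3 (t * s)) = ind Y (cc3 t) + ind Y (cc3 s) + ind Y (cc2 t) * ind (Zc 1) (cc3 s)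
    rw [hc3mul, ind_mul hidxY (hZ2n.conj_mem _ (hc3Z s) t) (hc3Z t), hconjY t _ (hc3Z s)]
    ring
  let π : T →* DihedralGroup 4 := MonoidHom.mk' (fun t => code (α t) (β t) (γ t)) (fun t s => by
    show code (α (t * s)) (β (t * s)) (γ (t * s)) = code (α t) (β t) (γ t) * code (α s) (β s) (γ s)
    rw [hα, hβ, hγ, code_mul])
  have hπ : ∀ t, π t = code (α t) (β t) (γ t) := fun t => rfl
  have hker : π.ker = W := by
    ext t
    rw [MonoidHom.mem_ker, hπ]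
    constructor
    · intro h
      obtain ⟨h1, h2, h3⟩ := code_eq_one _ _ _ h
      have h1' : cc2 t ∈ Y := ind_eq_zero.1 h1
      have h2' : cc3 t ∈ Zc 1 := ind_eq_zero.1 h2
      have h3' : cc3 t ∈ Y := ind_eq_zero.1 h3
      have e2 : cc2 t = 1 := hYZ _ h1' (hc2Z t)
      have e3 : cc3 t = 1 := hYZ _ h3' h2'
      have hu2 : t * z2 = z2 * t := by
        have h4 : t * z2 * t⁻¹ * z2⁻¹ = 1 := e2
        calc t * z2 = (t * z2 * t⁻¹ * z2⁻¹) * z2 * t := by group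
          _ = z2 * t := by rw [h4, one_mul]
      have hu3 : t * z3 = z3 * t := by
        have h4 : t * z3 * t⁻¹ * z3⁻¹ = 1 := e3
        calc t * z3 = (t * z3 * t⁻¹ * z3⁻¹) * z3 * t := by group
          _ = z3 * t := by rw [h4, one_mul]
      have hcen := gen3 hT hidx1 hidx2 hz2 hz2' hz3 hz3' hu2 hu3
      have h5 : t ∈ Subgroup.centralizer ((Zc 3 : Subgroup T) : Set T) :=
        Subgroup.mem_centralizer_iff.2 (fun y hy => (hcen y hy).symm)
      exact hW.symm.le h5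
    · intro ht
      have ht' : t ∈ Subgroup.centralizer ((Zc 3 : Subgroup T) : Set T) := hW.le ht
      have hcom : ∀ y ∈ Zc 3, y * t = t * y := fun y hy => Subgroup.mem_centralizer_iff.1 ht' y hy
      have e2 : cc2 t = 1 := by
        show t * z2 * t⁻¹ * z2⁻¹ = 1
        rw [← hcom z2 (h23 hz2)]
        group
      have e3 : cc3 t = 1 := by
        show t * z3 * t⁻¹ * z3⁻¹ = 1
        rw [← hcom z3 hz3]
        group
      have h1 : α t = 0 := by
        show ind Y (cc2 t) = 0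
        rw [e2]
        exact ind_of_mem Y.one_mem
      have h2 : β t = 0 := by
        show ind (Zc 1) (cc3 t) = 0
        rw [e3]
        exact ind_of_mem (Zc 1).one_mem
      have h3 : γ t = 0 := by
        show ind Y (cc3 t) = 0
        rw [e3]
        exact ind_of_mem Y.one_mem
      rw [h1, h2, h3]
      exact code_zero
  have hsurj : Function.Surjective π := by
    rw [← MonoidHom.range_eq_top]
    apply Subgroup.eq_top_of_card_eq
    have h1 := Subgroup.index_ker π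
    rw [hker, hidx] at h1
    rw [← h1, DihedralGroup.nat_card]
  refine ⟨π, hker, hsurj, ?_⟩
  intro b hb ω hω hfix
  by_contra hωZ
  have hβb : β b = 1 := code_sr3 _ _ _ hb
  have hcb : cc3 b ∉ Zc 1 := ind_eq_one.1 hβb
  have hy := (two_cases hidx2 hz3 hz3' hω).resolve_left hωZ
  set y := z3⁻¹ * ω with hyd
  have hωe : ω = z3 * y := by rw [hyd]; group
  have hd : b * y * b⁻¹ * y⁻¹ ∈ Zc 1 := comm_mem_ucs hy b
  have hdc := central_of_mem_one hd z3
  have e : b * ω * b⁻¹ * ω⁻¹ = cc3 b * (z3 * (b * y * b⁻¹ * y⁻¹) * z3⁻¹) := by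
    rw [hωe]
    show _ = (b * z3 * b⁻¹ * z3⁻¹) * _
    group
  have e1 : b * ω * b⁻¹ * ω⁻¹ = 1 := by rw [hfix]; group
  rw [e1, hdc, mul_inv_cancel_right] at e
  apply hcb
  have e2 : cc3 b = (b * y * b⁻¹ * y⁻¹)⁻¹ := eq_inv_of_mul_eq_one_left e.symm
  rw [e2]
  exact (Zc 1).inv_mem hd

end stage1

section QCsec

variable {T : Type*} [Group T] [Finite T]

/-- The quadratic form on `W`. -/
noncomputable def qq (Z2 : Subgroup T) (u : T) : ZMod 2 := ind Z2 (u * u)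

/-- The bilinear form on `W`. -/
noncomputable def cm (Z2 : Subgroup T) (u v : T) : ZMod 2 := ind Z2 (u * v * u⁻¹ * v⁻¹)

/-- Hypotheses for the forms. -/
structure QC (W Z2 Z3 : Subgroup T) : Prop where
  nZ2 : Z2.Normal
  nZ3 : Z3.Normal
  hZW : Z3 ≤ W
  hcen : ∀ ξ ∈ Z3, ∀ w ∈ W, ξ * w = w * ξ
  hsq : ∀ w ∈ W, w * w ∈ Z3
  hcm : ∀ u ∈ W, ∀ v ∈ W, u * v * u⁻¹ * v⁻¹ ∈ Z3
  hidx : (Z2.subgroupOf Z3).index = 2
  helem : ∀ z ∈ Z3, z ^ 2 = 1

namespace QC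

variable {W Z2 Z3 : Subgroup T} (h : QC W Z2 Z3)
include h

theorem cm_mul_left {u v w : T} (hu : u ∈ W) (hv : v ∈ W) (hw : w ∈ W) :
    cm Z2 (u * v) w = cm Z2 u w + cm Z2 v w := by
  have hω := h.hcm v hv w hw
  have e : (u * v) * w * (u * v)⁻¹ * w⁻¹ = (v * w * v⁻¹ * w⁻¹) * (u * w * u⁻¹ * w⁻¹) := by
    calc (u * v) * w * (u * v)⁻¹ * w⁻¹ = u * (v * w * v⁻¹ * w⁻¹) * (w * u⁻¹ * w⁻¹) := by group
      _ = (v * w * v⁻¹ * w⁻¹) * u * (w * u⁻¹ * w⁻¹) := by rw [(h.hcen _ hω u hu).symm]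
      _ = _ := by group
  unfold cm
  rw [e, ind_mul h.hidx hω (h.hcm u hu w hw), add_comm]

theorem cm_symm (u v : T) : cm Z2 u v = cm Z2 v u := by
  unfold cm
  rw [← ind_inv]
  congr 1
  group

theorem cm_one_left (v : T) : cm Z2 1 v = 0 := by
  unfold cm
  have : (1 : T) * v * 1⁻¹ * v⁻¹ = 1 := by group
  rw [this]
  exact ind_of_mem Z2.one_mem

theorem cm_inv_left {u v : T} (hu : u ∈ W) (hv : v ∈ W) : cm Z2 u⁻¹ v = cm Z2 u v := by
  have h1 := h.cm_mul_left hu (W.inv_mem hu) hv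
  rw [mul_inv_cancel, h.cm_one_left] at h1
  have key : ∀ x y : ZMod 2, 0 = x + y → y = x := by decide
  exact key _ _ h1

theorem cm_mul_right {u v w : T} (hu : u ∈ W) (hv : v ∈ W) (hw : w ∈ W) :
    cm Z2 u (v * w) = cm Z2 u v + cm Z2 u w := by
  rw [h.cm_symm, h.cm_mul_left hv hw hu, h.cm_symm v, h.cm_symm w]

theorem cm_self (u : T) : cm Z2 u u = 0 := by
  unfold cm
  have : u * u * u⁻¹ * u⁻¹ = 1 := by group
  rw [this]
  exact ind_of_mem Z2.one_mem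

theorem qq_mul {u v : T} (hu : u ∈ W) (hv : v ∈ W) : qq Z2 (u * v) = qq Z2 u + qq Z2 v + cm Z2 u v := by
  have e : (u * v) * (u * v) = (u * u) * (u⁻¹ * v * u⁻¹⁻¹ * v⁻¹) * (v * v) := by group
  have h1 := h.hcm _ (W.inv_mem hu) _ hv
  unfold qq
  rw [e, ind_mul h.hidx (Z3.mul_mem (h.hsq u hu) h1) (h.hsq v hv),
    ind_mul h.hidx (h.hsq u hu) h1]
  have := h.cm_inv_left hu hv
  unfold cm at this ⊢
  rw [this]
  ring

theorem qq_inv (u : T) : qq Z2 u⁻¹ = qq Z2 u := by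
  unfold qq
  have e : u⁻¹ * u⁻¹ = (u * u)⁻¹ := by simp
  rw [e, ind_inv]

theorem cm_central {ξ v : T} (hξ : ξ ∈ Z3) (hv : v ∈ W) : cm Z2 ξ v = 0 := by
  unfold cm
  have : ξ * v * ξ⁻¹ * v⁻¹ = 1 := by
    rw [h.hcen ξ hξ v hv]
    group
  rw [this]
  exact ind_of_mem Z2.one_mem

theorem cm_cong_left {y y' v : T} (hy : y ∈ W) (hv : v ∈ W) (hh : y⁻¹ * y' ∈ Z3) : cm Z2 y' v = cm Z2 y v := by
  have e : y' = y * (y⁻¹ * y') := by group
  rw [e, h.cm_mul_left hy (h.hZW hh) hv, h.cm_central hh hv, add_zero]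

theorem cm_cong_right {y y' v : T} (hy : y ∈ W) (hv : v ∈ W) (hh : y⁻¹ * y' ∈ Z3) : cm Z2 v y' = cm Z2 v y := by
  rw [h.cm_symm, h.cm_cong_left hy hv hh, h.cm_symm]

theorem qq_cong {y y' : T} (hy : y ∈ W) (hh : y⁻¹ * y' ∈ Z3) : qq Z2 y' = qq Z2 y := by
  have e : y' = y * (y⁻¹ * y') := by group
  have h1 : qq Z2 (y⁻¹ * y') = 0 := by
    unfold qq
    have := h.helem _ hh
    rw [pow_two] at this
    rw [this]
    exact ind_of_mem Z2.one_mem
  rw [e, h.qq_mul hy (h.hZW hh), h1, h.cm_symm, h.cm_central hh hy]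
  simp

theorem cm_conj (t u v : T) : cm Z2 (t * u * t⁻¹) (t * v * t⁻¹) = cm Z2 u v := by
  haveI := h.nZ2
  unfold cm
  rw [← ind_conj_normal Z2 t (u * v * u⁻¹ * v⁻¹)]
  congr 1
  group

theorem qq_conj (t u : T) : qq Z2 (t * u * t⁻¹) = qq Z2 u := by
  haveI := h.nZ2
  unfold qq
  rw [← ind_conj_normal Z2 t (u * u)]
  congr 1
  group

end QC

end QCsec

section stage4

variable {T : Type*} [Group T] [Finite T]

local notation "Zc" => Subgroup.upperCentralSeries T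

/-- D8 facts -/
def dA : DihedralGroup 4 := .sr 0
def dB : DihedralGroup 4 := .sr 3
def dZ : DihedralGroup 4 := .r 2

/-- the delta function -/
def dlt (g : DihedralGroup 4) : ZMod 2 := if g = 1 then 1 else 0

/-- the indicator of the four-subgroup -/
def iA (g : DihedralGroup 4) : ZMod 2 := dlt g + dlt (g * dZ) + dlt (g * dA) + dlt (g * dA * dZ)

theorem iA_add : ∀ g, iA g + iA (g * dB) = 1 := by decide
theorem dB_sq : dB * dB = 1 := by decide
theorem dA_sq : dA * dA = 1 := by decide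
theorem dZ_sq : dZ * dZ = 1 := by decide
theorem dAZ : dA * dZ = dZ * dA := by decide
theorem d_cases : ∀ g : DihedralGroup 4, g = 1 ∨ g = dZ ∨ g = dA ∨ g = dA * dZ ∨ g = dB ∨ g = dZ * dB ∨ g = dA * dB ∨ g = dA * dZ * dB := by
  decide

theorem key_char2 : ∀ i f f2 e : ZMod 2, f + f2 = e → (1 + i) * f + (1 + (1 + i)) * f2 + e * i = f := by decide
theorem key1 : ∀ x : ZMod 2, x + x + 0 = 0 := by decide
theorem key2 : ∀ x y : ZMod 2, x + y + (y + x) = 0 := by decide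
theorem key3 : ∀ x y w : ZMod 2, x + x + (y + w + (w + y)) = 0 := by decide
theorem key4 : ∀ x y : ZMod 2, x + y = 0 → x = y := by decide
theorem key5 : ∀ x : ZMod 2, x = 0 ∨ x = 1 := by decide
theorem key6 : ∀ x y : ZMod 2, x + y = 1 → y = 1 + x := by decide

/-- Fourth stage: the centre of `W`. -/
theorem stage4 (hT : IsPGroup 2 T) (c1 : Nat.card ↥(Zc 1) = 2) (c2 : Nat.card ↥(Zc 2) = 4) (c3 : Nat.card ↥(Zc 3) = 8)
    (c4 : Nat.card ↥(Zc 4) = 16)
    (W : Subgroup T) [hWn : W.Normal] (hW : W = Subgroup.centralizer ((Zc 3 : Subgroup T) : Set T))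
    (hX : (frattini ↥W).map W.subtype = Zc 3)
    (hVidx : ((Zc 3).subgroupOf W).index = 2 ^ 8)
    (helem : ∀ z ∈ Zc 3, z ^ 2 = 1)
    (hd : ∀ U : Subgroup ↥W, U.index ≤ 16 → frattini ↥W ≤ U)
    (π : T →* DihedralGroup 4) (hker : π.ker = W) (hsurj : Function.Surjective π)
    (hbfix : ∀ b, π b = .sr 3 → ∀ ω ∈ Zc 3, b * ω * b⁻¹ = ω → ω ∈ Zc 2) :
    (Subgroup.center ↥W).map W.subtype = Zc 3 := by
  haveI : Fact (Nat.Prime 2) := ⟨Nat.prime_two⟩
  have hWp : IsPGroup 2 ↥W := hT.to_subgroup W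
  have hZW : Zc 3 ≤ W := by
    rw [← hX]
    exact Subgroup.map_subtype_le _
  have hcen : ∀ ξ ∈ Zc 3, ∀ w ∈ W, ξ * w = w * ξ := by
    intro ξ hξ w hw
    have h1 : w ∈ Subgroup.centralizer ((Zc 3 : Subgroup T) : Set T) := hW.le hw
    exact Subgroup.mem_centralizer_iff.1 h1 ξ hξ
  have hsq : ∀ w ∈ W, w * w ∈ Zc 3 := fun w hw => by
    rw [← hX]
    exact ⟨⟨w, hw⟩ ^ 2, Cfsg.Agent.Lib.Transfer.pow_mem_frattini hWp ⟨w, hw⟩, by simp [pow_two]⟩
  have hcm : ∀ u ∈ W, ∀ v ∈ W, u * v * u⁻¹ * v⁻¹ ∈ Zc 3 := fun u hu v hv => by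
    rw [← hX]
    exact ⟨_, Cfsg.Agent.Lib.Transfer.commutator_mem_frattini hWp ⟨u, hu⟩ ⟨v, hv⟩, rfl⟩
  have h23 : Zc 2 ≤ Zc 3 := Subgroup.upperCentralSeries_mono T (Nat.le_succ 2)
  have h34 : Zc 3 ≤ Zc 4 := Subgroup.upperCentralSeries_mono T (Nat.le_succ 3)
  have hidx2 : ((Zc 2).subgroupOf (Zc 3)).index = 2 := idx_two h23 (by omega)
  have hidx3 : ((Zc 3).subgroupOf (Zc 4)).index = 2 := idx_two h34 (by omega)
  haveI hZ2n : (Zc 2).Normal := Subgroup.normal_of_characteristic _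
  haveI hZ3n : (Zc 3).Normal := Subgroup.normal_of_characteristic _
  have Q : QC W (Zc 2) (Zc 3) := ⟨hZ2n, hZ3n, hZW, hcen, hsq, hcm, hidx2, helem⟩
  -- the centre
  set ZW : Subgroup T := (Subgroup.center ↥W).map W.subtype with hZWd
  haveI hZWn : ZW.Normal := map_char_normal W _
  have hZle : Zc 3 ≤ ZW := by
    intro ξ hξ
    refine ⟨⟨ξ, hZW hξ⟩, Subgroup.mem_center_iff.2 (fun w => Subtype.ext (hcen ξ hξ w w.2).symm), rfl⟩
  by_contra hne
  have hnot : ¬ ZW ≤ Zc 3 := fun h => hne (le_antisymm h hZle)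
  obtain ⟨x, hxZ, hxX, hxfix⟩ := exists_fixed hT (Zc 3) ZW hnot
  obtain ⟨x', hx'c, hx'e⟩ := hxZ
  have hxW : x ∈ W := by rw [← hx'e]; exact x'.2
  have hxcomm : ∀ w ∈ W, w * x = x * w := by
    intro w hw
    have := Subgroup.mem_center_iff.1 hx'c ⟨w, hw⟩
    rw [← hx'e]
    exact congrArg Subtype.val this
  have hfix : ∀ u ∈ W, (∀ t, u * t * u⁻¹ * t⁻¹ ∈ Zc 3) → u ∉ Zc 3 → x⁻¹ * u ∈ Zc 3 := by
    intro u _ hu huX
    rcases two_cases hidx3 (mem_ucs_succ.2 hxfix) hxX (mem_ucs_succ.2 hu) with h | h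
    · exact absurd h huX
    · exact h
  obtain ⟨M, hXM, hMW, hxM, hcov⟩ := hyper W (Zc 3) hZW hsq hcm x hxW hxX
  have hidxM : (M.subgroupOf W).index = 2 := idx_two_of_cov hxW hxM hcov
  let s : DihedralGroup 4 → T := Function.surjInv hsurj
  have hs0 : ∀ g, π (s g) = g := Function.surjInv_eq hsurj
  have hmemW : ∀ t, π t = 1 → t ∈ W := fun t ht => by rw [← hker]; exact ht
  have hs : ∀ t : T, ∃ g, (s g)⁻¹ * t ∈ W := fun t => ⟨π t, hmemW _ (by simp [hs0])⟩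
  obtain ⟨hinj, -, hsurjΨ⟩ := psi_main hT W (Zc 3) M hZW hXM hMW hcm x hxW hxM hcov hfix s hs
  have hcardD : Nat.card (DihedralGroup 4) = 8 := by rw [DihedralGroup.nat_card]
  have hΨs := hsurjΨ (by rw [hcardD]; exact hVidx)
  let Ψ : T → DihedralGroup 4 → ZMod 2 := fun u g => ind M (s g * u * (s g)⁻¹)
  have hcjW : ∀ (t u : T), u ∈ W → t * u * t⁻¹ ∈ W := fun t u hu => hWn.conj_mem u hu t
  have hΨmul : ∀ u ∈ W, ∀ v ∈ W, ∀ g, Ψ (u * v) g = Ψ u g + Ψ v g := by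
    intro u hu v hv g
    show ind M (s g * (u * v) * (s g)⁻¹) = ind M (s g * u * (s g)⁻¹) + ind M (s g * v * (s g)⁻¹)
    have e : s g * (u * v) * (s g)⁻¹ = (s g * u * (s g)⁻¹) * (s g * v * (s g)⁻¹) := by group
    rw [e, ind_mul hidxM (hcjW _ _ hu) (hcjW _ _ hv)]
  have hΨinv : ∀ u g, Ψ u⁻¹ g = Ψ u g := by
    intro u g
    show ind M (s g * u⁻¹ * (s g)⁻¹) = ind M (s g * u * (s g)⁻¹)
    have e : s g * u⁻¹ * (s g)⁻¹ = (s g * u * (s g)⁻¹)⁻¹ := by group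
    rw [e, ind_inv]
  have hΨcj : ∀ t, ∀ u ∈ W, ∀ g, Ψ (t * u * t⁻¹) g = Ψ u (g * π t) := by
    intro t u hu g
    show ind M (s g * (t * u * t⁻¹) * (s g)⁻¹) = ind M (s (g * π t) * u * (s (g * π t))⁻¹)
    obtain ⟨s', hs'⟩ : ∃ s', s' = s (g * π t) := ⟨_, rfl⟩
    rw [← hs']
    have hw₀ : s'⁻¹ * (s g * t) ∈ W := hmemW _ (by simp [hs', hs0])
    obtain ⟨w₀, hw₀d⟩ : ∃ w₀, w₀ = s'⁻¹ * (s g * t) := ⟨_, rfl⟩
    rw [← hw₀d] at hw₀
    have e1 : s g * t = s' * w₀ := by rw [hw₀d]; group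
    have e : s g * (t * u * t⁻¹) * (s g)⁻¹ = (s' * (w₀ * u * w₀⁻¹ * u⁻¹) * s'⁻¹) * (s' * u * s'⁻¹) := by
      calc s g * (t * u * t⁻¹) * (s g)⁻¹ = (s g * t) * u * (s g * t)⁻¹ := by group
        _ = _ := by rw [e1]; group
    rw [e, ind_mul hidxM (hcjW _ _ (hZW (hcm _ hw₀ _ hu))) (hcjW _ _ hu),
      ind_of_mem (hXM (hZ3n.conj_mem _ (hcm _ hw₀ _ hu) _)), zero_add]
  have hΨZ3 : ∀ ξ ∈ Zc 3, ∀ g, Ψ ξ g = 0 := fun ξ hξ g => ind_of_mem (hXM (hZ3n.conj_mem _ hξ _))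
  have hΨx : ∀ g, Ψ x g = 1 := by
    intro g
    show ind M (s g * x * (s g)⁻¹) = 1
    have e : s g * x * (s g)⁻¹ = (s g * x * (s g)⁻¹ * x⁻¹) * x := by group
    have h1 : s g * x * (s g)⁻¹ * x⁻¹ ∈ Zc 3 := comm_mem_ucs (mem_ucs_succ.2 hxfix) _
    rw [e, ind_mul hidxM (hZW h1) hxW, ind_of_mem (hXM h1), ind_of_not_mem hxM, zero_add]
  -- the three elements
  obtain ⟨a, ha⟩ : ∃ a, a = s dA := ⟨_, rfl⟩
  obtain ⟨b, hb⟩ : ∃ b, b = s dB := ⟨_, rfl⟩
  obtain ⟨z, hz⟩ : ∃ z, z = s dZ := ⟨_, rfl⟩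
  have hπa : π a = dA := by rw [ha, hs0]
  have hπb : π b = dB := by rw [hb, hs0]
  have hπz : π z = dZ := by rw [hz, hs0]
  have hcong : ∀ t t', π t = π t' → ∀ u ∈ W, (t * u * t⁻¹)⁻¹ * (t' * u * t'⁻¹) ∈ Zc 3 := by
    intro t t' h u hu
    have hw : t⁻¹ * t' ∈ W := hmemW _ (by simp [h])
    have h1 := hcm _ (W.inv_mem hu) _ hw
    have e : (t * u * t⁻¹)⁻¹ * (t' * u * t'⁻¹) = t * (u⁻¹ * (t⁻¹ * t') * u⁻¹⁻¹ * (t⁻¹ * t')⁻¹) * t⁻¹ := by group
    rw [e]
    exact hZ3n.conj_mem _ h1 _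
  have hcong1 : ∀ t, π t = 1 → ∀ u ∈ W, u⁻¹ * (t * u * t⁻¹) ∈ Zc 3 := by
    intro t ht u hu
    have := hcong 1 t (by rw [ht, map_one]) u hu
    simpa using this
  have hbbπ : π (b * b) = 1 := by rw [map_mul, hπb, dB_sq]
  have hzzπ : π (z * z) = 1 := by rw [map_mul, hπz, dZ_sq]
  have hC1 : ∀ u ∈ W, ∀ v ∈ W, cm (Zc 2) (b * u * b⁻¹) v = cm (Zc 2) u (b * v * b⁻¹) := by
    intro u hu v hv
    rw [← Q.cm_conj b (b * u * b⁻¹) v]
    have h2 := hcong1 (b * b) hbbπ u hu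
    have e : b * (b * u * b⁻¹) * b⁻¹ = (b * b) * u * (b * b)⁻¹ := by group
    rw [e]
    exact Q.cm_cong_left hu (hcjW _ _ hv) h2
  have hC2 : ∀ w ∈ W, cm (Zc 2) w (b * w * b⁻¹) = 0 := by
    intro w hw
    obtain ⟨y, hyd⟩ : ∃ y, y = b * w * b⁻¹ := ⟨_, rfl⟩
    rw [← hyd]
    have hy : y ∈ W := by rw [hyd]; exact hcjW _ _ hw
    have hω := hcm w hw y hy
    apply ind_of_mem
    apply hbfix b hπb _ hω
    have hbbW : b * b ∈ W := hmemW _ hbbπ
    have hξ := hcm _ hbbW _ hw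
    obtain ⟨ξ, hξd⟩ : ∃ ξ, ξ = (b * b) * w * (b * b)⁻¹ * w⁻¹ := ⟨_, rfl⟩
    rw [← hξd] at hξ
    have hby : b * y * b⁻¹ = ξ * w := by rw [hyd, hξd]; group
    have hcy := hcm y hy w hw
    have hξy : ξ * y = y * ξ := hcen ξ hξ y hy
    have hξc := hcen ξ hξ _ (hZW hcy)
    have e1 : b * (w * y * w⁻¹ * y⁻¹) * b⁻¹ = (b * w * b⁻¹) * (b * y * b⁻¹) * (b * w * b⁻¹)⁻¹ * (b * y * b⁻¹)⁻¹ := by group
    rw [e1, ← hyd, hby]
    have e2 : y * (ξ * w) * y⁻¹ * (ξ * w)⁻¹ = y * w * y⁻¹ * w⁻¹ := by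
      calc y * (ξ * w) * y⁻¹ * (ξ * w)⁻¹ = (y * ξ) * w * y⁻¹ * w⁻¹ * ξ⁻¹ := by group
        _ = (ξ * y) * w * y⁻¹ * w⁻¹ * ξ⁻¹ := by rw [hξy]
        _ = ξ * (y * w * y⁻¹ * w⁻¹) * ξ⁻¹ := by group
        _ = y * w * y⁻¹ * w⁻¹ := by rw [hξc]; group
    rw [e2]
    have h5 := helem _ hω
    rw [pow_two] at h5
    have e3 : y * w * y⁻¹ * w⁻¹ = (w * y * w⁻¹ * y⁻¹)⁻¹ := by group
    rw [e3]
    exact inv_eq_of_mul_eq_one_left h5
  obtain ⟨dd, hdd⟩ : ∃ dd : T → T, ∀ w, dd w = w⁻¹ * (b * w * b⁻¹) := ⟨_, fun _ => rfl⟩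
  have hddW : ∀ w ∈ W, dd w ∈ W := fun w hw => by
    rw [hdd]
    exact W.mul_mem (W.inv_mem hw) (hcjW _ _ hw)
  have hD1 : ∀ w ∈ W, qq (Zc 2) (dd w) = 0 := by
    intro w hw
    rw [hdd, Q.qq_mul (W.inv_mem hw) (hcjW _ _ hw), Q.qq_inv, Q.qq_conj, Q.cm_inv_left hw (hcjW _ _ hw), hC2 w hw]
    exact key1 _
  have hinvR : ∀ u ∈ W, ∀ v ∈ W, cm (Zc 2) u v⁻¹ = cm (Zc 2) u v := by
    intro u hu v hv
    rw [Q.cm_symm, Q.cm_inv_left hv hu, Q.cm_symm]
  have hD2 : ∀ u ∈ W, ∀ v ∈ W, cm (Zc 2) (dd u) (dd v) = 0 := by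
    intro u hu v hv
    rw [hdd u, hdd v, Q.cm_mul_left (W.inv_mem hu) (hcjW _ _ hu) (W.mul_mem (W.inv_mem hv) (hcjW _ _ hv)),
      Q.cm_mul_right (W.inv_mem hu) (W.inv_mem hv) (hcjW _ _ hv),
      Q.cm_mul_right (hcjW _ _ hu) (W.inv_mem hv) (hcjW _ _ hv),
      Q.cm_inv_left hu (W.inv_mem hv), Q.cm_inv_left hu (hcjW _ _ hv),
      hinvR u hu v hv, hinvR _ (hcjW _ _ hu) v hv, Q.cm_conj, hC1 u hu v hv]
    exact key2 _ _
  obtain ⟨e, heW, he⟩ := hΨs dlt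
  have he' : ∀ g, Ψ e g = dlt g := he
  obtain ⟨m, hmd⟩ : ∃ m, m = e * (z * e * z⁻¹) := ⟨_, rfl⟩
  have hmW : m ∈ W := by rw [hmd]; exact W.mul_mem heW (hcjW _ _ heW)
  obtain ⟨n, hnd⟩ : ∃ n, n = m * (a * m * a⁻¹) := ⟨_, rfl⟩
  have hnW : n ∈ W := by rw [hnd]; exact W.mul_mem hmW (hcjW _ _ hmW)
  have hΨm : ∀ g, Ψ m g = dlt g + dlt (g * dZ) := by
    intro g
    rw [hmd, hΨmul e heW _ (hcjW _ _ heW), hΨcj z e heW, he', he', hπz]
  have hΨn : ∀ g, Ψ n g = iA g := by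
    intro g
    rw [hnd, hΨmul m hmW _ (hcjW _ _ hmW), hΨcj a m hmW, hΨm, hΨm, hπa]
    unfold iA
    ring
  have hN1 : qq (Zc 2) n = 0 := by
    obtain ⟨p, hpd⟩ : ∃ p, p = a * e * a⁻¹ := ⟨_, rfl⟩
    obtain ⟨r, hrd⟩ : ∃ r, r = a * (z * e * z⁻¹) * a⁻¹ := ⟨_, rfl⟩
    have hpW : p ∈ W := by rw [hpd]; exact hcjW _ _ heW
    have hrW : r ∈ W := by rw [hrd]; exact hcjW _ _ (hcjW _ _ heW)
    have hzeW : z * e * z⁻¹ ∈ W := hcjW _ _ heW
    have haM : a * m * a⁻¹ = p * r := by rw [hmd, hpd, hrd]; group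
    have hcg : (z * p * z⁻¹)⁻¹ * r ∈ Zc 3 := by
      have := hcong (z * a) (a * z) (by rw [map_mul, map_mul, hπa, hπz, dAZ]) e heW
      have e1 : z * p * z⁻¹ = (z * a) * e * (z * a)⁻¹ := by rw [hpd]; group
      have e2 : r = (a * z) * e * (a * z)⁻¹ := by rw [hrd]; group
      rw [e1, e2]
      exact this
    have hcg' : r⁻¹ * (z * p * z⁻¹) ∈ Zc 3 := by
      have := (Zc 3).inv_mem hcg
      simpa using this
    have hzpW : z * p * z⁻¹ ∈ W := hcjW _ _ hpW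
    have h1 : cm (Zc 2) (z * e * z⁻¹) r = cm (Zc 2) e p := by
      rw [Q.cm_cong_right hzpW hzeW hcg, Q.cm_conj]
    have h2 : cm (Zc 2) (z * e * z⁻¹) p = cm (Zc 2) e r := by
      rw [← Q.cm_conj z (z * e * z⁻¹) p]
      have e1 : z * (z * e * z⁻¹) * z⁻¹ = (z * z) * e * (z * z)⁻¹ := by group
      rw [e1, Q.cm_cong_left heW hzpW (hcong1 (z * z) hzzπ e heW), Q.cm_cong_right hrW heW hcg']
    rw [hnd, Q.qq_mul hmW (hcjW _ _ hmW), Q.qq_conj, haM, hmd,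
      Q.cm_mul_left heW hzeW (W.mul_mem hpW hrW), Q.cm_mul_right heW hpW hrW, Q.cm_mul_right hzeW hpW hrW, h1, h2]
    exact key3 _ _ _
  obtain ⟨xh, hxhd⟩ : ∃ xh, xh = n * (b * n * b⁻¹) := ⟨_, rfl⟩
  have hxhW : xh ∈ W := by rw [hxhd]; exact W.mul_mem hnW (hcjW _ _ hnW)
  have hΨxh : ∀ g, Ψ xh g = 1 := by
    intro g
    rw [hxhd, hΨmul n hnW _ (hcjW _ _ hnW), hΨcj b n hnW, hΨn, hΨn, hπb]
    exact iA_add g
  have hxxh : x⁻¹ * xh ∈ Zc 3 := hinj x hxW xh hxhW (fun g => by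
    show Ψ x g = Ψ xh g
    rw [hΨx, hΨxh])
  have hcmx : ∀ w ∈ W, cm (Zc 2) w xh = 0 := by
    intro w hw
    rw [Q.cm_cong_right hxW hw hxxh]
    unfold cm
    have e1 : w * x * w⁻¹ * x⁻¹ = 1 := by rw [hxcomm w hw]; group
    rw [e1]
    exact ind_of_mem (Zc 2).one_mem
  have hN2 : ∀ w ∈ W, cm (Zc 2) (dd w) n = 0 := by
    intro w hw
    rw [hdd, Q.cm_mul_left (W.inv_mem hw) (hcjW _ _ hw) hnW, Q.cm_inv_left hw hnW, hC1 w hw n hnW,
      ← Q.cm_mul_right hw hnW (hcjW _ _ hnW), ← hxhd]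
    exact hcmx w hw
  -- the subgroup P
  obtain ⟨V, hV⟩ : ∃ V : T → DihedralGroup 4 → ZMod 2, ∀ u g, V u g = Ψ u g + Ψ u (g * dB) := ⟨_, fun _ _ => rfl⟩
  have hVmul : ∀ u ∈ W, ∀ v ∈ W, ∀ g, V (u * v) g = V u g + V v g := by
    intro u hu v hv g
    rw [hV, hV, hV, hΨmul u hu v hv, hΨmul u hu v hv]
    ring
  have hVdB : ∀ u g, V u (g * dB) = V u g := by
    intro u g
    rw [hV, hV, mul_assoc, dB_sq, mul_one, add_comm]
  let f : ↥W →* Multiplicative (ZMod 2 × ZMod 2 × ZMod 2) := MonoidHom.mk'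
    (fun u => Multiplicative.ofAdd (V u dZ + V u 1, V u dA + V u 1, V u (dA * dZ) + V u 1)) (by
      intro u v
      rw [← ofAdd_add]
      congr 1
      show (V ((u : T) * v) dZ + V ((u : T) * v) 1, V ((u : T) * v) dA + V ((u : T) * v) 1,
        V ((u : T) * v) (dA * dZ) + V ((u : T) * v) 1) = _
      simp only [hVmul u u.2 v v.2, Prod.mk_add_mk]
      refine Prod.ext (by simp only; ring) (Prod.ext (by simp only; ring) (by simp only; ring)))
  have hfker : ∀ u : ↥W, u ∈ f.ker → ∀ g, V u g = V u 1 := by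
    intro u hu g
    have h0 : Multiplicative.ofAdd (V u dZ + V u 1, V u dA + V u 1, V u (dA * dZ) + V u 1) = 1 := hu
    have h1 : (V u dZ + V u 1, V u dA + V u 1, V u (dA * dZ) + V u 1) = 0 := ofAdd_eq_one.1 h0
    have hZ : V u dZ = V u 1 := key4 _ _ (congrArg Prod.fst h1)
    have hA : V u dA = V u 1 := key4 _ _ (congrArg (fun p => p.2.1) h1)
    have hAZ : V u (dA * dZ) = V u 1 := key4 _ _ (congrArg (fun p => p.2.2) h1)
    have hB : V u dB = V u 1 := by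
      have := hVdB u 1
      rwa [one_mul] at this
    rcases d_cases g with rfl | rfl | rfl | rfl | rfl | rfl | rfl | rfl
    · rfl
    · exact hZ
    · exact hA
    · exact hAZ
    · exact hB
    · rw [hVdB, hZ]
    · rw [hVdB, hA]
    · rw [hVdB, hAZ]
  have hPidx : f.ker.index ≤ 8 := by
    rw [Subgroup.index_ker]
    have h1 : Nat.card f.range ≤ Nat.card (Multiplicative (ZMod 2 × ZMod 2 × ZMod 2)) := Subgroup.card_le_card_group _
    have h2 : Nat.card (Multiplicative (ZMod 2 × ZMod 2 × ZMod 2)) = 8 := by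
      rw [Nat.card_congr Multiplicative.ofAdd.symm, Nat.card_prod, Nat.card_prod, Nat.card_zmod]
    omega
  have hdec : ∀ u : ↥W, u ∈ f.ker → ∃ y ∈ W, (∃ w ∈ W, y = dd w ∨ y = dd w * n) ∧ y⁻¹ * (u : T) ∈ Zc 3 := by
    intro u hu
    obtain ⟨w, hw, hwΨ⟩ := hΨs (fun h => (1 + iA h) * Ψ u h)
    have hwΨ' : ∀ h, Ψ w h = (1 + iA h) * Ψ u h := hwΨ
    have hddΨ : ∀ g, Ψ (dd w) g = (1 + iA g) * Ψ u g + (1 + (1 + iA g)) * Ψ u (g * dB) := by
      intro g
      rw [hdd, hΨmul _ (W.inv_mem hw) _ (hcjW _ _ hw), hΨinv, hΨcj b w hw, hπb, hwΨ', hwΨ',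
        key6 _ _ (iA_add g)]
    have hVg : ∀ g, Ψ u g + Ψ u (g * dB) = V u 1 := by
      intro g
      rw [← hV]
      exact hfker u hu g
    rcases key5 (V u 1) with h0 | h1
    · refine ⟨dd w, hddW w hw, ⟨w, hw, Or.inl rfl⟩, ?_⟩
      apply hinj _ (hddW w hw) _ u.2
      intro g
      show Ψ (dd w) g = Ψ u g
      rw [hddΨ]
      have := key_char2 (iA g) (Ψ u g) (Ψ u (g * dB)) (V u 1) (hVg g)
      rw [h0, zero_mul, add_zero] at this
      exact this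
    · refine ⟨dd w * n, W.mul_mem (hddW w hw) hnW, ⟨w, hw, Or.inr rfl⟩, ?_⟩
      apply hinj _ (W.mul_mem (hddW w hw) hnW) _ u.2
      intro g
      show Ψ (dd w * n) g = Ψ u g
      rw [hΨmul _ (hddW w hw) _ hnW, hddΨ, hΨn]
      have := key_char2 (iA g) (Ψ u g) (Ψ u (g * dB)) (V u 1) (hVg g)
      rw [h1, one_mul] at this
      exact this
  have hSq : ∀ y, (∃ w ∈ W, y = dd w ∨ y = dd w * n) → qq (Zc 2) y = 0 := by
    rintro y ⟨w, hw, rfl | rfl⟩
    · exact hD1 w hw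
    · rw [Q.qq_mul (hddW w hw) hnW, hD1 w hw, hN1, hN2 w hw]
      rfl
  have hSc : ∀ y y', (∃ w ∈ W, y = dd w ∨ y = dd w * n) → (∃ w ∈ W, y' = dd w ∨ y' = dd w * n) → cm (Zc 2) y y' = 0 := by
    rintro y y' ⟨w, hw, rfl | rfl⟩ ⟨w', hw', rfl | rfl⟩
    · exact hD2 w hw w' hw'
    · rw [Q.cm_mul_right (hddW w hw) (hddW w' hw') hnW, hD2 w hw w' hw', hN2 w hw]
      rfl
    · rw [Q.cm_mul_left (hddW w hw) hnW (hddW w' hw'), hD2 w hw w' hw', Q.cm_symm n, hN2 w' hw']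
      rfl
    · rw [Q.cm_mul_left (hddW w hw) hnW (W.mul_mem (hddW w' hw') hnW),
        Q.cm_mul_right (hddW w hw) (hddW w' hw') hnW, Q.cm_mul_right hnW (hddW w' hw') hnW,
        hD2 w hw w' hw', hN2 w hw, Q.cm_symm n, hN2 w' hw', Q.cm_self]
      rfl
  have hPq : ∀ u : ↥W, u ∈ f.ker → (u : T) * (u : T) ∈ Zc 2 := by
    intro u hu
    obtain ⟨y, hy, hyS, hyu⟩ := hdec u hu
    have := Q.qq_cong hy hyu
    rw [hSq y hyS] at this
    exact ind_eq_zero.1 this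
  have hPc : ∀ u : ↥W, u ∈ f.ker → ∀ v : ↥W, v ∈ f.ker → (u : T) * v * (u : T)⁻¹ * (v : T)⁻¹ ∈ Zc 2 := by
    intro u hu v hv
    obtain ⟨y, hy, hyS, hyu⟩ := hdec u hu
    obtain ⟨y', hy', hyS', hyu'⟩ := hdec v hv
    have h1 := Q.cm_cong_left hy v.2 hyu
    have h2 := Q.cm_cong_right hy' hy hyu'
    have h3 : cm (Zc 2) (u : T) (v : T) = 0 := by rw [h1, h2]; exact hSc y y' hyS hyS'
    exact ind_eq_zero.1 h3
  have hZ3ker : ∀ u : ↥W, (u : T) ∈ Zc 3 → u ∈ f.ker := by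
    intro u hu
    have hV0 : ∀ g, V u g = 0 := by
      intro g
      rw [hV, hΨZ3 _ hu, hΨZ3 _ hu]
      rfl
    show Multiplicative.ofAdd (V u dZ + V u 1, V u dA + V u 1, V u (dA * dZ) + V u 1) = 1
    rw [hV0, hV0, hV0, hV0]
    rfl
  obtain ⟨z3, hz3, hz3'⟩ : ∃ z3 ∈ Zc 3, z3 ∉ Zc 2 := by
    by_contra hcon
    push Not at hcon
    have h1 : Nat.card ↥(Zc 3) ≤ Nat.card ↥(Zc 2) := Subgroup.card_le_of_le hcon
    omega
  obtain ⟨U, hXU, hUP, hcU, hcovU⟩ := hyper (G := ↥W) f.ker ((Zc 2).subgroupOf W)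
    (fun g hg => hZ3ker g (h23 hg))
    (fun g hg => Subgroup.mem_subgroupOf.2 (hPq g hg))
    (fun u hu v hv => Subgroup.mem_subgroupOf.2 (hPc u hu v hv))
    ⟨z3, hZW hz3⟩ (hZ3ker _ hz3) (fun h => hz3' (Subgroup.mem_subgroupOf.1 h))
  have hUidx : U.index ≤ 16 := by
    have h1 := Subgroup.relIndex_mul_index hUP
    have h2 : U.relIndex f.ker ≤ 2 := rel_le_two _ hcovU
    rw [← h1]
    nlinarith
  have hfr := hd U hUidx
  have hz3X : z3 ∈ (frattini ↥W).map W.subtype := by rw [hX]; exact hz3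
  obtain ⟨y, hy, hyz⟩ := hz3X
  have hyU := hfr hy
  apply hcU
  have e : (⟨z3, hZW hz3⟩ : ↥W) = y := Subtype.ext hyz.symm
  rw [e]
  exact hyU

end stage4

/-- The main theorem. -/
theorem main {T : Type*} [Group T] [Finite T]
    (hT : IsPGroup 2 T) (ha : 2 ^ 14 ≤ Nat.card T) (hb : Nat.card ↥(Subgroup.upperCentralSeries T 4) = 16)
    (W : Subgroup T) (hW : W = Subgroup.centralizer ((Subgroup.upperCentralSeries T 3 : Subgroup T) : Set T))
    (hc : Nat.card ↥(frattini ↥W) ≤ 8) (hd : ∀ U : Subgroup ↥W, U.index ≤ 16 → frattini ↥W ≤ U) :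
    Nat.card T = 2 ^ 14 ∧
      (commutator ↥W).map W.subtype = Subgroup.upperCentralSeries T 3 ∧
      (frattini ↥W).map W.subtype = Subgroup.upperCentralSeries T 3 ∧
      Nat.card ↥(Subgroup.center ↥W) = 8 ∧
      Nat.card ↥(Subgroup.upperCentralSeries T 3) = 8 ∧ (∀ z ∈ Subgroup.upperCentralSeries T 3, z ^ 2 = 1) ∧
      (∃ (_ : W.Normal), Nonempty (T ⧸ W ≃* DihedralGroup 4)) ∧
      Nat.card (↥W ⧸ commutator ↥W) = 2 ^ 8 ∧ (∀ x : ↥W ⧸ commutator ↥W, x ^ 2 = 1) := by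
  haveI : Fact (Nat.Prime 2) := ⟨Nat.prime_two⟩
  obtain ⟨c1, c2, c3, hWn, hX, hidx, hVidx, hcard⟩ := stage1 hT ha hb W hW hc
  haveI := hWn
  obtain ⟨hC, helem⟩ := stage2 hT c1 c2 c3 W hW hX hd
  obtain ⟨π, hker, hsurj, hbfix⟩ := stage3 hT c1 c2 c3 W hW hidx helem
  have hZ := stage4 hT c1 c2 c3 hb W hW hX hVidx helem hd π hker hsurj hbfix
  have hWp : IsPGroup 2 ↥W := hT.to_subgroup W
  have hCF : commutator ↥W = frattini ↥W :=
    Subgroup.map_injective W.subtype_injective (hC.trans hX.symm)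
  refine ⟨hcard, hC, hX, ?_, c3, helem, ⟨hWn, ?_⟩, ?_, ?_⟩
  · rw [← c3, ← hZ]
    exact Nat.card_congr (Subgroup.equivMapOfInjective _ _ W.subtype_injective).toEquiv
  · have e1 : T ⧸ W ≃* T ⧸ π.ker := QuotientGroup.quotientMulEquivOfEq hker.symm
    exact ⟨e1.trans (QuotientGroup.quotientKerEquivOfSurjective π hsurj)⟩
  · rw [hCF]
    have h1 : (frattini ↥W).index = ((Subgroup.upperCentralSeries T 3).subgroupOf W).index := by
      congr 1
      rw [← hX]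
      ext y
      rw [Subgroup.mem_subgroupOf]
      constructor
      · intro hy
        exact ⟨y, hy, rfl⟩
      · rintro ⟨y', hy', hyy⟩
        have : y' = y := Subtype.ext hyy
        rwa [← this]
    rw [← hVidx, ← h1]
    rfl
  · intro x
    obtain ⟨w, rfl⟩ := QuotientGroup.mk_surjective x
    rw [← QuotientGroup.mk_pow, QuotientGroup.eq_one_iff, hCF]
    exact Cfsg.Agent.Lib.Transfer.pow_mem_frattini hWp w

end Cfsg.Agent.Lib.Misc19.W14
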