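import Mathlib
import Cfsg.Prelude.Def_LieExceptional
import Cfsg.Agent.S0033
import Cfsg.Agent.S0035
import Cfsg.Agent.Lib.OddLocal.FrobComp
import Cfsg.Agent.Lib.TwoFusion.ZassField

set_option autoImplicit false
set_option linter.style.haveILetI false

namespace Cfsg.Agent.Lib.Misc19

section FieldPart

variable {F : Type*} [Field F] [Finite F]

/-- A ring automorphism of a finite field of characteristic two is a power of the Frobenius map. -/
lemma exists_frob_exp (h2 : (2 : F) = 0) (α : F ≃+* F) :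
    ∃ e, ∀ x : F, α x = x ^ (2 ^ e) := by
  classical
  haveI : CharP F 2 := CharTwo.of_one_ne_zero_of_two_eq_zero one_ne_zero h2
  letI : Algebra (ZMod 2) F := ZMod.algebra F 2
  haveI : Fintype F := Fintype.ofFinite F
  have hcom : ∀ r : ZMod 2, α (algebraMap (ZMod 2) F r) = algebraMap (ZMod 2) F r := by
    intro r
    have : ∀ r : ZMod 2, r = 0 ∨ r = 1 := by decide
    rcases this r with rfl | rfl
    · rw [map_zero, map_zero]
    · rw [map_one, map_one]
  let α' : F ≃ₐ[ZMod 2] F := AlgEquiv.ofRingEquiv (f := α) hcom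
  obtain ⟨⟨e, he⟩, hE⟩ := (FiniteField.bijective_frobeniusAlgEquivOfAlgebraic_pow (ZMod 2) F).2 α'
  refine ⟨e, fun x => ?_⟩
  have hpow : ∀ (k : ℕ) (x : F), ((FiniteField.frobeniusAlgEquivOfAlgebraic (ZMod 2) F) ^ k) x = x ^ (2 ^ k) := by
    intro k
    induction k with
    | zero => intro x; simp
    | succ k ih =>
      intro x
      rw [pow_succ', AlgEquiv.mul_apply, ih, FiniteField.coe_frobeniusAlgEquivOfAlgebraic, ZMod.card]
      change (x ^ 2 ^ k) ^ 2 = _
      rw [← pow_mul, pow_succ]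
  have : α' x = (FiniteField.frobeniusAlgEquivOfAlgebraic (ZMod 2) F ^ e) x := by
    rw [← hE]
  rw [hpow] at this
  exact this

/-- Elements fixed by a power of the Frobenius map. -/
lemma exists_fixed_of_dvd {m d : ℕ} (hF : Nat.card F = 2 ^ m) (hd : d ∣ m) (hd1 : 1 < d) (hm : 0 < m) :
    ∃ x : F, x ≠ 0 ∧ x ≠ 1 ∧ x ^ (2 ^ d) = x := by
  classical
  haveI : Fintype F := Fintype.ofFinite F
  have hcard : Nat.card Fˣ = 2 ^ m - 1 := by
    rw [Nat.card_units, hF]
  obtain ⟨g, hg⟩ := IsCyclic.exists_generator (α := Fˣ)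
  have hog : orderOf g = 2 ^ m - 1 := by
    rw [orderOf_eq_card_of_forall_mem_zpowers hg, hcard]
  have hn1 : 1 < 2 ^ d - 1 := by
    have : 2 ^ 2 ≤ 2 ^ d := Nat.pow_le_pow_right (by norm_num) hd1
    omega
  have hdvd : 2 ^ d - 1 ∣ 2 ^ m - 1 := by
    exact Nat.pow_sub_one_dvd_pow_sub_one 2 hd
  obtain ⟨c, hc⟩ := hdvd
  have hcpos : 0 < c := by
    rcases Nat.eq_zero_or_pos c with h | h
    · subst h
      have : 2 ^ 1 ≤ 2 ^ m := Nat.pow_le_pow_right (by norm_num) hm
      omega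
    · exact h
  let u : Fˣ := g ^ c
  have huord : orderOf u = 2 ^ d - 1 := by
    rw [orderOf_pow_of_dvd (Nat.pos_iff_ne_zero.mp hcpos) (by rw [hog, hc]; exact Dvd.intro_left _ rfl), hog, hc]
    exact Nat.mul_div_cancel _ hcpos
  refine ⟨(u : F), u.ne_zero, ?_, ?_⟩
  · intro h
    have h1 : u = 1 := Units.ext h
    rw [h1, orderOf_one] at huord
    omega
  · have h1 : u ^ (2 ^ d - 1) = 1 := by rw [← huord]; exact pow_orderOf_eq_one u
    have h2 : (u : F) ^ (2 ^ d - 1) = 1 := by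
      have := congrArg Units.val h1
      simpa using this
    have h3 : 2 ^ d = (2 ^ d - 1) + 1 := by
      have : 1 ≤ 2 ^ d := Nat.one_le_two_pow
      omega
    rw [h3, pow_succ, h2, one_mul]

lemma not_all_fixed {m d : ℕ} (hF : Nat.card F = 2 ^ m) (hd : 0 < d) (hdm : d < m) :
    ¬ ∀ y : F, y ^ (2 ^ d) = y := by
  classical
  intro hall
  haveI : Fintype F := Fintype.ofFinite F
  have hcard : Nat.card Fˣ = 2 ^ m - 1 := by
    rw [Nat.card_units, hF]
  obtain ⟨g, hg⟩ := IsCyclic.exists_generator (α := Fˣ)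
  have hog : orderOf g = 2 ^ m - 1 := by
    rw [orderOf_eq_card_of_forall_mem_zpowers hg, hcard]
  have h1 : g ^ (2 ^ d - 1) = 1 := by
    apply Units.ext
    have h3 : 2 ^ d = (2 ^ d - 1) + 1 := by
      have : 1 ≤ 2 ^ d := Nat.one_le_two_pow
      omega
    have h4 := hall (g : F)
    rw [h3, pow_succ] at h4
    have h5 : (g : F) ≠ 0 := g.ne_zero
    have h6 : (g : F) ^ (2 ^ d - 1) = 1 := mul_right_cancel₀ h5 (by rw [h4, one_mul])
    simpa using h6
  have h2 : orderOf g ∣ 2 ^ d - 1 := orderOf_dvd_of_pow_eq_one h1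
  have h3 : 2 ^ m - 1 ≤ 2 ^ d - 1 := by
    rw [← hog]
    apply Nat.le_of_dvd _ h2
    have : 2 ^ 1 ≤ 2 ^ d := Nat.pow_le_pow_right (by norm_num) hd
    omega
  have h4 : 2 ^ (d + 1) ≤ 2 ^ m := Nat.pow_le_pow_right (by norm_num) hdm
  have h5 : 0 < 2 ^ d := by positivity
  rw [pow_succ] at h4
  omega

/-- The arithmetic conclusion. -/
theorem prime_of_frob {m : ℕ} (hF : Nat.card F = 2 ^ m) (hm2 : 2 ≤ m) (h2 : (2 : F) = 0)
    (α : F ≃+* F) (hne : ∃ x, α x ≠ x)
    (hfix : ∀ (j : ℕ) (x : F), x ≠ 0 → x ≠ 1 → (α ^ j) x = x → ∀ y, (α ^ j) y = y) : m.Prime := by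
  classical
  haveI : Fintype F := Fintype.ofFinite F
  obtain ⟨e, he⟩ := exists_frob_exp h2 α
  have hαj : ∀ (j : ℕ) (x : F), (α ^ j) x = x ^ (2 ^ (e * j)) := by
    intro j
    induction j with
    | zero => intro x; simp
    | succ j ih =>
      intro x
      rw [pow_succ']
      change α ((α ^ j) x) = _
      rw [ih, he, ← pow_mul, mul_add, mul_one, pow_add]
  have hcardm : ∀ x : F, x ^ (2 ^ m) = x := by
    intro x
    have := FiniteField.pow_card x
    rwa [← Nat.card_eq_fintype_card, hF] at this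
  have hcardmt : ∀ (t : ℕ) (x : F), x ^ (2 ^ (m * t)) = x := by
    intro t
    induction t with
    | zero => intro x; simp
    | succ t ih =>
      intro x
      rw [mul_add, mul_one, pow_add, pow_mul, ih, hcardm]
  have hfixmul : ∀ (d : ℕ) (x : F), x ^ (2 ^ d) = x → ∀ t, x ^ (2 ^ (d * t)) = x := by
    intro d x hx t
    induction t with
    | zero => simp
    | succ t ih =>
      rw [mul_add, mul_one, pow_add, pow_mul, ih, hx]
  have hm0 : 0 < m := by omega
  -- the exponent is prime to the degree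
  have hcop : Nat.Coprime e m := by
    by_contra hg
    have hg1 : 1 < Nat.gcd e m := by
      have hne0 : Nat.gcd e m ≠ 0 := Nat.gcd_ne_zero_right (by omega)
      have : Nat.gcd e m ≠ 1 := hg
      omega
    obtain ⟨x, hx0, hx1, hx⟩ := exists_fixed_of_dvd hF (Nat.gcd_dvd_right e m) hg1 hm0
    obtain ⟨t, ht⟩ := Nat.gcd_dvd_left e m
    have hx2 : (α ^ 1) x = x := by
      rw [hαj, mul_one]
      conv_lhs => rw [ht]
      exact hfixmul _ x hx t
    have hall := hfix 1 x hx0 hx1 hx2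
    obtain ⟨y, hy⟩ := hne
    apply hy
    have := hall y
    simpa using this
  rw [Nat.prime_def]
  refine ⟨by omega, fun d hd => ?_⟩
  by_contra hcon
  push Not at hcon
  have hd1 : 1 < d := by
    have : d ≠ 0 := by
      rintro rfl
      omega
    omega
  have hdm : d < m := lt_of_le_of_ne (Nat.le_of_dvd hm0 hd) hcon.2
  obtain ⟨x, hx0, hx1, hx⟩ := exists_fixed_of_dvd hF hd hd1 hm0
  obtain ⟨k, -, hk⟩ := Nat.exists_mul_mod_eq_one_of_coprime hcop (by omega)
  have hek : e * k = 1 + m * (e * k / m) := by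
    conv_lhs => rw [← Nat.mod_add_div (e * k) m, hk]
  have hej : e * (k * d) = d + m * ((e * k / m) * d) := by
    calc e * (k * d) = (e * k) * d := by ring
      _ = (1 + m * (e * k / m)) * d := by rw [← hek]
      _ = _ := by ring
  have hpowd : ∀ y : F, (α ^ (k * d)) y = y ^ (2 ^ d) := by
    intro y
    rw [hαj, hej, pow_add, mul_comm (2 ^ d), pow_mul, hcardmt]
  have hxf : (α ^ (k * d)) x = x := by rw [hpowd, hx]
  have hall := hfix (k * d) x hx0 hx1 hxf
  exact not_all_fixed hF (by omega) hdm (fun y => by rw [← hpowd, hall])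

end FieldPart


section GroupPart

open MulAction
open scoped Pointwise

variable {G Ω : Type*} [Group G] [MulAction G Ω]

/-- The Frobenius kernel of a point stabiliser, for a group which is doubly transitive with trivial
three-point stabilisers. -/
theorem stab_kernel [Finite G] [Fintype Ω]
    (h2 : ∀ a b c d : Ω, a ≠ b → c ≠ d → ∃ g : G, g • a = c ∧ g • b = d)
    (h3 : ∀ g : G, ∀ a b c : Ω, a ≠ b → b ≠ c → a ≠ c → g • a = a → g • b = b → g • c = c → g = 1)
    {a b c₀ : Ω} (hab : a ≠ b) (hg : ∃ g : G, g ≠ 1 ∧ g • a = a ∧ g • b = b)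
    (hc₀a : c₀ ≠ a) (hc₀b : c₀ ≠ b) :
    ∃ F : Subgroup G, Nat.card F + 1 = Fintype.card Ω ∧ F ≤ stabilizer G a ∧
      (∀ u ∈ F, u ≠ 1 → ∀ c : Ω, u • c = c → c = a) ∧
      (∀ x : G, x • a = a → ∀ u ∈ F, x * u * x⁻¹ ∈ F) ∧
      (∀ c : Ω, c ≠ a → ∃ u ∈ F, u • b = c) := by
  classical
  let G' := stabilizer G a
  let H' : Subgroup G' := (stabilizer G b).subgroupOf G'
  have hmemH : ∀ g : G', g ∈ H' ↔ (g : G) • b = b := fun g => Iff.rfl
  have htrans : ∀ c : Ω, c ≠ a → ∃ g : G', (g : G) • b = c := by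
    intro c hc
    obtain ⟨g, h1, h2⟩ := h2 a b a c hab hc.symm
    exact ⟨⟨g, h1⟩, h2⟩
  have hFC : Cfsg.IsFrobeniusComplement H' := by
    refine ⟨?_, ?_, ?_⟩
    · intro h
      obtain ⟨g, hg, h1, h2⟩ := hg
      have : (⟨g, h1⟩ : G') ∈ H' := h2
      rw [h, Subgroup.mem_bot] at this
      exact hg (congrArg Subtype.val this)
    · intro h
      obtain ⟨g, hg⟩ := htrans c₀ hc₀a
      have : g ∈ H' := by rw [h]; trivial
      rw [hmemH, hg] at this
      exact hc₀b this
    · intro g hg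
      rw [eq_bot_iff]
      rintro x ⟨hx1, hx2⟩
      rw [Subgroup.mem_bot]
      have hx3 := (Subgroup.mem_pointwise_smul_iff_inv_smul_mem).mp hx2
      have hx4 : (g : G)⁻¹ * x * g ∈ stabilizer G b := by
        have : (MulAut.conj g)⁻¹ • x ∈ H' := hx3
        have h5 : (((MulAut.conj g)⁻¹ • x : G') : G) = (g : G)⁻¹ * x * g := by
          simp [MulAut.smul_def]
        have h6 : (((MulAut.conj g)⁻¹ • x : G') : G) ∈ stabilizer G b := this
        rwa [h5] at h6
      have hx5 : (x : G) • ((g : G) • b) = (g : G) • b := by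
        have h7 : ((g : G)⁻¹ * x * g) • b = b := hx4
        simp only [mul_smul] at h7
        rw [inv_smul_eq_iff] at h7
        exact h7
      have hgb : (g : G) • b ≠ a := by
        intro h
        have h8 : (g : G) • a = a := g.2
        exact hab ((smul_left_cancel (g : G) (h.trans h8.symm))).symm
      have hgb2 : b ≠ (g : G) • b := fun h => hg ((hmemH g).mpr h.symm)
      apply Subtype.ext
      exact h3 x a b _ hab hgb2 hgb.symm x.2 hx1 hx5
  obtain ⟨N, hNset, hNn, hNc⟩ := Cfsg.Agent.S0035.result H' hFC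
  have hfree : ∀ u ∈ N, u ≠ 1 → ∀ c : Ω, (u : G) • c = c → c = a := by
    intro u hu hu1 c hc
    by_contra hca
    obtain ⟨g, hg⟩ := htrans c hca
    have hk : u ∈ Cfsg.frobeniusKernel H' := by rw [← hNset]; exact hu
    rcases hk with h | h
    · exact hu1 h
    · apply h g
      rw [Subgroup.mem_pointwise_smul_iff_inv_smul_mem]
      change (((MulAut.conj g)⁻¹ • u : G') : G) • b = b
      have h5 : (((MulAut.conj g)⁻¹ • u : G') : G) = (g : G)⁻¹ * u * g := by
        simp [MulAut.smul_def]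
      rw [h5, mul_smul, mul_smul, hg, hc, ← hg, inv_smul_smul]
  have hne : ∀ u : N, ((u : G') : G) • b ≠ a := by
    intro u h
    have h8 : ((u : G') : G) • a = a := (u : G').2
    exact hab ((smul_left_cancel ((u : G') : G) (h.trans h8.symm))).symm
  let φ : N → {x : Ω // x ≠ a} := fun u => ⟨((u : G') : G) • b, hne u⟩
  have hinj : Function.Injective φ := by
    intro u v huv
    have h1 : ((u : G') : G) • b = ((v : G') : G) • b := congrArg Subtype.val huv
    by_contra hne'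
    have hm : (v : G')⁻¹ * (u : G') ∈ N := N.mul_mem (N.inv_mem v.2) u.2
    have h3 : (v : G')⁻¹ * (u : G') ≠ 1 := by
      intro h
      apply hne'
      apply Subtype.ext
      exact (inv_mul_eq_one.mp h).symm
    have := hfree _ hm h3 b (by
      change (((v : G') : G)⁻¹ * ((u : G') : G)) • b = b
      rw [mul_smul, h1, inv_smul_smul])
    exact hab this.symm
  have hsurj : Function.Surjective φ := by
    rintro ⟨c, hc⟩
    obtain ⟨g, hg⟩ := htrans c hc
    obtain ⟨⟨n, h⟩, hnh⟩ := hNc.2 g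
    refine ⟨n, Subtype.ext ?_⟩
    change ((n : G') : G) • b = c
    have hhb : ((h : G') : G) • b = b := h.2
    rw [← hg, ← hnh]
    change ((n : G') : G) • b = (((n : G') : G) * ((h : G') : G)) • b
    rw [mul_smul, hhb]
  refine ⟨N.map G'.subtype, ?_, ?_, ?_, ?_, ?_⟩
  · have hcard1 : Nat.card (N.map G'.subtype) = Nat.card N :=
      Nat.card_congr (Subgroup.equivMapOfInjective N G'.subtype G'.subtype_injective).symm.toEquiv
    rw [hcard1]
    have hc2 : Nat.card N = Nat.card {x : Ω // x ≠ a} :=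
      Nat.card_congr (Equiv.ofBijective φ ⟨hinj, hsurj⟩)
    rw [hc2, Nat.card_eq_fintype_card, Fintype.card_subtype_compl, Fintype.card_subtype_eq]
    have : 0 < Fintype.card Ω := Fintype.card_pos_iff.mpr ⟨a⟩
    omega
  · rintro _ ⟨u, -, rfl⟩
    exact u.2
  · rintro _ ⟨u, hu, rfl⟩ hu1 c hc
    apply hfree u hu _ c hc
    intro h
    apply hu1
    simp [h]
  · rintro x hx _ ⟨u, hu, rfl⟩
    refine ⟨(⟨x, hx⟩ : G') * u * (⟨x, hx⟩ : G')⁻¹, hNn.conj_mem u hu _, ?_⟩
    simp
  · intro c hc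
    obtain ⟨u, hu⟩ := hsurj ⟨c, hc⟩
    exact ⟨((u : G') : G), ⟨u, u.2, rfl⟩, congrArg Subtype.val hu⟩

/-- A normal regular subgroup has exponent two. -/
lemma sq_eq_one_of_regular
    (h3 : ∀ g : G, ∀ a b c : Ω, a ≠ b → b ≠ c → a ≠ c → g • a = a → g • b = b → g • c = c → g = 1)
    (hg : ∀ a b : Ω, a ≠ b → ∃ g : G, g ≠ 1 ∧ g • a = a ∧ g • b = b)
    (N : Subgroup G) [hN : N.Normal] (hfree : ∀ m ∈ N, ∀ a : Ω, m • a = a → m = 1) (o : Ω)
    {n : G} (hn : n ∈ N) : n * n = 1 := by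
  by_contra hn2
  have hn1 : n ≠ 1 := by
    rintro rfl
    simp at hn2
  have hc : n • o ≠ o := fun h => hn1 (hfree n hn o h)
  obtain ⟨g, hg1, hgo, hgc⟩ := hg o (n • o) hc.symm
  have hcomm : g * n * g⁻¹ = n := by
    have hm : n⁻¹ * (g * n * g⁻¹) ∈ N := N.mul_mem (N.inv_mem hn) (hN.conj_mem n hn g)
    have h1 := hfree _ hm o (by
      have h4 : g⁻¹ • o = o := by rw [inv_smul_eq_iff, hgo]
      rw [mul_smul, mul_smul, mul_smul, h4, hgc, inv_smul_smul])
    exact (inv_mul_eq_one.mp h1).symm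
  have hcomm' : g * n⁻¹ * g⁻¹ = n⁻¹ := by
    calc g * n⁻¹ * g⁻¹ = (g * n * g⁻¹)⁻¹ := by group
      _ = n⁻¹ := by rw [hcomm]
  have hgn : g • (n⁻¹ • o) = n⁻¹ • o := by
    have : g * n⁻¹ = n⁻¹ * g := by
      calc g * n⁻¹ = (g * n⁻¹ * g⁻¹) * g := by group
        _ = n⁻¹ * g := by rw [hcomm']
    rw [← mul_smul, this, mul_smul, hgo]
  apply hg1
  refine h3 g o (n • o) (n⁻¹ • o) hc.symm ?_ ?_ hgo hgc hgn
  · intro h
    apply hn2
    apply hfree _ (N.mul_mem hn hn) o
    rw [mul_smul, h, smul_inv_smul]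
  · intro h
    apply hc
    conv_lhs => rw [h, smul_inv_smul]

/-- The Frobenius kernel is abelian. -/
lemma kernel_comm [Finite G] {N K : Subgroup G} [hNn : N.Normal] (hKodd : Odd (Nat.card K))
    (hfree : ∀ k ∈ K, k ≠ 1 → ∀ n ∈ N, k * n = n * k → n = 1) (hN : N ≠ ⊥)
    {h : G} (hord : (orderOf h).Prime) (hnorm : ∀ u ∈ K, h * u * h⁻¹ ∈ K)
    (hfpf : ∀ u ∈ K, h * u * h⁻¹ = u → u = 1) (hK : K ≠ ⊥) :
    ∀ a ∈ K, ∀ b ∈ K, a * b = b * a := by
  classical
  let f : K →* K :=
    { toFun := fun u => ⟨h * u * h⁻¹, hnorm u u.2⟩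
      map_one' := by
        apply Subtype.ext
        simp
      map_mul' := fun u v => by
        apply Subtype.ext
        simp only [Subgroup.coe_mul]
        group }
  have hf : ∀ u : K, ((f u : K) : G) = h * u * h⁻¹ := fun u => rfl
  have hinj : Function.Injective f := by
    intro u v huv
    have := congrArg Subtype.val huv
    rw [hf, hf] at this
    apply Subtype.ext
    simpa using this
  let φ : K ≃* K := MulEquiv.ofBijective f (Finite.injective_iff_bijective.mp hinj)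
  have hφ : ∀ u : K, ((φ u : K) : G) = h * u * h⁻¹ := fun u => rfl
  have hfp : MonoidHom.FixedPointFree (φ : K →* K) := by
    intro u hu
    apply Subtype.ext
    apply hfpf u u.2
    have : φ u = u := hu
    exact congrArg Subtype.val this
  have hpow : ∀ (k : ℕ) (u : K), (((φ ^ k) u : K) : G) = h ^ k * u * (h ^ k)⁻¹ := by
    intro k
    induction k with
    | zero => intro u; simp
    | succ k ih =>
      intro u
      rw [pow_succ']
      change ((φ ((φ ^ k) u) : K) : G) = _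
      rw [hφ, ih, pow_succ']
      group
  have hp : (orderOf h).Prime := hord
  haveI : Fact (orderOf h).Prime := ⟨hp⟩
  have hφord : orderOf φ = orderOf h := by
    apply orderOf_eq_prime
    · ext u
      rw [hpow, pow_orderOf_eq_one]
      simp
    · intro h1
      obtain ⟨u, hu, hu1⟩ := (Subgroup.bot_or_exists_ne_one K).resolve_left hK
      apply hu1
      apply hfpf u hu
      have h2 : φ (⟨u, hu⟩ : K) = ⟨u, hu⟩ := by rw [h1]; rfl
      exact congrArg Subtype.val h2
  have hnil : Group.IsNilpotent K := Cfsg.Agent.S0033.result φ hfp _ hp hφord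
  haveI : IsZGroup K := by
    constructor
    intro p hp' P
    haveI : Fact p.Prime := ⟨hp'⟩
    have hT : IsPGroup p ((P : Subgroup K).map K.subtype) := P.isPGroup'.map K.subtype
    have hequiv : (P : Subgroup K) ≃* ((P : Subgroup K).map K.subtype) :=
      Subgroup.equivMapOfInjective _ K.subtype K.subtype_injective
    have hfpf2 : ∀ x ∈ (P : Subgroup K).map K.subtype, x ≠ 1 → N ⊓ Subgroup.centralizer {x} = ⊥ := by
      rintro _ ⟨x, -, rfl⟩ hx1
      rw [eq_bot_iff]
      rintro n ⟨hn, hnc⟩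
      rw [Subgroup.mem_bot]
      apply hfree (x : G) x.2 hx1 n hn
      exact (Subgroup.mem_centralizer_singleton_iff.mp hnc).symm
    rcases Cfsg.Agent.Lib.OddLocal.cyclic_or_quaternion_of_fpf hN hT hfpf2 with hc | ⟨n, ⟨hq⟩⟩
    · exact (MulEquiv.isCyclic hequiv).mpr hc
    · exfalso
      have hc1 : Nat.card ((P : Subgroup K).map K.subtype) = 4 * 2 ^ n := by
        rw [Nat.card_congr hq.toEquiv]
        haveI : NeZero (2 ^ n) := ⟨by positivity⟩
        rw [Nat.card_eq_fintype_card, QuaternionGroup.card]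
      have hc2 : Nat.card (P : Subgroup K) = 4 * 2 ^ n := by
        rw [← hc1]
        exact Nat.card_congr hequiv.toEquiv
      have hc3 : Nat.card (P : Subgroup K) ∣ Nat.card K := Subgroup.card_subgroup_dvd_card _
      rw [hc2] at hc3
      have : 2 ∣ Nat.card K := Dvd.dvd.trans (Dvd.intro_left (2 * 2 ^ n) (by ring)) hc3
      obtain ⟨r, hr⟩ := hKodd
      omega
  haveI : IsCyclic K := inferInstance
  intro a ha b hb
  have := (IsCyclic.isMulCommutative (α := K)).is_comm.comm (⟨a, ha⟩ : K) ⟨b, hb⟩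
  exact congrArg Subtype.val this

/-- The main theorem. -/
theorem prime_exp_of_regular {G Ω : Type*} [Group G] [MulAction G Ω] [Fintype Ω] [FaithfulSMul G Ω]
    (h2 : MulAction.IsMultiplyPretransitive G Ω 2)
    (h3 : ∀ g : G, ∀ a b c : Ω, a ≠ b → b ≠ c → a ≠ c → g • a = a → g • b = b → g • c = c → g = 1)
    (hfix : ∃ g : G, g ≠ 1 ∧ ∃ a b : Ω, a ≠ b ∧ g • a = a ∧ g • b = b)
    (N : Subgroup G) [hNn : N.Normal] (hNt : MulAction.IsPretransitive N Ω)
    (hNr : ∀ a : Ω, MulAction.stabilizer N a = ⊥) :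
    ∃ p : ℕ, p.Prime ∧ Fintype.card Ω = 2 ^ p := by
  classical
  haveI : Finite G :=
    Finite.of_injective (MulAction.toPerm : G → Equiv.Perm Ω) MulAction.toPerm_injective
  have h2' : ∀ a b c d : Ω, a ≠ b → c ≠ d → ∃ g : G, g • a = c ∧ g • b = d := by
    intro a b c d hab hcd
    exact MulAction.is_two_pretransitive_iff.mp h2 hab hcd
  obtain ⟨g₀, hg₀, a₀, b₀, hab₀, hga, hgb⟩ := hfix
  have hg : ∀ a b : Ω, a ≠ b → ∃ g : G, g ≠ 1 ∧ g • a = a ∧ g • b = b := by
    intro a b hab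
    obtain ⟨x, hx1, hx2⟩ := h2' a₀ b₀ a b hab₀ hab
    refine ⟨x * g₀ * x⁻¹, ?_, ?_, ?_⟩
    · intro h
      apply hg₀
      have : g₀ = x⁻¹ * (x * g₀ * x⁻¹) * x := by group
      rw [this, h]
      group
    · rw [← hx1, mul_smul, mul_smul, inv_smul_smul, hga]
    · rw [← hx2, mul_smul, mul_smul, inv_smul_smul, hgb]
  have hfree : ∀ m ∈ N, ∀ a : Ω, m • a = a → m = 1 := by
    intro m hm a hma
    have : (⟨m, hm⟩ : N) ∈ stabilizer N a := hma
    rw [hNr a, Subgroup.mem_bot] at this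
    exact congrArg Subtype.val this
  have hsq : ∀ n ∈ N, n * n = 1 := fun n hn => sq_eq_one_of_regular h3 hg N hfree a₀ hn
  have hcommN : ∀ a b : N, a * b = b * a := by
    intro a b
    have h1 : (a : G) * a = 1 := hsq a a.2
    have h2 : (b : G) * b = 1 := hsq b b.2
    have h3 : ((a : G) * b) * (a * b) = 1 := hsq _ (N.mul_mem a.2 b.2)
    apply Subtype.ext
    change (a : G) * b = b * a
    have h6 : (a : G)⁻¹ = a := inv_eq_of_mul_eq_one_left h1
    have h7 : (b : G)⁻¹ = b := inv_eq_of_mul_eq_one_left h2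
    have h8 : ((a : G) * b)⁻¹ = a * b := inv_eq_of_mul_eq_one_left h3
    rw [mul_inv_rev, h6, h7] at h8
    exact h8.symm
  have hthird : ∃ c₀, c₀ ≠ a₀ ∧ c₀ ≠ b₀ := by
    by_contra hcon
    push Not at hcon
    apply hg₀
    apply FaithfulSMul.eq_of_smul_eq_smul (α := Ω)
    intro p
    rw [one_smul]
    by_cases hp : p = a₀
    · rw [hp, hga]
    · rw [hcon p hp, hgb]
  obtain ⟨c₀, hc₀a, hc₀b⟩ := hthird
  obtain ⟨K, hKcard, hKstab, hKfree, hKnorm, hKtrans⟩ :=
    stab_kernel h2' h3 hab₀ ⟨g₀, hg₀, hga, hgb⟩ hc₀a hc₀b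
  have hKfix : ∀ u ∈ K, u • a₀ = a₀ := fun u hu => hKstab hu
  -- points as elements of `N`
  have hNinj : ∀ m ∈ N, ∀ n ∈ N, m • a₀ = n • a₀ → m = n := by
    intro m hm n hn hmn
    have := hfree (n⁻¹ * m) (N.mul_mem (N.inv_mem hn) hm) a₀ (by rw [mul_smul, hmn, inv_smul_smul])
    exact (inv_mul_eq_one.mp this).symm
  have hconjpt : ∀ g : G, g • a₀ = a₀ → ∀ n : G, (g * n * g⁻¹) • a₀ = g • n • a₀ := by
    intro g hg n
    have h4 : g⁻¹ • a₀ = a₀ := by rw [inv_smul_eq_iff, hg]
    rw [mul_smul, mul_smul, h4]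
  have hsurjN : ∀ p : Ω, ∃ n : N, (n : G) • a₀ = p := by
    intro p
    obtain ⟨n, hn⟩ := hNt.exists_smul_eq a₀ p
    exact ⟨n, hn⟩
  obtain ⟨e₀, he₀⟩ := hsurjN b₀
  have he₀1 : e₀ ≠ 1 := by
    rintro rfl
    apply hab₀
    rw [← he₀]
    simp
  have hN : N ≠ ⊥ := by
    intro h
    apply he₀1
    apply Subtype.ext
    have h7 : ∀ x ∈ N, x = 1 := fun x hx => by
      rw [h] at hx
      exact hx
    exact h7 _ e₀.2
  -- the cardinality
  have hcardN : Nat.card N = Fintype.card Ω := by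
    rw [← Nat.card_eq_fintype_card]
    refine Nat.card_congr (Equiv.ofBijective (fun n : N => (n : G) • a₀) ⟨?_, ?_⟩)
    · intro m n hmn
      exact Subtype.ext (hNinj _ m.2 _ n.2 hmn)
    · exact hsurjN
  have hp2 : IsPGroup 2 N := by
    intro x
    refine ⟨1, ?_⟩
    apply Subtype.ext
    rw [pow_one, pow_two]
    exact hsq x x.2
  obtain ⟨m, hm⟩ := IsPGroup.iff_card.mp hp2
  have hΩm : Fintype.card Ω = 2 ^ m := by rw [← hcardN, hm]
  have h3pts : 2 < Fintype.card Ω :=
    Fintype.two_lt_card_iff.mpr ⟨a₀, b₀, c₀, hab₀, hc₀a.symm, hc₀b.symm⟩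
  have hm2 : 2 ≤ m := by
    by_contra hlt
    have : m = 0 ∨ m = 1 := by omega
    rcases this with rfl | rfl <;> rw [hΩm] at h3pts <;> omega
  have hKodd : Odd (Nat.card K) := by
    have h4 : 2 ^ m = Nat.card K + 1 := by rw [← hΩm, hKcard]
    obtain ⟨r, hr⟩ : ∃ r, m = r + 2 := ⟨m - 2, by omega⟩
    rw [hr, pow_add] at h4
    refine ⟨2 * 2 ^ r - 1, ?_⟩
    have : 0 < 2 ^ r := by positivity
    omega
  have hK : K ≠ ⊥ := by
    intro h
    obtain ⟨u, hu, huc⟩ := hKtrans c₀ hc₀a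
    rw [h, Subgroup.mem_bot] at hu
    rw [hu, one_smul] at huc
    exact hc₀b huc.symm
  -- prime order element
  have hord0 : orderOf g₀ ≠ 0 := (orderOf_pos g₀).ne'
  have hord1 : orderOf g₀ ≠ 1 := fun h => hg₀ (orderOf_eq_one_iff.mp h)
  obtain ⟨q, hq, hqd⟩ := Nat.exists_prime_and_dvd hord1
  have hh'ord : orderOf (g₀ ^ (orderOf g₀ / q)) = q := orderOf_pow_orderOf_div hord0 hqd
  set h' := g₀ ^ (orderOf g₀ / q) with hh'
  have hpowfix : ∀ (p : Ω), g₀ • p = p → ∀ j : ℕ, (g₀ ^ j) • p = p := by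
    intro p hp j
    induction j with
    | zero => simp
    | succ j ih => rw [pow_succ, mul_smul, hp, ih]
  have hh'a : h' • a₀ = a₀ := hpowfix a₀ hga _
  have hh'b : h' • b₀ = b₀ := hpowfix b₀ hgb _
  have hKbpt : ∀ u ∈ K, u ≠ 1 → u • b₀ ≠ b₀ ∧ u • b₀ ≠ a₀ := by
    intro u hu hu1
    constructor
    · intro h
      exact hab₀ (hKfree u hu hu1 b₀ h).symm
    · intro h
      apply hab₀
      apply smul_left_cancel u
      rw [h, hKfix u hu]
  have hKcomm : ∀ a ∈ K, ∀ b ∈ K, a * b = b * a := by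
    refine kernel_comm hKodd ?_ hN (h := h') (by rw [hh'ord]; exact hq) (hKnorm h' hh'a) ?_ hK
    · intro k hk hk1 n hn hkn
      apply hfree n hn a₀
      have : k • (n • a₀) = n • a₀ := by rw [← mul_smul, hkn, mul_smul, hKfix k hk]
      have h5 := hKfree k hk hk1 _ this
      exact h5
    · intro u hu huc
      by_contra hu1
      obtain ⟨h5, h6⟩ := hKbpt u hu hu1
      have h7 : h' * u = u * h' := by
        calc h' * u = (h' * u * h'⁻¹) * h' := by group
          _ = u * h' := by rw [huc]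
      have h8 : h' • (u • b₀) = u • b₀ := by rw [← mul_smul, h7, mul_smul, hh'b]
      have h9 := h3 h' a₀ b₀ (u • b₀) hab₀ h5.symm h6.symm hh'a hh'b h8
      rw [h9, orderOf_one] at hh'ord
      exact hq.one_lt.ne hh'ord
  -- the field
  let act : K →* MulAut N := (MulAut.conjNormal (H := N)).comp K.subtype
  have hact : ∀ (d : K) (x : N), ((act d x : N) : G) = d * x * (d : G)⁻¹ := fun d x => rfl
  have hactpt : ∀ (d : K) (x : N), ((act d x : N) : G) • a₀ = (d : G) • (x : G) • a₀ := by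
    intro d x
    rw [hact]
    exact hconjpt _ (hKfix d d.2) _
  have hfreeK : ∀ d : K, act d e₀ = e₀ → d = 1 := by
    intro d hd
    by_contra hd1
    have hd1' : (d : G) ≠ 1 := fun h => hd1 (Subtype.ext h)
    have h4 := hactpt d e₀
    rw [hd, he₀] at h4
    exact (hKbpt d d.2 hd1').1 h4.symm
  have htransK : ∀ x : N, x ≠ 1 → ∃ d : K, act d e₀ = x := by
    intro x hx
    have hxa : (x : G) • a₀ ≠ a₀ := by
      intro h
      exact hx (Subtype.ext (hfree _ x.2 _ h))
    obtain ⟨u, hu, hub⟩ := hKtrans _ hxa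
    refine ⟨⟨u, hu⟩, Subtype.ext ?_⟩
    apply hNinj _ (act ⟨u, hu⟩ e₀).2 _ x.2
    rw [hactpt, he₀]
    exact hub
  obtain ⟨F, iF, κ, hadd, hκe, hmul⟩ := Cfsg.Agent.Lib.TwoFusion.exists_field_of_regular hcommN
    (fun a b => Subtype.ext (hKcomm a a.2 b b.2)) act e₀ he₀1 hfreeK htransK
  letI : Field F := iF
  haveI : Finite F := Finite.of_equiv N κ
  have hcardF : Nat.card F = 2 ^ m := by rw [← Nat.card_congr κ]; exact hm
  have hκ1 : κ 1 = 0 := by
    have h4 := hadd 1 1
    rw [mul_one] at h4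
    exact left_eq_add.mp h4
  have h2F : (2 : F) = 0 := by
    have h4 := hadd e₀ e₀
    have h5 : e₀ * e₀ = 1 := Subtype.ext (hsq _ e₀.2)
    rw [h5, hκ1, hκe] at h4
    rw [h4]
    norm_num
  -- the automorphism
  let c : N ≃* N := MulAut.conjNormal (H := N) g₀
  have hc : ∀ x : N, ((c x : N) : G) = g₀ * x * g₀⁻¹ := fun x => rfl
  have hce : c e₀ = e₀ := by
    apply Subtype.ext
    apply hNinj _ (c e₀).2 _ e₀.2
    rw [hc, hconjpt _ hga, he₀, hgb]
  have hsymm : ∀ x y : F, κ.symm (x + y) = κ.symm x * κ.symm y := by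
    intro x y
    apply κ.injective
    rw [hadd, κ.apply_symm_apply, κ.apply_symm_apply, κ.apply_symm_apply]
  have hcact : ∀ (d : K) (x : N), ∃ d' : K, ∀ y : N, c (act d y) = act d' (c y) := by
    intro d x
    refine ⟨⟨g₀ * d * g₀⁻¹, hKnorm g₀ hga d d.2⟩, fun y => ?_⟩
    apply Subtype.ext
    rw [hc, hact, hact, hc]
    group
  let α : F ≃+* F :=
    { toEquiv := κ.symm.trans (c.toEquiv.trans κ)
      map_add' := by
        intro x y
        change κ (c (κ.symm (x + y))) = κ (c (κ.symm x)) + κ (c (κ.symm y))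
        rw [hsymm, map_mul, hadd]
      map_mul' := by
        intro x y
        change κ (c (κ.symm (x * y))) = κ (c (κ.symm x)) * κ (c (κ.symm y))
        by_cases hx : κ.symm x = 1
        · have h4 : x = 0 := by rw [← hκ1, ← hx, κ.apply_symm_apply]
          have h40 : κ.symm 0 = 1 := by rw [κ.symm_apply_eq, hκ1]
          rw [h4, zero_mul, h40, map_one, hκ1, zero_mul]
        · obtain ⟨d, hd⟩ := htransK _ hx
          obtain ⟨d', hd'⟩ := hcact d e₀
          have h5 : x = κ (act d e₀) := by rw [hd, κ.apply_symm_apply]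
          have h6 : x * y = κ (act d (κ.symm y)) := by
            rw [hmul, ← h5, κ.apply_symm_apply]
          rw [h6, κ.symm_apply_apply, hd', ← hd, hd', hce, hmul] }
  have hα : ∀ x, α x = κ (c (κ.symm x)) := fun x => rfl
  have hcpow : ∀ (j : ℕ) (x : N), (((c ^ j) x : N) : G) = g₀ ^ j * x * (g₀ ^ j)⁻¹ := by
    intro j
    induction j with
    | zero => intro x; simp
    | succ j ih =>
      intro x
      rw [pow_succ']
      change ((c ((c ^ j) x) : N) : G) = _
      rw [hc, ih, pow_succ']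
      group
  have hαpow : ∀ (j : ℕ) (x : F), (α ^ j) x = κ ((c ^ j) (κ.symm x)) := by
    intro j
    induction j with
    | zero => intro x; simp
    | succ j ih =>
      intro x
      rw [pow_succ', pow_succ']
      change α ((α ^ j) x) = κ (c ((c ^ j) (κ.symm x)))
      rw [ih, hα, κ.symm_apply_apply]
  have hfixα : ∀ (j : ℕ) (x : F), x ≠ 0 → x ≠ 1 → (α ^ j) x = x → ∀ y, (α ^ j) y = y := by
    intro j x hx0 hx1 hxj y
    set n : N := κ.symm x with hn
    have hn1 : n ≠ 1 := by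
      intro h
      apply hx0
      rw [← κ.apply_symm_apply x, ← hn, h, hκ1]
    have hne : n ≠ e₀ := by
      intro h
      apply hx1
      rw [← κ.apply_symm_apply x, ← hn, h, hκe]
    have hcj : (c ^ j) n = n := by
      apply κ.injective
      rw [← hαpow j x] 
      rw [hxj, hn, κ.apply_symm_apply]
    have hcjG : g₀ ^ j * n * (g₀ ^ j)⁻¹ = n := by
      rw [← hcpow, hcj]
    have h1a : (g₀ ^ j) • a₀ = a₀ := hpowfix a₀ hga j
    have h1b : (g₀ ^ j) • b₀ = b₀ := hpowfix b₀ hgb j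
    have h1n : (g₀ ^ j) • ((n : G) • a₀) = (n : G) • a₀ := by
      rw [← hconjpt _ h1a, hcjG]
    have hnb : b₀ ≠ (n : G) • a₀ := by
      intro h
      apply hne
      apply Subtype.ext
      apply hNinj _ n.2 _ e₀.2
      rw [he₀, h]
    have hna : a₀ ≠ (n : G) • a₀ := by
      intro h
      exact hn1 (Subtype.ext (hfree _ n.2 _ h.symm))
    have hone : g₀ ^ j = 1 := h3 _ a₀ b₀ _ hab₀ hnb hna h1a h1b h1n
    rw [hαpow]
    have : (c ^ j) (κ.symm y) = κ.symm y := by
      apply Subtype.ext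
      rw [hcpow, hone]
      group
    rw [this, κ.apply_symm_apply]
  have hneα : ∃ x, α x ≠ x := by
    by_contra hcon
    push Not at hcon
    apply hg₀
    apply FaithfulSMul.eq_of_smul_eq_smul (α := Ω)
    intro p
    rw [one_smul]
    obtain ⟨n, rfl⟩ := hsurjN p
    have h4 := hcon (κ n)
    rw [hα, κ.symm_apply_apply] at h4
    have h5 : c n = n := κ.injective h4
    rw [← hconjpt _ hga]
    have h6 : g₀ * n * g₀⁻¹ = n := by rw [← hc, h5]
    rw [h6]
  exact ⟨m, prime_of_frob hcardF hm2 h2F α hneα hfixα, hΩm⟩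

end GroupPart

end Cfsg.Agent.Lib.Misc19
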